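import Cfsg.Agent.H4.ZGen
import Cfsg.Agent.H7.Components
import Cfsg.Agent.H1.Basic

/-! Glauberman's theorem on automorphisms centralizing a Sylow `2`-subgroup. -/

set_option autoImplicit false
open Cfsg CfH4 CfH5 CfH9 CfH7 Subgroup
open scoped commutatorElement

namespace CfH4

universe u

variable {H : Type u} [Group H]

open scoped IsMulCommutative in
theorem pow_index_of_le_center [Finite H] {Z : Subgroup H} (hZ : Z ≤ center H) (a b : H) :
    (a * b) ^ Z.index = a ^ Z.index * b ^ Z.index ∧ a ^ Z.index ∈ Z := by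
  have key : ∀ (g : H) (k : ℕ) (g₀ : H), g₀⁻¹ * g ^ k * g₀ ∈ Z → g₀⁻¹ * g ^ k * g₀ = g ^ k := by
    intro g k g₀ h
    have h1 := mem_center_iff.1 (hZ h) g₀
    have h2 : g₀ * (g₀⁻¹ * g ^ k * g₀) = g ^ k * g₀ := by group
    exact mul_right_cancel (h1.symm.trans h2)
  have h1 := fun g => MonoidHom.transfer_eq_pow (inclusion hZ) g (key g)
  refine ⟨?_, MonoidHom.transfer_eq_pow_aux a (key a)⟩
  have h2 := map_mul (MonoidHom.transfer (inclusion hZ)) a b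
  rw [h1, h1, h1] at h2
  exact congrArg Subtype.val h2

theorem pow_relIndex_of_le_Cz [Finite H] {Z K : Subgroup H} (hZ : Z ≤ Cz(K)) {a b : H}
    (ha : a ∈ K) (hb : b ∈ K) :
    (a * b) ^ Z.relIndex K = a ^ Z.relIndex K * b ^ Z.relIndex K ∧ a ^ Z.relIndex K ∈ Z := by
  have := pow_index_of_le_center (Z := Z.subgroupOf K) (fun z hz => mem_center_iff.2 fun g =>
    Subtype.ext (mem_centralizer_iff.1 (hZ hz) g g.2)) ⟨a, ha⟩ ⟨b, hb⟩
  exact ⟨congrArg Subtype.val this.1, this.2⟩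

theorem comm_mem_normal {N : Subgroup H} [hN : N.Normal] {g : H} (hg : g ∈ N) (a : H) :
    g * a * g⁻¹ * a⁻¹ ∈ N := by
  have := N.mul_mem hg (hN.conj_mem _ (N.inv_mem hg) a)
  simpa [mul_assoc] using this

/-- the commutator subgroup of a group of rigid automorphisms acts trivially on the linking
system -/
theorem odd_orderOf_comm [Finite H] {N R C : Subgroup H} [hN : N.Normal]
    (hR : SylIn 2 (R ⊓ Cz(R)) (N ⊓ Cz(R))) {g : H} (hg : g ∈ N) (h1 : C ≤ Cz(R))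
    (h2 : C ≤ Cz(cj g⁻¹ R)) {t : H} (ht : t ∈ ⁅C, C⁆) :
    Odd (orderOf (g * t * g⁻¹ * t⁻¹)) := by
  have hK : ∀ a ∈ C, g * a * g⁻¹ * a⁻¹ ∈ N ⊓ Cz(R) := fun a ha => by
    refine mi (comm_mem_normal hg a) (mul_mem ?_ (inv_mem (h1 ha)))
    have := conj_mem_cj g (h2 ha)
    rwa [cj_centralizer, cj_cj_inv] at this
  have hZ : R ⊓ Cz(R) ≤ Cz((N ⊓ Cz(R) : Subgroup H)) := fun z hz =>
    mem_centralizer_iff.2 fun k hk => (mem_centralizer_iff.1 hk.2 z hz.1).symm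
  set m := (R ⊓ Cz(R)).relIndex (N ⊓ Cz(R)) with hm
  have hp := fun {a b : H} (ha : a ∈ N ⊓ Cz(R)) (hb : b ∈ N ⊓ Cz(R)) =>
    pow_relIndex_of_le_Cz hZ ha hb
  simp only [← hm] at hp
  let φ : C →* H :=
    { toFun := fun a => (g * a * g⁻¹ * (a : H)⁻¹) ^ m
      map_one' := by simp
      map_mul' := fun a b => by
        have h3 : (a : H) * (g * b * g⁻¹ * (b : H)⁻¹) * (a : H)⁻¹ ∈ N ⊓ Cz(R) :=
          mi (hN.conj_mem _ (hK b b.2).1 a)
            (mul_mem (mul_mem (h1 a.2) (hK b b.2).2) (inv_mem (h1 a.2)))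
        have h4 : g * (a * b : C) * g⁻¹ * ((a * b : C) : H)⁻¹ =
            g * a * g⁻¹ * (a : H)⁻¹ * (a * (g * b * g⁻¹ * (b : H)⁻¹) * (a : H)⁻¹) := by
          push_cast; group
        rw [h4, (hp (hK a a.2) h3).1, conj_pow,
          conj_eq_of_mem_centralizer (h1 a.2) (hp (hK b b.2) (hK b b.2)).2.1] }
  have h5 : ⁅C, C⁆ ≤ φ.ker.map C.subtype := commutator_le.2 fun a ha b hb =>
    ⟨⁅(⟨a, ha⟩ : C), ⟨b, hb⟩⁆, by
      rw [SetLike.mem_coe, MonoidHom.mem_ker, map_commutatorElement,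
        commutatorElement_eq_one_iff_mul_comm]
      exact mem_centralizer_iff.1 (hp (hK b hb) (hK b hb)).2.2 _ (hp (hK a ha) (hK a ha)).2.1,
      rfl⟩
  obtain ⟨t', h6, rfl⟩ := h5 ht
  have h7 : (g * t' * g⁻¹ * (t' : H)⁻¹) ^ m = 1 := h6
  exact Odd.of_dvd_nat (Nat.not_even_iff_odd.1 fun h => hR.not_dvd_relIndex h.two_dvd)
    (orderOf_dvd_of_pow_eq_one h7)

/-- a configuration -/
structure GlCfg (N : Subgroup H) (t y : H) (R : Subgroup H) : Prop where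
  mem : y ∈ N
  ne : y * t * y⁻¹ ≠ t
  le : R ≤ N
  pg : IsPGroup 2 R
  c1 : R ≤ Cx(t)
  c2 : R ≤ Cx(y * t * y⁻¹)
  s : y * t * y⁻¹ * t ∈ R

theorem GlCfg.comm {N R : Subgroup H} {t y : H} (h : GlCfg N t y R) :
    t ∈ Cx(y * t * y⁻¹) := by
  have h1 := mem_Cx.1 (h.c1 h.s)
  rw [← mul_assoc] at h1
  exact mem_Cx.2 (mul_right_cancel h1).symm

theorem GlCfg.centric [Finite H] {N S R : Subgroup H} [hN : N.Normal] {t y : H} (ht : t * t = 1)
    (hS : SylIn 2 S N) (hSt : S ≤ Cx(t)) (h : GlCfg N t y R) (hRS : R ≤ S)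
    (hmax : ∀ y' R', GlCfg N t y' R' → R ≤ R' → R' ≤ R) :
    SylIn 2 (R ⊓ Cz(R)) (N ⊓ Cz(R)) := by
  have ht2 : t ^ 2 ^ 1 = 1 := by rw [pow_one, pow_two, ht]
  have hti : t⁻¹ = t := inv_eq_of_mul_eq_one_right ht
  have htR : zpowers t ≤ Cz(R) := zpowers_le.2 (le_Cx_iff.1 h.c1)
  have hP : IsPGroup 2 (zpowers t ⊔ R : Subgroup H) :=
    isPGroup_sup (isPGroup_zpowers ht2) h.pg (htR.trans (Cz_le_Nm R))
  set P := zpowers t ⊔ R with hPdef
  have hPN : P ⊓ N = R := le_antisymm (hmax y _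
    ⟨h.mem, h.ne, inf_le_right, hP.to_inf_left,
      inf_le_left.trans (sup_le (zpowers_le.2 (mem_Cx.2 rfl)) h.c1),
      inf_le_left.trans (sup_le (zpowers_le.2 h.comm) h.c2), mi (mem_sup_right h.s) (h.le h.s)⟩
    (le_inf le_sup_right h.le)) (le_inf le_sup_right h.le)
  have hPK : P ≤ Nm((N ⊓ Cz(R) : Subgroup H)) := fun x hx =>
    mem_Nm_inf (mem_Nm_of_normal _ _) (mem_Nm_Cz
      (sup_le (htR.trans (Cz_le_Nm R)) le_normalizer hx : x ∈ Nm(R)))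
  obtain ⟨W, hW, hPW⟩ := exists_sylIn_ge hP (le_sup_left (b := N ⊓ Cz(R)))
  have hV := hW.inf_normal' (sup_le hPK le_normalizer) le_sup_right
  suffices hVR : W ⊓ (N ⊓ Cz(R)) ≤ R by
    rw [hV.eq_of_le (T := R ⊓ Cz(R)) h.pg.to_inf_left (inf_le_inf_right _ h.le)
      (le_inf hVR (inf_le_right.trans inf_le_right))]
    exact hV
  by_contra hVR
  have h1 : P < W := lt_of_le_of_ne hPW fun e => hVR (by
    rw [← hPN, e]; exact inf_le_inf_left _ inf_le_left)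
  obtain ⟨w, hw, hwP⟩ := SetLike.exists_of_lt (lt_inf_Nm hW.pgrp h1)
  obtain ⟨p, hp, v, hv, rfl⟩ := (mem_sup_of_le_Nm hPK).1 (hW.le hw.1)
  have hvW : v ∈ W := (W.mul_mem_cancel_left (hPW hp)).1 hw.1
  have hvP : v ∈ Nm(P) := (Subgroup.mul_mem_cancel_left _ (le_normalizer hp)).1 hw.2
  have hvR : v ∉ R := fun h1 => hwP (mul_mem hp (mem_sup_right h1))
  obtain ⟨k, hk⟩ := isPGroup_iff_mem.1 hW.pgrp v hvW
  have hM : S ⊓ Nm(R) ≤ N ⊓ Nm(P) := le_inf (inf_le_left.trans hS.le) fun x hx =>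
    mem_Nm_sup (Cz_le_Nm _ (by rw [Cz_zpowers]; exact hSt hx.1)) hx.2
  obtain ⟨U, hU, hMU⟩ := exists_sylIn_ge hS.pgrp.to_inf_left hM
  obtain ⟨x, hx, hxv⟩ := hU.exists_conj_mem (mi hv.1 hvP) hk
  have hxR : x ∈ Nm(R) := hPN ▸ mem_Nm_inf hx.2 (mem_Nm_of_normal _ _)
  have hv' : x * v * x⁻¹ ∈ Cz(R) := conj_mem_of_mem_normalizer (mem_Nm_Cz hxR) hv.2
  have hv'R : x * v * x⁻¹ ∉ R := fun h1 => hvR (by
    have := conj_mem_of_mem_normalizer' hxR h1
    simpa [mul_assoc] using this)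
  have hv'N := (hU.le hxv).1
  have hRv : IsPGroup 2 (zpowers (x * v * x⁻¹) ⊔ R : Subgroup H) :=
    isPGroup_sup (isPGroup_zpowers (k := k) (by rw [conj_pow, hk]; simp)) h.pg
      (zpowers_le.2 (Cz_le_Nm _ hv'))
  -- a conjugate of `t` centralizing `U` and `t`
  obtain ⟨n, hn, hUn⟩ : ∃ n ∈ N, U ⊔ P ≤ Cx(n * t * n⁻¹) := by
    have hdec : ∀ g ∈ N ⊔ zpowers t, ∃ n ∈ N, ∃ a ∈ zpowers t, n * a = g := fun g hg =>
      (mem_sup_of_le_Nm' le_normalizer_of_normal).1 hg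
    have hta : ∀ a ∈ zpowers t, a ∈ Cx(t) := fun a ha => zpowers_le.2 (mem_Cx.2 rfl) ha
    obtain ⟨W', hW', h2⟩ := exists_sylIn_ge (H := N ⊔ zpowers t)
      (isPGroup_sup (isPGroup_zpowers ht2) hS.pgrp (zpowers_le.2 (Cz_le_Nm _ (le_Cx_iff.1 hSt))))
      (sup_le le_sup_right (hS.le.trans le_sup_left))
    have h3 : W' ≤ Cx(t) := fun g hg => by
      obtain ⟨n, hn, a, ha, rfl⟩ := hdec g (hW'.le hg)
      exact mul_mem (hSt (hS.max (W' ⊓ N) hW'.pgrp.to_inf_left inf_le_right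
        (le_inf (le_sup_right.trans h2) hS.le)
        (mi ((W'.mul_mem_cancel_right (h2 (mem_sup_left ha))).1 hg) hn))) (hta a ha)
    obtain ⟨g, hg, h4⟩ := hW'.exists_le_cj (isPGroup_sup hU.pgrp hP (hU.le.trans inf_le_right))
      (sup_le (hU.le.trans (inf_le_left.trans le_sup_left))
        (sup_le le_sup_right (h.le.trans le_sup_left)))
    obtain ⟨n, hn, a, ha, rfl⟩ := hdec g hg
    refine ⟨n, hn, h4.trans ((cj_mono _ h3).trans ?_)⟩
    rw [cj_Cx, show n * a * t * (n * a)⁻¹ = n * (a * t * a⁻¹) * n⁻¹ by group,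
      mem_Cx'.1 (hta a ha)]
  by_cases h2 : n * t * n⁻¹ = t
  · rw [h2] at hUn
    have h3 := hUn (mem_sup_left hxv)
    refine hv'R (hmax y _ ⟨h.mem, h.ne, sup_le (zpowers_le.2 hv'N) h.le, hRv,
      sup_le (zpowers_le.2 h3) h.c1, sup_le (zpowers_le.2 ?_) h.c2, mem_sup_right h.s⟩
      le_sup_right (mem_sup_left (mem_zpowers _)))
    have h4 := mem_centralizer_iff.1 hv' _ h.s
    rw [mul_assoc _ t, ← mem_Cx.1 h3, ← mul_assoc, ← mul_assoc (x * v * x⁻¹)] at h4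
    exact mem_Cx.2 (mul_right_cancel h4).symm
  · have h3 : t ∈ Cx(n * t * n⁻¹) := hUn (mem_sup_right (mem_sup_left (mem_zpowers t)))
    have h4 : S ⊓ Nm(R) ≤ Cx(n * t * n⁻¹) := hMU.trans (le_sup_left.trans hUn)
    have h5 : S ⊓ Nm(R) ≤ Cx(t) := inf_le_left.trans hSt
    have h6 : (n * t * n⁻¹ * t) ^ 2 ^ 1 = 1 := by
      rw [pow_one, Commute.mul_pow (mem_Cx.1 h3).symm, conj_pow, pow_two, ht]; simp
    have h7 := hmax n (zpowers (n * t * n⁻¹ * t) ⊔ (S ⊓ Nm(R))) ⟨hn, h2,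
      sup_le (zpowers_le.2 (by simpa [hti] using comm_mem_normal hn t)) (inf_le_left.trans hS.le),
      isPGroup_sup (isPGroup_zpowers h6) hS.pgrp.to_inf_left
        (zpowers_le.2 (Cz_le_Nm _ (mul_mem (le_Cx_iff.1 h4) (le_Cx_iff.1 h5)))),
      sup_le (zpowers_le.2 (mul_mem (mem_Cx.2 (mem_Cx.1 h3).symm) (mem_Cx.2 rfl))) h5,
      sup_le (zpowers_le.2 (mul_mem (mem_Cx.2 rfl) h3)) h4, mem_sup_left (mem_zpowers _)⟩
      ((le_inf hRS le_normalizer).trans le_sup_right)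
    have h8 : R = S := by
      by_contra h8
      exact (lt_inf_Nm hS.pgrp (lt_of_le_of_ne hRS h8)).not_ge (le_sup_right.trans h7)
    refine hv'R ?_
    rw [h8] at hRv ⊢
    exact hS.max _ hRv (sup_le (zpowers_le.2 hv'N) hS.le) le_sup_right
      (mem_sup_left (mem_zpowers _))

theorem exists_centric [Finite H] {N S : Subgroup H} [hN : N.Normal] {t : H} (ht : t * t = 1)
    (hS : SylIn 2 S N) (hSt : S ≤ Cx(t)) {n : H} (hn : n ∈ N) (h1 : Commute t (n * t * n⁻¹))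
    (h2 : n * t * n⁻¹ ≠ t) : ∃ g ∈ N, ∃ R, R ≤ S ∧ cj g⁻¹ R ≤ S ∧ g * t * g⁻¹ * t⁻¹ ∈ R ∧
      orderOf (g * t * g⁻¹ * t⁻¹) = 2 ∧ S ⊓ Cx(g * t * g⁻¹ * t⁻¹) ≤ R ∧
      SylIn 2 (R ⊓ Cz(R)) (N ⊓ Cz(R)) := by
  have hti : t⁻¹ = t := inv_eq_of_mul_eq_one_right ht
  have hsq : ∀ y, t ∈ Cx(y * t * y⁻¹) → (y * t * y⁻¹ * t) ^ 2 = 1 := fun y h3 => by
    rw [Commute.mul_pow (mem_Cx.1 h3).symm, conj_pow, pow_two, ht]; simp
  obtain ⟨R0, ⟨y0, h0⟩, hmax⟩ := exists_max_card (fun R => ∃ y, GlCfg N t y R)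
    ⟨zpowers (n * t * n⁻¹ * t), n, hn, h2,
      zpowers_le.2 (by simpa [hti] using comm_mem_normal hn t),
      isPGroup_zpowers (k := 1) (by rw [pow_one]; exact hsq n (mem_Cx.2 h1.eq)),
      zpowers_le.2 (mul_mem (mem_Cx.2 h1.eq.symm) (mem_Cx.2 rfl)),
      zpowers_le.2 (mul_mem (mem_Cx.2 rfl) (mem_Cx.2 h1.eq)), mem_zpowers _⟩
  have hS' : SylIn 2 S (N ⊓ Cx(t)) := hS.mono (le_inf hS.le hSt) inf_le_left
  obtain ⟨a, ha, haR⟩ := hS'.exists_cj_le h0.pg (le_inf h0.le h0.c1)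
  have hat := mem_Cx'.1 ha.2
  obtain ⟨b, hb, hbR⟩ := hS'.exists_cj_le (isPGroup_cj h0.pg y0⁻¹) (le_inf
    ((cj_mono _ h0.le).trans (cj_normal _ _).le) ((cj_mono _ h0.c2).trans (by
      rw [cj_Cx]; simp [mul_assoc])))
  have hbt : b⁻¹ * t * b = t := by
    conv_lhs => rw [← mem_Cx'.1 hb.2]
    group
  have e1 : a * y0 * b⁻¹ * t * (a * y0 * b⁻¹)⁻¹ = a * (y0 * t * y0⁻¹) * a⁻¹ := by
    conv_rhs => rw [← hbt]
    group
  have h3 : GlCfg N t (a * y0 * b⁻¹) (cj a R0) := by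
    refine ⟨mul_mem (mul_mem ha.1 h0.mem) (inv_mem hb.1), fun h3 => h0.ne ?_, haR.trans hS.le,
      isPGroup_cj h0.pg a, haR.trans hSt, ?_, ?_⟩
    · rw [e1] at h3
      exact mul_left_cancel (mul_right_cancel (h3.trans hat.symm))
    · rw [e1, ← cj_Cx]; exact cj_mono _ h0.c2
    · have := conj_mem_cj a h0.s
      rw [e1]
      convert this using 1
      conv_lhs => rw [← hat]
      conv_lhs => enter [1]; rw [hat]
      group
  have hmax' : ∀ y' R', GlCfg N t y' R' → cj a R0 ≤ R' → R' ≤ cj a R0 := fun y' R' h4 h5 =>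
    (eq_of_le_of_card_ge h5 (by rw [card_cj]; exact hmax R' ⟨y', h4⟩)).ge
  set g := a * y0 * b⁻¹
  refine ⟨g, h3.mem, cj a R0, haR, ?_, hti.symm ▸ h3.s, ?_, ?_, h3.centric ht hS hSt haR hmax'⟩
  · rw [← cj_mul, show g⁻¹ * a = b * y0⁻¹ by simp only [g]; group, cj_mul]; exact hbR
  · rw [hti]
    exact orderOf_eq_prime (hsq g h3.comm) fun h4 => h3.ne (by
      rw [eq_inv_of_mul_eq_one_left h4, hti])
  · rw [hti]
    have h4 : cj a R0 ≤ Cx(g * t * g⁻¹ * t) := le_Cx_iff.2 (mul_mem (le_Cx_iff.1 h3.c2)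
      (le_Cx_iff.1 h3.c1))
    refine hmax' g _ ⟨h3.mem, h3.ne, inf_le_left.trans hS.le, hS.pgrp.to_inf_left,
      inf_le_left.trans hSt, fun x hx => ?_, mi (haR h3.s) (mem_Cx.2 rfl)⟩ (le_inf haR h4)
    have h5 := mem_Cx.1 hx.2
    rw [mul_assoc _ t x, ← mem_Cx.1 (hSt hx.1), ← mul_assoc x, ← mul_assoc _ x t] at h5
    exact mem_Cx.2 (mul_right_cancel h5)

/-- no involution is isolated with respect to `N` -/
def NoIso (N : Subgroup H) : Prop :=
  ∀ t : H, t * t = 1 → (∀ n ∈ N, Commute t (n * t * n⁻¹) → n * t * n⁻¹ = t) → t = 1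

theorem odd_card_of_forall [Finite H] {K : Subgroup H} (h : ∀ t ∈ K, t * t = 1 → t = 1) :
    Odd (Nat.card K) := by
  rw [← Nat.not_even_iff_odd, even_iff_two_dvd]
  intro h1
  obtain ⟨t, ht, h2⟩ := exists_orderOf_eq_prime h1
  exact ne_one_of_orderOf_eq_prime h2 (h t ht (by rw [← pow_two]; exact pow_eq_one_of_orderOf h2))

/-- Glauberman: the commutator subgroup of the centralizer of a Sylow `2`-subgroup of `N` has
odd order -/
theorem odd_comm_Cz [Finite H] {N S : Subgroup H} [N.Normal] (hN : NoIso N) (hS : SylIn 2 S N) :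
    Odd (Nat.card ↥⁅Cz(S), Cz(S)⁆) := odd_card_of_forall fun t ht ht2 => hN t ht2 fun n hn h1 => by
  by_contra h2
  obtain ⟨g, hg, R, h3, h4, -, h6, -, h8⟩ := exists_centric ht2 hS
    (le_Cx_iff.2 (commutator_le_self _ ht)) hn h1 h2
  have := odd_orderOf_comm h8 hg (Cz_anti h3) (Cz_anti h4) ht
  rw [h6] at this
  exact absurd this (by decide)

theorem odd_comm_Cz' [Finite H] {N S T : Subgroup H} [hNn : N.Normal] (hN : NoIso N)
    (hS : SylIn 2 S N) (hTS : T ≤ S) (hw : ∀ g ∈ N, cj g T ≤ S → g ∈ Nm(T))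
    (hc : S ⊓ Cz(T) ≤ T) (hi : ∀ s ∈ S, orderOf s = 2 → T ≤ Cx(s)) :
    Odd (Nat.card ↥⁅Cz(T), Cz(T)⁆) := odd_card_of_forall fun t ht ht2 => by
  have hST : S ≤ Nm(T) := fun s hs => hw s (hS.le hs) ((cj_mono _ hTS).trans (cj_eq_of_mem hs).le)
  have hT : SylIn 2 (T ⊓ Cz(T)) (N ⊓ Cz(T)) := by
    have h1 := (hS.mono (le_inf hS.le hST) inf_le_left).inf_normal (N := Cz(T))
      (inf_le_right.trans (Nm_le_Nm_Cz T))
    rwa [le_antisymm (le_inf hc inf_le_right) (inf_le_inf_right _ hTS), inf_assoc,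
      inf_eq_right.2 (Cz_le_Nm T)] at h1
  have hodd : ∀ t ∈ ⁅Cz(T), Cz(T)⁆, ∀ g ∈ N, g ∈ Nm(T) → Odd (orderOf (g * t * g⁻¹ * t⁻¹)) :=
    fun t ht g hg hg' => odd_orderOf_comm hT hg le_rfl
      (by rw [cj_eq_of_mem_normalizer (inv_mem hg')]) ht
  have htT : t ∈ Cz(T) := commutator_le_self _ ht
  have hP : PNil 2 (N ⊓ Cz(T)) := burnside_pNil hT (inf_le_left.trans (inf_le_right.trans
    (Cz_anti inf_le_left)))
  set O := pPrimeCoreOf 2 (N ⊓ Cz(T))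
  have hO : Nm(T) ≤ Nm(O) := fun x hx => normalizer_le_normalizer_pPrimeCoreOf _
    (mem_Nm_inf (mem_Nm_of_normal _ _) (mem_Nm_Cz hx))
  have hO2 : O ≤ N ⊓ Nm(T) := (pPrimeCoreOf_le _).trans (inf_le_inf_left _ (Cz_le_Nm T))
  have hcO : ∀ g ∈ N ⊓ Nm(T), g * t * g⁻¹ * t⁻¹ ∈ O := fun g hg =>
    hP.mem_pPrimeCoreOf (mi (comm_mem_normal hg.1 t)
      (mul_mem (conj_mem_of_mem_normalizer (mem_Nm_Cz hg.2) htT) (inv_mem htT)))
      (Nat.coprime_two_right.2 (hodd t ht g hg.1 hg.2))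
  have hSO : S ⊔ O ≤ N ⊓ Nm(T) := sup_le (le_inf hS.le hST) hO2
  have ht3 : t ∈ Nm((S ⊔ O : Subgroup H)) := mem_normalizer_of_conj_mem fun x hx => by
    have := mul_mem (inv_mem (mem_sup_right (hcO x (hSO hx)))) hx
    convert this using 1; group
  obtain ⟨W, hW, htW⟩ := exists_sylIn_ge (H := (S ⊔ O) ⊔ zpowers t)
    (isPGroup_zpowers (p := 2) (k := 1) (by rw [pow_one, pow_two, ht2])) le_sup_right
  have hW1 := hW.inf_normal' (sup_le le_normalizer (zpowers_le.2 ht3)) le_sup_left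
  have hW2 : W ⊓ (S ⊔ O) ≤ Cx(t) := fun x hx => by
    have h1 : x * t * x⁻¹ * t⁻¹ ∈ W :=
      mul_mem (mul_mem (mul_mem hx.1 (htW (mem_zpowers t))) (inv_mem hx.1))
        (inv_mem (htW (mem_zpowers t)))
    have h2 := (disjoint_of_isPGroup_of_coprime hW.pgrp (coprime_card_pPrimeCoreOf _)).le_bot
      (mi h1 (hcO x (hSO hx.2)))
    exact mem_Cx'.2 (mul_inv_eq_one.1 h2)
  obtain ⟨m, hm, hmS⟩ := hW1.conj (hS.mono le_sup_left (hSO.trans inf_le_left))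
  have hm' := hSO hm
  have ht' : m * t * m⁻¹ ∈ ⁅Cz(T), Cz(T)⁆ := conj_mem_of_mem_normalizer
    (mem_Nm_commutator (mem_Nm_Cz hm'.2) (mem_Nm_Cz hm'.2)) ht
  have hSt : S ≤ Cx(m * t * m⁻¹) := by rw [← hmS, ← cj_Cx]; exact cj_mono _ hW2
  have ht2' : m * t * m⁻¹ * (m * t * m⁻¹) = 1 := by
    rw [conj_mul, ht2]; simp
  suffices h : m * t * m⁻¹ = 1 by simpa using h
  refine hN _ ht2' fun n hn h1 => ?_
  by_contra h2
  obtain ⟨g, hg, R, h3, h4, h5, h6, h7, -⟩ := exists_centric ht2' hS hSt hn h1 h2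
  have h8 : T ≤ R := (le_inf hTS (hi _ (h3 h5) h6)).trans h7
  have := hodd _ ht' g hg ((Subgroup.inv_mem_iff _).1
    (hw _ (inv_mem hg) ((cj_mono _ h8).trans h4)))
  rw [h6] at this
  exact absurd this (by decide)

theorem isSolvable_of_forall_perfect [Finite H] (K : Subgroup H)
    (h : ∀ P, P ≤ K → ⁅P, P⁆ = P → P = ⊥) : Group.IsSolvable K := by
  induction K using subgroup_induction with
  | h K ih =>
    by_cases h1 : ⁅K, K⁆ = K
    · rw [h K le_rfl h1]; infer_instance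
    · have h2 := ih _ (card_lt_of_lt (lt_of_le_of_ne (commutator_le_self K) h1))
        fun P hP => h P (hP.trans (commutator_le_self K))
      have := CfH1.isSolvable_subgroupOf K h2
      refine Group.isSolvable_of_ker_le_range (⁅K, K⁆.subgroupOf K).subtype (Abelianization.of) ?_
      rw [Abelianization.ker_of, range_subtype, commutator_def, ← subgroupOf_self,
        commutator_le]
      intro a _ b _
      exact commutator_mem_commutator a.2 b.2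

theorem eq_bot_of_perfect_of_odd [Finite H] (hFT : CfFT.FeitThompson.{u}) {P C : Subgroup H}
    (hP : ⁅P, P⁆ = P) (hPC : P ≤ C) (h : Odd (Nat.card ↥⁅C, C⁆)) : P = ⊥ :=
  eq_bot_of_perfect_of_isSolvable hP (CfH1.isSolvable_of_le
    (hP.ge.trans (commutator_mono hPC hPC)) (hFT.subgroup _ h))

theorem le_ker_of_perfect {X : Type*} [Group X] {B P : Subgroup H} (f : B →* X)
    (hP : ⁅P, P⁆ = P) (hPB : P ≤ B) (h : Group.IsSolvable ((P.subgroupOf B).map f)) :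
    P.subgroupOf B ≤ f.ker := by
  rw [← Subgroup.map_eq_bot_iff]
  refine eq_bot_of_perfect_of_isSolvable ?_ h
  rw [← map_commutator]
  congr 1
  apply map_injective B.subtype_injective
  rw [map_commutator, map_subgroupOf_eq_of_le hPB, hP]

theorem isSolvable_quotient_of_sup {N Y : Subgroup H} [N.Normal] (h : N ⊔ Y = ⊤)
    (hY : Group.IsSolvable Y) : Group.IsSolvable (H ⧸ N) := by
  refine Group.isSolvable_of_surjective (f := (QuotientGroup.mk' N).comp Y.subtype) fun x => ?_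
  obtain ⟨g, rfl⟩ := QuotientGroup.mk_surjective x
  obtain ⟨n, hn, y, hy, rfl⟩ := (mem_sup_of_le_Nm' (A := N) (B := Y) le_normalizer_of_normal).1
    (h ▸ mem_top g)
  exact ⟨⟨y, hy⟩, by simp [(QuotientGroup.eq_one_iff n).2 hn]⟩

theorem isSolvable_quotient_of_sylow [Finite H] (hFT : CfFT.FeitThompson.{u}) {N S : Subgroup H}
    [N.Normal] (hN : NoIso N) (hS : SylIn 2 S N)
    (h : ∀ P, P ≤ Nm(S) → ⁅P, P⁆ = P → P ≤ Cz(S)) : Group.IsSolvable (H ⧸ N) := by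
  refine isSolvable_quotient_of_sup (Y := Nm(S)) ?_ (isSolvable_of_forall_perfect _
    fun P h1 h2 => eq_bot_of_perfect_of_odd hFT h2 (h P h1 h2) (odd_comm_Cz hN hS))
  simpa using hS.frattini_sup (H := ⊤) le_normalizer_of_normal le_top

variable {G : Type u} [Group G] [Finite G] [IsSimpleGroup G]

theorem noIso_inn (hG : ¬ IsMulCommutative G) (h2 : 2 ∣ Nat.card G) : NoIso (Inn G) := by
  intro t ht h
  have hinj := conj_injective_of_simple hG
  let L := Inn G ⊔ zpowers t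
  have htL : t ∈ L := mem_sup_right (mem_zpowers t)
  have hz := zstar_gen L ⟨t, htL⟩ 1 (Subtype.ext (by simp [pow_two, ht])) fun g hg => by
    obtain ⟨n, hn, a, ha, he⟩ := (mem_sup_of_le_Nm' le_normalizer_of_normal).1 g.2
    have e : (g : MulAut G) * t * (g : MulAut G)⁻¹ = n * t * n⁻¹ := by
      rw [← he, show n * a * t * (n * a)⁻¹ = n * (a * t * a⁻¹) * n⁻¹ by group,
        mem_Cx'.1 (zpowers_le.2 (mem_Cx.2 rfl) ha)]
    refine Subtype.ext (e.trans (h n hn ?_))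
    rw [← e]; exact congrArg Subtype.val hg.eq
  have h1 : ((pPrimeCoreOf 2 L).comap (MulAut.conj : G →* MulAut G)).Normal := ⟨fun x hx g => by
    rw [mem_comap, map_mul, map_mul, map_inv]
    exact conj_mem_of_mem_normalizer (le_normalizer_pPrimeCoreOf L (mem_sup_left ⟨g, rfl⟩)) hx⟩
  rcases h1.eq_bot_or_eq_top with h3 | h3
  · ext g
    have h4 : MulAut.conj g * t * (MulAut.conj g)⁻¹ * t⁻¹ ∈ pPrimeCoreOf 2 L :=
      ⟨_, hz ⟨MulAut.conj g, mem_sup_left ⟨g, rfl⟩⟩, rfl⟩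
    have h5 : MulAut.conj g * t * (MulAut.conj g)⁻¹ * t⁻¹ = MulAut.conj (g * (t g)⁻¹) := by
      rw [map_mul, map_inv, ← mul_conj_mul_inv]; group
    rw [h5, ← mem_comap, h3, mem_bot, mul_inv_eq_one] at h4
    exact h4.symm
  · obtain ⟨x, hx⟩ := exists_prime_orderOf_dvd_card' 2 h2
    have := coprime_orderOf_of_mem (coprime_card_pPrimeCoreOf (p := 2) L) (h3.ge (mem_top x))
    rw [orderOf_injective _ hinj, hx] at this
    simp at this

omit [IsSimpleGroup G] in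
theorem sylIn_inn (S : Sylow 2 G) :
    SylIn 2 ((S : Subgroup G).map (MulAut.conj : G →* MulAut G)) (Inn G) := by
  have := (sylIn_top S).map (MulAut.conj : G →* MulAut G)
  rwa [← MonoidHom.range_eq_map] at this

theorem out_solvable (hFT : CfFT.FeitThompson.{u}) (hG : ¬ IsMulCommutative G) (S : Sylow 2 G)
    (hS1 : (S : Subgroup G) ≠ ⊥) (hS : Group.IsSolvable (MulAut S)) :
    Group.IsSolvable (Out G) := by
  refine isSolvable_quotient_of_sylow hFT (noIso_inn hG ((sylow_ne_bot_iff S).1 hS1))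
    (sylIn_inn S) fun P h1 h2 => ?_
  have := CfH1.isSolvable_of_mulEquiv (MulAut.congr
    ((S : Subgroup G).equivMapOfInjective _ (conj_injective_of_simple hG)))
  have h3 := le_ker_of_perfect (normalizerMonoidHom _) h2 h1 inferInstance
  rw [normalizerMonoidHom_ker] at h3
  exact fun x hx => h3 (x := ⟨x, h1 hx⟩) hx

end CfH4
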