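import Cfsg.Agent.H4.Lin2
import Cfsg.Agent.H1.ElemRep
import Cfsg.Agent.H1.Frattini
import Cfsg.Agent.FT.BG1b

/-! Criteria for the solvability of the outer automorphism group. -/

set_option autoImplicit false
open Cfsg CfH4 CfH5 CfH9 CfH7 Subgroup Module
open CfH8 (qb qp NQ nmQuot)
open CfH1 (EA)
open scoped commutatorElement

namespace CfH4

universe u

theorem exists_bilin {V : Type*} [AddCommGroup V] [Module (ZMod 2) V] (q : V → ZMod 2)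
    (b : V → V → ZMod 2) (h1 : ∀ u v, q (u + v) = q u + q v + b u v)
    (h2 : ∀ u w v, b (u + w) v = b u v + b w v) :
    ∃ B : V →ₗ[ZMod 2] V →ₗ[ZMod 2] ZMod 2, ∀ u v, q (u + v) = q u + q v + B u v := by
  have hs : ∀ u v, b u v = b v u := fun u v => by
    have := h1 u v
    rw [add_comm u, h1, add_comm (q v)] at this
    exact (add_left_cancel this).symm
  exact ⟨AddMonoidHom.toZModLinearMap 2 (AddMonoidHom.mk' (fun u => AddMonoidHom.toZModLinearMap 2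
    (AddMonoidHom.mk' (b u) fun v w => by rw [hs, h2, hs v, hs w])) fun u w =>
      LinearMap.ext fun v => h2 u w v), h1⟩

variable {H : Type u} [Group H]

theorem range_perfect {Y : Type*} [Group Y] {P : Subgroup H} (hP : ⁅P, P⁆ = P) (f : P →* Y) :
    ⁅f.range, f.range⁆ = f.range := by
  rw [MonoidHom.range_eq_map, ← map_commutator]
  congr 1
  apply map_injective P.subtype_injective
  rw [map_commutator, map_subtype_top, hP]

/-- a perfect group acting on a `2`-group and centralizing its involutions, which are central,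
acts trivially -/
theorem le_Cz_of_omega [Finite H] (hFT : CfFT.FeitThompson.{u}) {P : Subgroup H}
    (hP : ⁅P, P⁆ = P) (T : Subgroup H) (hT : IsPGroup 2 T) (hN : P ≤ Nm(T))
    (hΩ : ∀ s ∈ T, s * s = 1 → s ∈ Cz(T) ∧ s ∈ Cz(P)) : P ≤ Cz(T) := by
  classical
  induction T using subgroup_induction with
  | h T ih =>
  by_contra hcon
  have ih' : ∀ T0, T0 ≤ T → T0 ≠ T → P ≤ Nm(T0) → T0 ≤ T ⊓ Cz(P) := fun T0 h1 h2 h3 =>
    le_inf h1 (le_Cz_comm (ih T0 (card_lt_of_lt (lt_of_le_of_ne h1 h2)) (hT.to_le h1) h3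
      fun s hs h4 => ⟨Cz_anti h1 (hΩ s (h1 hs) h4).1, (hΩ s (h1 hs) h4).2⟩))
  have hTP : ⁅T, P⁆ = T := by
    by_contra h
    exact hcon (comm_eq_bot_right.1 (commutator_eq_bot_of_perfect hP (comm_eq_bot_left.2
      ((ih' _ (comm_le_left hN) h (right_le_Nm_comm T P)).trans inf_le_right))))
  set Z := T ⊓ Cz(P) with hZ
  have hZT : Z ≠ T := fun e => hcon (le_Cz_comm (e.ge.trans inf_le_right))
  have hT0 : T ≠ ⊥ := by
    rintro rfl
    exact hZT (bot_inf_eq _)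
  have hΦ : (frattini T).map T.subtype ≤ Z := ih' _ (map_subtype_le _) (fun e => by
    haveI := (nontrivial_iff_ne_bot T).2 hT0
    exact CfH1.frattini_ne_top (map_injective T.subtype_injective (e.trans (map_subtype_top T).symm)))
    (hN.trans (Nm_le_Nm_char _))
  have hsq : ∀ x ∈ T, x * x ∈ Z := fun x hx => hΦ (pow_two x ▸ CfH1.pow_mem_frattiniOf hT hx)
  have hcm : ⁅T, T⁆ ≤ Z := (CfH1.commutator_le_frattiniOf hT.isNilpotent).trans hΦ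
  have hTZ : T ≤ Nm(Z) := le_Nm_of_comm_le inf_le_left hcm
  have hPZ : P ≤ Nm(Z) := fun x hx => mem_Nm_inf (hN hx) (mem_Nm_Cz (le_normalizer hx))
  have hZC : Z ≤ Cz(T) := by
    refine comm_eq_bot_right.1 ?_
    conv_lhs => rw [← hTP, Subgroup.commutator_comm T P]
    refine commutator_commutator_eq_bot_of_rotate
      (comm_eq_bot_left.2 ((comm_le_right hTZ).trans inf_le_right)) ?_
    rw [comm_eq_bot_left.2 inf_le_right, commutator_bot_left]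
  have hc : ∀ z ∈ Z, ∀ x ∈ T, x * z = z * x := fun z hz => mem_centralizer_iff.1 (hZC hz)
  have hcz : ∀ x ∈ T, ∀ y ∈ T, ⁅x, y⁆ ∈ Z := fun x hx y hy => hcm (commutator_mem_commutator hx hy)
  have hb : ∀ a ∈ T, ∀ b ∈ T, ∀ c ∈ T, ⁅a * b, c⁆ = ⁅a, c⁆ * ⁅b, c⁆ := fun a ha b hb c hc' => by
    rw [hc _ (hcz b hb c hc') _ (hcz a ha c hc').1]
    calc ⁅a * b, c⁆ = a * ⁅b, c⁆ * (a⁻¹ * ⁅a, c⁆) := by simp only [commutatorElement_def]; group
      _ = _ := by rw [hc _ (hcz b hb c hc') a ha]; group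
  have hb0 : ∀ z ∈ Z, ∀ c ∈ T, ⁅z, c⁆ = 1 := fun z hz c hc' =>
    commutatorElement_eq_one_iff_mul_comm.2 (hc z hz c hc').symm
  have hb2 : ∀ a ∈ T, ∀ c ∈ T, ⁅a, c⁆ * ⁅a, c⁆ = 1 := fun a ha c hc' => by
    rw [← hb a ha a ha c hc', hb0 _ (hsq a ha) c hc']
  have hq : ∀ a ∈ T, ∀ b ∈ T, a * b * (a * b) = a * a * (b * b) * ⁅b, a⁆ := fun a ha b hb => by
    rw [hc _ (hcz b hb a ha) _ (mul_mem (hsq a ha).1 (hsq b hb).1)]
    calc a * b * (a * b) = a * ⁅b, a⁆ * (a * (b * b)) := by simp only [commutatorElement_def]; group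
      _ = _ := by rw [hc _ (hcz b hb a ha) a ha]; group
  have hsq2 : ∀ a ∈ Z, ∀ b ∈ T, a * b * (a * b) = a * a * (b * b) := fun a ha b hb => by
    rw [hq a ha.1 b hb, ← commutatorElement_inv, hb0 a ha b hb, inv_one, mul_one]
  have h4 : ∀ x ∈ T, x * x * (x * x) = 1 := by
    let E : Subgroup H :=
      { carrier := {x | x ∈ T ∧ x * x * (x * x) = 1}
        one_mem' := ⟨one_mem _, by simp⟩
        mul_mem' := fun {a b} ha hb => ⟨mul_mem ha.1 hb.1, by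
          rw [hq a ha.1 b hb.1, hsq2 _ (mul_mem (hsq a ha.1) (hsq b hb.1)) _ (hcz b hb.1 a ha.1).1,
            hsq2 _ (hsq a ha.1) _ (hsq b hb.1).1, ha.2, hb.2, hb2 b hb.1 a ha.1]; simp⟩
        inv_mem' := fun {a} ha => ⟨inv_mem ha.1, by
          rw [← mul_inv_rev, ← mul_inv_rev, ha.2, inv_one]⟩ }
    have : ⁅T, P⁆ ≤ E := commutator_le.2 fun x hx p hp => by
      have h1 : p * x⁻¹ * p⁻¹ ∈ T := conj_mem_of_mem_normalizer (hN hp) (inv_mem hx)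
      have h2 : p * x⁻¹ * p⁻¹ * (p * x⁻¹ * p⁻¹) = (x * x)⁻¹ := by
        rw [conj_mul, ← mul_inv_rev, mem_centralizer_iff.1 (inv_mem (hsq x hx).2) p hp]; group
      have h3 : ⁅x, p⁆ = x * (p * x⁻¹ * p⁻¹) := by simp only [commutatorElement_def]; group
      refine ⟨h3 ▸ mul_mem hx h1, ?_⟩
      rw [h3, hq x hx _ h1, h2, mul_inv_cancel, one_mul, hb2 _ h1 x hx]
    exact fun x hx => (this (hTP.ge hx)).2
  let Ω : Subgroup H :=
    { carrier := {x | x ∈ T ∧ x * x = 1}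
      one_mem' := ⟨one_mem _, by simp⟩
      mul_mem' := fun {a b} ha hb => ⟨mul_mem ha.1 hb.1, by
        rw [hsq2 a (mi ha.1 (hΩ a ha.1 ha.2).2) b hb.1, ha.2, hb.2, one_mul]⟩
      inv_mem' := fun {a} ha => ⟨inv_mem ha.1, by rw [← mul_inv_rev, ha.2, inv_one]⟩ }
  have hΩe : IsElementaryAbelian 2 Ω := ⟨comm_iff.2 fun a ha b hb =>
    mem_centralizer_iff.1 (hΩ b hb.1 hb.2).1 a ha.1, fun a ha => by rw [pow_two, ha.2]⟩
  have hV : IsElementaryAbelian 2 (qb Z T) := by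
    refine ⟨comm_iff.2 fun a ha b hb => (mem_centralizer_iff.1
      ((CfH8.qb_le_Cz_iff hTZ hTZ).2 hcm hb) a ha), fun a ha => ?_⟩
    obtain ⟨g, hg, rfl⟩ := CfH8.mem_qb.1 ha
    rw [← map_pow, CfH8.nmQuot_eq_one_iff, pow_two]
    exact hsq _ hg
  have hPV : qb Z P ≤ Nm(qb Z T) := CfH8.qb_le_Nm hN
  let ρ := (EA.rep hV hPV).toHomUnits
  have hρ : ∀ (a : qb Z P) (v : EA hV), (ρ a • v).val = a * v.val * (a : NQ Z)⁻¹ := fun _ _ => rfl
  have hX := eq_bot_of_aniso hFT (range_perfect (by rw [← CfH8.qb_commutator hPZ hPZ, hP]) ρ)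
    (fun U hU => by
      have h1 : qb Z P ≤ Nm(EA.grp U) := EA.le_Nm_grp hPV fun a v hv => hU _ ⟨a, rfl⟩ v hv
      have h2 : qp Z (EA.grp U) ≤ T := (CfH8.qp_le_iff hTZ inf_le_left).2 (EA.grp_le U)
      by_cases h3 : qp Z (EA.grp U) = T
      · exact Or.inr (EA.grp_eq_iff.1 (by rw [← CfH8.qb_qp (EA.grp U), h3]))
      · refine Or.inl (EA.grp_eq_bot_iff.1 (eq_bot_iff.2 ?_))
        rw [← CfH8.qp_le_qp_iff, CfH8.qp_bot]
        exact ih' _ h2 h3 (CfH8.le_Nm_qp hPZ h1))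
    {q | (∃ B : EA hV →ₗ[ZMod 2] EA hV →ₗ[ZMod 2] ZMod 2, ∀ u v, q (u + v) = q u + q v + B u v) ∧
      ∀ x ∈ ρ.range, ∀ v, q (x • v) = q v} (fun q hq => hq.1) (fun q hq => hq.2) ?_
  · refine hZT (le_antisymm inf_le_left ?_)
    rw [← hTP, Subgroup.commutator_comm, ← CfH8.qb_le_Cz_iff hPZ hTZ]
    intro a ha
    exact (EA.rep_eq_one_iff hPV ⟨a, ha⟩).1 (congrArg Units.val (mem_bot.1 (hX.le ⟨⟨a, ha⟩, rfl⟩)))
  intro v0 hv0
  choose o ho1 ho2 using fun v : EA hV => CfH8.mem_qb.1 v.val_mem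
  have ho : ∀ (v : EA hV) (x : Nm(Z)), nmQuot Z x = v.val → ∃ z ∈ Z, (o v : H) = z * x := by
    intro v x hx
    refine ⟨o v * (x : H)⁻¹, (CfH8.nmQuot_eq_one_iff (g := o v * x⁻¹)).1 ?_, by group⟩
    rw [map_mul, map_inv, ho2, hx, mul_inv_cancel]
  let W0 : Subgroup H :=
    { carrier := {x | ∃ z ∈ Z, z * z = x}
      one_mem' := ⟨1, one_mem _, by simp⟩
      mul_mem' := by
        rintro _ _ ⟨a, ha, rfl⟩ ⟨b, hb, rfl⟩
        exact ⟨a * b, mul_mem ha hb, hsq2 a ha b hb.1⟩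
      inv_mem' := by
        rintro _ ⟨a, ha, rfl⟩
        exact ⟨a⁻¹, inv_mem ha, by rw [mul_inv_rev]⟩ }
  have hsΩ : ∀ x ∈ T, x * x ∈ Ω := fun x hx => ⟨(hsq x hx).1, h4 x hx⟩
  obtain ⟨f, hf1, hf2⟩ := Submodule.exists_dual_map_eq_bot_of_notMem (p := EA.sub hΩe W0)
    (x := EA.mk hΩe _ (hsΩ _ (ho1 v0))) (by
      rintro ⟨z, hz, e⟩
      have h1 : z⁻¹ * o v0 ∈ T := mul_mem (inv_mem hz.1) (ho1 v0)
      have h2 := (hΩ _ h1 (by
        rw [hsq2 _ (inv_mem hz) _ (ho1 v0), ← mul_inv_rev, e]; exact inv_mul_cancel _)).2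
      refine hv0 (EA.val_eq_one.1 ?_)
      rw [← ho2, CfH8.nmQuot_eq_one_iff]
      exact (Z.mul_mem_cancel_left (inv_mem hz)).1 (mi h1 h2)) inferInstance
  let l : H → ZMod 2 := fun s => if h : s ∈ Ω then f (EA.mk hΩe s h) else 0
  have hl : ∀ s ∈ Ω, ∀ t ∈ Ω, l (s * t) = l s + l t := fun s hs t ht => by
    simp only [l, dif_pos hs, dif_pos ht, dif_pos (mul_mem hs ht), ← map_add]
    rfl
  have hl0 : ∀ z ∈ Z, l (z * z) = 0 := fun z hz => by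
    simp only [l, dif_pos (hsΩ z hz.1)]
    exact hf2.le ⟨_, ⟨z, hz, rfl⟩, rfl⟩
  have hqo : ∀ (v : EA hV) (x : Nm(Z)), (x : H) ∈ T → nmQuot Z x = v.val →
      l (o v * o v) = l (x * x) := fun v x hx e => by
    obtain ⟨z, hz, e⟩ := ho v x e
    rw [e, hsq2 z hz x hx, hl _ (hsΩ z hz.1) _ (hsΩ _ hx), hl0 z hz, zero_add]
  have hcΩ : ∀ a ∈ T, ∀ c ∈ T, ⁅a, c⁆ ∈ Ω := fun a ha c hc' => ⟨(hcz a ha c hc').1, hb2 a ha c hc'⟩
  refine ⟨fun v => l (o v * o v), ⟨exists_bilin (fun v => l (o v * o v))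
    (fun u v => l ⁅(o u : H), o v⁆) (fun u v => ?_) fun u w v => ?_, ?_⟩, by simpa only [l, dif_pos (hsΩ _ (ho1 v0))] using hf1⟩
  · rw [add_comm u, hqo _ (o v * o u) (mul_mem (ho1 v) (ho1 u)) (by rw [map_mul, ho2, ho2]; rfl),
      coe_mul, hq _ (ho1 v) _ (ho1 u), hl _ (mul_mem (hsΩ _ (ho1 v)) (hsΩ _ (ho1 u))) _
        (hcΩ _ (ho1 u) _ (ho1 v)), hl _ (hsΩ _ (ho1 v)) _ (hsΩ _ (ho1 u)), add_comm (l _) (l _)]
  · obtain ⟨z, hz, e⟩ := ho (u + w) (o u * o w) (by rw [map_mul, ho2, ho2]; rfl)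
    rw [e, coe_mul, hb z hz.1 _ (mul_mem (ho1 u) (ho1 w)) _ (ho1 v), hb0 z hz _ (ho1 v), one_mul,
      hb _ (ho1 u) _ (ho1 w) _ (ho1 v), hl _ (hcΩ _ (ho1 u) _ (ho1 v)) _ (hcΩ _ (ho1 w) _ (ho1 v))]
  · rintro _ ⟨⟨a, ha⟩, rfl⟩ v
    obtain ⟨p, hp, rfl⟩ := CfH8.mem_qb.1 ha
    beta_reduce
    rw [hqo _ (p * o v * p⁻¹) (conj_mem_of_mem_normalizer (hN hp) (ho1 v))
      (by rw [hρ, map_mul, map_mul, map_inv, ho2])]
    push_cast
    rw [conj_mul, mem_centralizer_iff.1 (hsq _ (ho1 v)).2 p hp, mul_inv_cancel_right]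

theorem isSolvable_quotient_of_inv [Finite H] (hFT : CfFT.FeitThompson.{u}) {N S : Subgroup H}
    [N.Normal] (hN : NoIso N) (hS : SylIn 2 S N)
    (h1 : ∀ s ∈ S, ∀ t ∈ S, orderOf s = 2 → orderOf t = 2 → s * t = t * s)
    (h2 : ∀ s ∈ S, ∀ t ∈ S, orderOf s = 2 → orderOf t = 2 → ∃ g ∈ N, g * s * g⁻¹ = t) :
    Group.IsSolvable (H ⧸ N) := by
  have ho : ∀ s : H, s * s = 1 → s ≠ 1 → orderOf s = 2 := fun s h3 h4 =>
    orderOf_eq_prime (by rw [pow_two, h3]) h4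
  have h1' : ∀ s ∈ S, ∀ t ∈ S, s * s = 1 → t * t = 1 → s * t = t * s := fun s hs t ht h3 h4 => by
    by_cases h5 : s = 1
    · simp [h5]
    by_cases h6 : t = 1
    · simp [h6]
    exact h1 s hs t ht (ho s h3 h5) (ho t h4 h6)
  let Ω : Subgroup H :=
    { carrier := {x | x ∈ S ∧ x * x = 1}
      one_mem' := ⟨one_mem _, by simp⟩
      mul_mem' := fun {a b} ha hb => ⟨mul_mem ha.1 hb.1, by
        rw [mul_assoc, ← mul_assoc b, ← h1' a ha.1 b hb.1 ha.2 hb.2, mul_assoc, hb.2, mul_one, ha.2]⟩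
      inv_mem' := fun {a} ha => ⟨inv_mem ha.1, by rw [← mul_inv_rev, ha.2, inv_one]⟩ }
  have hΩe : IsElementaryAbelian 2 Ω := ⟨comm_iff.2 fun a ha b hb => h1' a ha.1 b hb.1 ha.2 hb.2,
    fun a ha => by rw [pow_two, ha.2]⟩
  have hΩS : Ω ≤ S := fun x hx => hx.1
  have hΩp : IsPGroup 2 Ω := hS.pgrp.to_le hΩS
  have hw : ∀ g, cj g Ω ≤ S → g ∈ Nm(Ω) := fun g hg => mem_normalizer_of_conj_mem fun x hx =>
    ⟨hg (conj_mem_cj g hx), by rw [conj_mul, hx.2]; simp⟩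
  have hSΩ : Nm(S) ≤ Nm(Ω) := fun g hg => hw g
    ((cj_mono g hΩS).trans (cj_eq_of_mem_normalizer hg).le)
  have htr : ∀ s ∈ Ω, ∀ t ∈ Ω, s ≠ 1 → t ≠ 1 → ∃ g ∈ N ⊓ Nm(Ω), g * s * g⁻¹ = t := by
    intro s hs t ht hs1 ht1
    obtain ⟨g, hg, e⟩ := h2 s hs.1 t ht.1 (ho s hs.2 hs1) (ho t ht.2 ht1)
    have h3 : ∀ x ∈ Ω, Ω ≤ N ⊓ Cx(x) := fun x hx => le_inf (hΩS.trans hS.le)
      fun y hy => mem_Cx.2 (h1' y hy.1 x hx.1 hy.2 hx.2)
    obtain ⟨R, hR, hΩR⟩ := exists_sylIn_ge hΩp (h3 t ht)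
    obtain ⟨c, hc, h4⟩ := hR.exists_cj_le (isPGroup_cj hΩp g) (by
      have := cj_mono g (h3 s hs)
      rwa [cj_inf, cj_normal g N, cj_Cx, e] at this)
    obtain ⟨k, -, h5⟩ := hS.exists_cj_le hR.pgrp (hR.le.trans inf_le_left)
    have h6 := hw k ((cj_mono k hΩR).trans h5)
    have h7 := hw (k * (c * g)) (by rw [cj_mul, cj_mul]; exact (cj_mono k h4).trans h5)
    refine ⟨c * g, mi (mul_mem hc.1 hg) ((Subgroup.mul_mem_cancel_left _ h6).1 h7), ?_⟩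
    rw [← mem_Cx'.1 hc.2, ← e]; group
  let ρ := (EA.rep hΩe (le_refl Nm(Ω))).toHomUnits
  obtain ⟨Y0, hY0, hY1⟩ := exists_solvable_of_trans ((N.subgroupOf Nm(Ω)).map ρ)
    fun u v hu hv => by
      obtain ⟨g, hg, e⟩ := htr _ u.val_mem _ v.val_mem (mt EA.val_eq_one.1 hu)
        (mt EA.val_eq_one.1 hv)
      exact ⟨ρ ⟨g, hg.2⟩, ⟨_, hg.1, rfl⟩, EA.ext e⟩
  set Y := (Y0.comap ρ).map Nm(Ω).subtype
  have hYΩ : Y ≤ Nm(Ω) := map_subtype_le _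
  have hker : ∀ x : Nm(Ω), ρ x = 1 ↔ (x : H) ∈ Cz(Ω) := fun x => by
    rw [← EA.rep_eq_one_iff (hV := hΩe) (le_refl Nm(Ω)), ← Units.val_eq_one]; rfl
  have hCY : Cz(Ω) ≤ Y := fun x hx => ⟨⟨x, Cz_le_Nm _ hx⟩, by
    rw [SetLike.mem_coe, mem_comap, (hker _).2 hx]; exact one_mem _, rfl⟩
  have hB : Nm(Ω) ≤ N ⊔ Y := fun b hb => by
    have h3 : ρ ⟨b, hb⟩ ∈ Nm((N.subgroupOf Nm(Ω)).map ρ) :=
      le_normalizer_map ρ ⟨_, mem_Nm_of_normal _ _, rfl⟩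
    obtain ⟨_, ⟨m, hm, rfl⟩, y, hy, e⟩ := hY1 _ h3
    have h4 : ((m⁻¹ * ⟨b, hb⟩ : Nm(Ω)) : H) ∈ Y := ⟨m⁻¹ * ⟨b, hb⟩, by
      rw [SetLike.mem_coe, mem_comap, map_mul, map_inv, e, inv_mul_cancel_left]; exact hy, rfl⟩
    simpa using mul_mem (mem_sup_left hm : (m : H) ∈ N ⊔ Y) (mem_sup_right h4)
  have hT : SylIn 2 (S ⊓ Cz(Ω)) (N ⊓ Cz(Ω)) := by
    have := (hS.mono (le_inf hS.le (le_normalizer.trans hSΩ)) inf_le_left).inf_normal
      (N := Cz(Ω)) (inf_le_right.trans (Nm_le_Nm_Cz Ω))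
    rwa [inf_assoc, inf_eq_right.2 (Cz_le_Nm Ω)] at this
  set T := S ⊓ Cz(Ω)
  have hΩT : Ω ≤ T := le_inf hΩS (le_Cz_of_comm hΩe.1)
  have hodd := odd_comm_Cz' hN hS (T := T) inf_le_left (fun g _ hg => mem_normalizer_of_cj_le
      (le_inf hg ((cj_mono g inf_le_right).trans (cj_eq_of_mem_normalizer (mem_Nm_Cz
        (hw g ((cj_mono g hΩT).trans hg)))).le)))
    (inf_le_inf_left _ (Cz_anti hΩT)) fun s hs h3 => inf_le_right.trans (Cz_le_Cx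
      ⟨hs, by rw [← pow_two]; exact pow_eq_one_of_orderOf h3⟩)
  refine isSolvable_quotient_of_sup (Y := Y ⊓ Nm(T)) (eq_top_iff.2 ?_)
    (isSolvable_of_forall_perfect _ fun P h3 hP => eq_bot_of_perfect_of_odd hFT hP ?_ hodd)
  · have h3 := hT.frattini_sup (H := Y) (fun y hy => mem_Nm_inf (mem_Nm_of_normal _ _)
      (mem_Nm_Cz (hYΩ hy))) (inf_le_right.trans hCY)
    rw [← hS.frattini_sup (H := ⊤) le_normalizer_of_normal le_top]
    refine sup_le le_sup_left (inf_le_right.trans (hSΩ.trans (hB.trans (sup_le le_sup_left ?_))))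
    exact h3.ge.trans (sup_le_sup_right inf_le_left _)
  · have h4 : P ≤ Nm(Ω) := h3.trans (inf_le_left.trans hYΩ)
    have h5 := le_ker_of_perfect ρ hP h4 (CfH1.isSolvable_of_le (by
      rintro _ ⟨x, hx, rfl⟩
      obtain ⟨y, hy, e⟩ := (h3 hx).1
      rw [← show y = x from Subtype.ext e]; exact hy) hY0)
    have h6 : P ≤ Cz(Ω) := fun x hx => (hker ⟨x, h4 hx⟩).1 (h5 hx)
    exact le_Cz_of_omega hFT hP T hT.pgrp (h3.trans inf_le_right) fun s hs h7 =>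
      ⟨le_Cz_comm inf_le_right ⟨hs.1, h7⟩, le_Cz_comm h6 ⟨hs.1, h7⟩⟩

theorem le_of_perfect_of_primes [Finite H] {P K L : Subgroup H} (hP : ⁅P, P⁆ = P) (hPL : P ≤ L)
    (hL : L ≤ Nm(K)) {p q : ℕ} (h : ∀ r : ℕ, r.Prime → r ∣ K.relIndex L → r = p ∨ r = q) :
    P ≤ K := by
  have hPn := hPL.trans hL
  rw [← CfH8.qb_eq_bot_iff hPn]
  refine eq_bot_of_perfect_of_isSolvable (by rw [← CfH8.qb_commutator hPn hPn, hP])
    (burnside_of_prime_dvd (p := p) (q := q) fun r hr h5 => h r hr (h5.trans ?_))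
  rw [← CfH8.card_qb hL]
  exact card_dvd_of_le (CfH8.qb_mono hPL)

theorem card_sup_zpowers_le [Finite H] {V A : Subgroup H} (hV : IsElementaryAbelian 2 V)
    (hA : A ≤ V) {x : H} (hx : x ∈ V) :
    Nat.card (A ⊔ zpowers x : Subgroup H) ≤ Nat.card A * 2 := by
  have h1 := card_sup_mul_card_inf (A := A) (B := zpowers x) (hA.trans ((le_Cz_of_comm hV.1).trans
    ((Cz_anti (zpowers_le.2 hx)).trans (Cz_le_Nm _))))
  have h2 : Nat.card (zpowers x) ≤ 2 := by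
    rw [Nat.card_zpowers]; exact orderOf_le_of_pow_eq_one two_pos (hV.2 x hx)
  calc _ ≤ _ * Nat.card (A ⊓ zpowers x : Subgroup H) := Nat.le_mul_of_pos_right _ Nat.card_pos
    _ = _ := h1
    _ ≤ _ := Nat.mul_le_mul_left _ h2

theorem le_Cz_of_gen [Finite H] {N S P : Subgroup H} [N.Normal] (hS : SylIn 2 S N)
    (hP : ⁅P, P⁆ = P) (hPS : P ≤ Nm(S)) {a b c : H}
    (hg : zpowers a ⊔ zpowers b ⊔ zpowers c = S)
    (h : c = 1 ∨ ∃ g ∈ N, g ∈ Nm(S) ∧ Odd (orderOf g) ∧ g ∉ Cz(S)) : P ≤ Cz(S) := by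
  set Φ := (frattini S).map S.subtype
  have hΦ : Nm(S) ≤ Nm(Φ) := Nm_le_Nm_char _
  have hSΦ : S ≤ Nm(Φ) := le_normalizer.trans hΦ
  have hodd : ∀ g ∈ Nm(S), Odd (orderOf g) → qb Φ (zpowers g) ≤ Cz(qb Φ S) → g ∈ Cz(S) := by
    intro g hg h1 h2
    rw [CfH8.qb_le_Cz_iff (zpowers_le.2 (hΦ hg)) hSΦ, Subgroup.commutator_comm] at h2
    exact comm_eq_bot_right.1 (CfH8.commutator_eq_bot_of_le_frattini (zpowers_le.2 hg)
      (CfH8.coprime_card_of_isPGroup' hS.pgrp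
        (by rw [Nat.card_zpowers]; exact Nat.coprime_two_right.2 h1))
      (Or.inl (CfH8.isSolvable_zpowers g)) h2) (mem_zpowers g)
  suffices h1 : qb Φ P ≤ Cz(qb Φ S) by
    rw [← pResidualOf_eq_of_perfect (p := 2) hP, pResidualOf_le_iff]
    exact fun g hg h2 => hodd g (hPS hg) (Nat.coprime_two_right.1 h2)
      ((CfH8.qb_mono (zpowers_le.2 hg)).trans h1)
  have hV : IsElementaryAbelian 2 (qb Φ S) := by
    refine ⟨comm_iff.2 fun a ha b hb => (mem_centralizer_iff.1 ((CfH8.qb_le_Cz_iff hSΦ hSΦ).2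
      (CfH1.commutator_le_frattiniOf hS.pgrp.isNilpotent) hb) a ha), fun a ha => ?_⟩
    obtain ⟨g, hg, rfl⟩ := CfH8.mem_qb.1 ha
    rw [← map_pow, CfH8.nmQuot_eq_one_iff]
    exact CfH1.pow_mem_frattiniOf hS.pgrp hg
  have ha : a ∈ S := hg.le (mem_sup_left (mem_sup_left (mem_zpowers a)))
  have hb : b ∈ S := hg.le (mem_sup_left (mem_sup_right (mem_zpowers b)))
  have hc : c ∈ S := hg.le (mem_sup_right (mem_zpowers c))
  have hV2 : qb Φ S = ⊥ ⊔ zpowers (nmQuot Φ ⟨a, hSΦ ha⟩) ⊔ zpowers (nmQuot Φ ⟨b, hSΦ hb⟩) ⊔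
      zpowers (nmQuot Φ ⟨c, hSΦ hc⟩) := by
    rw [bot_sup_eq, ← CfH8.qb_zpowers, ← CfH8.qb_zpowers, ← CfH8.qb_zpowers,
      ← CfH8.qb_sup (zpowers_le.2 (hSΦ ha)) (zpowers_le.2 (hSΦ hb)),
      ← CfH8.qb_sup (sup_le (zpowers_le.2 (hSΦ ha)) (zpowers_le.2 (hSΦ hb)))
        (zpowers_le.2 (hSΦ hc)), hg]
  have ha' := CfH8.nmQuot_mem_qb (g := ⟨a, hSΦ ha⟩) ha
  have hb' := CfH8.nmQuot_mem_qb (g := ⟨b, hSΦ hb⟩) hb
  have hc' := CfH8.nmQuot_mem_qb (g := ⟨c, hSΦ hc⟩) hc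
  have k1 := card_sup_zpowers_le hV bot_le ha'
  have k2 := card_sup_zpowers_le hV (sup_le bot_le (zpowers_le.2 ha')) hb'
  have k3 := card_sup_zpowers_le hV
    (sup_le (sup_le bot_le (zpowers_le.2 ha')) (zpowers_le.2 hb')) hc'
  rw [← hV2] at k3
  rw [card_bot] at k1
  obtain ⟨n, hn⟩ := CfFT.exists_el_of_eab hV le_rfl
  set V := qb Φ S
  have hP' : ⁅qb Φ P, qb Φ P⁆ = qb Φ P := by
    rw [← CfH8.qb_commutator (hPS.trans hΦ) (hPS.trans hΦ), hP]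
  have hPV : qb Φ P ≤ Nm(V) := CfH8.qb_le_Nm hPS
  have hdvd := CfFT.relIndex_Cz_dvd_GL hn (le_refl Nm(V))
  have hpr : ∀ {r : ℕ}, r.Prime → r ∣ 168 → r = 2 ∨ r = 3 ∨ r = 7 := fun {r} hr h1 => by
    have := Nat.le_of_dvd (by norm_num) h1
    rw [show 168 = 2 ^ 3 * 3 * 7 by norm_num, hr.dvd_mul, hr.dvd_mul] at h1
    rcases h1 with (h1 | h1) | h1
    · exact Or.inl ((Nat.prime_dvd_prime_iff_eq hr Nat.prime_two).1 (hr.dvd_of_dvd_pow h1))
    · exact Or.inr (Or.inl ((Nat.prime_dvd_prime_iff_eq hr Nat.prime_three).1 h1))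
    · exact Or.inr (Or.inr ((Nat.prime_dvd_prime_iff_eq hr (by norm_num)).1 h1))
  rcases h with rfl | ⟨g, hgN, hgS, hg1, hg2⟩
  · have h1 : 2 ^ n ≤ 2 ^ 2 := by
      have : nmQuot Φ ⟨1, hSΦ hc⟩ = 1 := map_one _
      rw [← hn.card, hV2, this, zpowers_one_eq_bot, sup_bot_eq]; omega
    have h2 := (Nat.pow_le_pow_iff_right one_lt_two).1 h1
    have h3 : (Cz(V)).relIndex Nm(V) ∣ 6 := hdvd.trans (by interval_cases n <;> decide)
    refine le_of_perfect_of_primes hP' hPV (Nm_le_Nm_Cz V) (p := 2) (q := 3) fun r hr h4 => ?_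
    exact (hr.dvd_mul.1 (h4.trans h3 : r ∣ 2 * 3)).imp
      (Nat.prime_dvd_prime_iff_eq hr Nat.prime_two).1 (Nat.prime_dvd_prime_iff_eq hr Nat.prime_three).1
  · have h1 : 2 ^ n ≤ 2 ^ 3 := by rw [← hn.card]; omega
    have h2 := (Nat.pow_le_pow_iff_right one_lt_two).1 h1
    have h3 : (Cz(V)).relIndex Nm(V) ∣ 168 := hdvd.trans (by interval_cases n <;> decide)
    set D := qb Φ (N ⊓ Nm(S))
    have hDV : D ≤ Nm(V) := CfH8.qb_le_Nm inf_le_right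
    have hKV : D ⊔ Cz(V) ≤ Nm(V) := sup_le hDV (Cz_le_Nm V)
    have h4 : ¬ 2 ∣ (Cz(V)).relIndex (D ⊔ Cz(V)) := by
      rw [← CfH8.card_qb (hKV.trans (Nm_le_Nm_Cz V)), CfH8.qb_sup_self (hDV.trans (Nm_le_Nm_Cz V)),
        CfH8.card_qb (hDV.trans (Nm_le_Nm_Cz V))]
      exact (CfH8.sylIn_qb (inf_le_right.trans hΦ) (hS.mono (le_inf hS.le le_normalizer)
        inf_le_left)).not_dvd_relIndex_of_le (le_Cz_of_comm hV.1)
    have h5 : (Cz(V)).relIndex (D ⊔ Cz(V)) ≠ 1 := fun e => hg2 (hodd g hgS hg1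
      ((CfH8.qb_mono (zpowers_le.2 (mi hgN hgS))).trans (le_sup_left.trans (relIndex_eq_one.1 e))))
    have hL : qb Φ P ⊔ (D ⊔ Cz(V)) ≤ Nm((D ⊔ Cz(V) : Subgroup _)) := sup_le (fun x hx =>
      mem_Nm_sup (CfH8.qb_le_Nm (fun y hy => mem_Nm_inf (mem_Nm_of_normal _ _)
        (mem_Nm_Nm (hPS hy))) hx) (mem_Nm_Cz (hPV hx))) le_normalizer
    have h6 := relIndex_mul_relIndex Cz(V) (D ⊔ Cz(V)) (qb Φ P ⊔ (D ⊔ Cz(V))) le_sup_right
      le_sup_right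
    have h7 := relIndex_mul_relIndex Cz(V) (qb Φ P ⊔ (D ⊔ Cz(V))) Nm(V)
      (le_sup_right.trans le_sup_right) (sup_le hPV hKV)
    rw [← h7, ← h6] at h3
    have h8 := (Dvd.intro _ rfl).trans h3
    obtain ⟨l, hl, h9⟩ := Nat.exists_prime_and_dvd h5
    have h10 := (Nat.mul_dvd_mul_right h9 _).trans h8
    have h11 : qb Φ P ≤ D ⊔ Cz(V) := by
      rcases hpr hl ((Dvd.intro _ rfl).trans h10) with rfl | rfl | rfl
      · exact absurd h9 h4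
      · refine le_of_perfect_of_primes hP' le_sup_left hL (p := 2) (q := 7) fun r hr h11 => ?_
        have h12 := (Nat.mul_dvd_mul_left 3 h11).trans h10
        rcases hpr hr ((Dvd.intro_left _ rfl).trans h12) with rfl | rfl | rfl <;> simp at h12 ⊢
      · refine le_of_perfect_of_primes hP' le_sup_left hL (p := 2) (q := 3) fun r hr h11 => ?_
        have h12 := (Nat.mul_dvd_mul_left 7 h11).trans h10
        rcases hpr hr ((Dvd.intro_left _ rfl).trans h12) with rfl | rfl | rfl <;> simp at h12 ⊢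
    refine le_of_perfect_of_primes hP' h11 (hKV.trans (Nm_le_Nm_Cz V)) (p := 3) (q := 7)
      fun r hr h12 => (hpr hr ((h12.trans (Dvd.intro _ rfl)).trans h8)).resolve_left ?_
    rintro rfl
    exact h4 h12

variable {G : Type u} [Group G] [Finite G] [IsSimpleGroup G]

theorem out_solvable' (hFT : CfFT.FeitThompson.{u}) (hG : ¬ IsMulCommutative G) (S : Sylow 2 G)
    (hS1 : (S : Subgroup G) ≠ ⊥)
    (h : (∃ a b : S, closure ({a, b} : Set S) = ⊤) ∨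
      ((∃ a b c : S, closure ({a, b, c} : Set S) = ⊤) ∧
        ∃ g ∈ Nm((S : Subgroup G)), Odd (orderOf g) ∧ g ∉ Cz((S : Subgroup G))) ∨
      ((∀ s ∈ S, ∀ t ∈ S, orderOf s = 2 → orderOf t = 2 → s * t = t * s) ∧
        (∀ s ∈ S, ∀ t ∈ S, orderOf s = 2 → orderOf t = 2 → ∃ g : G, g * s * g⁻¹ = t))) :
    Group.IsSolvable (Out G) := by
  have hN := noIso_inn hG ((sylow_ne_bot_iff S).1 hS1)
  have hS := sylIn_inn S
  have hinj := conj_injective_of_simple hG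
  have key : ∀ a b c : S, closure ({a, b, c} : Set S) = ⊤ →
      zpowers (MulAut.conj (a : G)) ⊔ zpowers (MulAut.conj (b : G)) ⊔
        zpowers (MulAut.conj (c : G)) = (S : Subgroup G).map (MulAut.conj : G →* MulAut G) := by
    intro a b c h1
    have h2 := congrArg (map ((MulAut.conj : G →* MulAut G).comp (S : Subgroup G).subtype)) h1
    rw [← map_map, ← map_map, map_subtype_top] at h2
    rw [← h2, map_map, MonoidHom.map_closure, Set.image_insert_eq, Set.image_pair,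
      Set.insert_eq, Set.insert_eq, Subgroup.closure_union, Subgroup.closure_union, ← zpowers_eq_closure,
      ← zpowers_eq_closure, ← zpowers_eq_closure, sup_assoc]
    rfl
  rcases h with ⟨a, b, h⟩ | ⟨⟨a, b, c, h⟩, g, h1, h2, h3⟩ | ⟨h1, h2⟩
  · refine isSolvable_quotient_of_sylow hFT hN hS fun P h1 h2 => le_Cz_of_gen hS h2 h1
      (key a b 1 (eq_top_iff.2 (h.ge.trans (closure_mono ?_)))) (Or.inl (map_one _))
    exact Set.insert_subset_insert (Set.singleton_subset_iff.2 (Set.mem_insert _ _))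
  · refine isSolvable_quotient_of_sylow hFT hN hS fun P h4 h5 => le_Cz_of_gen hS h5 h4
      (key a b c h) (Or.inr ⟨MulAut.conj g, ⟨g, rfl⟩, le_normalizer_map _ ⟨g, h1, rfl⟩,
        by rwa [orderOf_injective _ hinj], fun h6 => h3 fun x hx => hinj ?_⟩)
    rw [map_mul, map_mul]
    exact h6 _ ⟨x, hx, rfl⟩
  · refine isSolvable_quotient_of_inv hFT hN hS ?_ ?_
    · rintro _ ⟨s, hs, rfl⟩ _ ⟨t, ht, rfl⟩ h3 h4
      rw [orderOf_injective _ hinj] at h3 h4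
      rw [← map_mul, ← map_mul, h1 s hs t ht h3 h4]
    · rintro _ ⟨s, hs, rfl⟩ _ ⟨t, ht, rfl⟩ h3 h4
      rw [orderOf_injective _ hinj] at h3 h4
      obtain ⟨g, rfl⟩ := h2 s hs t ht h3 h4
      exact ⟨MulAut.conj g, ⟨g, rfl⟩, by rw [map_mul, map_mul, map_inv]⟩

end CfH4
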