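import Cfsg.Agent.H5.DoubleCover

/-! Involutions whose centralizer is a double cover of an alternating group: the cover. -/

set_option autoImplicit false
open Cfsg CfH9 Subgroup Equiv Equiv.Perm

namespace CfH4.An
variable {G : Type*} [Group G] {X : Type*} [Fintype X] [DecidableEq X]

/-- `L g σ` says that `g` centralizes `z` and has image `σ`. -/
structure Cov (z : G) (L : G → Perm X → Prop) : Prop where
  z1 : z ≠ 1
  zz : z * z = 1
  zL : L z 1
  mul : ∀ {g h σ τ}, L g σ → L h τ → L (g * h) (σ * τ)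
  inv : ∀ {g σ}, L g σ → L g⁻¹ σ⁻¹
  ker : ∀ {g}, L g 1 → g = 1 ∨ g = z
  fn : ∀ {g σ τ}, L g σ → L g τ → σ = τ
  cz : ∀ {g σ}, L g σ → g * z = z * g
  sgn : ∀ {g σ}, L g σ → sign σ = 1
  ex : ∀ g, g * z = z * g → ∃ σ, L g σ
  dt : ∀ {g a b c d}, [a, b, c, d].Nodup → L g (swap a b * swap c d) → g * g = z

theorem dt_sq {a b c d : X} (h : [a, b, c, d].Nodup) : swap a b * swap c d * (swap a b * swap c d) = 1 := by
  simp only [List.nodup_cons, List.mem_cons, List.not_mem_nil, or_false, not_or] at h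
  rw [← mul_assoc, mul_assoc _ _ (swap a b), mul_swap_eq_swap_mul (swap c d), swap_apply_of_ne_of_ne h.1.2.1 h.1.2.2,
    swap_apply_of_ne_of_ne h.2.1.1 h.2.1.2]
  simp [mul_assoc]

theorem dt_conj {a b c d a' b' c' d' : X} (h : [a, b, c, d].Nodup) (h' : [a', b', c', d'].Nodup) :
    ∃ ρ : Perm X, sign ρ = 1 ∧ ρ * (swap a b * swap c d) * ρ⁻¹ = swap a' b' * swap c' d' := by
  obtain ⟨ρ, hρ⟩ := exists_extending_pair (f := ![a, b, c, d]) (g := ![a', b', c', d'])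
    (List.nodup_ofFn.1 (by simpa using h)) (List.nodup_ofFn.1 (by simpa using h'))
  have e : ρ * (swap a b * swap c d) * ρ⁻¹ = swap a' b' * swap c' d' := by
    rw [← conj_mul, ← swap_apply_apply, ← swap_apply_apply]
    exact congrArg₂ _ (congrArg₂ _ (hρ 0) (hρ 1)) (congrArg₂ _ (hρ 2) (hρ 3))
  rcases Int.units_eq_one_or (sign ρ) with s | s
  · exact ⟨ρ, s, e⟩
  have := eq_inv_of_mul_eq_one_left (dt_sq h)
  refine ⟨ρ * swap a b, by rw [map_mul, s, sign_swap (by simp at h; tauto)]; simp, ?_⟩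
  rw [← e]
  conv_rhs => rw [this]
  simp [mul_assoc]

theorem cm_perm {a b i j : X} (ha : j ≠ a) (hb : j ≠ b) :
    swap a i * swap a b * (swap a j * swap a b) = swap a i * swap b j := by
  rw [mul_assoc, ← mul_assoc (swap a b), mul_swap_eq_swap_mul (swap a b) a j, swap_apply_left,
    swap_apply_of_ne_of_ne ha hb, mul_assoc, swap_mul_self, mul_one]

theorem c3_cube {a b i : X} (h1 : a ≠ i) (h2 : a ≠ b) (h3 : i ≠ b) : (swap a i * swap a b) ^ 3 = 1 :=
  pow_eq_one_of_orderOf (isThreeCycle_swap_mul_swap_same h1 h2 h3).orderOf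

theorem exists_cov [Finite G] {z : G} (hz : orderOf z = 2)
    (h : IsNonsplitDoubleCover Cx(z) (alternatingGroup X)) :
    ∃ L : G → Perm X → Prop, Cov z L ∧ ∀ σ, sign σ = 1 → ∃ g, L g σ := by
  obtain ⟨h1, ⟨e⟩, h3⟩ := h
  let π : Cx(z) →* Perm X := (alternatingGroup X).subtype.comp (e.toMonoidHom.comp (QuotientGroup.mk' _))
  have zz : z * z = 1 := by rw [← sq, ← hz, pow_orderOf_eq_one]
  have z1 : z ≠ 1 := by rintro rfl; simp at hz
  let z' : Cx(z) := ⟨z, mem_Cx.2 rfl⟩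
  have hc : z' ∈ center Cx(z) := mem_center_iff.2 fun g => Subtype.ext (mem_Cx.1 g.2)
  have hk : ∀ g, π g = 1 ↔ g ∈ center Cx(z) := fun g => by simp [π]
  have hk2 : ∀ g, π g = 1 → g = 1 ∨ g = z' := fun g hg => by
    obtain ⟨x, -, hx⟩ := (Nat.card_eq_two_iff' (1 : center Cx(z))).1 h1
    by_cases g1 : g = 1
    · exact Or.inl g1
    · exact Or.inr (congrArg Subtype.val ((hx ⟨g, (hk g).1 hg⟩ fun e => g1 (congrArg Subtype.val e)).trans
        (hx ⟨z', hc⟩ fun e => z1 (congrArg (fun x : center Cx(z) => ((x : Cx(z)) : G)) e)).symm))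
  have hs : ∀ σ, sign σ = 1 → ∃ g, π g = σ := fun σ hσ => by
    obtain ⟨g, hg⟩ := QuotientGroup.mk'_surjective _ (e.symm ⟨σ, mem_alternatingGroup.2 hσ⟩)
    exact ⟨g, by simp [π, ← QuotientGroup.mk'_apply, hg]⟩
  have hsg : ∀ g, sign (π g) = 1 := fun g => mem_alternatingGroup.1 (e _).2
  have zc : ∀ g, g * z' = z' * g := mem_center_iff.1 hc
  have zz' : z' * z' = 1 := Subtype.ext zz
  refine ⟨fun g σ => ∃ h : g ∈ Cx(z), π ⟨g, h⟩ = σ, ⟨z1, zz, ⟨_, (hk z').2 hc⟩, ?_, ?_, ?_, ?_, ?_, ?_, ?_, ?_⟩,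
    fun σ hσ => (hs σ hσ).elim fun g hg => ⟨g, g.2, hg⟩⟩
  · rintro g h _ _ ⟨hg, rfl⟩ ⟨hh, rfl⟩; exact ⟨mul_mem hg hh, map_mul π ⟨g, hg⟩ ⟨h, hh⟩⟩
  · rintro g _ ⟨hg, rfl⟩; exact ⟨inv_mem hg, map_inv π ⟨g, hg⟩⟩
  · rintro g ⟨hg, e⟩; exact (hk2 _ e).imp (congrArg Subtype.val) (congrArg Subtype.val)
  · rintro g _ _ ⟨hg, rfl⟩ ⟨_, rfl⟩; rfl
  · rintro g _ ⟨hg, -⟩; exact mem_Cx.1 hg
  · rintro g _ ⟨hg, rfl⟩; exact hsg _
  · exact fun g hg => ⟨_, mem_Cx.2 hg, rfl⟩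
  rintro g a b c d hn ⟨hg, eg⟩
  refine congrArg Subtype.val (((hk2 (⟨g, hg⟩ * ⟨g, hg⟩) (by rw [map_mul, eg, dt_sq hn])).resolve_left fun g2 => ?_))
  generalize (⟨g, hg⟩ : Cx(z)) = g at eg g2
  have all : ∀ k a' b' c' d', [a', b', c', d'].Nodup → π k = swap a' b' * swap c' d' → k ^ 2 = 1 := by
    intro k a' b' c' d' hn' ek
    obtain ⟨ρ, s, e⟩ := dt_conj hn hn'
    obtain ⟨r, rfl⟩ := hs ρ s
    have : (r * g * r⁻¹) ^ 2 = 1 := by rw [conj_pow, sq, g2]; group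
    rcases hk2 ((r * g * r⁻¹)⁻¹ * k) (by rw [map_mul, map_inv, map_mul, map_mul, map_inv, eg, e, ek]; group) with e | e
    · rw [← inv_mul_eq_one.1 e, this]
    · rw [inv_mul_eq_iff_eq_mul.1 e, Commute.mul_pow (zc _), this, sq, zz', mul_one]
  have ac : a ≠ c := by simp at hn; tauto
  let T := (Finset.univ.erase a).erase c
  have hT : ∀ {i}, i ∈ T ↔ i ≠ c ∧ i ≠ a := by simp [T]
  have hTc : T.card + 2 = Fintype.card X := by
    have := Finset.card_le_univ {a, c}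
    rw [Finset.card_pair ac] at this
    rw [Finset.card_erase_of_mem (by simp [ac.symm]), Finset.card_erase_of_mem (by simp), Finset.card_univ]
    omega
  have h1 : ∀ i, ∃ x, i ∈ T → x ^ 3 = 1 ∧ π x = swap a i * swap a c := fun i => by
    by_cases hi : i ∈ T
    · obtain ⟨x, hx⟩ := hs (swap a i * swap a c) (by simp [(hT.1 hi).2.symm, ac])
      rcases hk2 (x ^ 3) (by rw [map_pow, hx, c3_cube (hT.1 hi).2.symm ac (hT.1 hi).1]) with e | e
      · exact ⟨x, fun _ => ⟨e, hx⟩⟩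
      · exact ⟨x * z', fun _ => ⟨by rw [Commute.mul_pow (zc _), e, pow_three, zz', mul_one, zz'],
          by rw [map_mul, hx, (hk _).2 hc, mul_one]⟩⟩
    · exact ⟨1, fun h => (hi h).elim⟩
  choose s hs' using h1
  have h7 := CfH5.carmichael_bound s T (fun i hi => (hs' i hi).1) fun i hi j hj hij =>
    all _ a i c j (by have := hT.1 hi; have := hT.1 hj; simp [*, Ne.symm])
      (by rw [map_mul, (hs' i hi).2, (hs' j hj).2, cm_perm (hT.1 hj).2 (hT.1 hj).1])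
  have h8 : alternatingGroup X ≤ (closure (s '' T)).map π := CfH5.alternatingGroup_le_of_forall ac
    (by rintro _ ⟨k, -, rfl⟩; exact mem_alternatingGroup.2 (hsg k)) fun i h1 h2 =>
      ⟨s i, subset_closure ⟨i, hT.2 ⟨h2, h1⟩, rfl⟩, (hs' i (hT.2 ⟨h2, h1⟩)).2⟩
  set K := closure (s '' T)
  have : Nontrivial X := ⟨a, c, ac⟩
  have h13 := two_mul_nat_card_alternatingGroup (α := X)
  rw [Nat.card_eq_fintype_card (α := Perm X), Fintype.card_perm, ← hTc] at h13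
  have sj : Function.Surjective (π.subgroupMap K) := π.subgroupMap_surjective K
  have bj := (sj.bijective_of_nat_card_le (by have := card_le_of_le h8; omega)).1
  refine h3 K (isComplement'_of_disjoint_and_mul_eq_univ (disjoint_def.2 fun {x} hx hx' => ?_)
    (Set.eq_univ_of_forall fun x => ?_))
  · exact congrArg Subtype.val (bj (a₁ := ⟨x, hx'⟩) (a₂ := 1) (Subtype.ext (by simpa using (hk x).2 hx)))
  · obtain ⟨k, hk', e⟩ := h8 (mem_alternatingGroup.2 (hsg x))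
    exact ⟨x * k⁻¹, (hk _).1 (by rw [map_mul, map_inv, e, mul_inv_cancel]), k, hk', by simp⟩

end CfH4.An
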