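import Cfsg.Agent.H4.An1
import Cfsg.Agent.H4.CM
import Cfsg.Agent.H7.Cores2
import Cfsg.Agent.OD.Helper4x7d5f2b078e

/-! Involutions whose centralizer is a double cover of an alternating group: the fused involutions. -/

set_option autoImplicit false
open Cfsg CfH9 Subgroup Equiv Equiv.Perm

namespace CfH4.An
variable {G : Type*} [Group G] {X : Type*} [Fintype X] [DecidableEq X]

theorem via_swap {Y : Type*} [DecidableEq Y] (ι : X ↪ Y) (a b : X) :
    viaEmbeddingHom ι (swap a b) = swap (ι a) (ι b) := by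
  ext y
  rw [viaEmbeddingHom_apply]
  by_cases h : y ∈ Set.range ι
  · obtain ⟨x, rfl⟩ := h
    rw [viaEmbedding_apply, ι.injective.map_swap]
  · rw [viaEmbedding_apply_of_notMem _ _ _ h, swap_apply_of_ne_of_ne] <;> rintro rfl <;> exact h ⟨_, rfl⟩

def emb (l : List X) (h : l.Nodup) : Fin l.length ↪ X := ⟨l.get, h.injective_get⟩

theorem id4 {a b c d : X} (h : [a, b, c, d].Nodup) :
    swap a b * swap c d * (swap a c * swap b d) = swap a d * swap b c := by
  have : (swap 0 1 * swap 2 3 * (swap 0 2 * swap 1 3) : Perm (Fin 4)) = swap 0 3 * swap 1 2 := by decide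
  have := congrArg (viaEmbeddingHom (emb _ h)) this
  simp only [map_mul, via_swap] at this
  exact this

theorem id6 {a b c a' b' c' : X} (h : [a, b, c, a', b', c'].Nodup) :
    swap a c * swap a b * (swap a' c' * swap a' b') * (swap a c' * swap a b * (swap a' c * swap a' b'))⁻¹ =
      swap a a' * swap c c' ∧ swap a' c' * swap a' b' * (swap a c * swap a b) = swap a c * swap a b * (swap a' c' * swap a' b') := by
  have : (swap 0 2 * swap 0 1 * (swap 3 5 * swap 3 4) * (swap 0 5 * swap 0 1 * (swap 3 2 * swap 3 4))⁻¹ : Perm (Fin 6)) =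
    swap 0 3 * swap 2 5 ∧ (swap 3 5 * swap 3 4 * (swap 0 2 * swap 0 1) : Perm (Fin 6)) =
      swap 0 2 * swap 0 1 * (swap 3 5 * swap 3 4) := by decide
  have h1 := congrArg (viaEmbeddingHom (emb _ h)) this.1
  have h2 := congrArg (viaEmbeddingHom (emb _ h)) this.2
  simp only [map_mul, map_inv, via_swap] at h1 h2
  exact ⟨h1, h2⟩

omit [Fintype X] in
theorem comm_sw {ρ : Perm X} {a b : X} (ha : ρ a = a) (hb : ρ b = b) : Commute ρ (swap a b) := by
  have := mul_swap_eq_swap_mul ρ a b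
  rwa [ha, hb] at this

omit [Fintype X] in
theorem comm_T {τ : Perm X} (h : τ * τ = 1) (p q : X) : Commute (swap p (τ p)) (swap q (τ q)) := by
  have e : ∀ x, τ (τ x) = x := fun x => congrArg (fun σ : Perm X => σ x) h
  by_cases h1 : q = p
  · rw [h1]
  by_cases h2 : q = τ p
  · rw [h2, e, swap_comm]
  exact comm_sw (swap_apply_of_ne_of_ne h1 h2) (swap_apply_of_ne_of_ne (fun h => h2 (by rw [← h, e]))
    fun h => h1 (τ.injective h))

def orb (α : Perm X) (x : X) : List X := [x, α x, α (α x), α (α (α x))]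

omit [Fintype X] [DecidableEq X] in
theorem mem_orb {α : Perm X} (h : α ^ 4 = 1) {x y : X} : y ∈ orb α x ↔ ∃ n : ℕ, (α ^ n) x = y := by
  constructor
  · simp only [orb, List.mem_cons, List.not_mem_nil, or_false]
    rintro (rfl | rfl | rfl | rfl)
    exacts [⟨0, rfl⟩, ⟨1, rfl⟩, ⟨2, rfl⟩, ⟨3, rfl⟩]
  · rintro ⟨n, rfl⟩
    rw [pow_eq_pow_mod n h]
    have := Nat.mod_lt n (show 0 < 4 by norm_num)
    generalize n % 4 = k at this
    interval_cases k <;> simp [orb, pow_succ]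

omit [Fintype X] [DecidableEq X] in
theorem nodup_orb {α : Perm X} (h : α ^ 4 = 1) {x : X} (hx : α (α x) ≠ x) : (orb α x).Nodup := by
  have h1 : α x ≠ x := fun e => hx (by rw [e, e])
  have h3 : α (α (α x)) ≠ x := fun e => h1 ((congrArg α e).symm.trans (congrArg (fun σ : Perm X => σ x) h))
  simp [orb, h1.symm, hx.symm, h3.symm]

omit [Fintype X] [DecidableEq X] in
theorem disj_orb {α : Perm X} (h : α ^ 4 = 1) {x y : X} (hy : y ∉ orb α x) : (orb α x).Disjoint (orb α y) := by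
  intro w h1 h2
  obtain ⟨i, rfl⟩ := (mem_orb h).1 h1
  obtain ⟨j, e⟩ := (mem_orb h).1 h2
  refine hy ((mem_orb h).2 ⟨3 * j + i, ?_⟩)
  rw [pow_add, Perm.mul_apply, ← e, ← Perm.mul_apply, ← pow_add, show 3 * j + j = 4 * j by ring, pow_mul, h, one_pow]
  rfl

omit [Fintype X] [DecidableEq X] in
theorem nodup_orb3 {α : Perm X} (h : α ^ 4 = 1) {x y w : X} (hx : α (α x) ≠ x) (hy : α (α y) ≠ y) (hw : α (α w) ≠ w)
    (h1 : y ∉ orb α x) (h2 : w ∉ orb α x) (h3 : w ∉ orb α y) : (orb α x ++ (orb α y ++ orb α w)).Nodup :=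
  (nodup_orb h hx).append ((nodup_orb h hy).append (nodup_orb h hw) (disj_orb h h3))
    (List.disjoint_append_right.2 ⟨disj_orb h h1, disj_orb h h2⟩)

namespace Cov
variable {z : G} {L : G → Perm X → Prop} (h : Cov z L)
include h

theorem one : L 1 1 := by simpa [h.zz] using h.mul h.zL h.zL

theorem eq_or {g k : G} {σ : Perm X} (h1 : L g σ) (h2 : L k σ) : k = g ∨ k = g * z :=
  (h.ker (by simpa using h.mul (h.inv h1) h2)).imp (fun e => (inv_mul_eq_one.1 e).symm) inv_mul_eq_iff_eq_mul.1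

theorem conj {g k : G} {σ τ : Perm X} (h1 : L g σ) (h2 : L k τ) : L (g * k * g⁻¹) (σ * τ * σ⁻¹) :=
  h.mul (h.mul h1 h2) (h.inv h1)

theorem pow {g : G} {σ : Perm X} (h1 : L g σ) (n : ℕ) : L (g ^ n) (σ ^ n) := by
  induction n with
  | zero => simpa using h.one
  | succ n ih => simpa [pow_succ] using h.mul ih h1

theorem mz {g : G} {σ : Perm X} (h1 : L g σ) : L (g * z) σ := by simpa using h.mul h1 h.zL

theorem cube {g : G} {σ : Perm X} (h1 : L g σ) : (g * z) ^ 3 = g ^ 3 * z := by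
  rw [Commute.mul_pow (h.cz h1), pow_three z, h.zz, mul_one]

theorem lift3 {g : G} {σ : Perm X} (h1 : L g σ) (e : σ ^ 3 = 1) : ∃ x, L x σ ∧ x ^ 3 = 1 := by
  rcases h.ker (e ▸ h.pow h1 3) with e | e
  · exact ⟨g, h1, e⟩
  · exact ⟨_, h.mz h1, by rw [h.cube h1, e, h.zz]⟩

theorem eq3 {g k : G} {σ : Perm X} (h1 : L g σ) (h2 : L k σ) (g3 : g ^ 3 = 1) (k3 : k ^ 3 = 1) : k = g :=
  (h.eq_or h1 h2).resolve_right fun e => h.z1 (by rwa [e, h.cube h1, g3, one_mul] at k3)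

theorem comm3 {x r : G} {c ρ : Perm X} (h1 : L x c) (x3 : x ^ 3 = 1) (h2 : L r ρ) (e : Commute ρ c) : Commute r x :=
  mul_inv_eq_iff_eq_mul.1 (h.eq3 h1 (by simpa [e.eq] using h.conj h2 h1) x3 (by rw [conj_pow, x3]; group))

theorem hom_comm {g k : G} {σ τ : Perm X} (h1 : L g σ) (h2 : L k τ) (e : g * k = k * g) : σ * τ = τ * σ :=
  h.fn (h.mul h1 h2) (e ▸ h.mul h2 h1)

variable (hs : ∀ σ, sign σ = 1 → ∃ g, L g σ)
include hs

theorem ex3 {a b i : X} (h1 : a ≠ i) (h2 : a ≠ b) (h3 : i ≠ b) : ∃ x, L x (swap a i * swap a b) ∧ x ^ 3 = 1 :=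
  (hs _ (by simp [h1, h2])).elim fun _ hx => h.lift3 hx (c3_cube h1 h2 h3)

omit h in
theorem exDT {a b c d : X} (hn : [a, b, c, d].Nodup) : ∃ x, L x (swap a b * swap c d) :=
  hs _ (by simp at hn; simp [hn])

theorem commDT {g r : G} {a b c d : X} {ρ : Perm X} (hn : [a, b, c, d].Nodup) (h1 : L g (swap a b * swap c d))
    (h2 : L r ρ) (ha : ρ a = a) (hb : ρ b = b) (hc : ρ c = c) (hd : ρ d = d) : Commute r g := by
  simp only [List.nodup_cons, List.mem_cons, List.not_mem_nil, or_false, not_or] at hn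
  obtain ⟨x, hx, x3⟩ := h.ex3 hs hn.1.1 hn.1.2.1 hn.2.1.1
  obtain ⟨y, hy, y3⟩ := h.ex3 hs (Ne.symm hn.1.2.1) hn.2.2.1 hn.1.2.2
  have k := (h.comm3 hx x3 h2 ((comm_sw ha hb).mul_right (comm_sw ha hc))).mul_right
    (h.comm3 hy y3 h2 ((comm_sw hc ha).mul_right (comm_sw hc hd)))
  rcases h.eq_or (h.mul hx hy) (k := g) (by simpa [mul_assoc, swap_comm c a] using h1) with rfl | rfl
  exacts [k, k.mul_right (h.cz h2)]

omit hs in
theorem two {t : G} {τ : Perm X} (ht : L t τ) (t2 : t * t = 1) (t1 : t ≠ 1) (tz : t ≠ z) :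
    τ * τ = 1 ∧ ∃ p q, [p, τ p, q, τ q].Nodup ∧ ∃ x, τ x ≠ x ∧ x ∉ [p, τ p, q, τ q] := by
  have h2 : τ * τ = 1 := h.fn (h.mul ht ht) (t2 ▸ h.one)
  have e : ∀ x, τ (τ x) = x := fun x => congrArg (fun σ : Perm X => σ x) h2
  obtain ⟨p, hp⟩ : ∃ p, τ p ≠ p := by
    by_contra hn
    push Not at hn
    exact (h.ker ((Equiv.ext hn : τ = 1) ▸ ht)).elim t1 tz
  obtain ⟨q, hq, hq'⟩ : ∃ q, τ q ≠ q ∧ q ∉ [p, τ p] := by
    by_contra hn
    push Not at hn
    have : τ = swap p (τ p) := Equiv.ext fun x => by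
      by_cases hx : x ∈ [p, τ p]
      · simp only [List.mem_cons, List.not_mem_nil, or_false] at hx
        rcases hx with rfl | rfl <;> simp [e]
      · rw [not_not.1 (mt (hn x) hx), swap_apply_of_ne_of_ne] <;> rintro rfl <;> simp at hx
    have s := h.sgn ht
    rw [this, sign_swap hp.symm] at s
    exact absurd s (by decide)
  simp only [List.mem_cons, List.not_mem_nil, or_false, not_or] at hq'
  have h3 : τ q ≠ p := fun k => hq'.2 (by rw [← k, e])
  have hn : [p, τ p, q, τ q].Nodup := by simp [hp.symm, hq.symm, h3.symm, Ne.symm hq'.1, Ne.symm hq'.2]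
  refine ⟨h2, p, q, hn, ?_⟩
  by_contra hm
  push Not at hm
  have : τ = swap p (τ p) * swap q (τ q) := Equiv.ext fun x => by
    by_cases hx : x ∈ [p, τ p, q, τ q]
    · simp only [List.mem_cons, List.not_mem_nil, or_false] at hx
      rcases hx with rfl | rfl | rfl | rfl <;> simp [swap_apply_of_ne_of_ne, *, Ne.symm]
    · rw [not_not.1 (mt (hm x) hx)]
      simp only [List.mem_cons, List.not_mem_nil, or_false, not_or] at hx
      simp [swap_apply_of_ne_of_ne, hx]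
  exact h.z1 ((h.dt hn (this ▸ ht)).symm.trans t2)

theorem split {t a : G} {τ : Perm X} (ht : L t τ) (h2 : τ * τ = 1) {p q : X} (hn : [p, τ p, q, τ q].Nodup)
    (ha : L a (swap p (τ p) * swap q (τ q))) {k : G} {a' b' c' d' : X} (hn' : [a', b', c', d'].Nodup)
    (hk : L k (swap a' b' * swap c' d')) (e : ∀ x ∈ [a', b', c', d'], x ∈ [p, τ p, q, τ q]) : Commute (a⁻¹ * t) k := by
  have e2 : ∀ x, τ (τ x) = x := fun x => congrArg (fun σ : Perm X => σ x) h2
  have : ∀ x ∈ [p, τ p, q, τ q], ((swap p (τ p) * swap q (τ q))⁻¹ * τ) x = x := by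
    simp only [List.nodup_cons, List.mem_cons, List.not_mem_nil, or_false, not_or] at hn ⊢
    rintro x (rfl | rfl | rfl | rfl) <;> simp [e2, swap_apply_of_ne_of_ne, hn, Ne.symm]
  exact h.commDT hs hn' hk (h.mul (h.inv ha) ht) (this _ (e _ (by simp))) (this _ (e _ (by simp)))
    (this _ (e _ (by simp))) (this _ (e _ (by simp)))

theorem exists_s0 {t : G} (tc : t * z = z * t) (t2 : t * t = 1) (t1 : t ≠ 1) (tz : t ≠ z) :
    ∃ s, s * z * s⁻¹ = z ∧ s * t * s⁻¹ = t * z := by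
  obtain ⟨τ, ht⟩ := h.ex t tc
  obtain ⟨h2, p, q, hn, -⟩ := h.two ht t2 t1 tz
  have hn' : [p, q, τ p, τ q].Nodup := (List.Perm.nodup_iff ((List.Perm.swap _ _ _).cons _)).1 hn
  obtain ⟨a, ha⟩ := exDT hs hn
  obtain ⟨s, hs'⟩ := exDT hs hn'
  have c := h.split hs ht h2 hn ha hn' hs' (by simp)
  have h3 := h.dt (a := p) (b := τ q) (c := τ p) (d := q) (by simp at hn ⊢; tauto) (id4 hn ▸ h.mul ha hs')
  have h4 := h.dt hn ha
  have h5 := h.dt hn' hs'
  refine ⟨s, by rw [h.cz hs', mul_inv_cancel_right], ?_⟩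
  calc _ = a⁻¹ * (a * s * (a * s)) * (s * s)⁻¹ * (s * (a⁻¹ * t) * s⁻¹) := by group
    _ = a⁻¹ * (a * a) * z⁻¹ * (a⁻¹ * t) := by rw [h3, h4, h5, ← c.eq]; group
    _ = a * (z * a⁻¹) * t := by rw [inv_eq_of_mul_eq_one_right h.zz]; group
    _ = _ := by rw [← h.cz (h.inv ha), tc]; group

theorem mkd {t : G} {τ : Perm X} (ht : L t τ) (t2 : t * t = 1) {u v w : X} (hn : [u, v, w, τ u, τ v, τ w].Nodup) :
    ∃ d, L d (swap u w * swap u v * (swap (τ u) (τ w) * swap (τ u) (τ v))) ∧ d ^ 3 = 1 ∧ d * t = t * d ∧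
      ∀ r ρ, L r ρ → ρ u = u → ρ v = v → ρ w = w → Commute r t → Commute r d := by
  obtain ⟨x, hx, x3⟩ := h.ex3 hs (a := u) (b := v) (i := w) (by simp at hn; tauto) (by simp at hn; tauto)
    (by simp at hn; tauto)
  have hy := h.conj ht hx
  rw [← conj_mul, ← swap_apply_apply, ← swap_apply_apply] at hy
  have c := h.comm3 hx x3 hy (id6 hn).2
  refine ⟨_, h.mul hx hy, by rw [c.symm.mul_pow, conj_pow, x3]; group, ?_, fun r ρ hr h1 h2 h3 rt => ?_⟩
  · symm
    calc _ = t * x * t⁻¹ * (t * t) * x * t⁻¹ := by group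
      _ = x * (t * x * t⁻¹) * t⁻¹ := by rw [t2, mul_one, c.eq]
      _ = _ := by rw [inv_eq_of_mul_eq_one_right t2]
  · have := h.comm3 hx x3 hr ((comm_sw h1 h3).mul_right (comm_sw h1 h2))
    exact this.mul_right ((rt.mul_right this).mul_right rt.inv_right)

section
variable {t σ : G} {τ : Perm X} (ht : L t τ) (t2 : t * t = 1) (s1 : σ * z * σ⁻¹ = z * t) (s2 : σ * t * σ⁻¹ = t)
include ht t2 s1 s2

omit hs in
theorem exD {d : G} (h1 : d * z = z * d) (h2 : d * t = t * d) : (∃ δ, L (σ * d * σ⁻¹) δ) ∧ ∃ δ, L (σ⁻¹ * d * σ) δ ∧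
    δ * τ = τ * δ := by
  have s3 : σ * (z * t) * σ⁻¹ = z := by rw [← conj_mul, s1, s2, mul_assoc, t2, mul_one]
  have c : Commute d (z * t) := Commute.mul_right h1 h2
  refine ⟨h.ex _ (by rw [← s3, conj_mul, conj_mul, c.eq]), ?_⟩
  obtain ⟨δ, hδ⟩ := h.ex (σ⁻¹ * d * σ) (by
    calc _ = σ⁻¹ * (d * (σ * z * σ⁻¹)) * σ := by group
      _ = σ⁻¹ * (σ * z * σ⁻¹ * d) * σ := by rw [s1, c.eq]
      _ = _ := by group)
  refine ⟨δ, hδ, h.hom_comm hδ ht ?_⟩
  calc _ = σ⁻¹ * (d * (σ * t * σ⁻¹)) * σ := by group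
    _ = σ⁻¹ * (σ * t * σ⁻¹ * d) * σ := by rw [s2, h2]
    _ = _ := by group

omit hs in
theorem root {a : G} {α : Perm X} (a2 : a * a = z) (hα : L (σ * a * σ⁻¹) α) : α * α = τ :=
  h.fn (h.mul hα hα) (by rw [conj_mul, a2, s1]; simpa using h.mul h.zL ht)

theorem eight (t1 : t ≠ 1) (tz : t ≠ z) : ∃ a b c d, [a, b, c, τ a, τ b, τ c, d, τ d].Nodup ∧
    ∀ x, τ x ≠ x → x ∈ [a, b, c, τ a, τ b, τ c, d, τ d] := by
  obtain ⟨h2, p, q, hn, hx⟩ := h.two ht t2 t1 tz
  obtain ⟨a, ha⟩ := exDT hs hn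
  have a2 := h.dt hn ha
  have c : a * t = t * a := by
    have := (h.split hs ht h2 hn ha hn ha (by simp)).eq
    calc _ = a * (a * (a⁻¹ * t)) := by group
      _ = _ := by rw [← this]; group
  obtain ⟨α, hα⟩ := (h.exD ht t2 s1 s2 (h.cz ha) c).1
  obtain rfl := h.root ht t2 s1 s2 a2 hα
  have h4 : α ^ 4 = 1 := by rw [← h2]; simp [pow_succ, mul_assoc]
  have e4 : ∀ x, α (α (α (α x))) = x := fun x => congrArg (fun σ : Perm X => σ x) h4
  have no3 : ∀ p1 p3 p5, ¬ (orb α p1 ++ (orb α p3 ++ orb α p5)).Nodup := by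
    intro p1 p3 p5 hn3
    simp only [orb, List.cons_append, List.nil_append, List.nodup_cons, List.mem_cons, List.not_mem_nil, or_false,
      not_or] at hn3
    obtain ⟨d, hd, -, dt, -⟩ := h.mkd hs ht t2 (u := p1) (v := p3) (w := p5) (by simp; tauto)
    obtain ⟨δ, hδ, e⟩ := (h.exD ht t2 s1 s2 (h.cz hd) dt).2
    have h5 := h.conj hδ ha
    have e' : ∀ x, δ ((α * α) x) = (α * α) (δ x) := fun x => congrArg (fun σ : Perm X => σ x) e
    rw [← conj_mul, ← swap_apply_apply, ← swap_apply_apply, e', e'] at h5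
    have h6 := h.eq_or (h.mul h5 ha) ((((comm_T h2 _ _).mul_right (comm_T h2 _ _)).mul_left
      ((comm_T h2 _ _).mul_right (comm_T h2 _ _))).eq ▸ h.mul ha h5)
    have h7 := h.conj hd hα
    generalize hD : swap p1 p5 * swap p1 p3 * (swap ((α * α) p1) ((α * α) p5) * swap ((α * α) p1) ((α * α) p3)) = D at h7
    have d1 : D⁻¹ p1 = p5 := by rw [Perm.inv_eq_iff_eq, ← hD]; simp [swap_apply_of_ne_of_ne, hn3, Ne.symm]
    have d2 : D (α p5) = α p5 := by rw [← hD]; simp [swap_apply_of_ne_of_ne, hn3, Ne.symm]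
    have d3 : D⁻¹ (α p1) = α p1 := by rw [Perm.inv_eq_iff_eq, ← hD]; simp [swap_apply_of_ne_of_ne, hn3, Ne.symm]
    have d4 : D (α (α p1)) = α (α p3) := by rw [← hD]; simp [swap_apply_of_ne_of_ne, hn3, Ne.symm]
    rcases h6 with h6 | h6
    · have := h.hom_comm hα h7 (by
        calc _ = σ * (a * (σ⁻¹ * d * σ * a * (σ⁻¹ * d * σ)⁻¹)) * σ⁻¹ := by group
          _ = _ := by rw [h6]; group)
      have := congrArg (fun σ : Perm X => σ p1) this
      simp only [Perm.mul_apply, d1, d2, d3, d4] at this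
      simp [hn3, eq_comm] at this
    · rw [h.cz (h.mul h5 ha)] at h6
      have := h.fn (h.mul hα h7) (show L _ _ by
        have e : σ * a * σ⁻¹ * (d * (σ * a * σ⁻¹) * d⁻¹) = z * t * (d * (σ * a * σ⁻¹) * d⁻¹ * (σ * a * σ⁻¹)) := by
          calc _ = σ * (a * (σ⁻¹ * d * σ * a * (σ⁻¹ * d * σ)⁻¹)) * σ⁻¹ := by group
            _ = _ := by rw [h6, ← s1]; group
        rw [e]; exact h.mul (h.mul h.zL ht) (h.mul h7 hα))
      have := congrArg (fun σ : Perm X => σ p1) this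
      simp only [Perm.mul_apply, d1, d2, d3, d4, e4, Perm.one_apply] at this
      tauto
  have hp : α (α p) ≠ p := fun e => by simp [e] at hn
  obtain ⟨y, hy, hy'⟩ : ∃ y, α (α y) ≠ y ∧ y ∉ orb α p := by
    by_contra hm
    push Not at hm
    obtain ⟨x, x1, x2⟩ := hx
    have := (List.subperm_of_subset (l₁ := x :: _) (List.nodup_cons.2 ⟨x2, hn⟩) (l₂ := orb α p) fun y hy => hm y (by
      simp only [List.mem_cons, List.not_mem_nil, or_false, List.nodup_cons] at hy hn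
      rcases hy with rfl | rfl | rfl | rfl | rfl <;> simp_all [Ne.symm])).length_le
    simp [orb] at this
  have hn2 := (nodup_orb h4 hp).append (nodup_orb h4 hy) (disj_orb h4 hy')
  have pm : [p, α p, y, (α * α) p, (α * α) (α p), (α * α) y, α y, (α * α) (α y)].Perm (orb α p ++ orb α y) := by
    simp only [orb, List.cons_append, List.nil_append, Perm.mul_apply]
    refine .cons _ (.cons _ ((List.Perm.swap _ _ _).trans (.cons _ ((List.Perm.swap _ _ _).trans
      (.cons _ (.cons _ (List.Perm.swap _ _ _)))))))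
  refine ⟨p, α p, y, α y, pm.nodup_iff.2 hn2, fun x hx => pm.mem_iff.2 ?_⟩
  by_contra hm
  rw [List.mem_append, not_or] at hm
  exact no3 p y x (nodup_orb3 h4 hp hy hx hy' hm.1 hm.2)

theorem small {a b c d : X} (hn : [a, b, c, τ a, τ b, τ c, d, τ d].Nodup)
    (hm : ∀ x, τ x ≠ x → x ∈ [a, b, c, τ a, τ b, τ c, d, τ d]) :
    τ = swap a (τ a) * swap c (τ c) * (swap b (τ b) * swap d (τ d)) ∧ Fintype.card X ≤ 11 := by
  have h2 : τ * τ = 1 := h.fn (h.mul ht ht) (t2 ▸ h.one)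
  have e2 : ∀ x, τ (τ x) = x := fun x => congrArg (fun σ : Perm X => σ x) h2
  have hn' := hn
  simp only [List.nodup_cons, List.mem_cons, List.not_mem_nil, or_false, not_or] at hn'
  have hτ : τ = swap a (τ a) * swap c (τ c) * (swap b (τ b) * swap d (τ d)) := Equiv.ext fun x => by
    by_cases hx : x ∈ [a, b, c, τ a, τ b, τ c, d, τ d]
    · simp only [List.mem_cons, List.not_mem_nil, or_false] at hx
      rcases hx with rfl | rfl | rfl | rfl | rfl | rfl | rfl | rfl <;> simp [swap_apply_of_ne_of_ne, hn', e2, Ne.symm]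
    · rw [not_not.1 (mt (hm x) hx)]
      simp only [List.mem_cons, List.not_mem_nil, or_false, not_or] at hx
      simp [swap_apply_of_ne_of_ne, hx]
  refine ⟨hτ, not_lt.1 fun hc => ?_⟩
  set l := [a, b, c, τ a, τ b, τ c, d, τ d] with hl
  have ex : ∀ m : List X, m.length ≤ 11 → ∃ x, x ∉ m := fun m hm => by
    by_contra k
    push Not at k
    have := (Finset.card_le_card (fun x _ => List.mem_toFinset.2 (k x) : Finset.univ ⊆ m.toFinset)).trans m.toFinset_card_le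
    rw [Finset.card_univ] at this
    omega
  obtain ⟨r1, k1⟩ := ex l (by simp [hl])
  obtain ⟨r2, k2⟩ := ex (r1 :: l) (by simp [hl])
  obtain ⟨r3, k3⟩ := ex (r2 :: r1 :: l) (by simp [hl])
  obtain ⟨r4, k4⟩ := ex (r3 :: r2 :: r1 :: l) (by simp [hl])
  simp only [List.mem_cons (l := _ :: _ :: l), List.mem_cons (l := _ :: l), List.mem_cons (l := l), not_or] at k2 k3 k4
  have hr : [r1, r2, r3, r4].Nodup := by simp [k2.1, k3.1, k3.2.1, k4.1, k4.2.1, k4.2.2.1, Ne.symm]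
  obtain ⟨r, hb⟩ := exDT hs hr
  have rt := h.commDT hs hr hb ht (not_not.1 (mt (hm _) k1)) (not_not.1 (mt (hm _) k2.2)) (not_not.1 (mt (hm _) k3.2.2))
    (not_not.1 (mt (hm _) k4.2.2.2))
  have rf : ∀ x ∈ l, (swap r1 r2 * swap r3 r4) x = x := fun x hx => by
    rw [Perm.mul_apply, swap_apply_of_ne_of_ne (a := r3), swap_apply_of_ne_of_ne] <;> rintro rfl <;> tauto
  obtain ⟨β, hβ⟩ := (h.exD ht t2 s1 s2 (h.cz hb) rt.symm).1
  have hβ2 := h.root ht t2 s1 s2 (h.dt hr hb) hβ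
  have h4 : β ^ 4 = 1 := by rw [← h2, ← hβ2]; simp [pow_succ, mul_assoc]
  have bb : ∀ x, β (β x) = τ x := fun x => congrArg (fun σ : Perm X => σ x) hβ2
  let K : Subgroup G :=
    { carrier := {g | ∃ η, L (σ * g * σ⁻¹) η ∧ η a = a}
      one_mem' := ⟨1, by simpa using h.one, rfl⟩
      mul_mem' := fun ⟨η, h1, h2⟩ ⟨η', h3, h4⟩ => ⟨_, by rw [← conj_mul]; exact h.mul h1 h3, by rw [Perm.mul_apply, h4, h2]⟩
      inv_mem' := fun ⟨η, h1, h2⟩ => ⟨_, by rw [← conj_inv]; exact h.inv h1, by rw [Perm.inv_eq_iff_eq, h2]⟩ }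
  have hK : ∀ {u v w}, u ∈ l → v ∈ l → w ∈ l → [u, v, w, τ u, τ v, τ w].Nodup →
      ∃ y ∈ K, L y (swap u w * swap u v * (swap (τ u) (τ w) * swap (τ u) (τ v))) := fun hu hv hw hn => by
    obtain ⟨y, hy, y3, yt, yr⟩ := h.mkd hs ht t2 hn
    obtain ⟨η, hη⟩ := (h.exD ht t2 s1 s2 (h.cz hy) yt).1
    refine ⟨y, ⟨η, hη, ?_⟩, hy⟩
    have c : Commute β η :=
      h.hom_comm hβ hη (by rw [conj_mul, conj_mul, (yr r _ hb (rf _ hu) (rf _ hv) (rf _ hw) rt.symm).eq])
    have h3 : η ^ 3 = 1 := h.fn (h.pow hη 3) (by rw [conj_pow, y3]; simpa using h.one)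
    have e3 : η (η (η a)) = a := congrArg (fun σ : Perm X => σ a) h3
    have cn : ∀ (n : ℕ) x, (β ^ n) (η x) = η ((β ^ n) x) := fun n x => congrArg (fun σ : Perm X => σ x) (c.pow_left n).eq
    have mv : ∀ x, β (β x) ≠ x → β (β (η x)) ≠ η x := fun x hx e => hx (η.injective ((cn 2 x).symm.trans e))
    have ma : β (β a) ≠ a := by rw [bb]; exact Ne.symm hn'.1.2.2.1
    obtain ⟨n, e⟩ : ∃ n : ℕ, (β ^ n) a = η a := by
      by_contra k
      have := (List.subperm_of_subset (l₂ := l) (nodup_orb3 h4 ma (mv _ ma) (mv _ (mv _ ma)) (mt (mem_orb h4).1 k)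
        (fun m => (mem_orb h4).1 m |>.elim fun n e => k ⟨3 * n, ?_⟩)
        (fun m => (mem_orb h4).1 m |>.elim fun n e => k ⟨n, η.injective ((cn n a).symm.trans e)⟩)) fun x hx => hm x ?_).length_le
      · simp [orb, hl] at this
      · have := congrArg η e
        rw [e3, ← cn] at this
        conv_lhs => rw [← this, ← Perm.mul_apply, ← pow_add, show 3 * n + n = 4 * n by ring, pow_mul, h4, one_pow]
        rfl
      · have : ∀ y, β (β y) ≠ y → ∀ x ∈ orb β y, τ x ≠ x := fun y hy x hx => by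
          obtain ⟨n, rfl⟩ := (mem_orb h4).1 hx
          rw [← bb]
          exact fun e => hy ((β ^ n).injective
            ((congrArg (fun σ : Perm X => σ y) ((Commute.refl β).pow_pow n 2).eq).trans e))
        simp only [List.mem_append] at hx
        exact hx.elim (this _ ma _) fun hx => hx.elim (this _ (mv _ ma) _) (this _ (mv _ (mv _ ma)) _)
    have := e3
    rw [← e, ← cn, ← e, ← cn, ← cn, ← e] at this
    rw [← e]
    conv_lhs => rw [← this]
    simp only [← Perm.mul_apply, ← pow_add]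
    rw [show n + (n + (n + n)) = 4 * n by ring, pow_mul, h4, one_pow]; rfl
  have hT : ∀ {u v w}, u ∈ l → v ∈ l → w ∈ l → τ w ∈ l → [u, v, w, τ u, τ v, τ w].Nodup →
      ∃ y ∈ K, L y (swap u (τ u) * swap w (τ w)) := fun hu hv hw hw' hn => by
    obtain ⟨y, k1, h1⟩ := hK hu hv hw hn
    obtain ⟨y', k2, h2⟩ := hK hu hv hw' (by rw [e2]; simp at hn ⊢; tauto)
    rw [e2] at h2
    exact ⟨_, mul_mem k1 (inv_mem k2), (id6 hn).1 ▸ h.mul h1 (h.inv h2)⟩
  obtain ⟨y, k1, h1⟩ := hT (u := a) (v := b) (w := c) (by simp [hl]) (by simp [hl]) (by simp [hl]) (by simp [hl])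
    (by simp [hn'])
  obtain ⟨y', k2, h2⟩ := hT (u := b) (v := a) (w := d) (by simp [hl]) (by simp [hl]) (by simp [hl]) (by simp [hl])
    (by simp [hn', Ne.symm])
  have zK : z ∈ K := h.dt (by simp [hn', Ne.symm]) h1 ▸ mul_mem k1 k1
  obtain ⟨η, h3, h4⟩ : t ∈ K := by
    rcases h.eq_or (h.mul h1 h2) (hτ ▸ ht) with e | e <;> rw [e]
    exacts [mul_mem k1 k2, mul_mem (mul_mem k1 k2) zK]
  rw [s2] at h3
  exact hn'.1.2.2.1 (h.fn h3 ht ▸ h4).symm

end

theorem fused [Finite G] {g : G} (hg : g * z * g⁻¹ * z = z * (g * z * g⁻¹)) (hne : g * z * g⁻¹ ≠ z) :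
    ∃ σ, σ * z * σ⁻¹ = z * (g * z * g⁻¹) ∧ σ * (g * z * g⁻¹) * σ⁻¹ = g * z * g⁻¹ := by
  obtain ⟨s, h1, h2⟩ := h.exists_s0 hs (t := g⁻¹ * z * g) (by
      calc _ = g⁻¹ * (z * (g * z * g⁻¹)) * g := by group
        _ = _ := by rw [← hg]; group) (by
      calc _ = g⁻¹ * (z * z) * g := by group
        _ = _ := by rw [h.zz]; group) (fun e => h.z1 (by
      calc _ = g * (g⁻¹ * z * g) * g⁻¹ := by group
        _ = _ := by rw [e]; group)) fun e => hne (by
      calc _ = g * (g⁻¹ * z * g) * g⁻¹ := by rw [e]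
        _ = _ := by group)
  refine ⟨g * s * g⁻¹, ?_, by rw [conj_inv, conj_mul, conj_mul, h1]⟩
  calc _ = g * (s * (g⁻¹ * z * g) * s⁻¹) * g⁻¹ := by group
    _ = _ := by rw [h2]; group

theorem exists_fused [Finite G] [IsSimpleGroup G] (h4 : 4 ≤ Fintype.card X) :
    ∃ g, g * z * g⁻¹ * z = z * (g * z * g⁻¹) ∧ g * z * g⁻¹ ≠ z := by
  by_contra hn
  push Not at hn
  have o2 : orderOf z = 2 := orderOf_eq_prime (by rw [sq, h.zz]) h.z1
  have h1 := Cx_sup_oddCore o2 fun g hg => hn g hg.symm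
  have h2 : oddCore G = ⊥ := (IsSimpleGroup.eq_bot_or_eq_top_of_normal (oddCore G) inferInstance).resolve_right fun e => by
    have := (CfH7.coprime_card_pPrimeCore 2 G).coprime_dvd_left (orderOf_dvd_natCard (⟨z, (show oddCore G = ⊤ from e) ▸ mem_top z⟩ : oddCore G))
    rw [← orderOf_coe, o2] at this
    simp at this
  rw [h2, sup_bot_eq] at h1
  have h3 : center G = ⊤ := (IsSimpleGroup.eq_bot_or_eq_top_of_normal _ inferInstance).resolve_left fun e =>
    h.z1 (mem_bot.1 (e ▸ mem_center_iff.2 fun g => mem_Cx.1 (h1 ▸ mem_top g)))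
  obtain ⟨f⟩ := Function.Embedding.nonempty_of_card_le (α := Fin 4) (β := X) (by simpa using h4)
  have hn : [f 0, f 1, f 2, f 3].Nodup := by simp
  have hn' : [f 0, f 2, f 1, f 3].Nodup := by simp
  obtain ⟨a, ha⟩ := exDT hs hn
  obtain ⟨b, hb⟩ := exDT hs hn'
  have h5 := h.dt (by simp) (id4 hn ▸ h.mul ha hb)
  rw [mul_assoc, ← mul_assoc b, mem_center_iff.1 (h3 ▸ mem_top a) b, mul_assoc, ← mul_assoc, h.dt hn ha, h.dt hn' hb,
    h.zz] at h5
  exact h.z1 h5.symm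

end Cov
end CfH4.An
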