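import Cfsg.Agent.H4.TCm
/-! Presentations for an amalgam of McLaughlin type. -/
set_option autoImplicit false
set_option maxRecDepth 100000
open CfL
namespace CfH4
def anil : List ℕ := [0, 2, 1, 4, 3, 6, 5, 8, 7, 10, 9, 12, 11, 14, 13]
def anP6 : List (List ℕ) := [[1, 1, 1], [3, 3, 3], [5, 5, 5], [7, 7, 7], [9, 9, 9], [11, 11, 11], [1, 3, 1, 3, 1, 3, 1, 3], [5, 1, 5, 4, 2, 4], [7, 1, 7, 4, 2, 4], [9, 1, 9, 4, 2, 4], [11, 1, 11, 4, 2, 4], [3, 5, 3, 5, 4, 2, 4, 2], [3, 7, 3, 7, 4, 2, 4, 2], [3, 9, 3, 9, 4, 2, 4, 2], [3, 11, 3, 11, 4, 2, 4, 2], [5, 7, 5, 7, 4, 2, 4, 2], [5, 9, 5, 9, 4, 2, 4, 2], [5, 11, 5, 11, 4, 2, 4, 2], [7, 9, 7, 9, 4, 2, 4, 2], [7, 11, 7, 11, 4, 2, 4, 2], [9, 11, 9, 11, 4, 2, 4, 2], [6, 4, 2, 4, 2, 5, 1, 3, 1, 3], [8, 4, 2, 4, 2, 7, 1, 3, 1, 3], [10, 4,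 2, 4, 2, 9, 1, 3, 1, 3], [12, 4, 2, 4, 2, 11, 1, 3, 1, 3]]
def anP7 : List (List ℕ) := [[13, 13, 13], [13, 1, 13, 4, 2, 4], [3, 13, 3, 13, 4, 2, 4, 2], [5, 13, 5, 13, 4, 2, 4, 2], [7, 13, 7, 13, 4, 2, 4, 2], [9, 13, 9, 13, 4, 2, 4, 2], [11, 13, 11, 13, 4, 2, 4, 2], [14, 4, 2, 4, 2, 13, 1, 3, 1, 3]]
def anD : List (List ℕ × List ℕ) := [([1, 7, 4, 10], [3, 9, 12, 6]), ([1, 7, 6, 12], [3, 9, 8, 2]), ([1, 7, 10, 4], [11, 5, 8, 2]), ([3, 9, 6, 12], [3, 9, 6, 12]), ([3, 9, 8, 2], [1, 7, 6, 12]), ([3, 9, 12, 6], [1, 7, 4, 10]), ([5, 11, 2, 8], [9, 3, 12, 6]), ([5, 11, 4, 10], [7, 1, 12, 6]), ([5, 11, 10, 4], [9, 3, 8, 2]), ([7, 1, 4, 10], [7, 1, 4, 10]), ([7, 1, 6, 12], [7, 1, 6, 12]), ([7, 1, 12, 6], [5, 11, 4, 10]), ([9, 3, 2, 8], [9, 3, 2, 8]), ([9, 3, 8, 2], [5, 11, 10, 4]),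 ([9, 3, 12, 6], [5, 11, 2, 8]), ([11, 5, 2, 8], [11, 5, 2, 8]), ([11, 5, 8, 2], [1, 7, 10, 4]), ([11, 5, 10, 4], [11, 5, 10, 4]), ([1, 8, 1], [5, 11, 2, 3, 8, 9, 2])]
def anPw (w : List ℕ) : ℕ → List ℕ | 0 => [] | n + 1 => 0 :: (w ++ anPw w n)
def anB : List (List ℕ) := anP6 ++ (anD.map (fun p => 0 :: (p.1 ++ 0 :: p.2)) ++ [anPw [3, 9] 3])
def anCm (x y : List ℕ) : List ℕ := CfH6.invw anil x ++ (CfH6.invw anil y ++ (x ++ y))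
def anX1 : List ℕ := [1, 3, 5, 4, 2]
def anX2 : List ℕ := [7, 9, 11, 10, 8]
def anYP : List ℕ := [1, 7, 5, 9, 3, 11, 1, 7]
def anU (w : List ℕ) : List ℕ := 0 :: 2 :: 8 :: (w ++ [7, 1, 0])
universe u
def AC (nc : ℕ) (rs : List (List ℕ)) : Prop := ∀ {G : Type u} [Group G] (ev : ℕ → G) (H : Subgroup G),
  (∀ x < nc, ev (anil.getD x 0) = (ev x)⁻¹) → (∀ r ∈ anB ++ rs, CfH6.evw ev r = 1) →
  (∀ s ∈ (List.range (nc / 2)).map fun i => [2 * i + 1], CfH6.evw ev s ∈ H) → CfH6.Covers H (CfH6.gensub ev nc) 1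
end CfH4
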