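import Cfsg.Agent.H4.An2
import Cfsg.Agent.H4.AnD

/-! Double covers of alternating groups: ten points, searches and normal forms. -/

set_option autoImplicit false
open Cfsg CfH9 CfH6 CfL Subgroup Equiv Equiv.Perm

namespace CfH4.An
variable {G : Type*} [Group G] {X : Type*} [Fintype X] [DecidableEq X]

def Big (z : G) (L : G → Perm X → Prop) : Prop :=
  ∀ g τ, L (g * z * g⁻¹) τ → g * z * g⁻¹ ≠ z → ∃ l : List X, l.Nodup ∧ l.length = 8 ∧ ∀ x ∈ l, τ x ≠ x

theorem Cov.map {Y : Type*} [Fintype Y] [DecidableEq Y] {z : G} {L : G → Perm X → Prop} (h : Cov z L) (ι : X ↪ Y) :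
    Cov z fun g σ' => ∃ σ, L g σ ∧ viaEmbeddingHom ι σ = σ' where
  z1 := h.z1
  zz := h.zz
  zL := ⟨1, h.zL, map_one _⟩
  mul := by rintro g k _ _ ⟨σ, h1, rfl⟩ ⟨τ, h2, rfl⟩; exact ⟨_, h.mul h1 h2, map_mul _ _ _⟩
  inv := by rintro g _ ⟨σ, h1, rfl⟩; exact ⟨_, h.inv h1, map_inv _ _⟩
  ker := by rintro g ⟨σ, h1, e⟩; exact h.ker ((map_eq_one_iff _ (viaEmbeddingHom_injective ι)).1 e ▸ h1)
  fn := by rintro g _ _ ⟨σ, h1, rfl⟩ ⟨τ, h2, rfl⟩; rw [h.fn h1 h2]
  cz := by rintro g _ ⟨σ, h1, rfl⟩; exact h.cz h1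
  sgn := by
    classical
    rintro g _ ⟨σ, h1, rfl⟩; rw [← h.sgn h1]
    exact @sign_extendDomain _ _ _ _ _ _ σ _ (fun _ => Classical.propDecidable _) (ofInjective ι.1 ι.2)
  ex := fun g hg => (h.ex g hg).elim fun σ h1 => ⟨_, σ, h1, rfl⟩
  dt := by
    rintro g a b c d hn ⟨σ, h1, e⟩
    have k : ∀ x ∈ [a, b, c, d], x ∈ Set.range ι := fun x hx => by
      by_contra k
      have := viaEmbedding_apply_of_notMem σ ι x k
      rw [← viaEmbeddingHom_apply, e] at this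
      simp only [List.nodup_cons, List.mem_cons, List.not_mem_nil, or_false, not_or] at hn hx
      rcases hx with rfl | rfl | rfl | rfl <;> simp [swap_apply_of_ne_of_ne, hn, Ne.symm] at this
    obtain ⟨a, rfl⟩ := k a (by simp)
    obtain ⟨b, rfl⟩ := k b (by simp)
    obtain ⟨c, rfl⟩ := k c (by simp)
    obtain ⟨d, rfl⟩ := k d (by simp)
    rw [← via_swap, ← via_swap, ← map_mul] at e
    exact h.dt (by simpa using hn) (viaEmbeddingHom_injective ι e ▸ h1)

theorem Cov.iso3 {z : G} {L : G → Perm X → Prop} (h : Cov z L) (hb : Big z L) (hc : Fintype.card X ≤ 10) {x g : G}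
    {u v w : X} (hn : [u, v, w].Nodup) (hx : L x (swap u w * swap u v)) (h1 : g * z * g⁻¹ * z = z * (g * z * g⁻¹))
    (h2 : g * z * g⁻¹ * x = x * (g * z * g⁻¹)) : g * z * g⁻¹ = z := by
  by_contra hne
  obtain ⟨τ, ht⟩ := h.ex _ h1
  obtain ⟨l, l1, l2, l3⟩ := hb g τ ht hne
  have e : ∀ y, τ ((swap u w * swap u v) y) = (swap u w * swap u v) (τ y) := fun y =>
    congrArg (fun σ : Perm X => σ y) (h.hom_comm ht hx h2)
  have e2 : ∀ y, τ (τ y) = y := fun y => congrArg (fun σ : Perm X => σ y)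
    (h.fn (τ := 1) (h.mul ht ht) (by rw [conj_mul, h.zz]; simpa using h.one))
  have hn' := hn
  simp only [List.nodup_cons, List.mem_cons, List.not_mem_nil, or_false, not_or] at hn'
  have eu := e u
  have ev := e v
  have tu : τ u = u := by
    by_contra k
    by_cases k1 : τ u = v
    · have : τ v = w := by simpa [k1, swap_apply_of_ne_of_ne, hn', Ne.symm] using eu
      exact hn'.1.2 (by rw [← this, ← k1, e2])
    by_cases k2 : τ u = w
    · have : τ v = u := by simpa [k2, swap_apply_of_ne_of_ne, hn', Ne.symm] using eu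
      exact k1 (by rw [← this, e2])
    simp [swap_apply_of_ne_of_ne, hn', Ne.symm, k, k1, k2] at eu
  have tv : τ v = v := by simpa [tu, swap_apply_of_ne_of_ne, hn', Ne.symm] using eu
  have tw : τ w = w := by simpa [tv, swap_apply_of_ne_of_ne, hn', Ne.symm] using ev
  have := (hn.append l1 fun y hy hy' => l3 y hy' (by
    simp only [List.mem_cons, List.not_mem_nil, or_false] at hy
    rcases hy with rfl | rfl | rfl <;> assumption)).length_le_card
  simp at this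
  omega

structure S10 (z t σ : G) (L : G → Perm (Fin 10) → Prop) : Prop where
  cov : Cov z L
  big : Big z L
  lift : ∀ i : Fin 10, i ≠ 6 → i ≠ 7 → i ≠ 9 → ∃ x, L x (swap 6 i * swap 6 7)
  ht : L t (swap 0 3 * swap 2 5 * (swap 1 4 * swap 6 7))
  t2 : t * t = 1
  s1 : σ * z * σ⁻¹ = z * t
  s2 : σ * t * σ⁻¹ = t

theorem reduce [Finite G] [IsSimpleGroup G] {z : G} {L : G → Perm X → Prop} (h : Cov z L)
    (hs : ∀ σ, sign σ = 1 → ∃ g, L g σ) (h4 : 4 ≤ Fintype.card X) :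
    Fintype.card X = 8 ∨ Fintype.card X = 11 ∨ ∃ t σ L', S10 z t σ L' := by
  have key : ∀ g τ, L (g * z * g⁻¹) τ → g * z * g⁻¹ ≠ z → ∃ σ a b c d, σ * z * σ⁻¹ = z * (g * z * g⁻¹) ∧
      σ * (g * z * g⁻¹) * σ⁻¹ = g * z * g⁻¹ ∧ [a, b, c, τ a, τ b, τ c, d, τ d].Nodup ∧
      τ = swap a (τ a) * swap c (τ c) * (swap b (τ b) * swap d (τ d)) ∧ Fintype.card X ≤ 11 := fun g τ ht hne => by
    obtain ⟨σ, s1, s2⟩ := h.fused hs (h.cz ht) hne
    have t2 : g * z * g⁻¹ * (g * z * g⁻¹) = 1 := by rw [conj_mul, h.zz]; group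
    obtain ⟨a, b, c, d, hn, hm⟩ := h.eight hs ht t2 s1 s2 (fun e => h.z1 (by simpa using e)) hne
    exact ⟨σ, a, b, c, d, s1, s2, hn, h.small hs ht t2 s1 s2 hn hm⟩
  obtain ⟨g, hg, hne⟩ := h.exists_fused hs h4
  obtain ⟨τ, ht⟩ := h.ex _ hg
  obtain ⟨σ, a, b, c, d, s1, s2, hn, hτ, h11⟩ := key g τ ht hne
  have h8 := hn.length_le_card
  simp only [List.length_cons, List.length_nil] at h8
  by_cases e8 : Fintype.card X = 8
  · exact Or.inl e8
  by_cases e11 : Fintype.card X = 11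
  · exact Or.inr (Or.inl e11)
  obtain ⟨r, hr⟩ : ∃ r, r ∉ [a, b, c, τ a, τ b, τ c, d, τ d] := by
    by_contra k
    push Not at k
    have := (Finset.card_le_card (fun x _ => List.mem_toFinset.2 (k x) : Finset.univ ⊆ _)).trans (List.toFinset_card_le _)
    simp only [Finset.card_univ, List.length_cons, List.length_nil] at this
    omega
  have hn9 : [a, b, c, τ a, τ b, τ c, d, τ d, r].Nodup := hn.append (List.nodup_singleton r) (by simpa using hr)
  obtain ⟨ι0⟩ := Function.Embedding.nonempty_of_card_le (α := X) (β := Fin 10) (by simp; omega)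
  obtain ⟨ρ, hρ⟩ := exists_extending_pair (f := ι0 ∘ emb _ hn9) (g := Fin.castLE (m := 10) (by simp))
    (ι0.injective.comp (emb _ hn9).injective) (Fin.castLE_injective _)
  let ι := ι0.trans ρ.toEmbedding
  have hι : ∀ i, ι (emb _ hn9 i) = Fin.castLE (by simp) i := hρ
  refine Or.inr (Or.inr ⟨_, σ, _, h.map ι, ?_, fun i h6 h7 h9 => ?_, ⟨τ, ht, ?_⟩, by rw [conj_mul, h.zz]; group, s1, s2⟩)
  · rintro g _ ⟨τ, ht, rfl⟩ hne
    obtain ⟨-, a, b, c, d, -, -, hn, hτ, -⟩ := key g τ ht hne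
    refine ⟨_, hn.map ι.injective, rfl, fun x hx => ?_⟩
    obtain ⟨y, hy, rfl⟩ : ∃ y ∈ [a, b, c, τ a, τ b, τ c, d, τ d], ι y = x := List.mem_map.1 hx
    clear hx
    rw [viaEmbeddingHom_apply, viaEmbedding_apply, ι.injective.ne_iff, hτ]
    simp only [List.nodup_cons, List.mem_cons, List.not_mem_nil, or_false, not_or] at hn hy
    generalize τ a = a', τ b = b', τ c = c', τ d = d' at hn hy
    rcases hy with rfl | rfl | rfl | rfl | rfl | rfl | rfl | rfl <;> simp [swap_apply_of_ne_of_ne, hn, Ne.symm]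
  · obtain ⟨j, rfl⟩ : ∃ j : Fin 9, Fin.castLE (by simp) j = i := ⟨⟨i, by omega⟩, rfl⟩
    obtain ⟨x, hx⟩ := hs (swap (emb _ hn9 (6 : Fin 9)) (emb _ hn9 j) * swap (emb _ hn9 (6 : Fin 9)) (emb _ hn9 (7 : Fin 9))) (by
      rw [map_mul, sign_swap, sign_swap]
      · simp
      · exact (emb _ hn9).injective.ne (by decide : (6 : Fin 9) ≠ 7)
      · exact (emb _ hn9).injective.ne fun e : (6 : Fin 9) = j => h6 (by rw [← e]; rfl))
    exact ⟨x, _, hx, by rw [map_mul, via_swap, via_swap, hι, hι, hι]; rfl⟩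
  · rw [hτ]
    simp only [map_mul, via_swap]
    exact congrArg₂ _ (congrArg₂ _ (congrArg₂ _ (hι (0 : Fin 9)) (hι (3 : Fin 9))) (congrArg₂ _ (hι (2 : Fin 9)) (hι (5 : Fin 9))))
      (congrArg₂ _ (congrArg₂ _ (hι (1 : Fin 9)) (hι (4 : Fin 9))) (congrArg₂ _ (hι (6 : Fin 9)) (hι (7 : Fin 9))))

end CfH4.An
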