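import Cfsg.Agent.H4.An3
import Cfsg.Agent.OD.Helper4x52b5d044c4

/-! Double covers of alternating groups: searches and normal forms. -/

set_option autoImplicit false
open Cfsg CfH9 CfH6 CfL Subgroup Equiv Equiv.Perm

namespace CfH4.An
variable {G : Type*} [Group G]

def pf (σ : Perm (Fin 10)) (i : ℕ) : ℕ := σ (Fin.ofNat 10 i)
def pl (σ : Perm (Fin 10)) : List ℕ := (List.range 10).map (pf σ)
def cp (l m : List ℕ) : List ℕ := m.map fun i => l.getD i 0
def idl : List ℕ := [0, 1, 2, 3, 4, 5, 6, 7, 8, 9]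

theorem pf_mul (σ τ : Perm (Fin 10)) (i : ℕ) : pf (σ * τ) i = pf σ (pf τ i) := by simp [pf]

theorem getD_pf (σ : Perm (Fin 10)) {k i : ℕ} (h : i < k) : ((List.range k).map (pf σ)).getD i 0 = pf σ i := by
  simp [h]

theorem pf_lt (σ : Perm (Fin 10)) (i : ℕ) : pf σ i < 10 := Fin.is_lt _

theorem pl_mul (σ τ : Perm (Fin 10)) : pl (σ * τ) = cp (pl σ) (pl τ) := by
  rw [cp, pl, pl, pl, List.map_map]
  exact List.map_congr_left fun i _ => (pf_mul σ τ i).trans (getD_pf σ (pf_lt τ i)).symm

theorem pl_inj {σ τ : Perm (Fin 10)} (h : pl σ = pl τ) : σ = τ := Equiv.ext fun i => Fin.ext (by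
  have := (getD_pf σ i.2).symm.trans ((congrArg (·.getD i 0) h).trans (getD_pf τ i.2))
  simpa [pf] using this)

noncomputable def okP (ps : List (List ℕ)) (k : ℕ) (l : List ℕ) : Bool :=
  ps.all fun p => (List.range (k + 1)).all fun i =>
    frc (p.getD i 0) fun j => cond (Nat.blt k j) true (Nat.beq (l.getD j 0) (p.getD (l.getD i 0) 0))

noncomputable def srch (ps : List (List ℕ)) (Q : List ℕ → Bool) (n : ℕ) : ℕ → List ℕ → Bool :=
  Nat.rec (fun _ l => Q l) (fun _ ih k l => idl.all fun v =>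
    cond (l.any (Nat.beq v)) true (cond (okP ps k (l ++ [v])) (ih (k + 1) (l ++ [v])) true)) n

theorem srch_sound {ps : List (List ℕ)} {Q : List ℕ → Bool} (h : srch ps Q 10 0 [] = true) (σ : Perm (Fin 10))
    (hp : ∀ p ∈ ps, ∃ τ, pl τ = p ∧ σ * τ = τ * σ) : Q (pl σ) = true := by
  have : ∀ n k, n + k = 10 → srch ps Q n k ((List.range k).map (pf σ)) = true → Q (pl σ) = true := by
    intro n
    induction n with
    | zero => intro k e h; obtain rfl : k = 10 := by omega
              exact h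
    | succ n ih =>
      intro k e h
      have h1 := List.all_eq_true.1 h (pf σ k) (by have := pf_lt σ k; revert this; generalize pf σ k = x; revert x; decide)
      have h2 : (List.range k).map (pf σ) ++ [pf σ k] = (List.range (k + 1)).map (pf σ) := by simp [List.range_succ]
      have h3 : ((List.range k).map (pf σ)).any (Nat.beq (pf σ k)) = false := by
        rw [List.any_eq_false]
        intro x hx
        obtain ⟨i, hi, rfl⟩ := List.mem_map.1 hx
        rw [List.mem_range] at hi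
        intro e'
        have := congrArg Fin.val (σ.injective (Fin.ext (Nat.eq_of_beq_eq_true e')))
        simp only [Fin.val_ofNat] at this
        omega
      have h4 : okP ps k ((List.range (k + 1)).map (pf σ)) = true := List.all_eq_true.2 fun p hp' =>
        List.all_eq_true.2 fun i hi => by
          obtain ⟨τ, rfl, e'⟩ := hp p hp'
          rw [List.mem_range] at hi
          rw [frc_eq, getD_pf σ hi, pl, getD_pf τ (by omega), getD_pf τ (pf_lt σ i), ← pf_mul, ← e', pf_mul]
          cases hb : Nat.blt k (pf τ i)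
          · rw [getD_pf σ (by have : ¬ k < pf τ i := fun h => by simp [blt2 h] at hb
                              omega)]
            exact Nat.beq_refl _
          · rfl
      rw [h3, h2, h4] at h1
      exact ih (k + 1) (by omega) h1
  exact this 10 0 rfl h

structure Carm (z : G) (a : ℕ → G) : Prop where
  zz : z * z = 1
  cz : ∀ i < 7, a i * z = z * a i
  c3 : ∀ i < 7, a i ^ 3 = 1
  c2 : ∀ i < 7, ∀ j < 7, i ≠ j → a i * a j * (a i * a j) = z

noncomputable def ng {α : Type} (e : Bool) (K : Bool → α) : α := Bool.rec (K true) (K false) e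

noncomputable def step {α : Type} (k : ℕ) (ih : Bool → List ℕ → ℕ → (Bool → List ℕ → α) → α) (e : Bool) (m : ℕ)
    (K : Bool → List ℕ → α) (c : ℕ) (cs : List ℕ) : α :=
  cond (Nat.beq m k)
    (cond (Nat.beq c 1) (K e (2 :: cs)) (cond (Nat.beq c 2) (K e (0 :: cs)) (cond (Nat.ble 3 c && Nat.blt c (k + 3))
      (frc (c - 3) fun j => ih e cs j fun e cs => ih e cs j fun e cs => K e (c :: cs)) (K e (1 :: cs)))))
    (cond (Nat.beq c 1) (ng e fun e => ih e cs m fun e cs => ih e cs m fun e cs => K e (2 :: cs))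
      (cond (Nat.beq c 2) (frc (m + 3) fun c => K e (c :: cs)) (cond (Nat.ble 3 c && Nat.blt c (k + 3))
        (frc (c - 3) fun j => ng e fun e => cond (Nat.beq j m) (ih e cs m fun e cs => K e (1 :: cs))
          (ih e cs m fun e cs => ih e cs j fun e cs => ih e cs j fun e cs => K e (c :: cs)))
        (ih e cs m fun e cs => K e (0 :: cs)))))

noncomputable def mulg {α : Type} (k : ℕ) : Bool → List ℕ → ℕ → (Bool → List ℕ → α) → α :=
  Nat.rec (fun e cs _ K => K e cs) (fun k ih e cs m K =>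
    List.rec (step k ih e m K 0 []) (fun c cs _ => step k ih e m K c cs) cs) k

noncomputable def nfK {α : Type} (K : Bool → List ℕ → α) (w : List ℕ) : Bool → List ℕ → α :=
  List.rec K (fun x _ ih e cs => frc x fun x => frc ((x - 1) / 2) fun i =>
    cond (Nat.beq (x % 2) 1) (mulg 7 e cs i ih) (mulg 7 e cs i fun e cs => mulg 7 e cs i ih)) w

noncomputable def triv (w : List ℕ) : Bool :=
  (w.all fun x => Nat.blt 0 x && Nat.blt x 15) && nfK (fun e cs => !e && cs.all (Nat.beq 0)) w false [0, 0, 0, 0, 0, 0, 0]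

def rep (a : ℕ → G) (k c : ℕ) : G :=
  if c = 1 then a k else if c = 2 then (a k)⁻¹ else if 3 ≤ c ∧ c < k + 3 then (a k)⁻¹ * a (c - 3) else 1

def val (z : G) (a : ℕ → G) : ℕ → Bool → List ℕ → G
  | 0, e, _ => cond e z 1
  | k + 1, e, cs => val z a k e cs.tail * rep a k (cs.headD 0)

def ev (s : G) (a : ℕ → G) (x : ℕ) : G := if x = 0 then s else if x % 2 = 1 then a ((x - 1) / 2) else (a ((x - 1) / 2))⁻¹

theorem ev_inv {s : G} (a : ℕ → G) (h : s * s = 1) : ∀ x < 15, ev s a (anil.getD x 0) = (ev s a x)⁻¹ := by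
  intro x hx
  interval_cases x <;> simp [ev, anil, inv_eq_of_mul_eq_one_right h]

theorem val_zero (z : G) (a : ℕ → G) (k : ℕ) : ∀ cs : List ℕ, cs.all (Nat.beq 0) = true → val z a k false cs = 1 := by
  induction k with
  | zero => intro _ _; rfl
  | succ k ih =>
    intro cs h
    cases cs with
    | nil => simp [val, rep, ih [] rfl]
    | cons c cs =>
      rw [List.all_cons, Bool.and_eq_true] at h
      obtain rfl := Nat.eq_of_beq_eq_true h.1
      simp [val, rep, ih cs h.2]

namespace Carm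
variable {z : G} {a : ℕ → G} (h : Carm z a)
include h

theorem sq {i : ℕ} (hi : i < 7) : a i * a i = (a i)⁻¹ := eq_inv_of_mul_eq_one_left (by rw [← h.c3 i hi, pow_three'])

theorem sw {i j : ℕ} (hi : i < 7) (hj : j < 7) (e : i ≠ j) : z * (a i * a j) = (a j)⁻¹ * (a i)⁻¹ := by
  rw [← mul_inv_rev, eq_inv_iff_mul_eq_one, mul_assoc, h.c2 i hi j hj e, h.zz]

theorem r1 {i j : ℕ} (hi : i < 7) (hj : j < 7) (e : i ≠ j) : a j * (a j * ((a i)⁻¹ * a j)) = (a i)⁻¹ * (a j * a i) := by
  have : (a i)⁻¹ * (a i)⁻¹ = a i := by rw [← mul_inv_rev, h.sq hi, inv_inv]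
  calc _ = (a j)⁻¹ * (a i)⁻¹ * a j := by rw [← h.sq hj]; group
    _ = z * ((a i)⁻¹ * (a i)⁻¹) * (a j * a j) := by rw [← h.sw hi hj e, this]; group
    _ = z * (a i)⁻¹ * (z * (a j * a i)) := by rw [h.sq hj, h.sw hj hi e.symm]; group
    _ = (a i)⁻¹ * (z * z) * (a j * a i) := by rw [(show Commute z (a i) from (h.cz i hi).symm).inv_right]; group
    _ = _ := by rw [h.zz, mul_one]

theorem val_not (k : ℕ) (hk : k ≤ 7) : ∀ e cs, val z a k (!e) cs = val z a k e cs * z := by
  induction k with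
  | zero => intro e cs; cases e <;> simp [val, h.zz]
  | succ k ih =>
    intro e cs
    have : ∀ c, z * rep a k c = rep a k c * z := fun c => by
      have c1 : Commute z (a k) := (h.cz k hk).symm
      unfold rep
      split_ifs with h1 h2 h3
      exacts [c1, c1.inv_right, c1.inv_right.mul_right (h.cz _ (by omega)).symm, by simp]
    rw [val, val, ih (by omega), mul_assoc, this, mul_assoc]

theorem mulg_ok {α : Type} (k : ℕ) (hk : k ≤ 7) : ∀ e cs m (K : Bool → List ℕ → α), m < k →
    ∃ e' cs', mulg k e cs m K = K e' cs' ∧ val z a k e' cs' = val z a k e cs * a m := by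
  induction k with
  | zero => intro _ _ _ _ h; omega
  | succ k ih =>
    replace ih := ih (by omega)
    intro e cs m K hm
    have hn : ∀ K : Bool → α, ng e K = K (!e) := fun K => by cases e <;> rfl
    have e1 : mulg (k + 1) e cs m K = step k (mulg k) e m K (cs.headD 0) cs.tail := by cases cs <;> rfl
    rw [e1, val, step]
    generalize cs.headD 0 = c, cs.tail = cs
    have hz := h.val_not k (by omega) e cs
    have kk : k < 7 := hk
    have mm : m < 7 := by omega
    have zc : ∀ i < 7, ∀ x, a i * (z * x) = z * (a i * x) := fun i hi x => by rw [← mul_assoc, h.cz i hi, mul_assoc]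
    simp only [frc_eq, hn, Bool.cond_eq_ite, Nat.beq_eq, Bool.and_eq_true, Nat.ble_eq, Nat.blt_eq]
    split_ifs with h1 h2 h3 h4 h2 h3 h4 h5
    · exact ⟨_, _, rfl, by simp [val, rep, h1, h2, mul_assoc, h.sq kk]⟩
    · exact ⟨_, _, rfl, by simp [val, rep, h1, h3]⟩
    · obtain ⟨e1, c1, r1, v1⟩ := ih e cs (c - 3) (fun e cs => mulg k e cs (c - 3) fun e cs => K e (c :: cs)) (by omega)
      obtain ⟨e2, c2, r2, v2⟩ := ih e1 c1 (c - 3) (fun e cs => K e (c :: cs)) (by omega)
      refine ⟨_, _, r1.trans r2, ?_⟩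
      have j : c - 3 < 7 := by omega
      simp only [val, rep, h1, h2, h3, h4, v1, v2, List.tail_cons, List.headD_cons, if_true, if_false, and_self, mul_assoc,
        mul_right_inj]
      exact h.r1 kk j (by omega)
    · exact ⟨_, _, rfl, by simp [val, rep, h1, h2, h3, h4]⟩
    · obtain ⟨e1, c1, r1, v1⟩ := ih (!e) cs m (fun e cs => mulg k e cs m fun e cs => K e (2 :: cs)) (by omega)
      obtain ⟨e2, c2, r2, v2⟩ := ih e1 c1 m (fun e cs => K e (2 :: cs)) (by omega)
      refine ⟨_, _, r1.trans r2, ?_⟩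
      simp only [val, rep, h2, v1, v2, hz, List.tail_cons, List.headD_cons, if_true, mul_assoc, mul_right_inj]
      rw [if_neg (by decide), ← mul_assoc (a m), h.sq mm, ← h.sw kk mm (Ne.symm h1), ← mul_assoc, h.zz, one_mul]
    · refine ⟨_, _, rfl, ?_⟩
      simp [val, rep, h3, mul_assoc, show m < k by omega]
    · obtain ⟨e1, c1, r1, v1⟩ := ih (!e) cs m (fun e cs => K e (1 :: cs)) (by omega)
      refine ⟨_, _, r1, ?_⟩
      simp only [val, rep, h2, h3, h4, h5, v1, hz, List.tail_cons, List.headD_cons, if_true, if_false, and_self, mul_assoc,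
        mul_right_inj]
      rw [h.sq mm, h.sw mm kk h1]
    · obtain ⟨e1, c1, r1, v1⟩ := ih (!e) cs m
        (fun e cs => mulg k e cs (c - 3) fun e cs => mulg k e cs (c - 3) fun e cs => K e (c :: cs)) (by omega)
      obtain ⟨e2, c2, r2, v2⟩ := ih e1 c1 (c - 3) (fun e cs => mulg k e cs (c - 3) fun e cs => K e (c :: cs)) (by omega)
      obtain ⟨e3, c3, r3, v3⟩ := ih e2 c2 (c - 3) (fun e cs => K e (c :: cs)) (by omega)
      refine ⟨_, _, (r1.trans r2).trans r3, ?_⟩
      have j : c - 3 < 7 := by omega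
      simp only [val, rep, h2, h3, h4, v1, v2, v3, hz, List.tail_cons, List.headD_cons, if_true, if_false, and_self,
        mul_assoc, mul_right_inj]
      have : (a k)⁻¹ * (a k)⁻¹ = a k := by rw [← mul_inv_rev, h.sq kk, inv_inv]
      calc _ = z * (a m * a k) * ((a k)⁻¹ * (a k)⁻¹ * (a (c - 3) * a k)) := by rw [h.r1 kk j (by omega)]; group
        _ = (a k)⁻¹ * (a m)⁻¹ * (a k * (a (c - 3) * a k) * a (c - 3)) * (a (c - 3))⁻¹ := by
          rw [h.sw mm kk h1, this]; group
        _ = (a k)⁻¹ * z * ((a m)⁻¹ * (a (c - 3))⁻¹) := by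
          rw [← mul_assoc (a k), mul_assoc _ (a k), h.c2 k kk _ j (by omega), mul_assoc (a k)⁻¹,
            (show Commute (a m) z from h.cz m mm).inv_left]; group
        _ = _ := by rw [← h.sw j mm h5, mul_assoc, ← mul_assoc z, h.zz, one_mul]
    · obtain ⟨e1, c1, r1, v1⟩ := ih e cs m (fun e cs => K e (0 :: cs)) (by omega)
      exact ⟨_, _, r1, by simp [val, rep, h2, h3, h4, v1]⟩

theorem nfK_ok (s : G) {α : Type} (K : Bool → List ℕ → α) (w : List ℕ) (hw : ∀ x ∈ w, 0 < x ∧ x < 15) : ∀ e cs,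
    ∃ e' cs', nfK K w e cs = K e' cs' ∧ val z a 7 e' cs' = val z a 7 e cs * evw (ev s a) w := by
  induction w with
  | nil => exact fun e cs => ⟨e, cs, rfl, by simp⟩
  | cons x w ih =>
    intro e cs
    have hx := hw x List.mem_cons_self
    have hi : (x - 1) / 2 < 7 := by omega
    replace ih := ih fun y hy => hw y (List.mem_cons_of_mem _ hy)
    have e1 : nfK K (x :: w) e cs = cond (Nat.beq (x % 2) 1) (mulg 7 e cs ((x - 1) / 2) (nfK K w))
      (mulg 7 e cs ((x - 1) / 2) fun e cs => mulg 7 e cs ((x - 1) / 2) (nfK K w)) := by simp only [nfK, frc_eq]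
    rw [e1, evw_cons, ev, if_neg hx.1.ne', Bool.cond_eq_ite]
    simp only [Nat.beq_eq]
    split_ifs
    · obtain ⟨e1, c1, r1, v1⟩ := h.mulg_ok 7 le_rfl e cs _ (nfK K w) hi
      obtain ⟨e2, c2, r2, v2⟩ := ih e1 c1
      exact ⟨_, _, r1.trans r2, by rw [v2, v1, mul_assoc]⟩
    · obtain ⟨e1, c1, r1, v1⟩ := h.mulg_ok 7 le_rfl e cs _ (fun e cs => mulg 7 e cs ((x - 1) / 2) (nfK K w)) hi
      obtain ⟨e2, c2, r2, v2⟩ := h.mulg_ok 7 le_rfl e1 c1 _ (nfK K w) hi
      obtain ⟨e3, c3, r3, v3⟩ := ih e2 c2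
      exact ⟨_, _, (r1.trans r2).trans r3, by rw [v3, v2, v1, ← h.sq hi]; simp only [mul_assoc]⟩

theorem triv_ok (s : G) {w : List ℕ} (hw : triv w = true) : evw (ev s a) w = 1 := by
  rw [triv, Bool.and_eq_true] at hw
  obtain ⟨e, cs, h1, h2⟩ := h.nfK_ok s (fun e cs => !e && cs.all (Nat.beq 0)) w
    (fun x hx => by simpa using List.all_eq_true.1 hw.1 x hx) false [0, 0, 0, 0, 0, 0, 0]
  have h3 := h1.symm.trans hw.2
  rw [Bool.and_eq_true, Bool.not_eq_true'] at h3
  rw [h3.1, val_zero z a 7 _ h3.2, val_zero z a 7 _ rfl, one_mul] at h2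
  exact h2.symm

end Carm
end CfH4.An
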