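import Cfsg.Agent.H4.An4
import Cfsg.Agent.H4.AnT
import Cfsg.Agent.H4.AnC

/-! Double covers of `A₉` and `A₁₀`: the amalgam of McLaughlin type. -/

set_option autoImplicit false
open Cfsg CfH9 CfH6 CfL Subgroup Equiv Equiv.Perm

namespace CfH4.An
attribute [local instance 10000] TE.decAll TE.decEx

universe u
variable {G : Type u} [Group G]

/-- `g` acts on the image of `φ` by `a ↦ b`. -/
def Cj {N : Type*} [Group N] (φ : N →* G) (g : G) (a b : N) : Prop := g * φ a * g⁻¹ = φ b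

section
variable {N : Type*} [Group N] {φ : N →* G} {g h : G} {a b c d : N}

theorem Cj.mul (h1 : Cj φ g a b) (h2 : Cj φ g c d) : Cj φ g (a * c) (b * d) := by
  unfold Cj at *; rw [map_mul, map_mul, ← h1, ← h2]; group

theorem Cj.inv (h1 : Cj φ g a b) : Cj φ g a⁻¹ b⁻¹ := by
  unfold Cj at *; rw [map_inv, map_inv, ← h1]; group

theorem Cj.one : Cj φ g 1 1 := by simp [Cj]

theorem Cj.pow (h1 : Cj φ g a b) (n : ℕ) : Cj φ g (a ^ n) (b ^ n) := by
  unfold Cj at *; rw [map_pow, map_pow, ← h1, conj_pow]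

theorem Cj.comp (h1 : Cj φ g b c) (h2 : Cj φ h a b) : Cj φ (g * h) a c := by
  unfold Cj at *; rw [← h1, ← h2]; group

theorem Cj.inn (a c : N) : Cj φ (φ c) a (c * a * c⁻¹) := by simp [Cj]

theorem Cj.uniq (hφ : Function.Injective φ) (h1 : Cj φ g a b) (h2 : Cj φ g a c) : b = c := hφ (h1.symm.trans h2)

theorem Cj.cast (h1 : Cj φ g a b) (e1 : a = c) (e2 : b = d) : Cj φ g c d := e1 ▸ e2 ▸ h1
end

abbrev M := TE an0_g
noncomputable def mm (k : ℕ) : M := ⟨k % 192, Nat.mod_lt _ (by decide)⟩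
noncomputable def P : M := mm 1
noncomputable def Q : M := mm 3
noncomputable def R : M := mm 5
noncomputable def Z : M := mm 191
noncomputable def T : M := mm 95
def sg : List (List ℕ) :=
  [[1, 7, 5, 11, 3, 9, 1, 7], [8, 2, 10, 4, 12, 6, 8, 2], [1, 7, 4, 10], [9, 3, 8, 2], [1, 7, 6, 12], [11, 5, 8, 2]]
noncomputable def wm (m : M) : List ℕ := subst sg (an0.wl m.1)
noncomputable def evM (p q r : M) (i : ℕ) : M := [p, p⁻¹, q, q⁻¹, r, r⁻¹].getD i 1
noncomputable def al (p q r d : M) : M := evw (evM p q r) (an0.wl d.1)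
noncomputable def A (d : M) : M := al (mm 28) (mm 76) (mm 155) d

theorem cj_w {φ : M →* G} {g : G} {p q r : M} (h1 : Cj φ g P p) (h2 : Cj φ g Q q) (h3 : Cj φ g R r) (w : List ℕ) :
    Cj φ g (evw (evM P Q R) w) (evw (evM p q r) w) := by
  induction w with
  | nil => exact Cj.one
  | cons x w ih =>
    rw [evw_cons, evw_cons]
    refine Cj.mul ?_ ih
    rcases x with _ | _ | _ | _ | _ | _ | x
    exacts [h1, h1.inv, h2, h2.inv, h3, h3.inv, Cj.one]

theorem cj_al {φ : M →* G} {g : G} {p q r : M} (h1 : Cj φ g P p) (h2 : Cj φ g Q q) (h3 : Cj φ g R r) (d : M) :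
    Cj φ g d (al p q r d) := (cj_w h1 h2 h3 _).cast (by revert d; decide +kernel) rfl

def W (a : ℕ → G) (w : List ℕ) : G := evw (ev 1 a) w

theorem W_append (a : ℕ → G) (u w : List ℕ) : W a (u ++ w) = W a u * W a w := evw_append _ _ _

theorem W_inv (a : ℕ → G) {w : List ℕ} (h : allLt 15 w = true) : W a (invw anil w) = (W a w)⁻¹ :=
  evw_invw _ _ 15 (ev_inv a (mul_one 1)) w (allLt_sound h)

theorem evw_ev (s : G) (a : ℕ → G) {w : List ℕ} (h : ∀ x ∈ w, x ≠ 0) : evw (ev s a) w = W a w :=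
  congrArg List.prod (List.map_congr_left fun x hx => by simp [ev, h x hx])

theorem evw_pw (s : G) (a : ℕ → G) {w : List ℕ} (h : ∀ x ∈ w, x ≠ 0) (n : ℕ) :
    evw (ev s a) (anPw w n) = (s * W a w) ^ n := by
  induction n with
  | zero => simp [anPw]
  | succ n ih => rw [anPw, evw_cons, evw_append, ih, evw_ev s a h, pow_succ', ← mul_assoc]; rfl

noncomputable def eqw (u w : List ℕ) : Bool := allLt 15 w && triv (u ++ invw anil w)

theorem Carm.eq {z : G} {a : ℕ → G} (h : Carm z a) {u w : List ℕ} (e : eqw u w = true := by decide +kernel) :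
    W a u = W a w := by
  rw [eqw, Bool.and_eq_true] at e
  have := h.triv_ok 1 e.2
  rw [evw_append, ← W, ← W, W_inv a e.1] at this
  exact mul_inv_eq_one.1 this

theorem Carm.cj {z : G} {a : ℕ → G} (h : Carm z a) {k u w : List ℕ}
    (e : (allLt 15 k && eqw (k ++ u ++ invw anil k) w) = true := by decide +kernel) :
    W a k * W a u * (W a k)⁻¹ = W a w := by
  rw [Bool.and_eq_true] at e
  rw [← h.eq e.2, W_append, W_append, W_inv a e.1]

def pt (p : Fin 10) (i : ℕ) : Fin 10 := if i < 6 then Fin.ofNat 10 i else p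

theorem Cov.carm {z : G} {L : G → Perm (Fin 10) → Prop} (h : Cov z L) {p : Fin 10} (hp : p = 8 ∨ p = 9) {a : ℕ → G}
    (ha : ∀ i < 7, L (a i) (swap 6 (pt p i) * swap 6 7) ∧ a i ^ 3 = 1) : Carm z a := by
  have : ∀ i < 7, ∀ j < 7, i ≠ j → [6, pt p i, 7, pt p j].Nodup ∧ pt p j ≠ 6 ∧ pt p j ≠ 7 := by
    rcases hp with rfl | rfl <;> decide +kernel
  exact ⟨h.zz, fun i hi => h.cz (ha i hi).1, fun i hi => (ha i hi).2, fun i hi j hj e => h.dt (this i hi j hj e).1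
    (cm_perm (this i hi j hj e).2.1 (this i hi j hj e).2.2 ▸ h.mul (ha i hi).1 (ha j hj).1)⟩

def gp : List (List ℕ) := [idl, [6, 1, 2, 3, 4, 5, 7, 0, 8, 9], [7, 1, 2, 3, 4, 5, 0, 6, 8, 9], [0, 6, 2, 3, 4, 5, 7, 1, 8, 9],
  [0, 7, 2, 3, 4, 5, 1, 6, 8, 9], [0, 1, 6, 3, 4, 5, 7, 2, 8, 9], [0, 1, 7, 3, 4, 5, 2, 6, 8, 9],
  [0, 1, 2, 6, 4, 5, 7, 3, 8, 9], [0, 1, 2, 7, 4, 5, 3, 6, 8, 9], [0, 1, 2, 3, 6, 5, 7, 4, 8, 9],
  [0, 1, 2, 3, 7, 5, 4, 6, 8, 9], [0, 1, 2, 3, 4, 6, 7, 5, 8, 9], [0, 1, 2, 3, 4, 7, 5, 6, 8, 9],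
  [0, 1, 2, 3, 4, 5, 7, 8, 6, 9], [0, 1, 2, 3, 4, 5, 8, 6, 7, 9]]
def pw : List ℕ → List ℕ | [] => idl | x :: w => cp (gp.getD x []) (pw w)
def LL (L : G → Perm (Fin 10) → Prop) (g : G) (l : List ℕ) : Prop := ∃ σ, L g σ ∧ pl σ = l

theorem Cov.ll_mul {z : G} {L : G → Perm (Fin 10) → Prop} (h : Cov z L) {g k : G} {l m : List ℕ} (h1 : LL L g l)
    (h2 : LL L k m) : LL L (g * k) (cp l m) := by
  obtain ⟨σ, h1, rfl⟩ := h1
  obtain ⟨τ, h2, rfl⟩ := h2
  exact ⟨_, h.mul h1 h2, pl_mul _ _⟩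

theorem Cov.ll_fn {z : G} {L : G → Perm (Fin 10) → Prop} (h : Cov z L) {g : G} {l m : List ℕ} (h1 : LL L g l)
    (h2 : LL L g m) : l = m := by
  obtain ⟨σ, h1, rfl⟩ := h1
  obtain ⟨τ, h2, rfl⟩ := h2
  rw [h.fn h1 h2]

theorem Cov.ll_eq {z : G} {L : G → Perm (Fin 10) → Prop} (h : Cov z L) {g k : G} {l : List ℕ} (h1 : LL L g l)
    (h2 : LL L k l) : k = g ∨ k = g * z := by
  obtain ⟨σ, h1, rfl⟩ := h1
  obtain ⟨τ, h2, e⟩ := h2
  exact h.eq_or h1 (pl_inj e ▸ h2)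

theorem Cov.ll_one {z : G} {L : G → Perm (Fin 10) → Prop} (h : Cov z L) : LL L 1 idl := ⟨1, h.one, by decide⟩

structure St (z : G) (L : G → Perm (Fin 10) → Prop) (a : ℕ → G) (φ : M →* G) : Prop where
  cov : Cov z L
  big : Big z L
  la : ∀ i < 7, L (a i) (swap 6 (pt 8 i) * swap 6 7) ∧ a i ^ 3 = 1
  hφ : ∀ m, φ m = W a (wm m)

noncomputable def ee (E : List ℕ) (n : ℕ) : M := mm (E.getD n 0)
def E1 : List ℕ := [0, 191, 179, 185, 171, 42, 126, 88, 123, 100, 99, 58, 184, 49, 95, 105]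
def E2 : List ℕ := [0, 191, 172, 127, 102, 121, 113, 22, 96, 114, 17, 66, 104, 91, 95, 105]
noncomputable def l3 : List (List ℕ) := [0, 1, 2, 3, 4, 5, 6, 18, 21, 25, 28, 30, 34, 35, 38, 41, 43, 47, 51, 54, 56, 61, 72, 76,
  86, 89, 93, 98, 107, 116, 124, 136, 155].map fun k => pw (wm (mm k))
noncomputable def q3 (l : List ℕ) : Bool := decide (cp l (cp l l) = idl → l ∈ l3)
noncomputable def qE (E l : List ℕ) : Bool :=
  decide (∃ n ∈ List.range 16, l = pw (wm (ee E n)) ∨ cp l [0, 1, 2, 3, 4, 5, 6, 7, 9, 8] = pw (wm (ee E n)))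
noncomputable def sr (ws : List (List ℕ)) (Q : List ℕ → Bool) : Bool := ws.all (allLt 15) && srch (ws.map pw) Q 10 0 []
theorem q3_ok : sr [wm T] q3 = true := by decide +kernel
theorem qE_ok {E : List ℕ} (hE : E = E1 ∨ E = E2) : sr ((List.range 16).map fun n => wm (ee E n)) (qE E) = true := by
  rcases hE with rfl | rfl <;> decide +kernel

namespace St
variable {z : G} {L : G → Perm (Fin 10) → Prop} {a : ℕ → G} {φ : M →* G} (h : St z L a φ)
include h

theorem car : Carm z a := h.cov.carm (Or.inl rfl) h.la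

theorem llw {w : List ℕ} (hw : allLt 15 w = true := by decide +kernel) : LL L (W a w) (pw w) := by
  replace hw := allLt_sound hw
  induction w with
  | nil => exact h.cov.ll_one
  | cons x w ih =>
    rw [W, evw_cons]
    refine h.cov.ll_mul ?_ (ih fun y hy => hw y (List.mem_cons_of_mem _ hy))
    have hx := hw x List.mem_cons_self
    have : ∀ x < 15, x ≠ 0 → gp.getD x [] = pl (if x % 2 = 1 then swap 6 (pt 8 ((x - 1) / 2)) * swap 6 7 else
      (swap 6 (pt 8 ((x - 1) / 2)) * swap 6 7)⁻¹) := by decide +kernel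
    by_cases e : x = 0
    · subst e; exact h.cov.ll_one
    have h1 := (h.la ((x - 1) / 2) (by omega)).1
    rw [this x hx e, ev, if_neg e]
    split_ifs
    exacts [⟨_, h1, rfl⟩, ⟨_, h.cov.inv h1, rfl⟩]

theorem llm (m : M) : LL L (φ m) (pw (wm m)) := h.hφ m ▸ h.llw (by revert m; decide +kernel)

theorem hz : φ Z = z := by
  rw [h.hφ, h.car.eq (w := [1, 3, 1, 3]), ← h.car.c2 0 (by decide) 1 (by decide) (by decide)]
  simp [W, ev, mul_assoc]

theorem inj : Function.Injective φ := (injective_iff_map_eq_one φ).2 fun m e => by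
  have : ∀ m, pw (wm m) = idl → m = 1 ∨ m = Z := by decide +kernel
  exact (this m (h.cov.ll_fn (h.llm m) (e ▸ h.cov.ll_one))).resolve_right fun k => h.cov.z1 (by rw [← h.hz, ← k, e])

theorem ofl {g : G} {m : M} (h1 : LL L g (pw (wm m))) : φ m = g ∨ φ (m * Z) = g :=
  (h.cov.ll_eq (h.llm m) h1).imp Eq.symm fun e => by rw [map_mul, h.hz, e]

theorem find {g : G} (hg : g * z = z * g) (ws : List (List ℕ)) (h1 : ∀ w ∈ ws, g * W a w = W a w * g) {Q : List ℕ → Bool}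
    (c : sr ws Q = true) : ∃ l, LL L g l ∧ Q l = true := by
  rw [sr, Bool.and_eq_true] at c
  obtain ⟨σ, hσ⟩ := h.cov.ex g hg
  refine ⟨_, ⟨σ, hσ, rfl⟩, srch_sound c.2 σ fun p hp => ?_⟩
  obtain ⟨w, hw, rfl⟩ := List.mem_map.1 hp
  obtain ⟨τ, hτ, e⟩ := h.llw (List.all_eq_true.1 c.1 w hw)
  exact ⟨τ, e, h.cov.hom_comm hσ hτ (h1 w hw)⟩

theorem cjw {k : List ℕ} {m m' : M} (e : (allLt 15 k && eqw (k ++ wm m ++ invw anil k) (wm m')) = true := by decide +kernel) :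
    Cj φ (W a k) m m' := by rw [Cj, h.hφ, h.hφ, h.car.cj e]

theorem o3 {g : G} (h1 : g * φ Z = φ Z * g) (h2 : g * φ T = φ T * g) (h3 : g ^ 3 = 1) : ∃ m, φ m = g := by
  obtain ⟨l, hl, q⟩ := h.find (h.hz ▸ h1) _ (fun w hw => by rw [List.mem_singleton.1 hw, ← h.hφ, h2]) q3_ok
  have := h.cov.ll_mul hl (h.cov.ll_mul hl hl)
  rw [← pow_three, h3] at this
  obtain ⟨k, -, rfl⟩ := List.mem_map.1 (of_decide_eq_true q (h.cov.ll_fn this h.cov.ll_one))
  exact (h.ofl hl).elim (⟨_, ·⟩) (⟨_, ·⟩)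

theorem cE {E : List ℕ} (hE : E = E1 ∨ E = E2) {g : G} (h1 : ∀ n < 16, Cj φ g (ee E n) (ee E n)) :
    ∃ n < 16, φ (ee E n) = g := by
  obtain ⟨l, hl, q⟩ := h.find (g := g) (by
      rw [← h.hz, ← show ee E 1 = Z by rcases hE with rfl | rfl <;> rfl]; exact mul_inv_eq_iff_eq_mul.1 (h1 1 (by decide)))
    _ (fun w hw => by
      obtain ⟨n, hn, rfl⟩ := List.mem_map.1 hw
      rw [← h.hφ]; exact mul_inv_eq_iff_eq_mul.1 (h1 n (List.mem_range.1 hn))) (qE_ok hE)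
  obtain ⟨n, hn, e | e⟩ := of_decide_eq_true q <;> rw [List.mem_range] at hn
  · have : ∀ n < 16, ∃ k < 16, ee E n * Z = ee E k := by rcases hE with rfl | rfl <;> decide +kernel
    obtain ⟨k, hk, e'⟩ := this n hn
    exact (h.ofl (e ▸ hl)).elim (⟨n, hn, ·⟩) (⟨k, hk, e' ▸ ·⟩)
  · obtain ⟨σ, h2, rfl⟩ := hl
    obtain ⟨τ, h3, e'⟩ := h.llm (ee E n)
    have := congrArg sign (pl_inj ((pl_mul _ (swap 8 9)).trans (e.trans e'.symm)))
    rw [map_mul, h.cov.sgn h2, h.cov.sgn h3, sign_swap (by decide)] at this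
    exact absurd this (by decide)

end St
end CfH4.An
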