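import Cfsg.Agent.H4.An5

/-! Double covers of `A₉` and `A₁₀`: relations of the amalgam. -/

set_option autoImplicit false
open Cfsg CfH9 CfH6 CfL Subgroup Equiv Equiv.Perm

namespace CfH4.An
attribute [local instance 10000] TE.decAll TE.decEx

universe u
variable {G : Type u} [Group G]

theorem S10.st {z t σ : G} {L : G → Perm (Fin 10) → Prop} (h : S10 z t σ L) :
    ∃ a φ g, St z L a φ ∧ Cj φ g Z T ∧ Cj φ g T (Z * T) := by
  have : ∀ i, ∃ x, i < 7 → L x (swap 6 (pt 8 i) * swap 6 7) ∧ x ^ 3 = 1 := fun i => by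
    by_cases hi : i < 7
    · have : ∀ i < 7, pt 8 i ≠ 6 ∧ pt 8 i ≠ 7 ∧ pt 8 i ≠ 9 := by decide
      obtain ⟨h1, h2, h3⟩ := this i hi
      obtain ⟨x, hx⟩ := h.lift _ h1 h2 h3
      exact (h.cov.lift3 hx (c3_cube h1.symm (by decide) h2)).imp fun _ k _ => k
    · exact ⟨1, fun k => (hi k).elim⟩
  choose a ha using this
  have c := h.cov.carm (Or.inl rfl) ha
  obtain ⟨φ, hφ, -⟩ := TE.exists_hom an0_g (byW (ev 1 a) sg) (fun x hx => by
    have : ∀ x < an0.nc, (allLt 15 (sg.getD x []) && eqw (sg.getD (an0il.getD x 0) []) (invw anil (sg.getD x []))) = true := by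
      decide +kernel
    have := this x hx
    rw [Bool.and_eq_true] at this
    exact (c.eq this.2).trans (W_inv a this.1)) fun r hr => by
      rw [← evw_subst]; exact c.triv_ok 1 (by revert r; decide +kernel)
  have s : St z L a φ := ⟨h.cov, h.big, ha, fun m => (hφ m).trans (evw_subst _ _ _).symm⟩
  have d1 : Cj φ (W a [7, 1]) Z Z := s.cjw
  have d2 : Cj φ (W a [7, 1]) T (T * Z) := s.cjw
  have s1 := h.s1
  have s2 := h.s2
  rcases s.ofl (m := T) ⟨_, h.ht, by decide +kernel⟩ with e | e <;> rw [← e, ← s.hz, ← map_mul] at s1 <;> rw [← e] at s2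
  · have c1 : Cj φ (σ * W a [7, 1]) Z (Z * T) := Cj.comp s1 d1
    have c2 : Cj φ (σ * W a [7, 1]) T Z := (Cj.comp (Cj.mul s2 s1) d2).cast rfl (by decide +kernel)
    exact ⟨a, φ, _, s, ((c1.mul c2).comp c1).cast rfl (by decide +kernel), c1.comp c2⟩
  · exact ⟨a, φ, _, s, (Cj.comp s1 d1).cast rfl (by decide +kernel), (Cj.comp s2 d2).cast rfl (by decide +kernel)⟩

theorem key_al : ∀ q : M, q ^ 3 = 1 → ∀ r : M, r ^ 3 = 1 → (∀ w ∈ an0rels, evw (evM P q r) w = 1) → al P q r Z = T →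
    al P q r T = Z * T → ∃ k ∈ [1, P, P⁻¹], k * q * k⁻¹ = mm 6 ∧ k * r * k⁻¹ = mm 18 := by decide +kernel

structure Act (φ : M →* G) (s : G) : Prop where
  s2 : s * s = 1
  cj : ∀ d, Cj φ s d (A d)

namespace St
variable {z : G} {L : G → Perm (Fin 10) → Prop} {a : ℕ → G} {φ : M →* G} (h : St z L a φ)
include h

theorem cj3 {g : G} (g1 : Cj φ g Z T) (g2 : Cj φ g T (Z * T)) {m : M} (hm : m ^ 3 = 1) : ∃ m', Cj φ g m m' ∧ m' ^ 3 = 1 := by
  have c : ∀ {v w : M}, Cj φ g v w → m * v = v * m → g * φ m * g⁻¹ * φ w = φ w * (g * φ m * g⁻¹) := fun e e' => by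
    rw [← e, conj_mul, conj_mul, ← map_mul, e', map_mul]
  have : ∀ m : M, m * (Z * T) = Z * T * m ∧ m * Z = Z * m := by decide +kernel
  obtain ⟨m', e⟩ := h.o3 (c ((g1.mul g2).cast rfl (by decide +kernel)) (this m).1) (c g1 (this m).2) (by rw [conj_pow, ← map_pow, hm]; simp)
  exact ⟨m', e.symm, ((Cj.pow e.symm 3).cast hm rfl).uniq h.inj Cj.one⟩

theorem exists_act {g : G} (g1 : Cj φ g Z T) (g2 : Cj φ g T (Z * T)) : ∃ s, Act φ s := by
  have c : ∀ {g} k, Cj φ g Z T → Cj φ g T (Z * T) → Cj φ (φ k * g) Z T ∧ Cj φ (φ k * g) T (Z * T) := fun k g1 g2 =>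
    ⟨((Cj.inn _ k).comp g1).cast rfl (by revert k; decide +kernel),
      ((Cj.inn _ k).comp g2).cast rfl (by revert k; decide +kernel)⟩
  obtain ⟨g, g1, g2, g3⟩ : ∃ g, Cj φ g Z T ∧ Cj φ g T (Z * T) ∧ Cj φ g P P := by
    obtain ⟨p, hp, p3⟩ := h.cj3 g1 g2 (m := P) (by decide +kernel)
    have : ∀ p : M, p ^ 3 = 1 → p ≠ 1 → ∃ k, k * p * k⁻¹ = P ∨ k * p * k⁻¹ = P⁻¹ := by decide +kernel
    obtain ⟨k, e⟩ := this p p3 (by
      rintro rfl
      exact absurd (h.inj (by simpa [Cj] using hp : φ P = φ 1)) (by decide +kernel))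
    obtain ⟨k1, k2⟩ := c k g1 g2
    have k3 := (Cj.inn _ k).comp hp
    rcases e with e | e <;> rw [e] at k3
    · exact ⟨_, k1, k2, k3⟩
    have k4 := (k1.mul k2).cast rfl (show _ = Z by decide +kernel)
    have k5 := k3.inv.cast rfl (inv_inv _)
    exact ⟨_, k1.comp (k4.comp (k2.comp k1)), k2.comp (k1.comp (k4.comp k2)), k5.comp (k3.comp (k5.comp k3))⟩
  obtain ⟨q, hq, q3⟩ := h.cj3 g1 g2 (m := Q) (by decide +kernel)
  obtain ⟨r, hr, r3⟩ := h.cj3 g1 g2 (m := R) (by decide +kernel)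
  obtain ⟨k, hk, e1, e2⟩ := key_al q q3 r r3 (fun w hw => ((cj_w g3 hq hr w).cast (by revert w; decide +kernel) rfl).uniq
    h.inj Cj.one) ((cj_al g3 hq hr Z).uniq h.inj g1) ((cj_al g3 hq hr T).uniq h.inj g2)
  have u := cj_al (((Cj.inn _ k).comp g3).cast rfl (show _ = P by clear e1 e2; revert k; decide +kernel))
    (e1 ▸ (Cj.inn _ k).comp hq) (e2 ▸ (Cj.inn _ k).comp hr)
  have v : ∀ d, Cj φ (φ k * g * W a [7, 1]) d (A d) := cj_al (((u (mm 28)).comp h.cjw).cast rfl (by decide +kernel))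
    (((u (mm 89)).comp h.cjw).cast rfl (by decide +kernel)) (((u (mm 124)).comp h.cjw).cast rfl (by decide +kernel))
  generalize φ k * g * W a [7, 1] = s at v
  have v2 : ∀ d, Cj φ (s * s) d d := fun d => ((v _).comp (v d)).cast rfl (by revert d; decide +kernel)
  obtain ⟨n, hn, e⟩ := h.cE (Or.inl rfl) fun n _ => v2 _
  have : ∀ n < 16, (∀ d ∈ [P, Q], ee E1 n * d * (ee E1 n)⁻¹ = d) → A (ee E1 n) = ee E1 n → ee E1 n = 1 ∨ ee E1 n = T * Z := by
    decide +kernel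
  rcases this n hn (fun d _ => (Cj.inn _ _).uniq h.inj (e ▸ v2 d)) ((v _).uniq h.inj (by rw [Cj, e]; group)) with e' | e' <;>
    rw [e'] at e
  · exact ⟨s, by rw [← e, map_one], v⟩
  refine ⟨s * φ Z, ?_, fun d => (v d).comp ((Cj.inn _ _).cast rfl (by revert d; decide +kernel))⟩
  calc _ = s * φ Z * s⁻¹ * (s * s) * φ Z := by group
    _ = 1 := by rw [v Z, ← e, ← map_mul, ← map_mul, map_eq_one_iff _ h.inj]; decide +kernel

variable {s : G} (hs : Act φ s)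
include hs

theorem ns : s ∉ Cx(z) := fun e => absurd (h.inj ((hs.cj Z).symm.trans (by
  rw [h.hz, mem_Cx.1 e, mul_inv_cancel_right]))) (by decide +kernel)

theorem powE {E : List ℕ} (hE : E = E1 ∨ E = E2) (w ν π : List ℕ) (k : ℕ)
    (c : ∀ n < 16, (allLt 15 w && eqw (w ++ wm (ee E n) ++ invw anil w) (wm (ee E (ν.getD n 0)))) = true ∧
      A (ee E (ν.getD n 0)) = ee E (π.getD n 0) ∧ π.getD n 0 < 16 ∧ (π.getD · 0)^[k] n = n) :
    ∃ n < 16, φ (ee E n) = (s * W a w) ^ k ∧ ee E (π.getD n 0) = ee E n := by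
  have h1 : ∀ n < 16, Cj φ (s * W a w) (ee E n) (ee E (π.getD n 0)) := fun n hn =>
    ((hs.cj _).comp (h.cjw (c n hn).1)).cast rfl (c n hn).2.1
  have h2 : ∀ j, ∀ n < 16, Cj φ ((s * W a w) ^ j) (ee E n) (ee E ((π.getD · 0)^[j] n)) := fun j => by
    induction j with
    | zero => intro n _; simp [Cj]
    | succ j ih => intro n hn; rw [pow_succ]; exact (ih _ (c n hn).2.2.1).comp (h1 n hn)
  obtain ⟨n, hn, e⟩ := h.cE hE fun n hn => (h2 k n hn).cast rfl (by rw [(c n hn).2.2.2])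
  exact ⟨n, hn, e, (h1 n hn).uniq h.inj (by rw [Cj, e, ← conj_pow, mul_inv_cancel_right])⟩

theorem pow1 {E : List ℕ} (hE : E = E1 ∨ E = E2) (w ν π : List ℕ) (k : ℕ)
    (c : (∀ n < 16, (allLt 15 w && eqw (w ++ wm (ee E n) ++ invw anil w) (wm (ee E (ν.getD n 0)))) = true ∧
      A (ee E (ν.getD n 0)) = ee E (π.getD n 0) ∧ π.getD n 0 < 16 ∧ (π.getD · 0)^[k] n = n) ∧ (∀ x ∈ w, x ≠ 0) ∧
      ∀ n < 16, ee E (π.getD n 0) = ee E n → ee E n = 1 := by decide +kernel) : evw (ev s a) (anPw w k) = 1 := by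
  obtain ⟨n, hn, e1, e2⟩ := h.powE hs hE w ν π k c.1
  rw [evw_pw s a c.2.1, ← e1, c.2.2 n hn e2, map_one]

theorem relB : ∀ r ∈ anB, evw (ev s a) r = 1 := by
  intro r hr
  simp only [anB, List.mem_append, List.mem_map, List.mem_singleton] at hr
  rcases hr with hr | ⟨p, hp, rfl⟩ | rfl
  · exact h.car.triv_ok s (by revert r; decide +kernel)
  · have : ∀ p ∈ anD, (∀ x ∈ p.1, x ≠ 0) ∧ (∀ x ∈ p.2, x ≠ 0) ∧ ∃ k ∈ [3, 5, 155, 30, 89, 61, 43, 51, 76, 86, 72, 47, 35, 4,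
      54, 56, 6, 34, 144], pw (wm (mm k)) = pw p.1 ∧ eqw (wm (mm k)) p.1 = true ∧ triv (wm (A (mm k)) ++ p.2) = true := by
      decide +kernel
    obtain ⟨h1, h2, k, -, -, h3, h4⟩ := this p hp
    have := hs.cj (mm k)
    rw [Cj, inv_eq_of_mul_eq_one_right hs.s2, h.hφ, h.hφ, h.car.eq h3] at this
    rw [evw_cons, evw_append, evw_cons, evw_ev s a h1, evw_ev s a h2, ← mul_assoc, ← mul_assoc]
    exact (congrArg (· * _) this).trans ((W_append _ _ _).symm.trans (h.car.triv_ok 1 h4))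
  · exact h.pow1 hs (Or.inl rfl) _ [0, 1, 2, 10, 13, 6, 5, 7, 9, 8, 3, 12, 11, 4, 15, 14]
      [0, 14, 8, 10, 5, 11, 13, 3, 9, 2, 7, 4, 6, 12, 15, 1] 3

omit h hs in
theorem collapse {nc : ℕ} (hn : 0 < nc ∧ nc ≤ 15) (c : Carm z a) (s2 : s * s = 1) (ns : s ∉ Cx(z)) {rs : List (List ℕ)}
    (k : AC.{u} nc rs) (hr : ∀ r ∈ anB ++ rs, evw (ev s a) r = 1) : False := by
  obtain ⟨w, -, hw⟩ := k (ev s a) Cx(z) (fun x hx => ev_inv a s2 x (by omega)) hr fun r hr => by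
    obtain ⟨i, hi, rfl⟩ := List.mem_map.1 hr
    rw [List.mem_range] at hi
    simpa [ev, mem_Cx] using c.cz i (by omega)
  obtain ⟨i, hi, h1⟩ := hw 1 (one_mem _)
  obtain ⟨j, hj, h2⟩ := hw s (mem_gensub (x := 0) hn.1)
  obtain rfl : i = j := by omega
  exact ns ((mul_mem_cancel_right (by simpa using h1)).1 h2)

theorem tri {E : List ℕ} (hE : E = E1 ∨ E = E2) (w ν π : List ℕ) {o : List ℕ} (ho : evw (ev s a) (anPw o 5) = 1)
    {w1 w2 w3 : List ℕ} (c1 : AC.{u} 13 [anPw w1 3, anPw o 5]) (c2 : AC.{u} 13 [anPw w2 3, anPw o 5])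
    (c3 : AC.{u} 13 [anPw w3 3, anPw o 5])
    (c : (∀ n < 16, (allLt 15 w && eqw (w ++ wm (ee E n) ++ invw anil w) (wm (ee E (ν.getD n 0)))) = true ∧
      A (ee E (ν.getD n 0)) = ee E (π.getD n 0) ∧ π.getD n 0 < 16 ∧ (π.getD · 0)^[3] n = n) ∧
      ∀ n < 16, ee E (π.getD n 0) = ee E n → ee E n ^ 4 = 1 ∧ ∃ v ∈ [w, w1, w2, w3], (∀ x ∈ v, x ≠ 0) ∧
        eqw (w ++ wm (ee E n)) v = true := by decide +kernel) : evw (ev s a) (anPw w 3) = 1 := by
  obtain ⟨n, hn, e1, e2⟩ := h.powE hs hE w ν π 3 c.1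
  obtain ⟨e3, v, hv, h1, h2⟩ := c.2 n hn e2
  have : evw (ev s a) (anPw v 3) = 1 := by
    rw [evw_pw s a h1, ← h.car.eq h2, W_append, ← h.hφ, ← mul_assoc, Commute.mul_pow (by rw [e1]; exact (Commute.refl _).pow_right 3),
      ← e1, ← pow_succ', ← map_pow, e3, map_one]
  have k : ∀ {v}, AC.{u} 13 [anPw v 3, anPw o 5] → evw (ev s a) (anPw v 3) ≠ 1 := fun c e =>
    collapse (by decide) h.car hs.s2 (h.ns hs) c fun r hr => (List.mem_append.1 hr).elim (h.relB hs r) fun hr => by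
      simp only [List.mem_cons, List.not_mem_nil, or_false] at hr
      rcases hr with rfl | rfl <;> assumption
  simp only [List.mem_cons, List.not_mem_nil, or_false] at hv
  rcases hv with rfl | rfl | rfl | rfl
  exacts [this, absurd this (k c1), absurd this (k c2), absurd this (k c3)]

theorem relM : ∀ r ∈ anB ++ [anPw [1, 5, 8, 4] 3, anPw [5, 1, 12, 10] 3], evw (ev s a) r = 1 := by
  refine fun r hr => (List.mem_append.1 hr).elim (h.relB hs r) fun hr => ?_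
  simp only [List.mem_cons, List.not_mem_nil, or_false] at hr
  rcases hr with rfl | rfl
  · exact h.tri hs (Or.inl rfl) _ [0, 1, 5, 6, 14, 10, 7, 3, 13, 9, 2, 11, 4, 15, 12, 8]
      [0, 14, 13, 11, 1, 10, 3, 7, 5, 9, 8, 6, 12, 15, 4, 2] (h.pow1 hs (Or.inl rfl) _
      [0, 1, 14, 5, 4, 3, 12, 15, 10, 11, 8, 9, 6, 13, 2, 7] [0, 14, 1, 13, 12, 7, 4, 15, 10, 6, 2, 9, 11, 5, 8, 3] 5)
      anw00_ac anw01_ac anw02_ac
  · exact h.tri hs (Or.inr rfl) _ [0, 1, 3, 15, 4, 12, 14, 13, 7, 5, 10, 6, 9, 8, 11, 2]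
      [0, 14, 13, 15, 4, 10, 1, 3, 2, 9, 12, 11, 5, 8, 6, 7] (h.pow1 hs (Or.inr rfl) _
      [0, 1, 10, 15, 11, 13, 14, 7, 12, 9, 2, 4, 8, 5, 6, 3] [0, 14, 12, 15, 6, 3, 1, 2, 10, 5, 7, 4, 8, 9, 11, 13] 5)
      anw10_ac anw11_ac anw12_ac

end St
end CfH4.An
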