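import Cfsg.Agent.H4.An6
import Cfsg.Agent.H4.AnE
import Cfsg.Agent.H8.Coprime2
import Cfsg.Agent.H9.Invert
import Cfsg.Agent.H9.SylIn
import Cfsg.Agent.OD.Helper4xb8be6a66ec

/-! Double covers of `A₉` and `A₁₀` are not involution centralizers. -/

set_option autoImplicit false
open Cfsg CfH9 CfH6 CfH7 CfL Subgroup Equiv Equiv.Perm

namespace CfH4.An
attribute [local instance 10000] TE.decAll TE.decEx

universe u
variable {G : Type u} [Group G]

def V4 (a b : G) (a2 : a * a = 1) (b2 : b * b = 1) (ab : b * a = a * b) : Subgroup G where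
  carrier := {x | x = 1 ∨ x = a ∨ x = b ∨ x = a * b}
  one_mem' := Or.inl rfl
  mul_mem' := by
    have h1 : ∀ x, a * (a * x) = x := fun x => by rw [← mul_assoc, a2, one_mul]
    have h2 : ∀ x, b * (a * x) = a * (b * x) := fun x => by rw [← mul_assoc, ab, mul_assoc]
    rintro x y (rfl | rfl | rfl | rfl) (rfl | rfl | rfl | rfl) <;> simp [a2, b2, ab, h1, h2, mul_assoc]
  inv_mem' := by
    rintro x (rfl | rfl | rfl | rfl) <;> simp [inv_eq_of_mul_eq_one_right a2, inv_eq_of_mul_eq_one_right b2, ab]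

theorem four_gen [Finite G] {a b : G} (a2 : a * a = 1) (b2 : b * b = 1) (ab : b * a = a * b) (a1 : a ≠ 1) (b1 : b ≠ 1)
    (ne : b ≠ a) {N W : Subgroup G} (hN : (Nat.card N).Coprime 2) (ha : a ∈ Nm(N)) (hb : b ∈ Nm(N))
    (h1 : N ⊓ Cx(a) ≤ W) (h2 : N ⊓ Cx(b) ≤ W) (h3 : N ⊓ Cx(a * b) ≤ W) : N ≤ W := by
  have h4 : ∀ x, b * (a * x) = a * (b * x) := fun x => by rw [← mul_assoc, ab, mul_assoc]
  have sq : ∀ x ∈ V4 a b a2 b2 ab, x * x = 1 := by
    rintro x (rfl | rfl | rfl | rfl) <;> simp [a2, b2, h4, mul_assoc]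
  refine CfH8.le_of_noncyclic (A := V4 a b a2 b2 ab) ⟨⟨fun x y => Subtype.ext ?_⟩⟩ ?_
    (CfH8.coprime_card_of_isPGroup' (fun x => ⟨1, Subtype.ext (by simpa [pow_two] using sq _ x.2)⟩) hN).symm ?_ ?_
  · have := inv_eq_of_mul_eq_one_right (sq _ (x * y).2)
    rw [Subgroup.coe_mul, mul_inv_rev, inv_eq_of_mul_eq_one_right (sq _ x.2), inv_eq_of_mul_eq_one_right (sq _ y.2)] at this
    exact this.symm
  · rintro x (rfl | rfl | rfl | rfl)
    exacts [one_mem _, ha, hb, mul_mem ha hb]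
  · rintro ⟨c, hc⟩
    have : ∀ x ∈ V4 a b a2 b2 ab, x = 1 ∨ x = c := fun x hx => by
      obtain ⟨n, hn⟩ := hc ⟨x, hx⟩
      have := (zpowers_le.2 (Or.inr (Or.inl rfl)) : zpowers (c : G) ≤ V4 (c : G) 1 (sq _ c.2) (by simp) (by simp))
        (⟨n, by simpa using congrArg Subtype.val hn⟩ : x ∈ zpowers (c : G))
      rcases this with h | h | h | h <;> simp [h]
    exact ne (((this b (Or.inr (Or.inr (Or.inl rfl)))).resolve_left b1).trans
      ((this a (Or.inr (Or.inl rfl))).resolve_left a1).symm)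
  · rintro x (rfl | rfl | rfl | rfl) hx
    exacts [absurd rfl hx, h1, h2, h3]

theorem exists_inv [Finite G] {F : Subgroup G} (hF : (Nat.card F).Coprime 2) {t : G} (ht : t * t = 1) (hN : t ∈ Nm(F))
    (h : ¬ F ≤ Cx(t)) : ∃ v ∈ F, v ≠ 1 ∧ Odd (orderOf v) ∧ t * v * t⁻¹ = v⁻¹ := by
  obtain ⟨y, hy, h⟩ := SetLike.not_le_iff_exists.1 h
  have hw : y⁻¹ * (t * y * t⁻¹) ∈ F := mul_mem (inv_mem hy) (conj_mem_of_mem_normalizer hN hy)
  refine ⟨_, hw, fun e => h (mem_Cx.2 (mul_inv_eq_iff_eq_mul.1 (inv_mul_eq_one.1 e).symm).symm), odd_orderOf_of_coprime hF hw, ?_⟩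
  calc _ = t * y⁻¹ * t⁻¹ * (t * t) * y * (t * t)⁻¹ * t * t⁻¹ := by group
    _ = _ := by rw [ht]; group

def T3 (a b c : G) (ab : Commute a b) (ac : Commute a c) (bc : Commute b c) (a3 : a ^ 3 = 1) (b3 : b ^ 3 = 1)
    (c3 : c ^ 3 = 1) : Subgroup G where
  carrier := {x | ∃ i j k : ℕ, x = a ^ i * (b ^ j * c ^ k)}
  one_mem' := ⟨0, 0, 0, by simp⟩
  mul_mem' := by
    rintro _ _ ⟨i, j, k, rfl⟩ ⟨i', j', k', rfl⟩
    refine ⟨i + i', j + j', k + k', ?_⟩
    rw [pow_add, pow_add, pow_add, (bc.pow_pow j' k).mul_mul_mul_comm,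
      ((ab.pow_pow i' j).mul_right (ac.pow_pow i' k)).mul_mul_mul_comm]
  inv_mem' := by
    rintro _ ⟨i, j, k, rfl⟩
    have : ∀ (x : G) (n : ℕ), x ^ 3 = 1 → (x ^ n)⁻¹ = x ^ (2 * n) := fun x n h => by
      rw [inv_eq_iff_mul_eq_one, ← pow_add, show n + 2 * n = 3 * n by ring, pow_mul, h, one_pow]
    exact ⟨2 * i, 2 * j, 2 * k, by rw [((ab.pow_pow i j).mul_right (ac.pow_pow i k)).eq, mul_inv_rev, (bc.pow_pow j k).eq,
      mul_inv_rev, this a i a3, this b j b3, this c k c3]⟩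

theorem evw_cm {s : G} (a : ℕ → G) (s2 : s * s = 1) {x y : List ℕ} (c : Commute (evw (ev s a) x) (evw (ev s a) y))
    (h : (allLt 15 x && allLt 15 y) = true := by decide) : evw (ev s a) (anCm x y) = 1 := by
  rw [Bool.and_eq_true] at h
  rw [anCm, evw_append, evw_append, evw_append, evw_invw _ _ 15 (ev_inv a s2) x (allLt_sound h.1),
    evw_invw _ _ 15 (ev_inv a s2) y (allLt_sound h.2), c.eq]
  group

def U (s : G) (a : ℕ → G) : G := s * W a [2, 8]

theorem evw_U {s : G} (a : ℕ → G) (s2 : s * s = 1) {w : List ℕ} (h : ∀ x ∈ w, x ≠ 0 := by decide) :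
    evw (ev s a) (anU w) = U s a * W a w * (U s a)⁻¹ := by
  simp [anU, U, evw_ev s a h, W, ev, inv_eq_of_mul_eq_one_right s2, mul_assoc]

def rp (w : List ℕ) : ℕ → List ℕ | 0 => [] | n + 1 => w ++ rp w n

theorem W_rp (a : ℕ → G) (w : List ℕ) (n : ℕ) : W a (rp w n) = W a w ^ n := by
  induction n with
  | zero => simp [rp, W]
  | succ n ih => rw [rp, W_append, ih, pow_succ']

def cy (p : Fin 10) : Perm (Fin 10) := swap 6 p * swap 6 7
noncomputable def q4 (l : List ℕ) : Bool := decide (cp (pw (wm T)) (cp l (cp (pw (wm T)) l)) = idl → ∃ i ∈ List.range 3,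
  ∃ ω ∈ [idl, pw [13], pw [14], [0, 1, 2, 3, 4, 5, 7, 9, 8, 6], [0, 1, 2, 3, 4, 5, 9, 6, 8, 7]],
    cp (cp l l) (cp l l) = cp (pw (rp anYP i)) ω)
theorem q4_ok : sr [wm P] q4 = true := by decide +kernel
def wJ (i j k : ℕ) : List ℕ := rp anX1 i ++ (rp anX2 j ++ rp [13] k)
noncomputable def q5 (l : List ℕ) : Bool := decide ((∃ i ∈ List.range 3, ∃ j ∈ List.range 3, ∃ k ∈ List.range 3,
  cp l (pw [13]) = cp (pw (wJ i j k)) l) → ∃ i ∈ List.range 3, ∃ j ∈ List.range 3, ∃ k ∈ List.range 3, cp (cp l l) (cp l l) = pw (wJ i j k))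
theorem q5_ok : sr [anX1, anX2] q5 = true := by decide +kernel

namespace St
variable {z : G} {L : G → Perm (Fin 10) → Prop} {a : ℕ → G} {φ : M →* G} (h : St z L a φ)
include h

theorem iso {g : G} (h1 : g * z * g⁻¹ * z = z * (g * z * g⁻¹)) (h2 : g * z * g⁻¹ * W a anX1 = W a anX1 * (g * z * g⁻¹)) :
    g * z * g⁻¹ = z := by
  obtain ⟨σ, h3, e⟩ := h.llw (w := anX1)
  exact h.cov.iso3 h.big (by simp) (u := 0) (v := 1) (w := 2) (by decide) (pl_inj (τ := swap 0 2 * swap 0 1) (e.trans (by decide +kernel)) ▸ h3) h1 h2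

theorem cw {u w : List ℕ} (e : eqw (u ++ w) (w ++ u) = true := by decide +kernel) : Commute (W a u) (W a w) :=
  (W_append _ _ _).symm.trans ((h.car.eq e).trans (W_append _ _ _))

theorem cube {u : List ℕ} (e : eqw (rp u 3) [] = true := by decide +kernel) : W a u ^ 3 = 1 :=
  (W_rp _ _ _).symm.trans (h.car.eq e)

theorem cz {u : List ℕ} (e : allLt 15 u = true := by decide) : Commute (W a u) z := (h.llw e).elim fun _ k => h.cov.cz k.1

theorem hP : φ P = W a anX1 * W a anX2 := by rw [h.hφ, ← W_append, h.car.eq (w := anX1 ++ anX2)]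

variable {s : G} (hs : Act φ s)
include hs

theorem uZ : U s a * z * (U s a)⁻¹ = φ T :=
  h.hz ▸ ((hs.cj Z).comp h.cjw).cast rfl (show _ = T by decide +kernel)

theorem uT : U s a * φ (Z * T) * (U s a)⁻¹ = z :=
  h.hz ▸ ((hs.cj T).comp h.cjw).cast rfl (show _ = Z by decide +kernel)

theorem uP : U s a * φ P * (U s a)⁻¹ = φ P := ((hs.cj (mm 28)).comp h.cjw).cast rfl (show _ = P by decide +kernel)

theorem col3 {p : Fin 10} (hp : p = 8 ∨ p = 9) {k : G} (hk : L k (cy p)) (c1 : Commute (W a anX1) (U s a * k * (U s a)⁻¹))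
    (c2 : Commute (W a anX2) (U s a * k * (U s a)⁻¹)) : False := by
  obtain ⟨x, hx, x3⟩ := h.cov.lift3 hk (by rcases hp with rfl | rfl <;> decide)
  have e : U s a * x * (U s a)⁻¹ = (U s a * k * (U s a)⁻¹) ^ 4 := by
    rw [conj_pow, show k ^ 4 = x ^ 4 by
      rcases h.cov.eq_or hk hx with rfl | rfl
      · rfl
      · rw [Commute.mul_pow (h.cov.cz hk), pow_mul z 2 2, sq z, h.cov.zz, one_pow, mul_one],
      pow_succ, x3, one_mul]
  have e1 : ∀ i < 13, ev s (Function.update a 6 x) i = ev s a i := fun i hi => by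
    simp only [ev, Function.update_of_ne (show (i - 1) / 2 ≠ 6 by omega)]
  have e2 : evw (ev s (Function.update a 6 x)) (anU [13]) = U s a * x * (U s a)⁻¹ := by
    rw [evw_U _ hs.s2]; simp [U, W, ev]
  have c := h.cov.carm hp (a := Function.update a 6 x) fun i hi => by
    by_cases e : i = 6
    · subst e; exact ⟨hx, x3⟩
    · rw [Function.update_of_ne e, pt, if_pos (by omega)]
      simpa [pt, show i < 6 by omega] using h.la i hi
  refine collapse (by decide) c hs.s2 (h.ns hs) anv3_ac fun r hr => ?_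
  simp only [List.mem_append, List.mem_cons, List.not_mem_nil, or_false] at hr
  rcases hr with hr | hr | rfl | rfl
  · rw [evw_congr e1 (by revert r; decide +kernel), h.relB hs r hr]
  · exact c.triv_ok s (by revert r; decide +kernel)
  · exact evw_cm _ hs.s2 (by rw [e2, evw_congr e1 (by decide), evw_ev s a (by decide), e]; exact c1.pow_right 4)
  · exact evw_cm _ hs.s2 (by rw [e2, evw_congr e1 (by decide), evw_ev s a (by decide), e]; exact c2.pow_right 4)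

theorem col0 (c : Commute (W a [13]) (U s a * W a anYP * (U s a)⁻¹)) : False := by
  refine collapse (by decide) h.car hs.s2 (h.ns hs) anv0_ac fun r hr => ?_
  simp only [List.mem_append, List.mem_cons, List.not_mem_nil, or_false] at hr
  rcases hr with hr | hr | rfl
  · exact h.relB hs r hr
  · exact h.car.triv_ok s (by revert r; decide +kernel)
  · exact evw_cm _ hs.s2 (by rwa [evw_U _ hs.s2, evw_ev s a (by decide)])

theorem v0 {v : G} (hv : v = U s a * W a anYP * (U s a)⁻¹) : Commute (W a anX1) v ∧ Commute (W a anX2) v ∧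
    z * v * z⁻¹ = v⁻¹ ∧ v ^ 3 = 1 ∧ v ≠ 1 := by
  have v3 : v ^ 3 = 1 := by rw [hv, conj_pow, h.cube]; group
  have hz : z * v * z⁻¹ = v⁻¹ := by
    rw [hv, ← h.uT hs, conj_inv, conj_mul, conj_mul, conj_inv, h.hφ, h.car.cj (w := invw anil anYP), W_inv a (by decide)]
  have h1 := mem_Cx.1 (anm_mem0 (ev s a) Cx(z) (fun x hx => ev_inv a hs.s2 x (by omega)) (h.relM hs) fun r hr => by
    rw [evw_ev s a (by revert r; decide)]; exact mem_Cx.2 (h.cz (by revert r; decide)))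
  rw [show ([0, 2, 8, 8, 2, 12, 4, 10, 6, 8, 2, 7, 1, 0, 1, 3, 5, 4, 2, 0, 2, 8, 1, 7, 5, 9, 3, 11, 1, 7, 7, 1, 0] : List ℕ) =
    invw anil (anU anYP) ++ (anX1 ++ anU anYP) by decide, evw_append, evw_append,
    evw_invw _ _ 15 (ev_inv a hs.s2) _ (by decide), evw_U a hs.s2, evw_ev s a (by decide), ← hv] at h1
  have c1 : Commute (W a anX1) v := by
    have : Commute (W a anX1) (v * v) := by
      have k := (h.cz (u := anX1)).eq
      generalize W a anX1 = x at h1 k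
      calc _ = v * (v⁻¹ * (x * v) * z) * z⁻¹ * v := by group
        _ = v * (z * v * z⁻¹)⁻¹ * (z * x) * z⁻¹ * (z * v * z⁻¹) * v := by rw [h1]; group
        _ = _ := by rw [hz, ← k]; group
    have := this.pow_right 2
    rwa [← sq v, ← pow_mul, pow_succ, v3, one_mul] at this
  have c2 : Commute (φ P) v := by
    rw [hv, ← h.uP hs, Commute, SemiconjBy, conj_mul, conj_mul, h.hφ, (h.cw (u := wm P) (w := anYP)).eq]
  rw [h.hP] at c2
  refine ⟨c1, by simpa using c1.inv_left.mul_left c2, hz, v3, fun e => ?_⟩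
  exact absurd (h.cov.ll_fn h.cov.ll_one ((by simpa [hv] using e : W a anYP = 1) ▸ h.llw)) (by decide +kernel)

theorem caseB {v : G} (c1 : Commute (W a anX1) v) (c2 : Commute (W a anX2) v) (c3 : Commute (W a [13]) v) (v1 : v ≠ 1)
    (vo : Odd (orderOf v)) (hz : z * v * z⁻¹ = v⁻¹) (ht : v * φ T = φ T * v) : False := by
  obtain ⟨m, rfl⟩ : ∃ m, U s a * m * (U s a)⁻¹ = v := ⟨(U s a)⁻¹ * v * U s a, by group⟩
  have ci : ∀ {x y : G}, U s a * x * (U s a)⁻¹ = U s a * y * (U s a)⁻¹ → x = y := fun e => by simpa using e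
  have m1 : m * z = z * m := ci (by rw [← conj_mul, ← conj_mul, h.uZ hs, ht])
  have m2 : m * φ P = φ P * m := ci (by rw [← conj_mul, ← conj_mul, h.uP hs, h.hP, (c1.mul_left c2).eq])
  have m3 : φ (Z * T) * m * (φ (Z * T))⁻¹ = m⁻¹ := ci (by rw [← conj_mul, ← conj_mul, ← conj_inv, h.uT hs, hz, conj_inv])
  have m4 : φ T * (m * (φ T * m)) = 1 := by
    rw [show Z * T = T * Z by decide +kernel, map_mul, h.hz, mul_assoc (φ T), ← m1, mul_inv_rev, ← map_inv,
      show T⁻¹ = T by decide +kernel] at m3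
    calc _ = φ T * (m * z) * (z⁻¹ * φ T) * m := by group
      _ = _ := by rw [m3, inv_mul_cancel]
  obtain ⟨l, hl, q⟩ := h.find m1 _ (fun w hw => by rw [List.mem_singleton.1 hw, ← h.hφ, m2]) q4_ok
  obtain ⟨i, hi, ω, hω, e⟩ := of_decide_eq_true q (h.cov.ll_fn
    (h.cov.ll_mul (h.llm T) (h.cov.ll_mul hl (h.cov.ll_mul (h.llm T) hl))) (m4 ▸ h.cov.ll_one))
  obtain ⟨σ, h1, e1⟩ := e ▸ h.cov.ll_mul (h.cov.ll_mul hl hl) (h.cov.ll_mul hl hl)
  obtain ⟨η, h2, e2⟩ := h.llw (w := rp anYP i) (by clear e e1; revert i; decide)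
  rw [W_rp] at h2
  have h3 : ∀ τ, pl τ = ω → L ((W a anYP ^ i)⁻¹ * (m * m * (m * m))) τ := fun τ e => by
    rw [← e2, ← e, ← pl_mul] at e1
    simpa [pl_inj e1] using h.cov.mul (h.cov.inv h2) h1
  obtain ⟨d1, d2, -, v3, -⟩ := h.v0 hs rfl
  have k : ∀ {x : G}, Commute x (U s a * W a anYP * (U s a)⁻¹) → Commute x (U s a * m * (U s a)⁻¹) →
      Commute x (U s a * ((W a anYP ^ i)⁻¹ * (m * m * (m * m))) * (U s a)⁻¹) := fun e1 e2 => by
    rw [← conj_mul, ← conj_inv, ← conj_pow, ← conj_mul, ← conj_mul]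
    exact (e1.pow_right i).inv_right.mul_right ((e2.mul_right e2).mul_right (e2.mul_right e2))
  have k' : ∀ {x y : G}, Commute x (U s a * y * (U s a)⁻¹) → Commute x (U s a * y⁻¹ * (U s a)⁻¹) := fun e => by
    rw [← conj_inv]; exact e.inv_right
  simp only [List.mem_cons, List.not_mem_nil, or_false] at hω
  rcases hω with rfl | rfl | rfl | rfl | rfl
  · have h4 : m ^ 8 = W a anYP ^ (2 * i) := by
      rw [show m ^ 8 = (m * m * (m * m)) ^ 2 by simp only [pow_succ, mul_assoc, pow_zero, one_mul], mul_comm 2, pow_mul]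
      rcases h.cov.ker (h3 1 (by decide)) with e | e <;> rw [inv_mul_eq_iff_eq_mul.1 e]
      · rw [mul_one]
      · rw [(h.cz.pow_left i).mul_pow, sq z, h.cov.zz, mul_one]
    have h5 := c3.pow_right 8
    have h6 : (U s a * m * (U s a)⁻¹) ^ 8 = (U s a * W a anYP * (U s a)⁻¹) ^ (2 * i) := by rw [conj_pow, h4, conj_pow]
    rw [h6] at h5
    rw [List.mem_range] at hi
    interval_cases i
    · exact v1 (orderOf_eq_one_iff.1 ((vo.coprime_two_right.pow_right 3).eq_one_of_dvd (orderOf_dvd_of_pow_eq_one (h6.trans (pow_zero _)))))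
    · have := h5.pow_right 2
      rw [← pow_mul, pow_succ, v3, one_mul] at this
      exact h.col0 hs this
    · rw [pow_succ, v3, one_mul] at h5
      exact h.col0 hs h5
  · exact h.col3 hs (Or.inl rfl) (h3 _ (by decide +kernel)) (k d1 c1) (k d2 c2)
  · exact h.col3 hs (Or.inl rfl) (h.cov.inv (h3 (cy 8)⁻¹ (by decide +kernel))) (k' (k d1 c1)) (k' (k d2 c2))
  · exact h.col3 hs (Or.inr rfl) (h3 _ (by decide +kernel)) (k d1 c1) (k d2 c2)
  · exact h.col3 hs (Or.inr rfl) (h.cov.inv (h3 (cy 9)⁻¹ (by decide +kernel))) (k' (k d1 c1)) (k' (k d2 c2))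

theorem caseA [Finite G] (HA : Cx(W a anX1) ⊓ (Cx(W a anX2) ⊓ Cx(W a [13])) ≤ Cx(z)) : False := by
  haveI : Fact (Nat.Prime 3) := ⟨by norm_num⟩
  let J := T3 (W a anX1) (W a anX2) (W a [13]) h.cw h.cw h.cw h.cube h.cube h.cube
  have Jc : ∀ {g}, Commute g (W a anX1) → Commute g (W a anX2) → Commute g (W a [13]) → ∀ x ∈ J, Commute g x := by
    rintro g h1 h2 h3 _ ⟨i, j, k, rfl⟩
    exact (h1.pow_right i).mul_right ((h2.pow_right j).mul_right (h3.pow_right k))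
  have Jz := Jc h.cz.symm h.cz.symm h.cz.symm
  have J1 : W a anX1 ∈ J := ⟨1, 0, 0, by simp⟩
  have J2 : W a anX2 ∈ J := ⟨0, 1, 0, by simp⟩
  have J3 : W a [13] ∈ J := ⟨0, 0, 1, by simp⟩
  have JW : ∀ i j k, W a (wJ i j k) = W a anX1 ^ i * (W a anX2 ^ j * W a [13] ^ k) := fun i j k => by
    simp only [wJ, W_append, W_rp]
  have hu : ∀ g, Commute (g * z * g⁻¹) (W a anX1) → Commute (g * z * g⁻¹) (W a anX2) → Commute (g * z * g⁻¹) (W a [13]) →
    g * z * g⁻¹ = z := fun g h1 h2 h3 => h.iso (mem_Cx.1 (HA ⟨mem_Cx.2 h1, mem_Cx.2 h2, mem_Cx.2 h3⟩)) h1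
  have hJ : J ≤ Cx(W a anX1) ⊓ Cx(W a anX2) := fun x hx =>
    ⟨mem_Cx.2 (Jc (.refl _) h.cw h.cw x hx).symm, mem_Cx.2 (Jc h.cw (.refl _) h.cw x hx).symm⟩
  have hS : SylIn 3 J (Cx(W a anX1) ⊓ Cx(W a anX2)) := by
    refine sylIn_of_sylIn_Nm hJ ⟨le_inf hJ le_normalizer, fun ⟨_, i, j, k, rfl⟩ => ⟨1, Subtype.ext ?_⟩, fun S hS h1 _ w hw => ?_⟩
    · change (_ * (_ * _)) ^ 3 = (1 : G)
      rw [((h.cw.pow_pow i j).mul_right (h.cw.pow_pow i k)).mul_pow, (h.cw.pow_pow j k).mul_pow, ← pow_mul, ← pow_mul,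
        ← pow_mul, pow_mul', pow_mul', pow_mul', h.cube, h.cube, h.cube]
      simp
    obtain ⟨⟨w1, w2⟩, w3⟩ := h1 hw
    have c : ∀ x ∈ J, Commute (w * z * w⁻¹) x := fun x hx => by
      have := (Jz _ (conj_mem_of_mem_normalizer (inv_mem w3) hx)).eq
      calc _ = w * (z * (w⁻¹ * x * w⁻¹⁻¹)) * w⁻¹ := by group
        _ = _ := by rw [this]; group
    obtain ⟨l, hl, q⟩ := h.find (mul_inv_eq_iff_eq_mul.1 (hu w (c _ J1) (c _ J2) (c _ J3))) _ (fun x hx => by
      simp only [List.mem_cons, List.not_mem_nil, or_false] at hx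
      rcases hx with rfl | rfl
      exacts [mem_Cx.1 w1, mem_Cx.1 w2]) q5_ok
    obtain ⟨i, j, k, e⟩ := conj_mem_of_mem_normalizer w3 J3
    rw [pow_eq_pow_mod i h.cube, pow_eq_pow_mod j h.cube, pow_eq_pow_mod k h.cube, ← JW, mul_inv_eq_iff_eq_mul] at e
    have m3 : ∀ n, n % 3 ∈ List.range 3 := fun n => List.mem_range.2 (Nat.mod_lt _ (by decide))
    have lt : ∀ i ∈ List.range 3, ∀ j ∈ List.range 3, ∀ k ∈ List.range 3, allLt 15 (wJ i j k) = true := by decide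
    obtain ⟨i, hi, j, hj, k, hk, e⟩ := of_decide_eq_true q ⟨_, m3 i, _, m3 j, _, m3 k, h.cov.ll_fn (h.cov.ll_mul hl h.llw)
      (e ▸ h.cov.ll_mul (h.llw (lt _ (m3 i) _ (m3 j) _ (m3 k))) hl)⟩
    have h4 : w ^ 8 ∈ J := by
      have : W a (wJ i j k) ∈ J := ⟨i, j, k, JW i j k⟩
      rw [show w ^ 8 = (w * w * (w * w)) ^ 2 by simp only [pow_succ, mul_assoc, pow_zero, one_mul]]
      rcases h.cov.ll_eq (h.llw (lt i hi j hj k hk)) (e ▸ h.cov.ll_mul (h.cov.ll_mul hl hl) (h.cov.ll_mul hl hl)) with e | e <;>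
        rw [e]
      · exact pow_mem this 2
      · rw [(Jz _ this).symm.mul_pow, sq z, h.cov.zz, mul_one]; exact pow_mem this 2
    obtain ⟨n, hn⟩ := hS ⟨w, hw⟩
    obtain ⟨r, hr⟩ := exists_pow_eq_self_of_coprime (x := w) (n := 8) (Nat.Coprime.coprime_dvd_right
      (orderOf_dvd_of_pow_eq_one (congrArg Subtype.val hn)) (Nat.Coprime.pow_right n (by decide)))
    exact hr ▸ pow_mem h4 r
  obtain ⟨d1, d2, hz, v3, v1⟩ := h.v0 hs rfl
  generalize U s a * W a anYP * (U s a)⁻¹ = v at d1 d2 hz v3 v1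
  obtain ⟨k, ⟨k1, k2⟩, i, j, n, e⟩ := hS.exists_conj_mem (x := v) ⟨mem_Cx.2 d1.symm, mem_Cx.2 d2.symm⟩ (k := 1) (by simpa using v3)
  have kc : ∀ {x}, k ∈ Cx(x) → Commute z x → Commute (k * z * k⁻¹) x := fun h1 h2 =>
    ((show Commute k _ from mem_Cx.1 h1).mul_left h2).mul_left (show Commute k _ from mem_Cx.1 h1).inv_left
  have z1 := kc k1 h.cz.symm
  have z2 := kc k2 h.cz.symm
  have hi : k * z * k⁻¹ * (k * v * k⁻¹) * (k * z * k⁻¹)⁻¹ = (k * v * k⁻¹)⁻¹ := by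
    rw [conj_inv, conj_mul, conj_mul, hz, conj_inv]
  have fin : ¬ Commute (k * z * k⁻¹) (k * v * k⁻¹) := fun c => v1 (by
    rw [c.eq, mul_inv_cancel_right, conj_inv, mul_left_inj, mul_right_inj, eq_inv_iff_mul_eq_one] at hi
    rwa [pow_three, hi, mul_one] at v3)
  have vz : Commute z (k * v * k⁻¹) := Jz _ ⟨i, j, n, e⟩
  generalize k * v * k⁻¹ = v' at hi fin vz e
  have z3 : Commute (k * z * k⁻¹ * z * (k * z * k⁻¹)⁻¹) v' := by
    have := vz.inv_right
    rw [← hi] at this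
    have z4 : (k * z * k⁻¹)⁻¹ = k * z * k⁻¹ := by rw [conj_inv, inv_eq_of_mul_eq_one_right h.cov.zz]
    generalize k * z * k⁻¹ = y at this z4
    calc _ = y * (z * (y⁻¹ * v' * y)) * y⁻¹ := by group
      _ = y * (z * (y * v' * y⁻¹)) * y⁻¹ := by rw [z4]
      _ = y * (y⁻¹ * v' * y * z) * y⁻¹ := by rw [this.eq, z4]
      _ = _ := by group
  have y1 := (z1.mul_left h.cz.symm).mul_left z1.inv_left
  have y2 := (z2.mul_left h.cz.symm).mul_left z2.inv_left
  have y3 : Commute (k * z * k⁻¹ * z * (k * z * k⁻¹)⁻¹) (W a [13] ^ n) := by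
    simpa [e] using (y2.pow_right j).inv_right.mul_right ((y1.pow_right i).inv_right.mul_right z3)
  rw [pow_eq_pow_mod n h.cube] at y3 e
  have := Nat.mod_lt n (show 0 < 3 by decide)
  have y4 : Commute (k * z * k⁻¹ * z * (k * z * k⁻¹)⁻¹) (W a [13]) → False := fun y3 =>
    fin ((h.iso (mul_inv_eq_iff_eq_mul.1 (hu _ y1 y2 y3)) z1).symm ▸ vz)
  generalize n % 3 = r at this y3 e
  interval_cases r
  · exact fin (by rw [e, pow_zero, mul_one]; exact (z1.pow_right i).mul_right (z2.pow_right j))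
  · exact y4 (by simpa using y3)
  · have := y3.pow_right 2
    rw [← pow_mul, pow_succ, h.cube, one_mul] at this
    exact y4 this

theorem false [Finite G] : False := by
  refine h.caseA hs ?_
  set K := Cx(W a anX1) ⊓ (Cx(W a anX2) ⊓ Cx(W a [13]))
  have hz : z ∈ K := ⟨mem_Cx.2 h.cz.symm, mem_Cx.2 h.cz.symm, mem_Cx.2 h.cz.symm⟩
  have hO : Cx((⟨z, hz⟩ : K)) ⊔ oddCore K = ⊤ :=
    Cx_sup_oddCore (orderOf_eq_prime (Subtype.ext (by simpa [sq] using h.cov.zz))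
      fun e => h.cov.z1 (congrArg Subtype.val e)) fun k hk => Subtype.ext
        (h.iso (congrArg Subtype.val hk.symm) (mem_Cx.1 (k * ⟨z, hz⟩ * k⁻¹).2.1))
  have cc : ∀ {g x y v : G}, g * x * g⁻¹ = y → v * x = x * v → g * v * g⁻¹ * y = y * (g * v * g⁻¹) := fun e1 e2 => by
    rw [← e1, conj_mul, conj_mul, e2]
  have ht : φ T ∈ Nm(K) := mem_normalizer_of_conj_mem fun v hv => by
    rw [h.hφ]
    refine ⟨mem_Cx.2 (cc h.car.cj (mem_Cx.1 hv.2.1)), mem_Cx.2 (cc h.car.cj (mem_Cx.1 hv.1)), mem_Cx.2 (cc (x := W a (invw anil [13])) h.car.cj ?_)⟩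
    rw [W_inv a (by decide)]
    exact (show Commute v _ from mem_Cx.1 hv.2.2).inv_right
  have nz := normalizer_le_normalizer_pPrimeCoreOf (p := 2) K (le_normalizer hz)
  have tz : φ T * z = z * φ T := (h.llm T).elim fun _ k => h.cov.cz k.1
  have key : ∀ t, t * z = z * t → (∀ v ∈ K, v ≠ 1 → Odd (orderOf v) → z * v * z⁻¹ = v⁻¹ → v * t ≠ t * v) →
      pPrimeCoreOf 2 K ⊓ Cx(t) ≤ Cx(z) := fun t e k => by
    by_contra hn
    obtain ⟨v, hv, v1, vo, vz⟩ := exists_inv ((coprime_card_pPrimeCoreOf K).coprime_dvd_left (card_dvd_of_le inf_le_left))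
      h.cov.zz (mem_Nm_inf nz (le_normalizer (mem_Cx.2 e.symm))) hn
    exact k v (pPrimeCoreOf_le _ hv.1) v1 vo vz (mem_Cx.1 hv.2)
  have kB : ∀ v ∈ K, v ≠ 1 → Odd (orderOf v) → z * v * z⁻¹ = v⁻¹ → v * φ T ≠ φ T * v := fun v hv =>
    h.caseB hs (mem_Cx.1 hv.1).symm (mem_Cx.1 hv.2.1).symm (mem_Cx.1 hv.2.2).symm
  have hO2 : pPrimeCoreOf 2 K ≤ Cx(z) := four_gen h.cov.zz (b := φ T) (by rw [← map_mul, map_eq_one_iff _ h.inj]; decide +kernel)
    tz h.cov.z1 ((map_eq_one_iff _ h.inj).not.2 (by decide +kernel)) (h.hz ▸ h.inj.ne (by decide +kernel))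
    (coprime_card_pPrimeCoreOf K) nz (normalizer_le_normalizer_pPrimeCoreOf _ ht) inf_le_right (key _ tz kB)
    (key _ (by rw [mul_assoc, tz]) fun v hv v1 vo vz e => by
      have r : Cj φ (W a [1, 7, 3, 9, 1, 7]) (Z * T) T := h.cjw
      have rz := (h.cz (u := [1, 7, 3, 9, 1, 7])).eq
      refine kB (W a [1, 7, 3, 9, 1, 7] * v * (W a [1, 7, 3, 9, 1, 7])⁻¹) ⟨mem_Cx.2 (cc (x := W a (invw anil anX1)) h.car.cj ?_),
        mem_Cx.2 (cc (x := W a (invw anil anX2)) h.car.cj ?_), mem_Cx.2 (cc h.car.cj (mem_Cx.1 hv.2.2))⟩ (by simpa using v1)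
        (by rwa [← MulAut.conj_apply, MulEquiv.orderOf_eq]) ?_ (cc r (by rwa [map_mul, h.hz]))
      · rw [W_inv a (by decide)]; exact (show Commute v _ from mem_Cx.1 hv.1).inv_right
      · rw [W_inv a (by decide)]; exact (show Commute v _ from mem_Cx.1 hv.2.1).inv_right
      · rw [conj_inv, ← vz, ← conj_mul, ← conj_mul, ← conj_inv, ← rz, mul_inv_cancel_right])
  intro c hc
  have : (Cx(z)).subgroupOf K = ⊤ := eq_top_iff.2 (hO.ge.trans (sup_le (fun k hk => mem_subgroupOf.2 (mem_Cx.2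
    (congrArg Subtype.val (mem_Cx.1 hk)))) fun k hk => mem_subgroupOf.2 (hO2 ⟨k, hk, rfl⟩)))
  exact subgroupOf_eq_top.1 this hc

end St

theorem degree [Finite G] [IsSimpleGroup G] {X : Type*} [Fintype X] [DecidableEq X] (h4 : 4 ≤ Fintype.card X) {z : G}
    (hz : orderOf z = 2) (h : IsNonsplitDoubleCover Cx(z) (alternatingGroup X)) : Fintype.card X = 8 ∨ Fintype.card X = 11 := by
  obtain ⟨L, h1, hs⟩ := exists_cov hz h
  refine (reduce h1 hs h4).imp_right fun k => k.resolve_right fun ⟨t, σ, L', k⟩ => ?_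
  obtain ⟨a, φ, g, h2, g1, g2⟩ := k.st
  obtain ⟨s, hs⟩ := h2.exists_act g1 g2
  exact h2.false hs

end CfH4.An
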