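import Cfsg.Agent.H4.CM
import Cfsg.Agent.H4.IndHom
import Cfsg.Agent.H5.Dihedral8
import Cfsg.Agent.FT.BG1b

/-! Class tables of small groups and induction from special classes. -/

set_option autoImplicit false
open Cfsg CfH4 CfH9 CfH5 Subgroup
open scoped ComplexConjugate

namespace CfH4

universe u v

/-- A class table. -/
structure ClT (M : Type u) [Group M] (k : ℕ) where
  cl : M → Fin k
  rep : Fin k → M
  sz : Fin k → ℕ
  cnj : ∀ m, ∃ c, c * rep (cl m) * c⁻¹ = m
  inv : ∀ m c, cl (c * m * c⁻¹) = cl m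
  card : ∀ i, {m | cl m = i}.ncard = sz i
  clrep : ∀ i, cl (rep i) = i

namespace ClT

variable {M : Type u} [Group M] {k : ℕ} (T : ClT M k)

def fn (v : Fin k → ℤ) : M → ℂ := fun m => v (T.cl m)

theorem fn_classFun (v : Fin k → ℤ) : IsClassFunction M (T.fn v) := fun m c => by
  simp only [fn, T.inv]

theorem fn_rep (v : Fin k → ℤ) (i : Fin k) : T.fn v (T.rep i) = v i := by simp only [fn, T.clrep]

theorem apply_eq {F : M → ℂ} (hF : IsClassFunction M F) (m : M) : F m = F (T.rep (T.cl m)) := by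
  obtain ⟨c, hc⟩ := T.cnj m
  conv_lhs => rw [← hc, hF]

theorem fn_add (v w : Fin k → ℤ) : T.fn (v + w) = T.fn v + T.fn w := by ext m; simp [fn]
theorem fn_sub (v w : Fin k → ℤ) : T.fn (v - w) = T.fn v - T.fn w := by ext m; simp [fn]
theorem fn_mul (v w : Fin k → ℤ) : T.fn (v * w) = T.fn v * T.fn w := by ext m; simp [fn]
theorem fn_one : T.fn 1 = fun _ => 1 := by ext m; simp [fn]

variable [Fintype M]

theorem sum {F : M → ℂ} (hF : IsClassFunction M F) : ∑ m, F m = ∑ i, T.sz i * F (T.rep i) := by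
  classical
  rw [← Finset.sum_fiberwise (s := Finset.univ) (g := T.cl)]
  refine Finset.sum_congr rfl fun i _ => ?_
  rw [Finset.sum_congr rfl (g := fun _ => F (T.rep i)) fun m hm => by
    rw [T.apply_eq hF, (Finset.mem_filter.1 hm).2], Finset.sum_const, nsmul_eq_mul, ← T.card,
    ← Set.ncard_coe_finset]
  simp

theorem inner (v : Fin k → ℤ) {F : M → ℂ} (hF : IsClassFunction M F) :
    Nat.card M * classInner (T.fn v) F = ∑ i, T.sz i * (v i * conj (F (T.rep i))) := by
  rw [card_mul_classInner, T.sum (F := fun m => T.fn v m * conj (F m)) ((T.fn_classFun v).mul hF.conj)]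
  simp only [fn_rep]

theorem inner_fn (v w : Fin k → ℤ) {n : ℤ} (h : ∑ i, T.sz i * (v i * w i) = Nat.card M * n) :
    classInner (T.fn v) (T.fn w) = n := by
  apply mul_left_cancel₀ (natCard_ne_zero M)
  rw [T.inner v (T.fn_classFun w)]
  simp only [fn_rep, map_intCast]
  exact_mod_cast h

theorem isChar_perm (K : Subgroup M) (v : Fin k → ℤ)
    (h : ∀ i, ({x | x⁻¹ * T.rep i * x ∈ K}.ncard : ℤ) = {x | x ∈ K}.ncard * v i) :
    IsCharacter M (T.fn v) := by
  convert isCharacter_permChar K using 1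
  ext m
  rw [T.apply_eq (indFun_isClassFunction K _)]
  apply mul_left_cancel₀ (natCard_ne_zero K)
  rw [card_mul_indFun_one, fn]
  exact_mod_cast (h _).symm

end ClT

variable {G : Type v} [Group G] {M : Type u} [Group M] {φ : M →* G}

/-- `m` is special: `G`-conjugates of `φ m` in the image are conjugates under the image. -/
def Spec (φ : M →* G) (m : M) : Prop := ∀ g : G, g * φ m * g⁻¹ ∈ φ.range → g ∈ φ.range

variable [Fintype G]

theorem indHom_spec (hφ : Function.Injective φ) {β : M → ℂ} (hβ : IsClassFunction M β) {m : M}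
    (hm : Spec φ m) : indHom φ β (φ m) = β m := by
  rw [indHom_eq_indFun_range hφ]
  have := indFun_eq_of_ti φ.range (hβ.comp (MonoidHom.ofInjective hφ).symm.toMonoidHom) ⟨φ m, m, rfl⟩
    fun g hg hx => absurd (hm g hx) hg
  refine this.trans (congrArg β ?_)
  exact (MonoidHom.ofInjective hφ).symm_apply_eq.2 rfl

theorem indHom_eq_zero {β : M → ℂ} (hφ : Function.Injective φ) {g : G}
    (h : ∀ m, IsConj g (φ m) → β m = 0) : indHom φ β g = 0 := by
  rw [indHom, Finset.sum_eq_zero, mul_zero]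
  intro x _
  by_cases hx : ∃ m, φ m = x⁻¹ * g * x
  · obtain ⟨m, hm⟩ := hx
    rw [← hm, hφ.extend_apply]
    exact h m (isConj_iff.2 ⟨x⁻¹, by simp [hm]⟩)
  · rw [Function.extend_apply' _ _ _ hx]; rfl

variable [Fintype M]

theorem classInner_indHom_spec (hφ : Function.Injective φ) {α β : M → ℂ} (hβ : IsClassFunction M β)
    (h : ∀ m, α m ≠ 0 → Spec φ m) : classInner (indHom φ α) (indHom φ β) = classInner α β := by
  rw [classInner_indHom_left hφ _ (indHom_classFun _ _), classInner_def, classInner_def]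
  congr 1
  refine Finset.sum_congr rfl fun m _ => ?_
  by_cases hm : α m = 0
  · simp [hm]
  · rw [indHom_spec hφ hβ (h m hm)]

theorem isGen_indHom (hφ : Function.Injective φ) {α : M → ℂ} (h : IsGeneralizedCharacter M α) :
    IsGeneralizedCharacter G (indHom φ α) := by
  obtain ⟨χ, ψ, h1, h2, rfl⟩ := h
  rw [indHom_sub hφ]
  exact (h1.indHom hφ).isGen.sub (h2.indHom hφ).isGen

theorem sum_indHom_classMul (hφ : Function.Injective φ) (α : M → ℂ) (a b : G) :
    ∑ g, indHom φ α g * classMul a b g = Nat.card G * classInner α fun m => classMul a b (φ m) := by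
  rw [← classInner_indHom_left hφ _ (classMul_classFun a b), card_mul_classInner]
  simp [classMul]

omit [Fintype G] [Fintype M] in
theorem CM.spec {z m : M} (h : CM φ z) (hz : z * z = 1) (hz1 : z ≠ 1) {n : ℕ} (hm : m ^ n = z)
    (hn : ∀ m' : M, m' ^ n * m' ^ n = 1 → m' ^ n ≠ 1 → m' ^ n = z) : Spec φ m := fun g ⟨m', hg⟩ => by
  have h1 : φ (m' ^ n) = g * φ z * g⁻¹ := by rw [map_pow, hg, conj_pow, ← map_pow, hm]
  have c : IsConj (φ z) (φ (m' ^ n)) := isConj_iff.2 ⟨g, h1.symm⟩
  rw [h.range_eq, mem_Cx', ← h1, hn m' (h.inj ?_) fun e => ?_]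
  · rw [map_mul, map_one]; exact CfL.sq_of_isConj c (by rw [← map_mul, hz, map_one])
  · exact CfL.ne_one_of_isConj c (fun e => hz1 (h.eq_one_iff.1 e)) (by rw [e, map_one])

omit [Fintype G] [Fintype M] in
theorem CM.classMul_eq {z m : M} (h : CM φ z) (hz : z * z = 1) (hz1 : z ≠ 1)
    (hall : ∀ i : G, i * i = 1 → i ≠ 1 → IsConj (φ z) i) {n : ℕ} (hm : m ^ n = z) :
    classMul (φ z) (φ z) (φ m) =
      {u : M | u * u = 1 ∧ u ≠ 1 ∧ u * m * (u * m) = 1 ∧ u * m ≠ 1}.ncard := by
  have z2 : φ z * φ z = 1 := by rw [← map_mul, hz, map_one]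
  have z1 : φ z ≠ 1 := fun e => hz1 (h.eq_one_iff.1 e)
  rw [classMul, ← Nat.card_coe_set_eq]
  congr 1
  refine (Nat.card_congr (Equiv.ofBijective (fun u => ⟨(φ u.1, φ (u.1 * m)),
    hall _ (by rw [← map_mul, u.2.1, map_one]) fun e => u.2.2.1 (h.eq_one_iff.1 e),
    hall _ (by rw [← map_mul, u.2.2.2.1, map_one]) fun e => u.2.2.2.2 (h.eq_one_iff.1 e),
    by rw [← map_mul, ← mul_assoc, u.2.1, one_mul]⟩) ⟨?_, ?_⟩)).symm
  · intro u v e
    exact Subtype.ext (h.inj (congrArg (fun p => p.1.1) e))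
  · rintro ⟨⟨u, v⟩, hu, hv, e⟩
    have u2 := CfL.sq_of_isConj hu z2
    have v2 := CfL.sq_of_isConj hv z2
    have h1 := (CfL.comm_of_mem_zpowers u2 v2 (w := φ z) (by rw [e, ← hm, map_pow]; exact npow_mem_zpowers _ _) z2).1
    obtain ⟨u, rfl⟩ := h.cent u h1
    have h2 : v = φ (u * m) := by rw [map_mul, ← e, ← mul_assoc, u2, one_mul]
    subst h2
    refine ⟨⟨u, h.inj (by simpa using u2), fun e => CfL.ne_one_of_isConj hu z1 (by rw [e, map_one]),
      h.inj (by simpa using v2), fun e => CfL.ne_one_of_isConj hv z1 (by rw [e, map_one])⟩, rfl⟩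

omit [Fintype G] [Fintype M] in
/-- Two-part of the index of the normalizer of a cyclic subgroup with odd centralizer. -/
theorem dvd_index_Nm_mul_totient [Finite G] {Z : Subgroup G} (hZ : IsCyclic Z)
    (ho : ¬ 2 ∣ Nat.card Cz(Z)) {n : ℕ} (hn : 2 ^ n ∣ Nat.card G) :
    2 ^ n ∣ (Nm(Z)).index * (Nat.card Z).totient := by
  have h1 := CfFT.relIndex_Cz_dvd_totient (X := Z) hZ le_rfl
  rw [← (Nm(Z)).card_mul_index, ← card_mul_relIndex (Cz_le_Nm Z), mul_assoc] at hn
  have h2 := (Nat.Coprime.pow_left n ((Nat.Prime.coprime_iff_not_dvd Nat.prime_two).2 ho)).dvd_of_dvd_mul_left hn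
  exact h2.trans (by rw [mul_comm]; exact Nat.mul_dvd_mul_left _ h1)

omit [Fintype G] [Fintype M] in
theorem index_modEq_of_Nm_le [Finite G] {p : ℕ} [hp : Fact p.Prime] {P K : Subgroup G} (h : SylIn p P ⊤)
    (hK : Nm(P) ≤ K) : K.index ≡ 1 [MOD p] := by
  have h1 := index_Nm_modEq h
  have hPK := le_normalizer.trans hK
  have h2 := index_Nm_modEq (h.mono hPK le_top).subgroupOf_top
  rw [← subgroupOf_normalizer_eq hPK] at h2
  rw [← relIndex_mul_index hK] at h1
  simpa using (h2.symm.mul_right K.index).trans h1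

end CfH4
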