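import Cfsg.Agent.OD.Pre
import Cfsg.Agent.H4.ZStar
import Cfsg.Agent.H8.Coprime2

/-! Extremely closed abelian `2`-subgroups. -/

set_option autoImplicit false
open Cfsg CfH4 CfH9 CfH7 Subgroup
open scoped commutatorElement

namespace CfH4

universe u

variable {G : Type u} [Group G]

structure ECH (H : Subgroup G) : Prop where
  pgrp : IsPGroup 2 H
  comm : IsMulCommutative H
  cl : ∀ g, (H ⊔ cj g H) ⊓ Nm(H) ≤ H

namespace ECH

variable [Finite G] {H : Subgroup G} (h : ECH H)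
include h

theorem syl (g : G) : SylIn 2 H (H ⊔ cj g H) :=
  sylIn_of_sylIn_Nm le_sup_left (by
    rw [le_antisymm (h.cl g) (le_inf le_sup_left le_normalizer)]; exact sylIn_self h.pgrp)

theorem pnil (g : G) : PNil 2 (H ⊔ cj g H) :=
  burnside_pNil (h.syl g) ((h.cl g).trans (le_Cz_of_comm h.comm))

theorem mem_of_cj_le {g x : G} {M : Subgroup G} (hx : x ∈ H ⊔ cj g H) (h1 : H ≤ M)
    (h2 : cj x H ≤ M) : x ∈ M := by
  have h3 := (h.syl g).cj_of_mem hx
  obtain ⟨y, hy, he⟩ := ((h.syl g).mono (le_inf le_sup_left h1) inf_le_left).conj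
    (h3.mono (le_inf h3.le h2) inf_le_left)
  have h4 : y⁻¹ * x ∈ H := h.cl g (mi (mul_mem (inv_mem (mi1 hy)) hx)
    (by rw [mem_normalizer_iff_cj, cj_mul, ← he, cj_inv_cj]))
  exact (mul_mem_cancel_left (inv_mem (mi2 hy))).1 (h1 h4)

theorem subgroupOf {M : Subgroup G} (hM : H ≤ M) : ECH (H.subgroupOf M) := by
  refine ⟨isPGroup_subgroupOf h.pgrp M, comm_subgroupOf h.comm M, fun g => ?_⟩
  rw [← map_le_map_iff_of_injective M.subtype_injective, map_inf _ _ _ M.subtype_injective,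
    map_subtype_Nm, Subgroup.map_sup, map_cj, map_subgroupOf_eq_of_le hM]
  exact (inf_le_inf_left _ inf_le_right).trans (h.cl g)

theorem map {G' : Type u} [Group G'] {f : G →* G'} (hf : Function.Surjective f) :
    ECH (H.map f) := by
  refine ⟨h.pgrp.map f, comm_map h.comm f, fun g y hy => ?_⟩
  obtain ⟨g, rfl⟩ := hf g
  have h1 := mi1 hy
  rw [← map_cj, ← Subgroup.map_sup] at h1
  obtain ⟨x, hx, rfl⟩ := h1
  refine h.mem_of_cj_le (M := (H.map f).comap f) hx (le_comap_map _ _) ?_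
  rw [← map_le_iff_le_comap, map_cj, cj_eq_of_mem_normalizer (mi2 hy)]

theorem exists_col {g x : G} (hx : x ∈ H ⊔ cj g H) :
    ∃ b ∈ H, x * b⁻¹ ∈ pPrimeCoreOf 2 (H ⊔ cj g H) := by
  rw [← (h.pnil g).sup_eq (h.syl g)] at hx
  obtain ⟨o, ho, b, hb, rfl⟩ := (mem_sup_of_le_Nm'
    (le_sup_left.trans (le_normalizer_pPrimeCoreOf (H ⊔ cj g H)))).1 hx
  exact ⟨b, hb, by simpa using ho⟩

theorem eq_one {M : Subgroup G} {b : G} (h1 : b ∈ H) (h2 : b ∈ pPrimeCoreOf 2 M) : b = 1 :=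
  (disjoint_def.1 (disjoint_of_isPGroup_of_coprime h.pgrp (coprime_card_pPrimeCoreOf M))) h1 h2

theorem loc {g a : G} (ha : a ∈ H) (hC : Cx(a) ≤ (Cx(a) ⊓ Nm(H)) ⊔ pPrimeCoreOf 2 Cx(a)) :
    pPrimeCoreOf 2 (H ⊔ cj g H) ⊓ Cx(a) ≤ pPrimeCoreOf 2 Cx(a) := by
  intro y hy
  have h1 : H ≤ Cx(a) := (le_Cz_of_comm h.comm).trans (Cz_le_Cx ha)
  have h2 : Cx(a) ≤ Nm(H ⊔ pPrimeCoreOf 2 Cx(a)) := hC.trans (sup_le
    (fun x hx => mem_Nm_sup hx.2 (le_normalizer_pPrimeCoreOf _ hx.1))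
    (le_sup_right.trans le_normalizer))
  have h3 := h.mem_of_cj_le (pPrimeCoreOf_le _ hy.1) le_sup_left
    ((cj_mono y le_sup_left).trans (cj_eq_of_mem_normalizer (h2 hy.2)).le)
  exact pResidualOf_le_of_le_sup h.pgrp (h1.trans (le_normalizer_pPrimeCoreOf _))
    (sup_comm _ _).le (mem_pResidualOf h3
      (coprime_orderOf_of_mem (coprime_card_pPrimeCoreOf _) hy.1))

theorem col_sq {g x b : G} (hx : x ∈ H ⊔ cj g H) (hxx : x * x = 1) (hb : b ∈ H)
    (ho : x * b⁻¹ ∈ pPrimeCoreOf 2 (H ⊔ cj g H)) : b * b = 1 := by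
  refine h.eq_one (mul_mem hb hb) (M := H ⊔ cj g H) ?_
  have := mul_mem (inv_mem ho) (conj_mem_of_mem_normalizer (le_normalizer_pPrimeCoreOf _ hx)
    (inv_mem ho))
  rwa [show (x * b⁻¹)⁻¹ * (x * (x * b⁻¹)⁻¹ * x⁻¹) = b * b * (x * x)⁻¹ by group, hxx, inv_one,
    mul_one] at this

theorem zlem {g a x b z s : G} (ha : a ∈ H) (haa : a * a = 1)
    (hC : Cx(a) ≤ (Cx(a) ⊓ Nm(H)) ⊔ pPrimeCoreOf 2 Cx(a)) (hx : x ∈ H ⊔ cj g H) (hxx : x * x = 1)
    (hb : b ∈ H) (ho : x * b⁻¹ ∈ pPrimeCoreOf 2 (H ⊔ cj g H)) (hz : PElt 2 z) (hs : PReg 2 s)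
    (he : a * x = z * s) (hz' : z ∈ zpowers (a * x)) :
    z ∈ Cx(a) ∧ z * (a * b)⁻¹ ∈ pPrimeCoreOf 2 Cx(a) := by
  have hN := le_normalizer_pPrimeCoreOf (p := 2) (H ⊔ cj g H)
  have hax := mul_mem (mem_sup_left ha) hx
  have h1 : s ∈ pPrimeCoreOf 2 (H ⊔ cj g H) := (h.pnil g).mem_pPrimeCoreOf
    ((mul_mem_cancel_left (zpowers_le.2 hax hz')).1 (he ▸ hax)) hs
  have h2 : z * (a * b)⁻¹ ∈ pPrimeCoreOf 2 (H ⊔ cj g H) := by
    have := conj_mem_of_mem_normalizer (hN (mem_sup_left ha)) (mul_mem ho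
      (conj_mem_of_mem_normalizer (hN (mem_sup_left hb)) (inv_mem h1)))
    rwa [show a * (x * b⁻¹ * (b * s⁻¹ * b⁻¹)) * a⁻¹ = a * x * s⁻¹ * (a * b)⁻¹ by group, he,
      mul_inv_cancel_right] at this
  have hab : a * b * (a * b) = 1 := by
    calc _ = a * (b * a) * b := by group
      _ = a * a * (b * b) := by rw [comm_iff.1 h.comm b hb a ha]; group
      _ = 1 := by rw [haa, h.col_sq hx hxx hb ho, one_mul]
  have h3 : z * z = 1 := by
    have h3 := mul_mem h2 (conj_mem_of_mem_normalizer (hN (mem_sup_left (mul_mem ha hb))) h2)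
    rw [show z * (a * b)⁻¹ * (a * b * (z * (a * b)⁻¹) * (a * b)⁻¹) =
      z * z * (a * b * (a * b))⁻¹ by group, hab, inv_one, mul_one] at h3
    obtain ⟨k, hk⟩ := hz
    exact PElt.eq_one ⟨k, by rw [(Commute.refl z).mul_pow, hk, one_mul]⟩
      (coprime_orderOf_of_mem (coprime_card_pPrimeCoreOf _) h3)
  have h4 : z ∈ Cx(a) := by
    obtain ⟨k, rfl⟩ := hz'
    have e : a * (a * x) * a⁻¹ = (a * x)⁻¹ := by
      rw [← mul_assoc, haa, one_mul, mul_inv_rev, inv_eq_of_mul_eq_one_right hxx]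
    have : a * (a * x) ^ k * a⁻¹ = (a * x) ^ k := by
      rw [← conj_zpow, e, inv_zpow]; exact inv_eq_of_mul_eq_one_right h3
    exact mem_Cx.2 (mul_inv_eq_iff_eq_mul.1 this).symm
  exact ⟨h4, h.loc ha hC (mi h2 (mul_mem h4 (inv_mem
    (Cz_le_Cx ha (le_Cz_of_comm h.comm (mul_mem ha hb))))))⟩

theorem col_inv {g a x b w : G} (ha : a ∈ H) (haa : a * a = 1)
    (hC : Cx(a) ≤ (Cx(a) ⊓ Nm(H)) ⊔ pPrimeCoreOf 2 Cx(a)) (hx : x ∈ cj g H) (hxx : x * x = 1)
    (hb : b ∈ H) (ho : PReg 2 (x * b⁻¹)) (hw : w ∈ pPrimeCoreOf 2 Cx(a)) :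
    PReg 2 (w * x * w⁻¹ * b⁻¹) := by
  have hx' : w * x * w⁻¹ ∈ H ⊔ cj (w * g) H := mem_sup_right (cj_mul w g H ▸ conj_mem_cj w hx)
  obtain ⟨c, hc, hc'⟩ := h.exists_col hx'
  obtain ⟨z, s, hz, hs, -, he, hz', -⟩ := exists_pElt_mul_pReg Nat.prime_two (a * x)
  obtain ⟨h1, h2⟩ := h.zlem ha haa hC (mem_sup_right hx) hxx hb ((h.pnil g).mem_pPrimeCoreOf
    (mul_mem (mem_sup_right hx) (mem_sup_left (inv_mem hb))) ho) hz hs he hz'
  have e : a * (w * x * w⁻¹) = w * (a * x) * w⁻¹ := by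
    rw [← mul_assoc, ← mul_assoc, ← mem_Cx.1 (pPrimeCoreOf_le _ hw), mul_assoc w]
  obtain ⟨-, h3⟩ := h.zlem (z := w * z * w⁻¹) (s := w * s * w⁻¹) ha haa hC hx'
    (by calc _ = w * (x * x) * w⁻¹ := by group
        _ = 1 := by rw [hxx]; group) hc hc' (hz.map (MulAut.conj w).toMonoidHom)
    ((pReg_conj s w).2 hs) (by rw [e, he]; group) (by rw [e, ← cj_zpowers]; exact conj_mem_cj w hz')
  have h4 := mul_mem (mul_mem (inv_mem h3) (commutator_mem_left hw
    (le_normalizer_pPrimeCoreOf _ h1))) h2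
  rw [show (w * z * w⁻¹ * (a * c)⁻¹)⁻¹ * ⁅w, z⁆ * (z * (a * b)⁻¹) = a * c * (a * b)⁻¹ by
    rw [commutatorElement_def]; group] at h4
  have h5 := h.eq_one (mul_mem (mul_mem ha hc) (inv_mem (mul_mem ha hb))) h4
  rw [mul_inv_eq_one, mul_right_inj] at h5
  exact h5 ▸ coprime_orderOf_of_mem (coprime_card_pPrimeCoreOf _) hc'

omit h in
/-- the elements preserving the colouring -/
def stab (H : Subgroup G) : Subgroup G where
  carrier := {g | ∀ x b, x * x = 1 → (∃ k, x ∈ cj k H) → b ∈ H →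
    (PReg 2 (x * b⁻¹) ↔ PReg 2 (g * x * g⁻¹ * b⁻¹))}
  one_mem' := fun x b _ _ _ => by simp
  mul_mem' := by
    rintro g k hg hk x b h1 ⟨l, hl⟩ h3
    rw [hk x b h1 ⟨l, hl⟩ h3, hg (k * x * k⁻¹) b
      (by calc _ = k * (x * x) * k⁻¹ := by group
          _ = 1 := by rw [h1]; group) ⟨k * l, cj_mul k l H ▸ conj_mem_cj k hl⟩ h3]
    simp [mul_assoc]
  inv_mem' := by
    rintro k hk x b h1 ⟨l, hl⟩ h3
    rw [hk (k⁻¹ * x * k⁻¹⁻¹) b
      (by calc _ = k⁻¹ * (x * x) * k := by group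
          _ = 1 := by rw [h1]; group) ⟨k⁻¹ * l, cj_mul k⁻¹ l H ▸ conj_mem_cj k⁻¹ hl⟩ h3]
    simp [mul_assoc]

theorem le_stab : H ≤ stab H := fun g hg x b _ _ hb => by
  rw [← pReg_conj _ g]
  have : g * (x * b⁻¹) * g⁻¹ = g * x * g⁻¹ * b⁻¹ := by
    rw [mul_assoc, mul_assoc, comm_iff.1 h.comm _ (inv_mem hb) _ (inv_mem hg)]; group
  rw [this]

theorem iso (hG : normalClosure (H : Set G) = ⊤)
    (hC : ∀ a ∈ H, orderOf a = 2 → Cx(a) ≤ (Cx(a) ⊓ Nm(H)) ⊔ pPrimeCoreOf 2 Cx(a)) {a : G}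
    (ha : a ∈ H) (ha2 : orderOf a = 2) : IsIsolated a := by
  have sq : ∀ a : G, orderOf a = 2 → a * a = 1 := fun a ha => by
    rw [← pow_two]; exact pow_eq_one_of_orderOf ha
  intro g hg
  suffices h1 : PReg 2 (g * a * g⁻¹ * a⁻¹) from mul_inv_eq_one.1 (PElt.eq_one ⟨1, by
    rw [pow_one, hg.symm.inv_right.mul_pow, pow_eq_one_of_orderOf ((orderOf_conj' g a).trans ha2),
      inv_pow, pow_eq_one_of_orderOf ha2, inv_one, one_mul]⟩ h1)
  by_cases hc : IsCyclic H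
  · have h1 : g * a * g⁻¹ ∈ H ⊔ cj g H := mem_sup_right (conj_mem_cj g ha)
    obtain ⟨b, hb, hb'⟩ := h.exists_col h1
    have h2 := coprime_orderOf_of_mem (coprime_card_pPrimeCoreOf _) hb'
    have h3 : orderOf b = 2 := orderOf_eq_prime
      (by rw [pow_two]; exact h.col_sq h1 (sq _ ((orderOf_conj' g a).trans ha2)) hb hb')
      (by rintro rfl; simp [orderOf_conj', ha2] at h2)
    have h4 := eq_of_isCyclic hc (zpowers_le.2 ha) (zpowers_le.2 hb)
      (by rw [Nat.card_zpowers, Nat.card_zpowers, ha2, h3])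
    have h5 : b = a := by
      classical
      have h5 : b ∈ zpowers a := h4 ▸ mem_zpowers b
      rw [mem_zpowers_iff_mem_range_orderOf, ha2] at h5
      simp only [Finset.mem_image, Finset.mem_range] at h5
      obtain ⟨i, hi, rfl⟩ := h5
      interval_cases i
      · simp at h3
      · simp
    exact h5 ▸ h2
  have h1 : ∀ k, cj k H ≤ stab H := fun k => by
    refine le_sup_right.trans (((h.pnil k).sup_eq (h.syl k)).ge.trans (sup_le ?_ h.le_stab))
    refine CfH8.le_of_noncyclic h.comm (le_sup_left.trans (le_normalizer_pPrimeCoreOf _))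
      (CfH8.coprime_card_of_isPGroup' h.pgrp (coprime_card_pPrimeCoreOf _)).symm hc
      fun c hc hc1 => ?_
    obtain ⟨n, hn⟩ := (isPGroup_iff_mem.1 h.pgrp c hc).elim fun _ e =>
      exists_pow_orderOf_eq_prime e hc1
    have h2 := pow_mem hc n
    refine (inf_le_inf_left _ (fun y hy => mem_Cx.2 (Commute.pow_right (mem_Cx.1 hy) n))).trans
      ((h.loc h2 (hC _ h2 hn)).trans ?_)
    rintro w hw x b h3 ⟨l, hl⟩ hb
    refine ⟨fun h4 => h.col_inv h2 (sq _ hn) (hC _ h2 hn) hl h3 hb h4 hw, fun h4 => ?_⟩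
    simpa [mul_assoc] using h.col_inv h2 (sq _ hn) (hC _ h2 hn) (cj_mul w l H ▸ conj_mem_cj w hl)
      (by calc _ = w * (x * x) * w⁻¹ := by group
          _ = 1 := by rw [h3]; group) hb h4 (inv_mem hw)
  have h2 : g ∈ stab H := by
    refine (closure_le _).2 ?_ (show g ∈ normalClosure (H : Set G) from hG ▸ mem_top g)
    intro x hx
    obtain ⟨y, hy, h2⟩ := Group.mem_conjugatesOfSet_iff.1 hx
    obtain ⟨k, rfl⟩ := isConj_iff.1 h2
    exact h1 k (conj_mem_cj k hy)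
  exact (h2 a a (sq a ha2) ⟨1, by rwa [cj_one]⟩ ha).1 (by simpa using PReg.one)

end ECH

theorem ec_main (G : Type u) [Group G] [Finite G] :
    ∀ H : Subgroup G, ECH H → Nm(H) ⊔ pPrimeCore 2 G = ⊤ := by
  refine group_induction (P := fun G _ _ => ∀ H : Subgroup G, ECH H →
    Nm(H) ⊔ pPrimeCore 2 G = ⊤) ?_ G
  intro G _ _ ih H h
  have hsub : ∀ M : Subgroup G, M ≠ ⊤ → H ≤ M → M ≤ (M ⊓ Nm(H)) ⊔ pPrimeCoreOf 2 M := by
    intro M h1 h2
    have := congrArg (map M.subtype) (ih M (card_lt_of_ne_top h1) _ (h.subgroupOf h2))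
    rw [Subgroup.map_sup, map_subtype_Nm, map_subgroupOf_eq_of_le h2, map_subtype_top] at this
    exact this.ge
  by_cases hO : pPrimeCore 2 G = ⊥
  swap
  · have h1 := ih _ (card_quot_lt hO) _ (h.map (QuotientGroup.mk'_surjective (pPrimeCore 2 G)))
    rw [pPrimeCore_quotient_pPrimeCore, sup_bot_eq, ← CfH8.map_normalizer_quotient
      (CfH8.coprime_card_of_isPGroup' h.pgrp (coprime_card_pPrimeCore 2 G)).symm
      (Or.inl (CfH8.isSolvable_of_comm h.comm))] at h1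
    simpa [comap_map_eq] using congrArg (comap (QuotientGroup.mk' (pPrimeCore 2 G))) h1
  have hO' : ∀ N : Subgroup G, N.Normal → pPrimeCoreOf 2 N = ⊥ := fun N hN =>
    eq_bot_iff.2 (hO ▸ pPrimeCoreOf_le_pPrimeCore_of_subnormal hN.isSubnormal)
  rw [hO, sup_bot_eq, normalizer_eq_top_iff]
  by_cases hK : normalClosure (H : Set G) = ⊤
  swap
  · have h1 := hsub _ hK le_normalClosure
    rw [hO' _ inferInstance, sup_bot_eq] at h1
    refine normal_of_cj fun g => (le_inf le_sup_right ?_).trans (h.cl g)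
    exact (cj_mono g le_normalClosure).trans ((cj_normal g _).le.trans (h1.trans inf_le_right))
  by_cases h1 : H = ⊥
  · rw [h1]; infer_instance
  by_cases h2 : ∃ a ∈ H, orderOf a = 2 ∧ a ∈ center G
  · obtain ⟨a, ha, ha2, haZ⟩ := h2
    have h2 : zpowers a ≤ center G := zpowers_le.2 haZ
    haveI := CfH5.normal_of_le_center h2
    have hf := QuotientGroup.mk'_surjective (zpowers a)
    have h3 := ih _ (card_quot_lt (zpowers_ne_bot' (ne_one_of_orderOf_eq_prime ha2))) _ (h.map hf)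
    let M := (pPrimeCore 2 (G ⧸ zpowers a)).comap (QuotientGroup.mk' (zpowers a))
    have h4 : PNil 2 M := by
      refine PNil.of_map_of_ker_le_Cz (f := QuotientGroup.mk' (zpowers a)) ?_
        (pNil_of_coprime (coprime_card_of_le (map_comap_le _ _) (coprime_card_pPrimeCore 2 _)))
      rw [QuotientGroup.ker_mk']
      exact inf_le_right.trans (h2.trans (center_le_centralizer _))
    have h5 := (pResidualOf_eq_bot_iff.1 (h4.pResidualOf_eq.trans (hO' M inferInstance))).map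
      (QuotientGroup.mk' (zpowers a))
    rw [map_comap_eq_self_of_surjective hf] at h5
    rw [eq_bot_of_isPGroup_of_coprime h5 (coprime_card_pPrimeCore 2 _), sup_bot_eq,
      normalizer_eq_top_iff] at h3
    have h6 := h3.comap (QuotientGroup.mk' (zpowers a))
    rwa [comap_map_eq, QuotientGroup.ker_mk', sup_eq_left.2 (zpowers_le.2 ha)] at h6
  push Not at h2
  obtain ⟨a, ha, ha2⟩ := exists_orderOf_prime_of_ne_bot h.pgrp h1
  refine absurd (mem_center_iff.2 fun g => ?_) (h2 a ha ha2)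
  have := zstar G a ha2 (h.iso hK (fun b hb hb2 => hsub _ (fun e => h2 b hb hb2
    (mem_center_iff.2 fun g => mem_Cx.1 (e ▸ mem_top g)))
    ((le_Cz_of_comm h.comm).trans (Cz_le_Cx hb))) ha ha2) g
  rwa [hO, mem_bot, mul_inv_eq_one, mul_inv_eq_iff_eq_mul] at this

end CfH4
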