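import Cfsg.Agent.OD.Pre
import Cfsg.Agent.L.RM
import Cfsg.Agent.H9.SylIn

/-! Subgroups of table groups given by bit masks. -/

set_option autoImplicit false
open CfL CfH9 Subgroup

namespace CfH4

variable {T : Tab} {il : List ℕ} {rels : List (List ℕ)} {g : T.Good il rels}

/-- The subgroup of a table group given by a bit mask. -/
noncomputable def bitSub (g : T.Good il rels) (mask : ℕ) (h : Nat.testBit mask 0 = true ∧
    ∀ a : TE g, Nat.testBit mask a.1 = true → ∀ b : TE g, Nat.testBit mask b.1 = true →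
      Nat.testBit mask (a * b⁻¹).1 = true) : Subgroup (TE g) :=
  Subgroup.ofDiv {a | Nat.testBit mask a.1 = true} ⟨1, h.1⟩ fun a ha b hb => h.2 a ha b hb

instance (mask : ℕ) (h) : DecidablePred (· ∈ bitSub g mask h) :=
  fun a => inferInstanceAs (Decidable (Nat.testBit mask a.1 = true))

theorem card_te (K : Subgroup (TE g)) [DecidablePred (· ∈ K)] : Nat.card K = TE.cnt (· ∈ K) := by
  rw [← TE.cnt_eq, ← Nat.card_coe_set_eq]; rfl

theorem sylIn_te {K : Subgroup (TE g)} [DecidablePred (· ∈ K)] {p n : ℕ} [Fact p.Prime]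
    (h1 : TE.cnt (· ∈ K) = p ^ n) (h2 : ¬ p ^ (n + 1) ∣ T.N) : SylIn p K ⊤ := by
  rw [← card_te] at h1
  refine sylIn_top_iff.2 ⟨IsPGroup.of_card h1, fun h => h2 ?_⟩
  rw [← TE.card (g := g), ← K.card_mul_index, h1, pow_succ]
  exact Nat.mul_dvd_mul_left _ h

end CfH4
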