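import Cfsg.Agent.H4.ClT
import Cfsg.Agent.H4.TEx
import Cfsg.Agent.H4.G23T
import Cfsg.Agent.OD.Helper4xc8bbdf3e29

/-! Groups with an involution centralizer `GL₂(3)`: the order. -/

set_option autoImplicit false
open Cfsg CfH4 CfH9 CfH5 CfH7 CfL Subgroup
open scoped ComplexConjugate

namespace CfH4.G23

attribute [local instance 10000] TE.decAll TE.decEx

abbrev M := TE g23_g

noncomputable def A : M := .mk g23_g 1
noncomputable def B : M := .mk g23_g 2
noncomputable def E : M := .mk g23_g 3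
noncomputable def Z : M := .mk g23_g 21
noncomputable def S : Subgroup M := bitSub g23_g 0xfa0a00204457 (by decide +kernel)
noncomputable def Bo : Subgroup M := bitSub g23_g 0x4141020512b (by decide +kernel)
noncomputable def SL : Subgroup M := bitSub g23_g 0xc00fffe003f1 (by decide +kernel)
noncomputable def V : Subgroup M := bitSub g23_g 0x204003 (by decide +kernel)
noncomputable def Q : Subgroup M := bitSub g23_g 0xc00a00200051 (by decide +kernel)
noncomputable instance : DecidablePred (· ∈ S) := by unfold S; infer_instance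
noncomputable instance : DecidablePred (· ∈ Bo) := by unfold Bo; infer_instance
noncomputable instance : DecidablePred (· ∈ SL) := by unfold SL; infer_instance
noncomputable instance : DecidablePred (· ∈ V) := by unfold V; infer_instance
noncomputable instance : DecidablePred (· ∈ Q) := by unfold Q; infer_instance

noncomputable def T : ClT M 8 where
  cl m := ([0, 1, 1, 1, 2, 3, 2, 4, 3, 4, 1, 5, 1, 6, 1, 6, 5, 1, 5, 6, 1, 7, 3, 4, 4, 3, 4, 3, 4, 3, 3, 4,
    3, 2, 4, 2, 1, 6, 1, 1, 5, 6, 1, 5, 5, 6, 2, 2] : List (Fin 8)).getD m.1 0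
  rep := ![1, A, A * B, A * E, B * E, A * B * E, A * E * B, Z]
  sz := ![1, 12, 6, 8, 8, 6, 6, 1]
  cnj := by decide +kernel
  inv := by decide +kernel
  card := by simp only [TE.cnt_eq]; decide +kernel
  clrep := by decide +kernel

theorem T_rep : T.rep = ![1, A, A * B, A * E, B * E, A * B * E, A * E * B, Z] := rfl
theorem T_sz : T.sz = ![1, 12, 6, 8, 8, 6, 6, 1] := rfl
noncomputable abbrev α := T.fn ![0, 0, 4, 0, 0, 2, 2, 0]
noncomputable abbrev β := T.fn ![0, 0, 4, 0, 0, -2, -2, 0]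

theorem card_M : Nat.card M = 48 := TE.card

noncomputable instance : Fintype M := Fintype.ofFinite M

theorem chS : IsCharacter M (T.fn ![3, 1, 3, 0, 0, 1, 1, 3]) :=
  T.isChar_perm S _ (by simp only [TE.cnt_eq]; decide +kernel)
theorem chB : IsCharacter M (T.fn ![4, 2, 0, 1, 1, 0, 0, 4]) :=
  T.isChar_perm Bo _ (by simp only [TE.cnt_eq]; decide +kernel)
theorem chL : IsCharacter M (T.fn ![2, 0, 2, 2, 2, 0, 0, 2]) :=
  T.isChar_perm SL _ (by simp only [TE.cnt_eq]; decide +kernel)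
theorem chV : IsCharacter M (T.fn ![12, 2, 0, 0, 0, 0, 0, 12]) :=
  T.isChar_perm V _ (by simp only [TE.cnt_eq]; decide +kernel)

theorem gen2 : IsGeneralizedCharacter M α := by
  have := (chS.isGen.sub chB.isGen).add isGen_one
  rwa [← T.fn_one, ← T.fn_sub, ← T.fn_add, show (_ + _ : Fin 8 → ℤ) = ![0, 0, 4, 0, 0, 2, 2, 0] by decide] at this

theorem gen3 : IsGeneralizedCharacter M β := by
  have := (chL.isGen.sub isGen_one).mul gen2
  rwa [← T.fn_one, ← T.fn_sub, ← T.fn_mul, show (_ * _ : Fin 8 → ℤ) = ![0, 0, 4, 0, 0, -2, -2, 0] by decide] at this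

set_option synthInstance.maxSize 2000 in
set_option synthInstance.maxHeartbeats 200000 in
theorem arith {r n : ℕ} {y : ℤ} (hr : Odd r) (hn : 0 < n) (hy : 1 + y ^ 2 + (y + 1) ^ 2 ≤ 48)
    (h : r * (n - y) ^ 2 = 96 * (n * (n + 1))) (h1 : 16 ∣ n + 5 * y + 12 ∨ 16 ∣ n + 5 * y + 10)
    (h2 : 0 ≤ n + 3 * y) : r = 77 ∨ r = 117 ∨ r = 165 := by
  have hy1 : -5 ≤ y := by nlinarith
  have hy2 : y ≤ 4 := by nlinarith
  have hm : (n : ℤ) - y ≠ 0 := fun e => by rw [e] at h; nlinarith
  have hb : n < 1930 := by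
    by_cases h0 : y * (y + 1) = 0
    · rcases mul_eq_zero.1 h0 with rfl | h0
      · have : (n : ℤ) ∣ 96 := ⟨r - 96, mul_left_cancel₀ (a := (n : ℤ)) (by omega) (by linear_combination -h)⟩
        have := Int.le_of_dvd (by norm_num) this; omega
      · obtain rfl : y = -1 := by omega
        have : (n + 1 : ℤ) ∣ 96 := ⟨96 - r, mul_left_cancel₀ (a := (n + 1 : ℤ)) (by omega) (by linear_combination h)⟩
        have := Int.le_of_dvd (by norm_num) this; omega
    · have : (n - y : ℤ) ∣ 96 * (y * (y + 1)) := ⟨r * (n - y) - 96 * (n + y + 1), by linear_combination -h⟩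
      have := Int.le_of_dvd (by interval_cases y <;> omega) this
      interval_cases y <;> omega
  have key : ∀ n < 1930, ∀ j < 10, (16 ∣ n + 5 * j + 3 ∨ 16 ∣ n + 5 * j + 1) → 15 ≤ n + 3 * j →
      ((n + 5 - j) ^ 2 ∣ 96 * (n * (n + 1))) → (96 * (n * (n + 1)) / (n + 5 - j) ^ 2) % 2 = 1 →
      (96 * (n * (n + 1)) / (n + 5 - j) ^ 2) ∈ [77, 117, 165] := by decide +kernel
  obtain ⟨j, rfl⟩ : ∃ j : ℕ, y = j - 5 := ⟨(y + 5).toNat, by omega⟩
  by_cases hj : j ≤ n + 5
  · have h3 : 96 * (n * (n + 1)) = (n + 5 - j) ^ 2 * r := by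
      zify [hj]; linear_combination -h
    have h4 : 0 < (n + 5 - j) ^ 2 := pow_pos (by omega) 2
    have := key n hb j (by omega) (by omega) (by omega) ⟨r, h3⟩
    rw [h3, Nat.mul_div_cancel_left _ h4] at this
    simpa using this (Nat.odd_iff.1 hr)
  · have : n ≤ 3 := by omega
    have : j ≤ 9 := by omega
    obtain ⟨k, rfl⟩ := hr
    interval_cases n <;> interval_cases j <;> omega

variable {G : Type*} [Group G] [Finite G] {φ : M →* G} (h : CM φ Z)
include h

theorem syl : SylIn 2 (S.map φ) ⊤ :=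
  h.sylIn (sylIn_te (n := 4) (by decide +kernel) (by decide +kernel)) (by decide +kernel) (by decide +kernel)
    (by decide +kernel) (by decide +kernel)

theorem card_H : Nat.card Cx(φ Z) = 48 := h.card.trans card_M

theorem odd_index : Odd (Cx(φ Z)).index := by
  have := (syl h).not_dvd_relIndex_of_le (H := Cx(φ Z)) (h.range_eq ▸ map_le_range _ _)
  rw [relIndex_top_right] at this
  exact Nat.odd_iff.2 (by omega)

theorem conj_of {u v : M} (e : ∃ c, c * u * c⁻¹ = v := by decide +kernel) : IsConj (φ u) (φ v) :=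
  φ.map_isConj (isConj_iff.2 e)

theorem invol (ha : IsConj (φ Z) (φ A)) (i : G) (hi : i * i = 1) (h1 : i ≠ 1) : IsConj (φ Z) i := by
  obtain ⟨g, -, w, -, hw⟩ := (syl h).exists_conj_mem (mem_top i) (k := 1) (by simpa [sq] using hi)
  have c : IsConj (φ w) i := (isConj_iff.2 ⟨g, hw.symm⟩).symm
  have h2 : w * w = 1 := by
    rw [← h.eq_one_iff, map_mul]; exact sq_of_isConj c.symm hi
  have h3 : w ≠ 1 := by rintro rfl; exact ne_one_of_isConj c.symm h1 (map_one φ)
  have : ∀ w : M, w * w = 1 → w ≠ 1 → w = Z ∨ ∃ c, c * A * c⁻¹ = w := by decide +kernel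
  rcases this w h2 h3 with rfl | e
  · exact c
  · exact (ha.trans (conj_of h e)).trans c

theorem index3 (ha : IsConj (φ Z) (φ A)) :
    (Cx(φ Z)).index = 77 ∨ (Cx(φ Z)).index = 117 ∨ (Cx(φ Z)).index = 165 := by
  classical
  have := Fintype.ofFinite G
  have z2 : Z * Z = 1 := by decide +kernel
  have z1 : Z ≠ 1 := by decide +kernel
  have hs : ∀ (v : Fin 8 → ℤ), (∀ i, v i ≠ 0 → i = 2 ∨ i = 5 ∨ i = 6) → ∀ m, T.fn v m ≠ 0 → Spec φ m := by
    intro v hv m hm
    have : ∀ m, T.cl m = 2 ∨ T.cl m = 5 ∨ T.cl m = 6 → m ^ 2 = Z ∨ m ^ 4 = Z := by decide +kernel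
    exact (this m (hv _ (by simpa [ClT.fn] using hm))).elim
      (fun e => h.spec z2 z1 e (by decide +kernel)) fun e => h.spec z2 z1 e (by decide +kernel)
  have g2 := isGen_indHom h.inj gen2
  have g3 := isGen_indHom h.inj gen3
  have i22 : classInner (indHom φ α) (indHom φ α) = (3 : ℤ) := by
    rw [classInner_indHom_spec h.inj gen2.classFun (hs _ (by decide))]
    exact T.inner_fn _ _ (by rw [card_M]; decide +kernel)
  have i33 : classInner (indHom φ β) (indHom φ β) = (3 : ℤ) := by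
    rw [classInner_indHom_spec h.inj gen3.classFun (hs _ (by decide))]
    exact T.inner_fn _ _ (by rw [card_M]; decide +kernel)
  have i32 : classInner (indHom φ β) (indHom φ α) = (1 : ℤ) := by
    rw [classInner_indHom_spec h.inj gen2.classFun (hs _ (by decide))]
    exact T.inner_fn _ _ (by rw [card_M]; decide +kernel)
  have i21 : classInner (indHom φ α) (fun _ => 1) = (1 : ℤ) := by
    rw [classInner_indHom_left h.inj _ (isClassFunction_const 1), ← T.fn_one]
    exact T.inner_fn _ _ (by rw [card_M]; decide +kernel)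
  have i31 : classInner (indHom φ β) (fun _ => 1) = (0 : ℤ) := by
    rw [classInner_indHom_left h.inj _ (isClassFunction_const 1), ← T.fn_one]
    exact T.inner_fn _ _ (by rw [card_M]; decide +kernel)
  have v0 : ∀ g : G, g * g = 1 → indHom φ α g = 0 := fun g hg => indHom_eq_zero h.inj fun m hm => by
    have : ∀ m : M, m * m = 1 → (![0, 0, 4, 0, 0, 2, 2, 0] : Fin 8 → ℤ) (T.cl m) = 0 := by decide +kernel
    simp only [α, ClT.fn, this m (h.inj (by simpa using sq_of_isConj hm hg)), Int.cast_zero]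
  have i1 : classInner (indHom φ α - fun _ => 1) (fun _ => 1) = 0 := by
    rw [classInner_sub_left, i21, classInner_one_one]; norm_num
  obtain ⟨χ, ψ, hχ, hψ, hne, he⟩ := genChar_norm_two_sub (g2.sub isGen_one) (by
    rw [classInner_sub_right, i1, classInner_sub_left, i22, ← g2.classInner_comm isGen_one, i21]
    norm_num) (by simp [v0])
  have i1' := i1
  rw [he, classInner_sub_left] at i1'
  have hχ1 : χ ≠ fun _ => 1 := by
    rintro rfl
    rw [classInner_one_one, hψ.classInner_of_ne hχ hne.symm] at i1'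
    norm_num at i1'
  have hψ1 : ψ ≠ fun _ => 1 := by
    rintro rfl
    rw [classInner_one_one, hχ.classInner_of_ne hψ hne] at i1'
    norm_num at i1'
  have he' : indHom φ α = (fun _ => 1) + χ - ψ := by rw [add_sub_assoc, ← he]; simp
  obtain ⟨n, hn, hn'⟩ := hχ.exists_degree
  have z2' : φ Z ^ 2 = 1 := by rw [← map_pow, sq, z2, map_one]
  obtain ⟨y, hy⟩ := char_int_of_sq_eq_one hχ.isCharacter z2'
  have hψn : ψ 1 = n + 1 := by
    have := congrFun he' 1
    simp only [v0 1 (mul_one 1), Pi.sub_apply, Pi.add_apply, hn'] at this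
    linear_combination this
  have hψy : ψ (φ Z) = (y + 1 : ℤ) := by
    have := congrFun he' (φ Z)
    simp only [v0 _ (sq (φ Z) ▸ z2'), Pi.sub_apply, Pi.add_apply, hy] at this
    push_cast; linear_combination this
  have hya : χ (φ A) = y := by rw [← hχ.classFun.of_isConj ha, hy]
  obtain ⟨m, -, hm1, hm2⟩ := g3.exists_coords
  have hp : m ⟨χ, hχ⟩ = 0 ∨ m ⟨χ, hχ⟩ = 1 := by
    rw [he', classInner_sub_right, classInner_add_right, i31, hm1 ⟨χ, hχ⟩, hm1 ⟨ψ, hψ⟩] at i32
    have h1 : m ⟨χ, hχ⟩ - m ⟨ψ, hψ⟩ = 1 := by exact_mod_cast (by simpa using i32 : (m ⟨χ, hχ⟩ : ℂ) - m ⟨ψ, hψ⟩ = 1)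
    have h2 := Finset.sum_le_univ_sum_of_nonneg (s := {⟨χ, hχ⟩, ⟨ψ, hψ⟩}) (f := fun ξ => m ξ ^ 2)
      fun _ => by positivity
    rw [Finset.sum_pair (by simp [hne]), ← Int.cast_injective (α := ℂ) (i33.symm.trans hm2)] at h2
    have : -1 < m ⟨χ, hχ⟩ := by nlinarith
    have : m ⟨χ, hχ⟩ < 2 := by nlinarith
    omega
  have cf : IsClassFunction M fun m => χ (φ m) := hχ.classFun.comp φ
  have e1 := T.inner ![0, 0, 4, 0, 0, 2, 2, 0] cf
  have e2 := T.inner ![0, 0, 4, 0, 0, -2, -2, 0] cf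
  have e3 := T.inner ![3, 1, 3, 0, 0, 1, 1, 3] cf
  have e4 := T.inner ![12, 2, 0, 0, 0, 0, 0, 12] cf
  have e5 := T.inner ![0, 0, 4, 0, 0, 2, 2, 0] ((classMul_classFun (φ Z) (φ Z)).comp φ)
  obtain ⟨k, hk⟩ := chS.exists_classInner (hχ.isCharacter.comp φ)
  obtain ⟨l, hl⟩ := chV.exists_classInner (hχ.isCharacter.comp φ)
  rw [← classInner_indHom_left h.inj _ hχ.classFun, he', classInner_sub_left, classInner_add_left,
    hχ.classInner_self, hψ.classInner_of_ne hχ hne.symm, isIrrCharacter_one.classInner_of_ne hχ hχ1.symm] at e1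
  rw [← classInner_indHom_left h.inj _ hχ.classFun, hm1 ⟨χ, hχ⟩] at e2
  rw [hk] at e3
  rw [hl] at e4
  have c1 := h.classMul_eq z2 z1 (invol h ha) (m := A * B) (n := 2) (by decide +kernel)
  have c2 := h.classMul_eq z2 z1 (invol h ha) (m := A * B * E) (n := 4) (by decide +kernel)
  have c3 := h.classMul_eq z2 z1 (invol h ha) (m := A * E * B) (n := 4) (by decide +kernel)
  rw [TE.cnt_eq, show TE.cnt _ = 4 by decide +kernel] at c1
  rw [TE.cnt_eq, show TE.cnt _ = 0 by decide +kernel] at c2 c3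
  simp only [card_M, Fin.sum_univ_eight, T_rep, T_sz, Matrix.cons_val, map_one, hn', hy, hya, c1, c2, c3, map_natCast,
    map_intCast] at e1 e2 e3 e4 e5
  have hsum := sum_indHom_classMul h.inj α (φ Z) (φ Z)
  rw [he', show classInner α _ = 2 by push_cast at e5; linear_combination e5 / 48] at hsum
  simp only [Pi.sub_apply, Pi.add_apply, sub_mul, add_mul, Finset.sum_sub_distrib, Finset.sum_add_distrib,
    sum_mul_classMul _ _ hψ, sum_mul_classMul _ _ hχ, sum_mul_classMul _ _ isIrrCharacter_one, hn', hψn,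
    hy, hψy] at hsum
  rw [← (Cx(φ Z)).card_mul_index, card_H h] at hsum
  have hr := odd_index h
  set r := (Cx(φ Z)).index
  have hb : 1 + (y : ℝ) ^ 2 + (y + 1) ^ 2 ≤ 48 := by
    have h1 := sum_irr_normSq (φ Z)
    rw [card_H h] at h1
    have h2 := Finset.sum_le_univ_sum_of_nonneg (s := {⟨_, isIrrCharacter_one⟩, ⟨χ, hχ⟩, ⟨ψ, hψ⟩})
      (f := fun ξ : IrrCharacter G => ‖ξ.1 (φ Z)‖ ^ 2) fun _ => by positivity
    rw [Finset.sum_insert (by simp [hχ1.symm, hψ1.symm]), Finset.sum_pair (by simp [hne]), h1] at h2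
    simp only [hy, hψy, norm_one, Complex.norm_intCast, sq_abs] at h2
    push_cast at h2
    linarith
  have hr0 : (r : ℂ) ≠ 0 := by exact_mod_cast hr.pos.ne'
  have ha0 : (n : ℂ) ≠ 0 := by exact_mod_cast hn.ne'
  have ha1 : (n : ℂ) + 1 ≠ 0 := by exact_mod_cast Nat.succ_ne_zero n
  refine arith hr hn (by exact_mod_cast hb) ?_ ?_ ?_
  · have : (r : ℂ) * (n - y) ^ 2 = 96 * (n * (n + 1)) := by
      push_cast at hsum
      field_simp at hsum
      linear_combination hsum
    exact_mod_cast this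
  · have : (n : ℂ) + 5 * y + 10 + 2 * m ⟨χ, hχ⟩ = 16 * k := by
      push_cast at e1 e2 e3
      linear_combination -e3 / 3 + e1 * (5 / 24) + e2 / 24
    have : (n : ℤ) + 5 * y + 10 + 2 * m ⟨χ, hχ⟩ = 16 * k := by exact_mod_cast this
    omega
  · have : (n : ℂ) + 3 * y = 4 * l := by
      push_cast at e4
      linear_combination -e4 / 12
    have : (n : ℤ) + 3 * y = 4 * l := by exact_mod_cast this
    omega

end CfH4.G23
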