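import Cfsg.Agent.H4.G23
import Cfsg.Agent.H4.D8b

/-! Groups with an involution centralizer `GL₂(3)`: elements of odd order. -/

set_option autoImplicit false
open Cfsg CfH4 CfH9 CfH5 CfH7 CfL Subgroup

namespace CfH4

variable {G : Type*} [Group G] [Finite G]

theorem exists_cent_mul_inv {F : Subgroup G} (hF : (Nat.card F).Coprime 2) {t : G} (ht : t * t = 1)
    (hN : t ∈ Nm(F)) {y : G} (hy : y ∈ F) :
    ∃ c ∈ F, ∃ v ∈ F, t * c * t⁻¹ = c ∧ t * v * t⁻¹ = v⁻¹ ∧ y = c * v := by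
  have hw : y⁻¹ * (t * y * t⁻¹) ∈ F := mul_mem (inv_mem hy) (conj_mem_of_mem_normalizer hN hy)
  set w := y⁻¹ * (t * y * t⁻¹) with hw'
  obtain ⟨k, hk⟩ := odd_orderOf_of_coprime hF hw
  have h1 : t * w * t⁻¹ = w⁻¹ := by
    calc _ = t * y⁻¹ * t⁻¹ * (t * t) * y * (t * t)⁻¹ := by rw [hw']; group
      _ = _ := by rw [ht, hw']; group
  have h2 : t * w ^ k * t⁻¹ = (w ^ k)⁻¹ := by rw [← conj_pow, h1, inv_pow]
  have h3 : w * w ^ k * w ^ k = 1 := by rw [← pow_orderOf_eq_one w, hk]; group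
  refine ⟨y * (w ^ k)⁻¹, mul_mem hy (inv_mem (pow_mem hw k)), w ^ k, pow_mem hw k, ?_, h2, by group⟩
  calc _ = y * (y⁻¹ * (t * y * t⁻¹)) * (t * w ^ k * t⁻¹)⁻¹ := by group
    _ = y * (w * w ^ k * w ^ k) * (w ^ k)⁻¹ := by rw [h2, ← hw']; group
    _ = _ := by rw [h3, mul_one]

omit [Finite G] in
theorem cube_mul {y y' j : G} (e : y' * y = j * (y * y')) (h1 : j * y = y * j) (h2 : j * y' = y' * j)
    (h3 : j ^ 3 = 1) : (y * y') ^ 3 = y ^ 3 * y' ^ 3 := by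
  have e' : ∀ t, y' * (y * t) = j * (y * (y' * t)) := fun t => by rw [← mul_assoc, e]; simp only [mul_assoc]
  have h1' : ∀ t, y * (j * t) = j * (y * t) := fun t => by rw [← mul_assoc, ← h1, mul_assoc]
  have h2' : ∀ t, y' * (j * t) = j * (y' * t) := fun t => by rw [← mul_assoc, ← h2, mul_assoc]
  rw [← one_mul (y ^ 3 * y' ^ 3), ← h3]
  simp only [pow_succ, pow_zero, one_mul, mul_assoc, e', h1', h2']

namespace G23

attribute [local instance 10000] TE.decAll TE.decEx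

variable {φ : M →* G} (h : CM φ Z) (ha : IsConj (φ Z) (φ A))
include h ha

theorem p24 {i g : G} (hi : i * i = 1) (h1 : i ≠ 1) (hg : g * i = i * g) : g ^ 24 = 1 :=
  h.pow_of_isConj (invol h ha i hi h1) (by decide +kernel) hg

theorem p3 {i g : G} (hi : i * i = 1) (h1 : i ≠ 1) (hg : i * g * i⁻¹ = g) (ho : Odd (orderOf g)) :
    g ^ 3 = 1 :=
  orderOf_dvd_iff_pow_eq_one.1 ((Nat.Coprime.pow_right 3 ho.coprime_two_right).dvd_of_dvd_mul_left
    (orderOf_dvd_of_pow_eq_one (p24 h ha hi h1 (mul_inv_eq_iff_eq_mul.1 hg).symm)))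

theorem cube {u i x : G} (u3 : u ^ 3 = 1) (u1 : u ≠ 1) (hi : i * i = 1) (h1 : i ≠ 1)
    (hu : u * i = i * u) (hx : x * u = u * x) (ho : Odd (orderOf x)) : x ^ 3 = 1 := by
  obtain ⟨ψ, k, rfl⟩ := h.of_isConj (invol h ha i hi h1)
  obtain ⟨f, rfl⟩ := k.cent u hu
  have f3 : f ^ 3 = 1 := k.inj (by simpa using u3)
  have f1 : f ≠ 1 := by rintro rfl; exact u1 (map_one ψ)
  have : ∀ f : M, f ^ 3 = 1 → f ≠ 1 → (∃ s : M, s * s = 1 ∧ s ≠ 1 ∧ s * Z ≠ 1 ∧ s * f * s⁻¹ = f⁻¹) ∧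
      ∀ w, w * f = f * w → (w ^ 3 = 1 → w = 1 ∨ w = f ∨ w = f⁻¹) ∧ w ^ 6 = 1 ∧
        (w ^ 2 = 1 → w = 1 ∨ w = Z) := by decide +kernel
  obtain ⟨⟨s, s2, s1, sz, sf⟩, hw⟩ := this f f3 f1
  have hw' : ∀ g, g * ψ Z = ψ Z * g → g * ψ f = ψ f * g → ∃ w, ψ w = g ∧ w * f = f * w := fun g h1 h2 => by
    obtain ⟨w, rfl⟩ := k.cent g h1
    exact ⟨w, rfl, k.inj (by simpa using h2)⟩
  have oz : orderOf (ψ Z) = 2 := orderOf_eq_prime (by rwa [sq]) h1
  have hS : SylIn 2 (zpowers (ψ Z)) Cx(ψ f) := by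
    refine SylIn.of_Nm_le (K := Cx(ψ f) ⊓ Cx(ψ Z)) ⟨zpowers_le.2 ⟨mem_Cx.2 hu.symm, mem_Cx.2 rfl⟩,
      IsPGroup.of_card (n := 1) (by rw [Nat.card_zpowers, oz]; rfl), fun R hR h2 _ r hr => ?_⟩
      inf_le_left (inf_le_inf_left _ ?_)
    · obtain ⟨w, rfl, e⟩ := hw' r (mem_Cx.1 (h2 hr).2) (mem_Cx.1 (h2 hr).1)
      obtain ⟨n, hn⟩ := hR ⟨_, hr⟩
      have h3 : w ^ 2 ^ n = 1 := k.inj (by simpa using congrArg Subtype.val hn)
      have h4 : w ^ 2 = 1 := orderOf_dvd_iff_pow_eq_one.1 ((Nat.Coprime.of_dvd_left (orderOf_dvd_of_pow_eq_one h3)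
        (Nat.Coprime.pow_left n (by norm_num : Nat.Coprime 2 3))).dvd_of_dvd_mul_right
        (orderOf_dvd_of_pow_eq_one (hw w e).2.1))
      rcases (hw w e).2.2 h4 with rfl | rfl <;> simp
    · rw [← MonoidHom.map_zpowers]
      refine k.Nm_le _ (mem_zpowers _) (by decide +kernel) (by decide +kernel) fun w hw w2 w1 _ => ?_
      exact invol_unique hw (mem_zpowers _) w2 w1 (by decide +kernel) (by decide +kernel)
  have hP := pNil_two_of_isCyclic hS (isCyclic_zpowers _)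
  set F := pPrimeCoreOf 2 Cx(ψ f)
  have hF : (Nat.card F).Coprime 2 := coprime_card_pPrimeCoreOf _
  have hN : ∀ g, g * ψ f * g⁻¹ = ψ f ∨ g * ψ f * g⁻¹ = (ψ f)⁻¹ → g ∈ Nm(F) := fun g hg => by
    rw [mem_normalizer_iff_cj, cj_pPrimeCoreOf, ← Cz_zpowers, cj_centralizer, cj_zpowers]
    rcases hg with e | e <;> simp [e, F, Cz_zpowers]
  have hFc : ∀ y ∈ F, ∀ a ∈ zpowers (ψ f), a * y = y * a := fun y hy a ha =>
    (Cz_zpowers (ψ f) ▸ pPrimeCoreOf_le _ hy : y ∈ Cz(zpowers (ψ f))) a ha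
  have hz : ∀ y ∈ F, ∃ a ∈ zpowers (ψ f), ∃ v ∈ F, ψ Z * v * (ψ Z)⁻¹ = v⁻¹ ∧ y = a * v := fun y hy => by
    obtain ⟨c, hc, v, hv, e1, e2, e3⟩ := exists_cent_mul_inv hF hi (hN _ (Or.inl (by rw [← hu]; group))) hy
    refine ⟨c, ?_, v, hv, e2, e3⟩
    have c3 := p3 h ha hi h1 e1 (odd_orderOf_of_coprime hF hc)
    obtain ⟨w, rfl, e⟩ := hw' c (mul_inv_eq_iff_eq_mul.1 e1).symm (mem_Cx.1 (pPrimeCoreOf_le _ hc))
    rcases (hw w e).1 (k.inj (by simpa using c3)) with rfl | rfl | rfl <;> simp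
  have hz1 : ∀ a ∈ zpowers (ψ f), ψ Z * a * (ψ Z)⁻¹ = a := by
    rintro _ ⟨n, rfl⟩; simp only; rw [← conj_zpow, ← hu]; group
  have hz' : ∀ y ∈ F, ∃ a ∈ zpowers (ψ f), ψ Z * y * (ψ Z)⁻¹ = a * y⁻¹ := fun y hy => by
    obtain ⟨a, ha, v, hv, e1, rfl⟩ := hz y hy
    refine ⟨a * a, mul_mem ha ha, ?_⟩
    rw [← conj_mul, hz1 a ha, e1, mul_inv_rev, ← hFc _ (inv_mem hv) _ (inv_mem ha)]; group
  have a3 : ∀ a ∈ zpowers (ψ f), a ^ 3 = 1 := by
    rintro _ ⟨n, rfl⟩; simp only; rw [← zpow_natCast, ← zpow_mul, mul_comm, zpow_mul, zpow_natCast, u3, one_zpow]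
  have mul3 : ∀ y ∈ F, ∀ y' ∈ F, (y * y') ^ 3 = y ^ 3 * y' ^ 3 := fun y hy y' hy' => by
    obtain ⟨a, ha, e1⟩ := hz' y hy
    obtain ⟨b, hb, e2⟩ := hz' y' hy'
    obtain ⟨c, hc, e3⟩ := hz' _ (mul_mem hy hy')
    rw [← conj_mul, e1, e2, mul_assoc, ← mul_assoc y⁻¹, ← hFc _ (inv_mem hy) b hb] at e3
    have hk : ((a * b)⁻¹ * c)⁻¹ ∈ zpowers (ψ f) := inv_mem (mul_mem (inv_mem (mul_mem ha hb)) hc)
    refine cube_mul ?_ (hFc _ hy _ hk) (hFc _ hy' _ hk) (a3 _ hk)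
    rw [hFc _ (mul_mem hy hy') _ hk, ← inv_inj]
    calc _ = (a * b)⁻¹ * (a * (b * y⁻¹ * y'⁻¹)) := by group
      _ = _ := by rw [e3]; group
  have hxF : x ∈ F := hP.mem_pPrimeCoreOf (mem_Cx.2 hx) ho.coprime_two_right
  have s2' : ψ s * ψ s = 1 := by rw [← map_mul, s2, map_one]
  have sf' : ψ s * ψ f * (ψ s)⁻¹ = (ψ f)⁻¹ := by simpa using congrArg ψ sf
  obtain ⟨c, hc, v, hv, e1, e2, rfl⟩ := exists_cent_mul_inv hF s2' (hN _ (Or.inr sf')) hxF
  obtain ⟨a, haa, v, hv', e3, rfl⟩ := hz v hv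
  have e4 : ψ s * a * (ψ s)⁻¹ = a⁻¹ := by
    obtain ⟨n, rfl⟩ := haa; simp only; rw [← conj_zpow, sf', inv_zpow]
  rw [← conj_mul, e4, mul_inv_rev, ← hFc _ (inv_mem hv') _ (inv_mem haa), mul_right_inj] at e2
  have haF : a ∈ F := by simpa using mul_mem hv (inv_mem hv')
  rw [mul3 _ hc _ hv, mul3 _ haF _ hv', a3 a haa, p3 h ha s2' (fun e => s1 (k.eq_one_iff.1 e)) e1
    (odd_orderOf_of_coprime hF hc), p3 h ha (i := ψ (s * Z)) (g := v) ?_ (fun e => sz (k.eq_one_iff.1 e)) ?_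
    (odd_orderOf_of_coprime hF hv'), one_mul, one_mul]
  · rw [← map_mul, mul_assoc, ← mul_assoc Z, ← k.zc, mul_assoc, ← mul_assoc, s2, one_mul, map_mul, hi]
  · calc _ = ψ s * (ψ Z * v * (ψ Z)⁻¹) * (ψ s)⁻¹ := by rw [map_mul]; group
      _ = (ψ s * v * (ψ s)⁻¹)⁻¹ := by rw [e3]; group
      _ = v := by rw [e2, inv_inv]

theorem odd_Cx {x : G} (hx : ¬ x ^ 24 = 1) : ¬ 2 ∣ Nat.card Cx(x) := fun h2 => by
  obtain ⟨⟨i, hi⟩, h3⟩ := exists_prime_orderOf_dvd_card' 2 h2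
  rw [← orderOf_coe] at h3
  exact hx (p24 h ha (by rw [← sq, ← h3]; exact pow_orderOf_eq_one i) (ne_one_of_orderOf_eq_prime h3)
    (mem_Cx.1 hi).symm)

theorem dvd16 : 2 ^ 4 ∣ Nat.card G := by
  rw [← (Cx(φ Z)).card_mul_index, card_H h]; omega

theorem dvd_index {y : G} {p : ℕ} (hp : p.Prime) (hy : orderOf y = p) (h24 : ¬ p ∣ 24) :
    16 ∣ (Nm(zpowers y)).index * (p - 1) := by
  have := dvd_index_Nm_mul_totient (isCyclic_zpowers y) (by
    rw [Cz_zpowers]; exact odd_Cx h ha fun e => h24 (hy ▸ orderOf_dvd_of_pow_eq_one e)) (dvd16 h ha)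
  rwa [Nat.card_zpowers, hy, Nat.totient_prime hp] at this

theorem exists_three {P : Subgroup G} (hP : SylIn 3 P ⊤) : ∃ u ∈ P, u ^ 3 = 1 ∧ u ≠ 1 ∧
    ∀ x, x * u = u * x → Odd (orderOf x) → x ^ 3 = 1 := by
  have f3 : φ (A * E) ^ 3 = 1 := by rw [← map_pow, h.eq_one_iff]; decide +kernel
  obtain ⟨g, -, hg⟩ := hP.exists_conj_mem (mem_top (φ (A * E))) (k := 1) (by rwa [pow_one])
  have u3 : (g * φ (A * E) * g⁻¹) ^ 3 = 1 := by rw [conj_pow, f3]; simp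
  have u1 : g * φ (A * E) * g⁻¹ ≠ 1 := by rw [Ne, conj_eq_one_iff, h.eq_one_iff]; decide +kernel
  refine ⟨_, hg, u3, u1, fun x => cube h ha u3 u1 (i := g * φ Z * g⁻¹) ?_ ?_ ?_⟩
  · rw [conj_mul, ← map_mul, show Z * Z = 1 by decide +kernel]; simp
  · rw [Ne, conj_eq_one_iff, h.eq_one_iff]; decide +kernel
  · rw [conj_mul, conj_mul, mem_Cx.1 (h.mem _)]

theorem card2 : Nat.card G = 5616 ∨ Nat.card G = 7920 := by
  have hG := (Cx(φ Z)).card_mul_index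
  rw [card_H h] at hG
  rcases index3 h ha with e | e
  swap
  · omega
  exfalso
  haveI : Fact (Nat.Prime 11) := ⟨by norm_num⟩
  obtain ⟨y, hy⟩ := exists_prime_orderOf_dvd_card' (G := G) 11 (by omega)
  have h1 := index_Nm_zpowers (p := 11) (k := 1) hy (by omega)
  have h2 := dvd_index h ha (by norm_num) hy (by norm_num)
  have h3 := (Nm(zpowers y)).card_mul_index
  have h4 : 11 ∣ Nat.card Nm(zpowers y) := hy ▸ orderOf_dvd_natCard _ (le_normalizer (mem_zpowers y))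
  have h5 : (Nm(zpowers y)).index ∣ 336 := Nat.dvd_of_mul_dvd_mul_left (k := 11) (by norm_num)
    ((Nat.mul_dvd_mul_right h4 _).trans (by rw [h3, ← hG, e]))
  have h6 : (Nm(zpowers y)).index = 56 := by
    have := Nat.le_of_dvd (by norm_num) h5
    generalize (Nm(zpowers y)).index = n at *
    obtain ⟨n, rfl⟩ : ∃ m, n = 11 * m + 1 := ⟨n / 11, by omega⟩
    have : n ≤ 31 := by omega
    interval_cases n <;> omega
  have h7 := CfFT.relIndex_Cz_dvd_totient (X := zpowers y) (isCyclic_zpowers y) le_rfl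
  have h8 := card_mul_relIndex (Cz_le_Nm (zpowers y))
  rw [Nat.card_zpowers, hy, show Nat.totient 11 = 10 by decide, Cz_zpowers] at h7
  rw [Cz_zpowers] at h8
  have h9 : 3 ∣ Nat.card Cx(y) := by
    have := Nat.le_of_dvd (by norm_num) h7
    rw [h6, ← hG, e] at h3
    clear h1 h2 h4 h5
    interval_cases (Cx(y)).relIndex Nm(zpowers y) <;> omega
  obtain ⟨⟨u, hu⟩, h10⟩ := exists_prime_orderOf_dvd_card' 3 h9
  rw [← orderOf_coe] at h10
  obtain ⟨v, hv, -, v1, hv'⟩ := exists_three h ha (P := zpowers u) (sylIn_top_iff.2 ⟨IsPGroup.of_card (n := 1)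
    (by rw [Nat.card_zpowers, h10]; rfl), by
      have := (zpowers u).card_mul_index; rw [Nat.card_zpowers, h10] at this; omega⟩)
  have := orderOf_dvd_of_pow_eq_one (hv' y (mem_Cx.1 (zpowers_le.2 hu hv)).symm (by rw [hy]; decide))
  rw [hy] at this
  omega

theorem odd_inv {c x : G} (c2 : c * c = 1) (c1 : c ≠ 1) (e : c * x * c⁻¹ = x⁻¹) (ho : Odd (orderOf x)) :
    x ^ 3 = 1 ∨ x ^ 5 = 1 := by
  have hG := card2 h ha
  have inv : ∀ y ∈ zpowers x, c * y * c⁻¹ = y⁻¹ := by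
    rintro _ ⟨n, rfl⟩; simp only; rw [← conj_zpow, e, inv_zpow]
  have key : ∀ {p : ℕ} [Fact p.Prime], p ∣ orderOf x → ¬ p ∣ 24 → ¬ p ^ 2 ∣ Nat.card G →
      ∃ n, n % p = 1 % p ∧ 16 ∣ n * (p - 1) ∧ 2 * orderOf x * n ∣ Nat.card G := fun {p} hp h1 h2 h3 => by
    have h5 := orderOf_pow_div h1
    refine ⟨_, index_Nm_zpowers (k := 1) (by rw [h5, pow_one]) h3, dvd_index h ha hp.out h5 h2, ?_⟩
    rw [← card_mul_index (Nm(zpowers (x ^ (orderOf x / p))))]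
    exact Nat.mul_dvd_mul_right (dvd_card_Nm c2 c1 (inv _ (npow_mem_zpowers _ _)) (by group) ho) _
  have hd := orderOf_dvd_natCard (G := G) ⊤ (mem_top x)
  rw [card_top] at hd
  haveI : Fact (Nat.Prime 5) := ⟨by norm_num⟩
  haveI : Fact (Nat.Prime 11) := ⟨by norm_num⟩
  haveI : Fact (Nat.Prime 13) := ⟨by norm_num⟩
  have h11 : ¬ 11 ∣ orderOf x := fun h1 => by
    obtain ⟨n, n1, n2, n3⟩ := key h1 (by norm_num) (by omega)
    have h2 := h1.trans hd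
    have h3 : n ∣ 360 := Nat.dvd_of_mul_dvd_mul_left (k := 22) (by norm_num)
      ((Nat.mul_dvd_mul_right (show 22 ∣ 2 * orderOf x by omega) _).trans (n3.trans (dvd_of_eq (by omega))))
    have := Nat.le_of_dvd (by norm_num) h3
    obtain ⟨n, rfl⟩ : ∃ m, n = 11 * m + 1 := ⟨n / 11, by omega⟩
    have : n ≤ 33 := by omega
    interval_cases n <;> omega
  have h13 : ¬ 13 ∣ orderOf x := fun h1 => by
    obtain ⟨n, n1, n2, n3⟩ := key h1 (by norm_num) (by omega)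
    have h2 := h1.trans hd
    have h3 : n ∣ 216 := Nat.dvd_of_mul_dvd_mul_left (k := 26) (by norm_num)
      ((Nat.mul_dvd_mul_right (show 26 ∣ 2 * orderOf x by omega) _).trans (n3.trans (dvd_of_eq (by omega))))
    have := Nat.le_of_dvd (by norm_num) h3
    obtain ⟨n, rfl⟩ : ∃ m, n = 13 * m + 1 := ⟨n / 13, by omega⟩
    have : n ≤ 17 := by omega
    interval_cases n <;> omega
  have h15 : ¬ 15 ∣ orderOf x := fun h1 => by
    obtain ⟨n, n1, n2, n3⟩ := key (p := 5) (by omega) (by norm_num) (by omega)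
    have h2 := h1.trans hd
    have h3 : n ∣ 264 := Nat.dvd_of_mul_dvd_mul_left (k := 30) (by norm_num)
      ((Nat.mul_dvd_mul_right (show 30 ∣ 2 * orderOf x by omega) _).trans (n3.trans (dvd_of_eq (by omega))))
    have := Nat.le_of_dvd (by norm_num) h3
    obtain ⟨n, rfl⟩ : ∃ m, n = 20 * m + 16 := ⟨n / 20, by omega⟩
    have : n ≤ 13 := by omega
    interval_cases n <;> omega
  have h9 : ¬ 9 ∣ orderOf x := fun h1 => by
    have oy := orderOf_pow_div h1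
    have hy := npow_mem_zpowers x (orderOf x / 9)
    set y := x ^ (orderOf x / 9)
    have y3 : ¬ y ^ 3 = 1 := fun e => by have := orderOf_dvd_of_pow_eq_one e; rw [oy] at this; omega
    have cy : Nat.card (zpowers y) = 9 := by rw [Nat.card_zpowers, oy]
    obtain ⟨P, hP, hyP⟩ := exists_sylIn_ge (IsPGroup.of_card (p := 3) (n := 2) cy) le_top
    obtain ⟨u, hu, -, -, hu'⟩ := exists_three h ha hP
    have h2 : P ⊓ Cx(y) < P := lt_of_le_of_ne inf_le_left fun e =>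
      y3 (hu' y (mem_Cx.1 (e.ge hu).2).symm (by rw [oy]; decide))
    have h3 : zpowers y ≤ P ⊓ Cx(y) := le_inf hyP (zpowers_le.2 (mem_Cx.2 rfl))
    have h4 := card_lt_of_lt h2
    have h5 := card_le_of_le h3
    have h6 : Nat.card P = 27 ∧ Nat.card G = 5616 := by
      rw [hP.card_eq_multiplicity, card_top] at h4 ⊢
      rcases hG with e | e <;> rw [e] at h4 ⊢
      · exact ⟨by decide +kernel, rfl⟩
      · rw [show Nat.factorization 7920 3 = 2 by decide +kernel] at h4; omega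
    have h7 : P ⊓ Cx(y) = zpowers y := by
      refine (eq_of_le_of_card_ge h3 ?_).symm
      have := card_dvd_of_le h2.le
      rw [h6.1] at this h4
      rw [cy] at h5 ⊢
      interval_cases Nat.card (P ⊓ Cx(y) : Subgroup G) <;> omega
    have h8 : P ⊓ Cz(P) ≤ zpowers y := h7 ▸ inf_le_inf_left _ (Cz_le_Cx (hyP (mem_zpowers y)))
    obtain ⟨w, hw, w1, hw'⟩ := exists_mem_center_of_normal hP.pgrp hP.pgrp le_normalizer
      (by rintro rfl; simp at h6)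
    set Y := P ⊓ Cz(P)
    have hY : Nat.card Y = 3 ∨ Nat.card Y = 9 := by
      have h9 := card_dvd_of_le h8
      have h10 : Nat.card Y ≠ 1 := fun e => w1 (mem_bot.1 ((card_eq_one.1 e).le ⟨hw, hw'⟩))
      rw [cy] at h9
      have := Nat.le_of_dvd (by norm_num) h9
      interval_cases Nat.card Y <;> omega
    obtain ⟨⟨v, hv⟩, ov⟩ := exists_prime_orderOf_dvd_card' (G := Y) 3 (by omega)
    rw [← orderOf_coe] at ov
    have h10 := dvd_index_Nm_mul_totient (Z := Y) (isCyclic_of_le h8) (fun h2 => by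
      obtain ⟨⟨i, hi⟩, oi⟩ := exists_prime_orderOf_dvd_card' 2 h2
      rw [← orderOf_coe] at oi
      exact y3 (cube h ha (u := v) (i := i) (by rw [← ov]; exact pow_orderOf_eq_one v)
        (ne_one_of_orderOf_eq_prime ov) (by rw [← sq, ← oi]; exact pow_orderOf_eq_one i)
        (ne_one_of_orderOf_eq_prime oi) (hi v hv) (hv.2 y (hyP (mem_zpowers y))) (by rw [oy]; decide)))
      (dvd16 h ha)
    have h11 : Nm(P) ≤ Nm(Y) := fun g hg => mem_Nm_inf hg (mem_Nm_Cz hg)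
    have h12 := index_modEq_of_Nm_le hP h11
    have h13 : 2 * 27 ∣ Nat.card Nm(Y) := by
      refine Nat.Coprime.mul_dvd_of_dvd_of_dvd (by norm_num) ?_ (h6.1 ▸ card_dvd_of_le (le_normalizer.trans h11))
      rw [← orderOf_eq_prime (x := c) (p := 2) (by rwa [sq]) c1]
      exact orderOf_dvd_natCard _ (mem_normalizer_of_conj_mem fun w hw => by
        rw [inv w (zpowers_le.2 hy (h8 hw))]; exact inv_mem hw)
    have h14 : (Nm(Y)).index ∣ 104 := Nat.dvd_of_mul_dvd_mul_left (k := 54) (by norm_num)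
      ((Nat.mul_dvd_mul_right h13 _).trans (by rw [card_mul_index, h6.2]))
    have := Nat.le_of_dvd (by norm_num) h14
    have h15 : 8 ∣ (Nm(Y)).index := by
      rcases hY with e | e <;> rw [e] at h10
      · rw [show Nat.totient 3 = 2 by decide] at h10; omega
      · rw [show Nat.totient 9 = 6 by decide] at h10; omega
    unfold Nat.ModEq at h12
    obtain ⟨n, hn⟩ := h15
    rw [hn] at h12 h14 this
    have : n ≤ 13 := by omega
    interval_cases n <;> omega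
  rw [← orderOf_dvd_iff_pow_eq_one, ← orderOf_dvd_iff_pow_eq_one]
  have h1 : orderOf x ∣ 351 ∨ orderOf x ∣ 495 := hG.imp
    (fun e => (Nat.Coprime.pow_right 4 ho.coprime_two_right).dvd_of_dvd_mul_left (by rwa [e] at hd))
    fun e => (Nat.Coprime.pow_right 4 ho.coprime_two_right).dvd_of_dvd_mul_left (by rwa [e] at hd)
  generalize orderOf x = m at *
  have : ∀ m ∈ Nat.divisors 351 ∪ Nat.divisors 495, ¬ 11 ∣ m → ¬ 13 ∣ m → ¬ 15 ∣ m → ¬ 9 ∣ m → m ∣ 3 ∨ m ∣ 5 := by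
    decide +kernel
  exact this m (by simpa using h1) h11 h13 h15 h9

end G23

end CfH4
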