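import Cfsg.Agent.H4.G23b
import Cfsg.Agent.H4.G23C
import Cfsg.Agent.H4.M11
import Cfsg.Agent.H7.Cores2
import Cfsg.Agent.OD.Helper4x2b3028157e
import Cfsg.Agent.OD.Helper4xd1bca33a2d

/-! Groups with an involution centralizer `GL₂(3)`: identification. -/

set_option autoImplicit false
open Cfsg CfH4 CfH9 CfH5 CfH6 CfH7 CfL Subgroup

namespace CfH4

universe u
variable {G : Type u} [Group G] [Finite G]

theorem equiv_of_graph' {T : Type*} [Group T] [Finite T] [IsSimpleGroup G] (D : Subgroup (G × T))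
    (h1 : D.map (MonoidHom.fst G T) = ⊤)
    (h2 : Nat.card D < Nat.card G * Nat.card (D.map (MonoidHom.snd G T)))
    (h3 : Nat.card T < 2 * Nat.card G) : Nonempty (G ≃* T) := by
  have hs : ∀ g : G, ∃ t, (g, t) ∈ D := fun g => by
    obtain ⟨⟨g', t⟩, hp, rfl⟩ := h1.ge (mem_top g)
    exact ⟨t, hp⟩
  have hN : (D.comap (MonoidHom.inl G T)).Normal := ⟨fun n hn g => by
    obtain ⟨t, ht⟩ := hs g
    have := D.mul_mem (D.mul_mem ht hn) (D.inv_mem ht)
    simpa [mem_comap] using this⟩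
  rcases hN.eq_bot_or_eq_top with h | h
  · have i2 : Function.Injective ((MonoidHom.snd G T).comp D.subtype) := by
      rw [injective_iff_map_eq_one]
      rintro ⟨⟨g, t⟩, hp⟩ ht
      obtain rfl : t = 1 := ht
      obtain rfl : g = 1 := mem_bot.1 (h.le (mem_comap.2 hp))
      rfl
    have s1 : Function.Surjective ((MonoidHom.fst G T).comp D.subtype) := fun g => by
      obtain ⟨t, ht⟩ := hs g
      exact ⟨⟨_, ht⟩, rfl⟩
    have c1 := Nat.card_le_card_of_injective _ i2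
    have c2 := Nat.card_le_card_of_surjective _ s1
    obtain ⟨k, hk⟩ := (card_dvd_of_surjective _ s1).trans (card_dvd_of_injective _ i2)
    have c3 : Nat.card T ≤ Nat.card G := by
      have : k < 2 := by by_contra; nlinarith
      nlinarith
    have b1 := s1.bijective_of_nat_card_le (by omega)
    have b2 := i2.bijective_of_nat_card_le (by omega)
    exact ⟨(MulEquiv.ofBijective _ b1).symm.trans (MulEquiv.ofBijective _ b2)⟩
  · exfalso
    have h4 : (⊤ : Subgroup G).prod (D.map (MonoidHom.snd G T)) ≤ D := by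
      rintro ⟨g, t⟩ ⟨-, ⟨g', t'⟩, hp, rfl⟩
      have := D.mul_mem (mem_comap.1 (h.ge (mem_top (g * g'⁻¹)))) hp
      simpa using this
    have h5 := card_le_of_le h4
    rw [Nat.card_congr (prodEquiv _ _).toEquiv, Nat.card_prod, card_top] at h5
    omega

omit [Finite G] in
theorem inv4 {ev : ℕ → G} (h : ∀ x < 4, ev x * ev x = 1) : ∀ x < 4, ev ([0, 1, 2, 3].getD x 0) = (ev x)⁻¹ :=
  fun x hx => by
    rw [inv_eq_of_mul_eq_one_right (h x hx)]; interval_cases x <;> rfl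

theorem GC.equiv {r : List ℕ} {N : ℕ} (c : GC.{u} r N) [IsSimpleGroup G] {T : Type} [Group T] [Finite T]
    {ev : ℕ → G} {ev' : ℕ → T} (hg : gensub ev 4 = ⊤) (h1 : ∀ x < 4, ev x * ev x = 1)
    (h2 : ∀ r' ∈ gcB ++ [r], evw ev r' = 1)
    (h' : ev' 0 ≠ 1 ∧ (∀ x < 4, ev' x * ev' x = 1) ∧ ∀ r' ∈ gcB ++ [r], evw ev' r' = 1)
    (hN : N * 48 < Nat.card G * 2) (hT : Nat.card T < 2 * Nat.card G) : Nonempty (G ≃* T) := by
  let e : ℕ → G × T := fun x => (ev x, ev' x)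
  have i : ∀ x < 4, e x * e x = 1 := fun x hx => Prod.ext (h1 x hx) (h'.2.1 x hx)
  have hr : ∀ r' ∈ gcB ++ [r], evw e r' = 1 := fun r' h => Prod.ext
    ((map_evw (MonoidHom.fst G T) e r').trans (h2 r' h)) ((map_evw (MonoidHom.snd G T) e r').trans (h'.2.2 r' h))
  obtain ⟨ψ, -, hψ⟩ := TE.exists_hom g23_g e (fun x hx => by
    have : x < 3 := hx
    rw [← inv4 i x (by omega)]; interval_cases x <;> rfl) fun r' h => hr r' (by revert r'; simp [g23rels, gcB])
  have h3 := (c e ψ.range (inv4 i) hr (by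
    simp only [List.mem_cons, List.not_mem_nil, or_false, forall_eq_or_imp, forall_eq, evw_cons, evw_nil, mul_one]
    exact ⟨⟨G23.A, hψ 0 _ (by decide) (by decide +kernel)⟩, ⟨G23.B, hψ 1 _ (by decide) (by decide +kernel)⟩,
      ⟨G23.E, hψ 2 _ (by decide) (by decide +kernel)⟩⟩)).card_le (m := 48) ⟨inferInstance, by
        rw [← G23.card_M]; exact Nat.le_of_dvd Nat.card_pos (card_range_dvd _)⟩
  refine equiv_of_graph' (gensub e 4) ?_ (h3.2.trans_lt (hN.trans_le (Nat.mul_le_mul_left _ ?_))) hT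
  · rw [← hg, gensub, MonoidHom.map_closure, Set.image_image]; rfl
  · exact Finite.one_lt_card_iff_nontrivial.2 ⟨⟨⟨_, _, mem_gensub (x := 0) (by norm_num), rfl⟩, 1,
      fun e => h'.1 (congrArg Subtype.val e)⟩⟩

abbrev SL33 := Matrix.SpecialLinearGroup (Fin 3) (ZMod 3)

def sl33 : ℕ → SL33 := ev4 ⟨!![1, 0, 0; 0, 2, 0; 0, 0, 2], by decide⟩ ⟨!![0, 1, 0; 1, 0, 0; 0, 0, 2], by decide⟩
  ⟨!![1, 1, 0; 0, 2, 0; 0, 0, 2], by decide⟩ ⟨!![2, 0, 0; 0, 0, 1; 0, 1, 0], by decide⟩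

theorem card_SL33 : Nat.card SL33 = 5616 := by
  haveI : Fact (Nat.Prime 3) := ⟨by norm_num⟩
  have := CfH3.card_SL_mul (n := Fin 3) (F := ZMod 3)
  rw [Matrix.card_GL_field] at this
  generalize Nat.card SL33 = n at this ⊢
  simp [Fin.prod_univ_succ] at this
  omega

theorem SL33_equiv : Nonempty (SL33 ≃* Matrix.ProjectiveSpecialLinearGroup (Fin 3) (ZMod 3)) := by
  refine ⟨(QuotientGroup.quotientBot.symm).trans (QuotientGroup.quotientMulEquivOfEq (eq_bot_iff.2 fun g hg => ?_).symm)⟩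
  obtain ⟨r, h1, h2⟩ := Matrix.SpecialLinearGroup.mem_center_iff.1 hg
  obtain rfl : r = 1 := by clear h2; revert r; decide
  exact Subtype.ext (by rw [← h2]; simp)

open Gol in
def m11 (e : List ℕ) (h) (h' : perm e h ∈ Spor.M11) : ℕ → Spor.M11 := ev4
  ⟨perm [0, 9, 2, 3, 13, 7, 6, 5, 18, 1, 10, 22, 16, 4, 14, 15, 12, 19, 8, 17, 23, 21, 11, 20] (by decide +kernel),
    mem_M11 (by decide +kernel)⟩
  ⟨perm [0, 4, 16, 3, 1, 10, 12, 21, 18, 9, 5, 19, 6, 13, 15, 14, 2, 17, 8, 11, 20, 7, 22, 23] (by decide +kernel),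
    mem_M11 (by decide +kernel)⟩ ⟨_, h'⟩
  ⟨perm [0, 1, 6, 3, 13, 20, 2, 23, 12, 9, 10, 22, 8, 4, 15, 14, 18, 17, 16, 19, 5, 21, 11, 7] (by decide +kernel),
    mem_M11 (by decide +kernel)⟩

def m11a := m11 [0, 1, 9, 8, 4, 19, 13, 11, 3, 2, 10, 7, 16, 6, 14, 20, 12, 22, 18, 5, 15, 21, 17, 23]
  (by decide +kernel) (Gol.mem_M11 (by decide +kernel))
def m11b := m11 [0, 16, 2, 8, 12, 7, 6, 5, 3, 13, 17, 11, 4, 9, 23, 15, 1, 10, 18, 19, 20, 22, 21, 14]
  (by decide +kernel) (Gol.mem_M11 (by decide +kernel))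

theorem sl33_rel : sl33 0 ≠ 1 ∧ (∀ x < 4, sl33 x * sl33 x = 1) ∧
  ∀ r' ∈ gcB ++ [gcR 1 [0, 2, 1, 0, 1]], evw sl33 r' = 1 := by decide +kernel
theorem m11a_rel : m11a 0 ≠ 1 ∧ (∀ x < 4, m11a x * m11a x = 1) ∧
  ∀ r' ∈ gcB ++ [gcR 1 [0, 1, 0, 1, 2]], evw m11a r' = 1 := by decide +kernel
theorem m11b_rel : m11b 0 ≠ 1 ∧ (∀ x < 4, m11b x * m11b x = 1) ∧
  ∀ r' ∈ gcB ++ [gcR 2 [1]], evw m11b r' = 1 := by decide +kernel

namespace G23

attribute [local instance 10000] TE.decAll TE.decEx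

theorem model : Nonempty (GL (Fin 2) (ZMod 3) ≃* M) := by
  obtain ⟨ψ, hψ, -⟩ := TE.exists_hom g23_g (G := GL (Fin 2) (ZMod 3))
    (ev4 ⟨!![1, 0; 0, 2], !![1, 0; 0, 2], by decide, by decide⟩ ⟨!![0, 1; 1, 0], !![0, 1; 1, 0], by decide, by decide⟩
      ⟨!![1, 1; 0, 2], !![1, 1; 0, 2], by decide, by decide⟩ 1) (by decide +kernel) (by decide +kernel)
  refine ⟨(MulEquiv.ofBijective ψ (Function.Injective.bijective_of_nat_card_le ?_ ?_)).symm⟩
  · rw [injective_iff_map_eq_one]; simp only [hψ]; decide +kernel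
  · haveI : Fact (Nat.Prime 3) := ⟨by norm_num⟩
    rw [card_M, Matrix.card_GL_field]; simp [Fin.prod_univ_succ]

omit [Finite G] in
theorem eq_Z {φ : M →* G} {w : M} (h : CM φ w) (ht : orderOf (φ w) = 2) : w = Z := by
  have h1 : w ≠ 1 := by rintro rfl; simp at ht
  have := h.zc
  clear h ht; revert w; decide +kernel

variable {φ : M →* G} (h : CM φ Z)
include h

theorem conjA (hO : pResidual 2 G = ⊤) : IsConj (φ Z) (φ A) := by
  by_contra hn
  have i1 := (Cx(φ Z)).card_mul_index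
  have i2 := (Q.map φ).card_mul_index
  rw [card_H h] at i1
  rw [card_map_of_injective h.inj, card_te, show TE.cnt _ = 8 by decide +kernel] at i2
  obtain ⟨f, hf⟩ := thompson_sign (M := Q.map φ) (r := 3 * (Cx(φ Z)).index) (by omega)
    ((show Odd 3 by decide).mul (odd_index h)) (u := φ A) (by rw [← map_pow, h.eq_one_iff]; decide +kernel)
    fun g ⟨w, hw, e⟩ => by
      have c : IsConj (φ A) (φ w) := isConj_iff.2 ⟨g, e.symm⟩
      have : ∀ w ∈ Q, w * w = 1 → w ≠ 1 → w = Z := by decide +kernel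
      rw [this w hw (h.inj (by simpa using sq_of_isConj c (by rw [← map_mul, h.eq_one_iff]; decide +kernel)))
        fun e => ne_one_of_isConj c (h.eq_one_iff.not.2 (by decide +kernel)) (by rw [e, map_one])] at c
      exact hn c.symm
  have := (hO.ge.trans (pResidual_le_ker (f := f) (IsPGroup.of_card (n := 1) (by simp)))) (mem_top (φ A))
  rw [MonoidHom.mem_ker, hf] at this
  exact absurd this (by decide)

theorem mul_eq {u v w : M} (e : u * v = w := by decide +kernel) : φ u * φ v = φ w := by rw [← map_mul, e]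

theorem sq1 {u : M} (e : u * u = 1 := by decide +kernel) : φ u * φ u = 1 := by rw [← map_mul, e, map_one]

theorem ne1 {u : M} (e : u ≠ 1 := by decide +kernel) : φ u ≠ 1 := h.eq_one_iff.not.2 e

variable (ha : IsConj (φ Z) (φ A))
include ha

theorem normal (N : Subgroup G) [hN : N.Normal] (h1 : N ≠ ⊥) : φ Z ∈ N := by
  by_cases h2 : N ⊓ Cx(φ Z) = ⊥
  · have key : ∀ t, IsConj (φ Z) t → ∀ n ∈ N, t * n * t⁻¹ = n⁻¹ := fun t ht n hn =>
      inverts_of_fpf (sq_of_isConj ht (sq1 h)) (mem_Nm_of_normal t N) (eq_bot_iff.2 fun x hx => by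
        obtain ⟨g, rfl⟩ := isConj_iff.1 ht
        have := h2.le (x := g⁻¹ * x * g) ⟨hN.conj_mem' _ hx.1 g, mem_Cx.2 (by
          calc _ = g⁻¹ * (x * (g * φ Z * g⁻¹)) * g := by group
            _ = _ := by rw [mem_Cx.1 hx.2]; group)⟩
        simpa [mul_assoc, inv_mul_eq_one, eq_comm] using this) hn
    refine absurd (eq_bot_iff.2 fun n hn => h2.le ⟨hn, mem_Cx.2 ?_⟩) h1
    have e1 := key _ (ha.trans (conj_of h (v := A * Z))) n hn
    have e2 := key _ (IsConj.refl _) n hn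
    have e3 : φ A * (φ Z * n * (φ Z)⁻¹) * (φ A)⁻¹ = n := by rw [e2, key _ ha _ (N.inv_mem hn), inv_inv]
    rw [show n⁻¹ = n from Eq.trans (by rw [← e1, map_mul]; group) e3] at e2
    exact (mul_inv_eq_iff_eq_mul.1 e2).symm
  · obtain ⟨⟨_, hn, hg⟩, h4⟩ := (ne_bot_iff_exists_ne_one).1 h2
    obtain ⟨w, rfl⟩ := h.cent _ (mem_Cx.1 hg)
    have h5 : w ≠ 1 := by rintro rfl; exact h4 (Subtype.ext (map_one φ))
    have : ∀ w : M, w ≠ 1 → w = Z ∨ ∃ u, u * w * u⁻¹ * w⁻¹ = Z ∨ (u * w * u⁻¹ * w⁻¹) ^ 2 = Z := by decide +kernel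
    obtain rfl | ⟨u, hu⟩ := this w h5
    · exact hn
    have : φ (u * w * u⁻¹ * w⁻¹) ∈ N := by simpa using N.mul_mem (hN.conj_mem _ hn (φ u)) (N.inv_mem hn)
    rcases hu with hu | hu <;> rw [← hu]
    · exact this
    · rw [map_pow]; exact pow_mem this 2

theorem exists_c : ∃ c : G, c * c = 1 ∧ c * φ A = φ A * c ∧ c * φ Z * c⁻¹ = φ Z * φ A := by
  obtain ⟨ψ, h1, e⟩ := h.of_isConj ha
  obtain ⟨w, hw⟩ := h1.cent (φ Z) (by rw [e, ← map_mul, ← map_mul, h.zc])
  have h2 : w * w = 1 := by rw [← h1.eq_one_iff, map_mul, hw]; exact sq1 h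
  have h3 : w ≠ 1 := by rintro rfl; exact ne1 h (by decide +kernel) (hw.symm.trans (map_one ψ))
  have h4 : w ≠ Z := by rintro rfl; exact absurd (h.inj (hw.symm.trans e)) (by decide +kernel)
  have : ∀ w : M, w * w = 1 → w ≠ 1 → w ≠ Z → ∃ u, u * u = 1 ∧ u * w * u⁻¹ = w * Z := by decide +kernel
  obtain ⟨u, hu, hu'⟩ := this w h2 h3 h4
  refine ⟨ψ u, sq1 h1 hu, e ▸ mem_Cx.1 (h1.mem u), ?_⟩
  simpa only [map_mul, map_inv, hw, e] using congrArg ψ hu'

theorem main : Nonempty (G ≃* SL33) ∨ Nonempty (G ≃* Spor.M11) := by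
  obtain ⟨c, c2, ca, cz⟩ := exists_c h ha
  have hV : ∀ g, g * φ Z = φ Z * g → g * φ A = φ A * g → g = 1 ∨ g = φ Z ∨ g = φ A ∨ g = φ A * φ Z := fun g h1 h2 => by
    obtain ⟨w, rfl⟩ := h.cent g h1
    rw [← map_mul, ← map_mul, h.eq_iff] at h2
    simp only [← map_mul, h.eq_iff, h.eq_one_iff]
    clear h1; revert w; decide +kernel
  have cu : ∀ u : M, u * (Z * A) * u⁻¹ = A → u * A * u⁻¹ = A * Z → φ u * c * (φ u * c) * (φ u * c) = 1 :=
    fun u h1 h2 => by
      refine cube_one hV (sq1 h) (sq1 h) (by rw [← map_mul, ← map_mul, h.zc]) (h.eq_iff.not.2 (by decide +kernel))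
        (ne1 h) (ne1 h) ?_ ?_
      · calc _ = φ u * (c * φ Z * c⁻¹) * (φ u)⁻¹ := by group
          _ = _ := by rw [cz]; simp only [← map_mul, ← map_inv, h1]
      · calc _ = φ u * (c * φ A * c⁻¹) * (φ u)⁻¹ := by group
          _ = _ := by rw [ca, mul_inv_cancel_right]; simp only [← map_mul, ← map_inv, h2]
  have bc := cu B (by decide +kernel) (by decide +kernel)
  have abc := cu (A * B) (by decide +kernel) (by decide +kernel)
  set ev := ev4 (φ A) (φ B) (φ E) c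
  have evM : ∀ w : List ℕ, (∀ x ∈ w, x < 3) → evw ev w = φ (evw (ev4 A B E 1) w) := fun w hw => by
    rw [map_evw]; exact evw_congr (fun x hx => by interval_cases x <;> rfl) hw
  have c1 : c ≠ 1 := by
    rintro rfl
    exact ne1 h (u := B * B * B) (by decide +kernel) (by simpa using bc)
  have h1 : ∀ x < 4, ev x * ev x = 1 ∧ ev x ≠ 1 := fun x hx => by
    interval_cases x
    exacts [⟨sq1 h, ne1 h⟩, ⟨sq1 h, ne1 h⟩, ⟨sq1 h, ne1 h⟩, ⟨c2, c1⟩]
  have h2 : ∀ r, evw ev r = 1 → ∀ r' ∈ gcB ++ [r], evw ev r' = 1 := fun r hr => by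
    simp only [gcB, List.cons_append, List.nil_append, List.mem_cons, List.not_mem_nil, or_false, forall_eq_or_imp,
      forall_eq]
    refine ⟨?_, ?_, ?_, ?_, ?_, ?_, hr⟩
    iterate 3 rw [evM _ (by decide), h.eq_one_iff]; decide +kernel
    · simpa [mul_assoc, ev, ev4] using bc
    · simp only [evw_cons, evw_nil, ev, ev4]
      rw [← mul_assoc c, ca, mul_one, mul_assoc, c2, mul_one, sq1 h]
    · simpa [mul_assoc, ev, ev4] using abc
  have hm : ∀ m, φ m ∈ gensub ev 4 := fun m => by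
    have : ∀ m : M, m = evw (ev4 A B E 1) (g23.wl m.1) ∧ ∀ x ∈ g23.wl m.1, x < 3 := by decide +kernel
    rw [(this m).1, ← evM _ (this m).2]
    exact evw_mem (fun x hx => mem_gensub hx) fun x hx => ((this m).2 x hx).trans (by norm_num)
  have hG := card2 h ha
  have hg : gensub ev 4 = ⊤ := by
    have h3 := card2 (h.restrict _ hm) (isConj_iff.2 ⟨⟨_, mul_mem (hm B) (mem_gensub (x := 3) (by norm_num))⟩,
      Subtype.ext (show φ B * c * φ Z * (φ B * c)⁻¹ = φ A by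
        calc _ = φ B * (c * φ Z * c⁻¹) * (φ B)⁻¹ := by group
          _ = _ := by rw [cz]; simp only [← map_mul, ← map_inv, h.eq_iff]; decide +kernel)⟩)
    have h4 := card_subgroup_dvd_card (gensub ev 4)
    refine eq_top_of_card_eq _ ?_
    rcases h3 with h3 | h3 <;> rcases hG with h5 | h5 <;> rw [h3, h5] at h4 <;> rw [h3, h5] <;> omega
  have : IsSimpleGroup G := by
    have : Nontrivial G := ⟨⟨_, _, c1⟩⟩
    refine ⟨fun N hN => or_iff_not_imp_left.2 fun h3 => eq_top_iff.2 (hg.ge.trans (gensub_le fun x hx => ?_))⟩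
    obtain ⟨g, e⟩ := isConj_iff.1 (invol h ha _ (h1 x hx).1 (h1 x hx).2)
    exact e ▸ hN.conj_mem _ (normal h ha N h3) g
  have col : ∀ {r}, GC.{u} r 1 → evw ev r ≠ 1 := fun {r} hc hr => by
    have := (hc ev Cx(φ Z) (inv4 fun x hx => (h1 x hx).1) (h2 r hr) (by
      simp only [List.mem_cons, List.not_mem_nil, or_false, forall_eq_or_imp, forall_eq, evw_cons, evw_nil, mul_one]
      exact ⟨h.mem A, h.mem B, h.mem E⟩)).card_le (m := 48) ⟨inferInstance, (card_H h).le⟩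
    rw [hg, card_top] at this
    omega
  set w := c * (φ B * (φ E * φ B))
  have pw : ∀ k, evw ev (List.replicate k [3, 1, 2, 1]).flatten = w ^ k := fun k =>
    (evw_wpow ev _ k).trans (by simp [ev, ev4, w])
  have d2 : φ B * (φ E * φ B) * (φ B * (φ E * φ B)) = 1 := by simp only [← map_mul, h.eq_one_iff]; decide +kernel
  rcases Nat.even_or_odd (orderOf w) with ho | ho
  swap
  · exact ((odd_inv h ha c2 c1 (inv_conj_mul c2 d2 (mem_zpowers _)).1 ho).elim
      (fun e => col gc_w3 ((pw 3).trans e)) fun e => col gc_w5 ((pw 5).trans e)).elim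
  obtain ⟨i, hi, i2, i1⟩ := exists_invol_of_even ho
  obtain ⟨ci, di⟩ := comm_of_mem_zpowers c2 d2 hi i2
  have hk : w ^ 2 = i ∨ w ^ 3 = i := by
    obtain ⟨χ, h3, rfl⟩ := h.of_isConj (invol h ha i i2 i1)
    obtain ⟨x, hx⟩ := h3.cent _ ci
    obtain ⟨y, hy⟩ := h3.cent _ di
    have : ∀ x : M, x * x = 1 → ∀ y : M, y * y = 1 → (x * y) ^ 2 = 1 ∨ (x * y) ^ 3 = 1 ∨ (x * y) ^ 2 = Z ∨
      (x * y) ^ 3 = Z := by decide +kernel
    have := this x (h3.inj (by simp [hx, c2])) y (h3.inj (by simp [hy, d2]))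
    simp only [← h3.eq_iff, map_pow, map_mul, hx, hy, map_one] at this
    exact (this.resolve_left fun e => col gc_w2 ((pw 2).trans e)).resolve_left fun e => col gc_w3 ((pw 3).trans e)
  set γ := φ B * c * φ (E * A * B * E) * c
  have hγ : γ * φ Z * γ⁻¹ = c := by
    calc _ = φ B * c * (φ (E * A * B * E) * (c * φ Z * c⁻¹) * (φ (E * A * B * E))⁻¹) * (φ B * c)⁻¹ := by
          simp only [γ]; group
      _ = φ B * c * φ B * (φ B * c)⁻¹ := by
          rw [cz]; simp only [← map_mul, ← map_inv]; congr 3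
      _ = c := by
          rw [mul_inv_rev, inv_eq_of_mul_eq_one_right c2, inv_eq_of_mul_eq_one_right (sq1 h (u := B))]
          exact mul_right_cancel (b := c) (by rw [c2, ← bc]; simp only [mul_assoc])
  obtain ⟨m, hm'⟩ := (h.conj γ).cent i (by simpa [hγ] using ci.symm)
  have : ∀ m : M, m * m = 1 → m ≠ 1 → ∃ u ∈ gcI, m = evw (ev4 A B E 1) u ∧ ∀ x ∈ u, x < 3 := by decide +kernel
  obtain ⟨u, hu, rfl, hu'⟩ := this m ((h.conj γ).inj (by rw [map_mul, hm', i2, map_one]))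
    (by rintro rfl; exact i1 (hm'.symm.trans (map_one _)))
  have hr : ∀ k, w ^ (k + 1) = i → evw ev (gcR k u) = 1 := fun k e => by
    have q : ∀ x, x * x = 1 → ∀ t : G, x * (x * t) = t := fun x hx t => by rw [← mul_assoc, hx, one_mul]
    have g1 : evw ev [3, 1, 2, 3, 2, 0, 1, 2, 3] = w * γ := by simp [ev, ev4, w, γ, mul_assoc, q _ (sq1 h (u := B))]
    have g2 : evw ev [3, 2, 1, 0, 2, 3, 1] = γ⁻¹ := eq_inv_of_mul_eq_one_left (by
      simp [ev, ev4, γ, mul_assoc, q _ (sq1 h (u := B)), q _ (sq1 h (u := A)), q _ (sq1 h (u := E)), q _ c2, c2])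
    rw [gcR, evw_append, evw_append, evw_append, pw, evM u hu', g1, g2, ← mul_assoc, ← pow_succ, e, ← i2, mul_assoc,
      mul_assoc]
    exact congrArg _ ((mul_assoc ..).symm.trans hm')
  have h1' := fun x hx => (h1 x hx).1
  have cM := Gol.card_M11
  rcases hk with e | e
  · rcases gc_k2 u hu with h3 | rfl | rfl
    · exact absurd (hr 1 e) (col h3)
    · exact Or.inr (gc_2_165.equiv hg h1' (h2 _ (hr 1 e)) m11a_rel (by omega) (by omega))
    · exact Or.inl (gc_2_117.equiv hg h1' (h2 _ (hr 1 e)) sl33_rel (by omega) (by rw [card_SL33]; omega))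
  · rcases gc_k3 u hu with h3 | rfl
    · exact absurd (hr 2 e) (col h3)
    · exact Or.inr (gc_3_165.equiv hg h1' (h2 _ (hr 2 e)) m11b_rel (by omega) (by omega))

end G23

end CfH4
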