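import Cfsg.Agent.OD.Pre
import Cfsg.Agent.L.TC2
/-! Presentations for completions of an amalgam of type `G₂(3)`. -/
set_option autoImplicit false
set_option maxRecDepth 100000
open CfL
namespace CfH4
def g3B : List (List ℕ) := [[0, 0, 0], [2, 2, 2], [4, 4, 4], [6, 6, 6], [0, 2, 0, 3, 1, 3], [4, 6, 4, 7, 5, 7], [1, 5, 0, 4], [1, 7, 0, 6], [3, 5, 2, 4], [3, 7, 2, 6], [0, 2, 0, 0, 2, 0, 4, 6, 4, 4, 6, 4], [8, 0, 8, 0], [8, 2, 8, 2], [8, 4, 8, 4], [8, 6, 8, 6], [9, 8, 9, 8], [9, 6, 5, 2, 1, 9, 0, 3, 4, 7], [9, 0, 2, 0, 9, 8, 6, 5, 2, 1, 5, 7, 5], [9, 4, 6, 4, 9, 6, 5, 8, 2, 1], [9, 0, 3, 9, 0, 3, 9, 0, 3]]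
def g3M : List ℕ := [9, 0, 4, 9, 0, 4, 9, 0, 6, 3, 0]
def g3il : List ℕ := [1, 0, 3, 2, 5, 4, 7, 6, 8, 9]
universe u
def GC3 (rs : List (List ℕ)) (N : ℕ) : Prop := ∀ {G : Type u} [Group G] (ev : ℕ → G) (H : Subgroup G),
  (∀ x < 10, ev (g3il.getD x 0) = (ev x)⁻¹) → (∀ r ∈ g3B ++ rs, CfH6.evw ev r = 1) →
  (∀ s ∈ [[0], [2], [4], [6], [8]], CfH6.evw ev s ∈ H) → CfH6.Covers H (CfH6.gensub ev 10) N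
def g3C (a : ℕ) (r m : List ℕ) : List ℕ :=
  [g3il.getD a 0] ++ CfH6.invw g3il r ++ CfH6.invw g3il m ++ r ++ [a] ++ CfH6.invw g3il r ++ m ++ r
def g3R (r m : List ℕ) : List (List ℕ) := [g3M, g3C 0 r m, g3C 4 r m]
def g3I : List (List ℕ) := [[1, 3, 0], [0, 3, 1], [4], [6], [1, 3, 0, 4], [1, 3, 0, 6], [1, 3, 0, 7], [1, 3, 0, 5], [0, 3, 1, 4], [0, 3, 1, 6], [0, 3, 1, 7], [0, 3, 1, 5]]
def g3r1 : List ℕ := [9, 1, 6, 9, 1, 2]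
def g3r2 : List ℕ := [9, 1, 6, 9, 0, 3]
end CfH4
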