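import Cfsg.Agent.H4.L32
import Cfsg.Agent.H4.G3T

/-! Groups of type `G₂(3)`: generators of the centralizer of an involution. -/

set_option autoImplicit false
open Cfsg CfH9 CfH6 CfL Subgroup

namespace CfH4.G3

attribute [local instance 10000] TE.decAll TE.decEx

variable {G : Type*} [Group G]

noncomputable def e1 : E8 := .mk e8_g 1
noncomputable def e2 : E8 := .mk e8_g 2
noncomputable def e3 : E8 := .mk e8_g 3
noncomputable def lin {N : Type*} [Group N] (a b c : N) (ε : E8) : N := evw (ev4 a b c 1) (e8.wl ε.1)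

theorem map_lin {N N' : Type*} [Group N] [Group N'] (f : N →* N') (a b c : N) (ε : E8) :
    f (lin a b c ε) = lin (f a) (f b) (f c) ε := by
  rw [lin, map_evw]
  exact evw_congr (k := 3) (fun x hx => by interval_cases x <;> rfl) (e8_g.w_spec ε.2).1

theorem lin_id : ∀ ε, lin e1 e2 e3 ε = ε := by decide +kernel

theorem eq_lin (f : E8 →* G) (ε : E8) : f ε = lin (f e1) (f e2) (f e3) ε := by rw [← map_lin, lin_id]

/-- `m` acts on the image of `ι` by the given images of the basis. -/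
def Ac (ι : E8 →* G) (m : G) (a b c : E8) : Prop := ∀ ε, m * ι ε * m⁻¹ = ι (lin a b c ε)

structure EM (ι : E8 →* G) (M : Subgroup G) : Prop where
  inj : Function.Injective ι
  mem : ∀ ε, ι ε ∈ M
  cent : ∀ m ∈ M, (∀ ε, m * ι ε * m⁻¹ = ι ε) → ∃ ε, ι ε = m
  trans : ∀ a b c, Ind a b c → ∃ m ∈ M, Ac ι m a b c

theorem exists_EM [Finite G] (M : Subgroup G) (O : Subgroup M) [O.Normal] (e : M ⧸ O ≃* SL32)
    (h1 : IsElementaryAbelian 2 O) (h3 : Nat.card O = 8) {z : G} (z1 : z ≠ 1) (hz : z ∈ O.map M.subtype)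
    (hc : Nat.card Cx(z) < 1344) : ∃ ι, EM ι M ∧ ι e1 = z := by
  obtain ⟨z, hz, rfl⟩ := hz
  have c : ∀ a b : O, a * b = b * a := fun a b => h1.1.is_comm.comm a b
  have s : ∀ a : O, a * a = 1 := fun a => Subtype.ext (by simpa [sq] using h1.2 a a.2)
  obtain ⟨h4, h5⟩ := trans_bases O e c s h3 fun h => by
    have h6 := card_le_of_le (show M ≤ Cx((z : G)) from fun m hm =>
      mem_Cx.2 (congrArg Subtype.val (h (mem_top (⟨m, hm⟩ : M)) z hz)).symm)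
    have h7 := O.card_mul_index
    rw [index, Nat.card_congr e.toEquiv, card_SL32, h3] at h7
    change Nat.card Cx((z : G)) < _ at hc
    omega
  obtain ⟨b, c', hi⟩ := exists_ind h3 (a := ⟨z, hz⟩) fun e => z1 (congrArg (fun x : O => ((x : M) : G)) e)
  obtain ⟨f, f1, f2, f3⟩ := exists_e8 c s h3 hi
  refine ⟨(M.subtype.comp O.subtype).comp f.toMonoidHom, ⟨(M.subtype_injective.comp O.subtype_injective).comp f.injective,
    fun ε => (f ε : M).2, fun m hm h => ?_, fun a b c h => ?_⟩, congrArg (fun x : O => ((x : M) : G)) f1⟩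
  · have := h4 (x := ⟨m, hm⟩) fun o ho => Subtype.ext (by
      simpa [eq_comm] using mul_inv_eq_iff_eq_mul.1 (h (f.symm ⟨o, ho⟩)))
    exact ⟨f.symm ⟨_, this⟩, by simp⟩
  · obtain ⟨m, h1, h2, h3⟩ := h5 _ _ _ _ _ _ hi ((Ind.map (f := f.toMonoidHom) f.injective).2 h)
    refine ⟨m, m.2, fun ε => ?_⟩
    rw [map_lin]
    refine (eq_lin ((MulAut.conj (m : G)).toMonoidHom.comp _) ε).trans ?_
    congr 1
    · exact congrArg Subtype.val ((congrArg (fun x : O => m * x * m⁻¹) f1).trans h1)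
    · exact congrArg Subtype.val ((congrArg (fun x : O => m * x * m⁻¹) f2).trans h2)
    · exact congrArg Subtype.val ((congrArg (fun x : O => m * x * m⁻¹) f3).trans h3)

theorem Ac.mul_ι {ι : E8 →* G} {m : G} {a b c : E8} (h : Ac ι m a b c) (v : E8) : Ac ι (ι v * m) a b c := fun ε => by
  have : ∀ v w : E8, v * w * v⁻¹ = w := by decide +kernel
  calc _ = ι v * (m * ι ε * m⁻¹) * (ι v)⁻¹ := by group
    _ = _ := by rw [h, ← map_mul, ← map_inv, ← map_mul, this]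

theorem EM.exists_ab {ι : E8 →* G} {M : Subgroup G} (h : EM ι M) : ∃ a b, Ac ι a e1 e3 (e2 * e3) ∧
    Ac ι b e1 e2 (e2 * e3) ∧ a ^ 3 = 1 ∧ b * a * b⁻¹ = a⁻¹ ∧ (b * b = 1 ∨ b * b = ι e1) := by
  obtain ⟨a, aM, ha, a3⟩ : ∃ a ∈ M, Ac ι a e1 e3 (e2 * e3) ∧ a ^ 3 = 1 := by
    obtain ⟨a, aM, ha⟩ := h.trans e1 e3 (e2 * e3) (by decide +kernel)
    obtain ⟨v, hv⟩ := h.cent (a ^ 3) (pow_mem aM 3) fun ε => by
      calc _ = a * (a * (a * ι ε * a⁻¹) * a⁻¹) * a⁻¹ := by rw [pow_three]; group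
        _ = _ := by rw [ha, ha, ha]; congr 1; revert ε; decide +kernel
    refine ⟨ι v * a, mul_mem (h.mem v) aM, ha.mul_ι v, ?_⟩
    rw [(show Commute (ι v) a by rw [hv]; exact (Commute.refl a).pow_left 3).mul_pow, ← hv, ← map_pow, ← map_mul,
      map_eq_one_iff _ h.inj]
    clear hv; revert v; decide +kernel
  have inv : ∀ b ∈ M, Ac ι b e1 e2 (e2 * e3) → ∃ v, ι v = b * b := fun b bM hb => h.cent _ (mul_mem bM bM) fun ε => by
    calc _ = b * (b * ι ε * b⁻¹) * b⁻¹ := by group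
      _ = _ := by rw [hb, hb]; congr 1; revert ε; decide +kernel
  obtain ⟨b, bM, hb, ba⟩ : ∃ b ∈ M, Ac ι b e1 e2 (e2 * e3) ∧ b * a * b⁻¹ = a⁻¹ := by
    obtain ⟨b, bM, hb⟩ := h.trans e1 e2 (e2 * e3) (by decide +kernel)
    have hb' : ∀ ε, b⁻¹ * ι ε * b = ι (lin e1 e2 (e2 * e3) ε) := fun ε => by
      rw [show ε = lin e1 e2 (e2 * e3) (lin e1 e2 (e2 * e3) ε) by revert ε; decide +kernel, ← hb]
      rw [show lin e1 e2 (e2 * e3) (lin e1 e2 (e2 * e3) (lin e1 e2 (e2 * e3) ε)) = lin e1 e2 (e2 * e3) ε by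
        revert ε; decide +kernel]
      group
    obtain ⟨v, hv⟩ := h.cent (a * (b * a * b⁻¹)) (mul_mem aM (mul_mem (mul_mem bM aM) (inv_mem bM))) fun ε => by
      calc _ = a * (b * (a * (b⁻¹ * ι ε * b) * a⁻¹) * b⁻¹) * a⁻¹ := by group
        _ = _ := by rw [hb', ha, hb, ha]; congr 1; revert ε; decide +kernel
    have h1 : lin e1 e3 (e2 * e3) (lin e1 e3 (e2 * e3) v) * lin e1 e3 (e2 * e3) v * v = 1 := by
      rw [← map_eq_one_iff _ h.inj, map_mul, map_mul, ← ha, ← ha]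
      calc _ = a ^ 3 * (a⁻¹ * ι v) ^ 3 := by simp only [pow_three]; group
        _ = _ := by rw [hv, inv_mul_cancel_left, conj_pow, a3]; group
    have : ∀ v, lin e1 e3 (e2 * e3) (lin e1 e3 (e2 * e3) v) * lin e1 e3 (e2 * e3) v * v = 1 →
      ∃ u, lin e1 e3 (e2 * e3) u * v * u⁻¹ = 1 := by decide +kernel
    obtain ⟨u, hu⟩ := this v h1
    refine ⟨ι u * b, mul_mem (h.mem u) bM, hb.mul_ι u, ?_⟩
    calc _ = a⁻¹ * (a * ι u * a⁻¹ * (a * (b * a * b⁻¹)) * (ι u)⁻¹) := by group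
      _ = _ := by rw [ha, ← hv, ← map_inv, ← map_mul, ← map_mul, hu, map_one, mul_one]
  obtain ⟨v, hv⟩ := inv b bM hb
  refine ⟨a, b, ha, hb, a3, ba, ?_⟩
  have h1 : lin e1 e3 (e2 * e3) v = v := h.inj (by
    rw [← ha, hv, mul_inv_eq_iff_eq_mul]
    calc _ = (b * a * b⁻¹)⁻¹ * b * b := by rw [ba]; group
      _ = b * a⁻¹ * b := by group
      _ = _ := by rw [← ba]; group)
  have : ∀ v, lin e1 e3 (e2 * e3) v = v → v = 1 ∨ v = e1 := by decide +kernel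
  rw [← hv]
  exact (this v h1).imp (fun e => by rw [e, map_one]) fun e => by rw [e]

abbrev A := TE s23_g
noncomputable def Z0 : A := (.mk s23_g 1 * .mk s23_g 3 * .mk s23_g 1) ^ 2

theorem s23_iso : Nonempty (A ≃* Matrix.SpecialLinearGroup (Fin 2) (ZMod 3)) := by
  obtain ⟨ψ, hψ, -⟩ := TE.exists_hom s23_g (G := Matrix.SpecialLinearGroup (Fin 2) (ZMod 3))
    (ev4 ⟨!![1, 1; 0, 1], by decide⟩ ⟨!![1, 2; 0, 1], by decide⟩ ⟨!![1, 0; 2, 1], by decide⟩ ⟨!![1, 0; 1, 1], by decide⟩)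
    (by decide +kernel) (by decide +kernel)
  refine ⟨MulEquiv.ofBijective ψ (Function.Injective.bijective_of_nat_card_le ?_ ?_)⟩
  · rw [injective_iff_map_eq_one]; simp only [hψ]; decide +kernel
  · haveI : Fact (Nat.Prime 3) := ⟨by norm_num⟩
    have := CfH3.card_SL_mul (n := Fin 2) (F := ZMod 3)
    rw [Matrix.card_GL_field] at this
    rw [TE.card]
    generalize Nat.card (Matrix.SpecialLinearGroup (Fin 2) (ZMod 3)) = n at this ⊢
    simp [Fin.prod_univ_succ] at this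
    change n ≤ 24
    omega

theorem exists_f {H₁ H : Subgroup G} (h1 : H₁ ≤ H) (hn : (H₁.subgroupOf H).Normal)
    (e : H₁ ≃* Matrix.SpecialLinearGroup (Fin 2) (ZMod 3)) : ∃ f : A →* G, Function.Injective f ∧ f.range = H₁ ∧
      (∀ g, g ∈ H₁ ⊓ Cz(H₁) ↔ g = 1 ∨ g = f Z0) ∧ ∀ h ∈ H, ∀ r, ∃ r', f r' = h * f r * h⁻¹ := by
  let e' := s23_iso.some.trans e.symm
  have hi : Function.Injective (H₁.subtype.comp e'.toMonoidHom) := H₁.subtype_injective.comp e'.injective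
  have hr : (H₁.subtype.comp e'.toMonoidHom).range = H₁ := by
    rw [MonoidHom.range_comp, MonoidHom.range_eq_top.2 e'.surjective, ← MonoidHom.range_eq_map, range_subtype]
  refine ⟨_, hi, hr, fun g => ?_, fun h hh r => hr.ge (conj_mem_of_mem_normalizer
    ((normal_subgroupOf_iff_le_normalizer h1).1 hn hh) (hr.le ⟨r, rfl⟩))⟩
  generalize H₁.subtype.comp e'.toMonoidHom = f at hi hr
  subst hr
  have : ∀ r : A, (∀ s, s * r = r * s) ↔ r = 1 ∨ r = Z0 := by decide +kernel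
  refine ⟨fun ⟨⟨r, hr⟩, h⟩ => ?_, fun h => ?_⟩
  · subst hr
    simpa only [← hi.eq_iff, map_one] using (this r).1 fun s => hi (by simpa using h _ ⟨s, rfl⟩)
  · obtain ⟨r, rfl, hr⟩ : ∃ r, f r = g ∧ (r = 1 ∨ r = Z0) :=
      h.elim (fun e => ⟨1, by simp [e], Or.inl rfl⟩) fun e => ⟨Z0, e.symm, Or.inr rfl⟩
    refine ⟨⟨r, rfl⟩, ?_⟩
    rintro _ ⟨s, rfl⟩
    rw [← map_mul, (this r).2 hr, map_mul]

theorem exists_y {f : A →* G} (hf : Function.Injective f) {b : G} (hb : ∀ r, ∃ r', f r' = b * f r * b⁻¹) {p : A}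
    (p3 : p ^ 3 = 1) (p1 : p ≠ 1) (e : b * f p * b⁻¹ = (f p)⁻¹) : ∃ y, (y ^ 3 = 1 ∧ p * y * p = y * p * y ∧
      (p * y * p) ^ 2 = Z0) ∧ b * f y * b⁻¹ = (f y)⁻¹ ∧ ∀ K : Subgroup G, f p ∈ K → f y ∈ K → f.range ≤ K := by
  have h1 : ∀ p : A, p ^ 3 = 1 → p ≠ 1 → ∃ y, p * y * p = y * p * y ∧ y ≠ p := by decide +kernel
  have h2 : ∀ p : A, p ^ 3 = 1 → p ≠ 1 → ∀ y, p * y * p = y * p * y → y ≠ p → (y ^ 3 = 1 ∧ (p * y * p) ^ 2 = Z0 ∧
    ∀ r, ∃ i k : Fin 3, ∃ j : Fin 4, r = p ^ i.1 * (p * y * p) ^ j.1 * p ^ k.1) ∧ ∀ y', p * y' * p = y' * p * y' → y' ≠ p →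
    ∃ i : Fin 3, (p ^ i.1)⁻¹ * y' * p ^ i.1 = p ^ i.1 * y * (p ^ i.1)⁻¹ := by decide +kernel
  obtain ⟨y, h3, h4⟩ : ∃ y, (p * y * p = y * p * y ∧ y ≠ p) ∧ b * f y * b⁻¹ = (f y)⁻¹ := by
    obtain ⟨y, h3, h4⟩ := h1 p p3 p1
    obtain ⟨y', hy⟩ := hb y
    obtain ⟨i, hi⟩ := (h2 p p3 p1 y h3 h4).2 y'⁻¹ (hf (by
      have := congrArg (fun r => (b * f r * b⁻¹)⁻¹) h3
      simp only [map_mul, map_inv, hy] at this ⊢
      rw [← inv_inv (f p), ← e]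
      calc _ = (b * (f p * f y * f p) * b⁻¹)⁻¹ := by group
        _ = _ := by rw [this]; group)) fun h => h4 (hf ((MulAut.conj b).injective
          (show b * f y * b⁻¹ = b * f p * b⁻¹ by rw [← hy, e, ← h, map_inv, inv_inv])))
    refine ⟨p ^ i.1 * y * (p ^ i.1)⁻¹, ⟨?_, fun h => h4 ?_⟩, ?_⟩
    · calc _ = p ^ i.1 * (p * y * p) * (p ^ i.1)⁻¹ := by group
        _ = _ := by rw [h3]; group
    · calc _ = (p ^ i.1)⁻¹ * (p ^ i.1 * y * (p ^ i.1)⁻¹) * p ^ i.1 := by group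
        _ = _ := by rw [h]; group
    · nth_rw 2 [← hi]
      simp only [map_mul, map_inv, map_pow, hy]
      calc _ = (b * f p * b⁻¹) ^ i.1 * (b * f y * b⁻¹) * ((b * f p * b⁻¹) ^ i.1)⁻¹ := by rw [conj_pow]; group
        _ = _ := by rw [e]; group
  obtain ⟨h5, h6, h7⟩ := (h2 p p3 p1 y h3.1 h3.2).1
  refine ⟨y, ⟨h5, h3.1, h6⟩, h4, fun K hp hy => ?_⟩
  rintro _ ⟨r, rfl⟩
  obtain ⟨i, k, j, rfl⟩ := h7 r
  simp only [map_mul, map_pow]
  exact mul_mem (mul_mem (pow_mem hp _) (pow_mem (mul_mem (mul_mem hp hy) hp) _)) (pow_mem hp _)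

structure Gen (z x y u v t : G) : Prop where
  x3 : x ^ 3 = 1
  y3 : y ^ 3 = 1
  u3 : u ^ 3 = 1
  v3 : v ^ 3 = 1
  xy : x * y * x = y * x * y
  uv : u * v * u = v * u * v
  xu : x * u = u * x
  xv : x * v = v * x
  yu : y * u = u * y
  yv : y * v = v * y
  zx : (x * y * x) ^ 2 = z
  zu : (u * v * u) ^ 2 = z
  z2 : z * z = 1
  tx : t * x * t⁻¹ = x⁻¹
  ty : t * y * t⁻¹ = y⁻¹
  tu : t * u * t⁻¹ = u⁻¹
  tv : t * v * t⁻¹ = v⁻¹
  tt : t * t = 1 ∨ t * t = z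
  gen : ∀ K : Subgroup G, x ∈ K → y ∈ K → u ∈ K → v ∈ K → t ∈ K → Cx(z) ≤ K
  card : Nat.card Cx(z) = 576

theorem exists_gen [Finite G] (H H₁ H₂ M : Subgroup G) (h1 : H₁ ≤ H) (h2 : H₂ ≤ H) (hn1 : (H₁.subgroupOf H).Normal)
    (hn2 : (H₂.subgroupOf H).Normal) (i1 : H₁ ≃* Matrix.SpecialLinearGroup (Fin 2) (ZMod 3))
    (i2 : H₂ ≃* Matrix.SpecialLinearGroup (Fin 2) (ZMod 3)) (hidx : (H₁ ⊔ H₂).relIndex H = 2)
    (hint1 : H₁ ⊓ H₂ = H₁ ⊓ Cz(H₁)) (hint2 : H₁ ⊓ H₂ = H₂ ⊓ Cz(H₂)) (hHC : H = Cz(H₁ ⊓ H₂))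
    (O : Subgroup M) [O.Normal] (e : M ⧸ O ≃* SL32) (hO : IsElementaryAbelian 2 O) (h3 : Nat.card O = 8)
    (hz : H₁ ⊓ H₂ ≤ O.map M.subtype) : ∃ (ι : E8 →* G) (x y u v t : G), EM ι M ∧ Gen (ι e1) x y u v t ∧
      Ac ι (x * u) e1 e3 (e2 * e3) ∧ Ac ι t e1 e2 (e2 * e3) := by
  obtain ⟨f1, j1, rfl, c1, n1⟩ := exists_f h1 hn1 i1
  obtain ⟨f2, j2, rfl, c2, n2⟩ := exists_f h2 hn2 i2
  rw [← hint1] at c1
  rw [← hint2] at c2
  have Z1 : Z0 ≠ 1 := by decide +kernel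
  have Z2 : Z0 * Z0 = 1 := by decide +kernel
  have z1 : f1 Z0 ≠ 1 := (map_eq_one_iff _ j1).not.2 Z1
  have z2 : f2 Z0 = f1 Z0 := ((c1 _).1 ((c2 _).2 (Or.inr rfl))).resolve_left ((map_eq_one_iff _ j2).not.2 Z1)
  have int : ∀ r s, f1 r = f2 s → r = 1 ∧ s = 1 ∨ r = Z0 ∧ s = Z0 := fun r s h =>
    ((c1 _).1 ⟨⟨r, rfl⟩, s, h.symm⟩).imp (fun e => ⟨j1 (by simpa using e), j2 (by simpa [h] using e)⟩)
      fun e => ⟨j1 e, j2 (by rw [← h, e, z2])⟩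
  obtain rfl : H = Cx(f1 Z0) := by
    rw [hHC]; ext g
    refine ⟨fun h => mem_Cx.2 (h _ ((c1 _).2 (Or.inr rfl))).symm, fun h x hx => ?_⟩
    rcases (c1 _).1 hx with rfl | rfl
    exacts [by simp, (mem_Cx.1 h).symm]
  have cm : ∀ r s, f1 r * f2 s = f2 s * f1 r := fun r s => by
    refine mem_Cx.1 (te_mem (e := ev4 (.mk s23_g 1) (.mk s23_g 2) (.mk s23_g 3) (.mk s23_g 4)) (by decide +kernel)
      (K := (Cx(f2 s)).comap f1) (fun x hx => ?_) r)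
    have : ∀ x < s23.nc, ev4 (TE.mk s23_g 1) (.mk s23_g 2) (.mk s23_g 3) (.mk s23_g 4) x ^ 3 = 1 := by decide +kernel
    have h3 := this x hx
    generalize ev4 (TE.mk s23_g 1) (.mk s23_g 2) (.mk s23_g 3) (.mk s23_g 4) x = r at h3
    obtain ⟨r', hr⟩ := n1 _ (h2 ⟨s, rfl⟩) r
    obtain ⟨s', hs⟩ := n2 _ (inv_mem (h1 ⟨r, rfl⟩)) s
    have h4 : r' ^ 3 = 1 := j1 (by rw [map_pow, hr, conj_pow, ← map_pow, h3]; simp)
    have : ∀ r : A, r ^ 3 = 1 → ∀ r', r' ^ 3 = 1 → r⁻¹ * r' ≠ Z0 := by decide +kernel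
    have h5 := ((int (r⁻¹ * r') (s' * s⁻¹) (by simp only [map_mul, map_inv, hr, hs]; group)).resolve_right
      fun e => this r h3 r' h4 e.1).1
    rw [mem_comap, mem_Cx, eq_comm, ← mul_inv_eq_iff_eq_mul, ← hr, inv_mul_eq_one.1 h5]
  have hL : ∀ g ∈ f1.range ⊔ f2.range, ∃ r s, f1 r * f2 s = g := fun g hg => by
    obtain ⟨⟨r, s⟩, h⟩ := (sup_le (fun _ ⟨r, h⟩ => ⟨(r, 1), (show f1 r * f2 1 = _ by simp [h])⟩)
      (fun _ ⟨r, h⟩ => ⟨(1, r), (show f1 1 * f2 r = _ by simp [h])⟩) :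
      f1.range ⊔ f2.range ≤ (f1.noncommCoprod f2 cm).range) hg
    exact ⟨r, s, h⟩
  have hc : Nat.card Cx(f1 Z0) = 576 := by
    have h4 := card_sup_mul_card_inf (A := f1.range) (B := f2.range)
      (h1.trans ((normal_subgroupOf_iff_le_normalizer h2).1 hn2))
    have h5 : f1.range ⊓ f2.range = zpowers (f1 Z0) := by
      refine le_antisymm (fun g hg => ?_) (zpowers_le.2 ((c1 _).2 (Or.inr rfl)))
      rcases (c1 _).1 hg with rfl | rfl
      exacts [one_mem _, mem_zpowers _]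
    rw [h5, Nat.card_zpowers, orderOf_eq_prime (p := 2) (by rw [sq, ← map_mul, Z2, map_one]) z1,
      ← Nat.card_congr (MonoidHom.ofInjective j1).toEquiv, ← Nat.card_congr (MonoidHom.ofInjective j2).toEquiv, TE.card] at h4
    have h6 := card_mul_relIndex (sup_le h1 h2)
    rw [hidx] at h6
    change _ = 24 * 24 at h4
    omega
  obtain ⟨ι, hι, hz⟩ := exists_EM M O e hO h3 z1 (hz ((c1 _).2 (Or.inr rfl))) (by omega)
  obtain ⟨a, b, ha, hb, a3, ba, bb⟩ := hι.exists_ab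
  have aH : a ∈ Cx(f1 Z0) := by rw [mem_Cx', ← hz, ha]; congr 1
  have bH : b ∈ Cx(f1 Z0) := by rw [mem_Cx', ← hz, hb]; congr 1
  obtain ⟨p, q, rfl, p3, q3⟩ : ∃ p q, f1 p * f2 q = a ∧ p ^ 3 = 1 ∧ q ^ 3 = 1 := by
    obtain ⟨p, q, h⟩ := hL (a ^ 2) (sq_mem_of_index_two hidx ⟨a, aH⟩)
    have c : Commute (f1 p) (f2 q) := cm p q
    have h4 := int (p ^ 3) (q ^ 3)⁻¹ (by
      rw [map_inv, eq_inv_iff_mul_eq_one, map_pow, map_pow, ← c.mul_pow, h, pow_right_comm, a3, one_pow])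
    refine ⟨p ^ 2, q ^ 2, by rw [map_pow, map_pow, ← c.mul_pow, h, ← pow_mul, pow_succ, a3, one_mul], ?_, ?_⟩ <;>
      rw [pow_right_comm]
    · rcases h4 with h4 | h4 <;> simp [h4.1, sq, Z2]
    · rw [← inv_eq_one, ← inv_pow]; rcases h4 with h4 | h4 <;> simp [h4.2, sq, Z2]
  have key : ∀ {r r' : A}, r ^ 3 = 1 → r' ^ 3 = 1 → r * r' ≠ Z0 := by decide +kernel
  obtain ⟨p', hp⟩ := n1 b bH p
  obtain ⟨q', hq⟩ := n2 b bH q
  have h4 := (int (p * p') (q' * q)⁻¹ (by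
    rw [map_inv, eq_inv_iff_mul_eq_one, map_mul, map_mul, hp, hq]
    calc _ = f1 p * (b * (f1 p * f2 q) * b⁻¹) * f2 q := by group
      _ = _ := by rw [ba, cm]; group)).resolve_right fun e => key p3 (j1 (by
        rw [map_pow, hp, conj_pow, ← map_pow, p3]; simp)) e.1
  have bp : b * f1 p * b⁻¹ = (f1 p)⁻¹ := by rw [← hp, ← map_inv, eq_inv_of_mul_eq_one_right h4.1]
  have bq : b * f2 q * b⁻¹ = (f2 q)⁻¹ := by rw [← hq, ← map_inv, eq_inv_of_mul_eq_one_left (inv_eq_one.1 h4.2)]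
  have ne : ∀ {f : A →* G}, Function.Injective f → f Z0 = f1 Z0 → (∀ h ∈ Cx(f1 Z0), ∀ r, ∃ r', f r' = h * f r * h⁻¹) →
      ∀ r, f r ≠ f1 p * f2 q := fun {f} j z n r h => by
    obtain ⟨r', hr⟩ := n (ι e2) (by rw [mem_Cx, ← hz, ← map_mul, ← map_mul]; congr 1) r
    have h5 : f (r' * r⁻¹) = ι (e2 * e3) := by
      have := ha e2⁻¹
      rw [show lin e1 e3 (e2 * e3) e2⁻¹ = e3 by decide +kernel, ← h, map_inv] at this
      rw [map_mul, map_mul, ← this, hr, map_inv]; group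
    have : ∀ r : A, r * r = 1 → r = 1 ∨ r = Z0 := by decide +kernel
    rcases this (r' * r⁻¹) (j (by rw [map_mul, h5, ← map_mul, map_one, map_eq_one_iff _ hι.inj]; decide +kernel))
      with h6 | h6
    · rw [h6, map_one, eq_comm, map_eq_one_iff _ hι.inj] at h5; exact absurd h5 (by decide +kernel)
    · rw [h6, z, ← hz] at h5; exact absurd (hι.inj h5) (by decide +kernel)
  obtain ⟨y, ⟨y1, y2, y3⟩, y4, y5⟩ := exists_y j1 (n1 b bH) p3 (by rintro rfl; exact ne j2 z2 n2 q (by simp)) bp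
  obtain ⟨v, ⟨v1, v2, v3⟩, v4, v5⟩ := exists_y j2 (n2 b bH) q3 (by rintro rfl; exact ne j1 rfl n1 p (by simp)) bq
  refine ⟨ι, f1 p, f1 y, f2 q, f2 v, b, hι, ⟨by rw [← map_pow, p3, map_one], by rw [← map_pow, y1, map_one],
    by rw [← map_pow, q3, map_one], by rw [← map_pow, v1, map_one], by simp only [← map_mul, y2],
    by simp only [← map_mul, v2], cm _ _, cm _ _, cm _ _, cm _ _, by simp only [← map_mul, ← map_pow, y3, hz],
    by simp only [← map_mul, ← map_pow, v3, hz, z2], by rw [hz, ← map_mul, Z2, map_one], bp, y4, bq, v4, bb,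
    fun K k1 k2 k3 k4 k5 g hg => ?_, hz ▸ hc⟩, ha, hb⟩
  have hK := sup_le (y5 K k1 k2) (v5 K k3 k4)
  rw [hz] at hg
  by_cases h5 : g ∈ f1.range ⊔ f2.range
  · exact hK h5
  refine (mul_mem_cancel_right k5).1 (hK ((mul_mem_iff_of_index_two hidx (a := ⟨g, hg⟩) (b := ⟨b, bH⟩)).2
    (iff_of_false h5 fun h6 => ?_)))
  obtain ⟨r, s, h7⟩ := hL b h6
  have : ∀ p : A, p ^ 3 = 1 → ∀ r, r * p * r⁻¹ = p⁻¹ → p = 1 := by decide +kernel
  obtain rfl := this p p3 r (j1 (by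
    rw [map_inv, ← bp, ← h7, mul_assoc (f1 r), ← cm, map_mul, map_mul, map_inv]; group))
  exact ne j2 z2 n2 q (by simp)

end CfH4.G3
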