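import Cfsg.Agent.H4.G3a
import Cfsg.Agent.H4.G3C
import Cfsg.Agent.OD.Helper4x072c1e10da

/-! Groups of type `G₂(3)`: the amalgam. -/

set_option autoImplicit false
open Cfsg CfH9 CfH6 CfL Subgroup

namespace CfH4.G3

attribute [local instance 10000] TE.decAll TE.decEx

universe u
variable {G : Type u} [Group G]

/-- `g` acts on the image of `φ` by `a ↦ b`. -/
def Cj {N : Type*} [Group N] (φ : N →* G) (g : G) (a b : N) : Prop := g * φ a * g⁻¹ = φ b

section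
variable {N : Type*} [Group N] {φ : N →* G} {g h : G} {a b c d : N}

theorem Cj.mul (h1 : Cj φ g a b) (h2 : Cj φ g c d) : Cj φ g (a * c) (b * d) := by
  unfold Cj at *; rw [map_mul, map_mul, ← h1, ← h2]; group

theorem Cj.inv (h1 : Cj φ g a b) : Cj φ g a⁻¹ b⁻¹ := by
  unfold Cj at *; rw [map_inv, map_inv, ← h1]; group

theorem Cj.one : Cj φ g 1 1 := by simp [Cj]

theorem Cj.pow (h1 : Cj φ g a b) (n : ℕ) : Cj φ g (a ^ n) (b ^ n) := by
  unfold Cj at *; rw [map_pow, map_pow, ← h1, conj_pow]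

theorem Cj.comp (h1 : Cj φ g b c) (h2 : Cj φ h a b) : Cj φ (g * h) a c := by
  unfold Cj at *; rw [← h1, ← h2]; group

theorem Cj.inn (a c : N) : Cj φ (φ c) a (c * a * c⁻¹) := by simp [Cj]

theorem Cj.uniq (hφ : Function.Injective φ) (h1 : Cj φ g a b) (h2 : Cj φ g a c) : b = c := hφ (h1.symm.trans h2)

theorem Cj.cast (h1 : Cj φ g a b) (e1 : a = c) (e2 : b = d) : Cj φ g c d := e1 ▸ e2 ▸ h1

theorem exists_g0 [Finite G] [Finite N] (hN : Nat.card N = 576) {ι : E8 →* G} {M : Subgroup G} (hι : EM ι M)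
    {X Y U V T Z W S : N} (h : Gen (ι e1) (φ X) (φ Y) (φ U) (φ V) (φ T)) (ha : Ac ι (φ X * φ U) e1 e3 (e2 * e3))
    (hb : Ac ι (φ T) e1 e2 (e2 * e3)) (f : (X * Y * X) ^ 2 = Z ∧ (∀ m, m * Z = Z * m) ∧ W * (X * U * W * (X * U)⁻¹) = S ∧
      ∀ m, m * m = 1 → m ≠ 1 → T * m * T⁻¹ = m → X * U * (X * U * m * (X * U)⁻¹) * (X * U)⁻¹ = m * (X * U * m * (X * U)⁻¹) →
      m = W) : CM φ Z ∧ φ Z = ι e1 ∧ ∃ g, Cj φ g Z (W * Z) ∧ Cj φ g W W ∧ Cj φ g S S ∧
        ∀ d, d * W = W * d → ∃ d', Cj φ g d d' := by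
  have hz : φ Z = ι e1 := by simpa only [← f.1, map_mul, map_pow] using h.zx
  have h1 : φ.range = Cx(φ Z) := le_antisymm (by rintro _ ⟨m, rfl⟩; rw [mem_Cx, ← map_mul, f.2.1, map_mul])
    (hz ▸ h.gen _ ⟨_, rfl⟩ ⟨_, rfl⟩ ⟨_, rfl⟩ ⟨_, rfl⟩ ⟨_, rfl⟩)
  have cm : CM φ Z := ⟨fun a b e => (φ.rangeRestrict_surjective.bijective_of_nat_card_le
    (by rw [h1, hz, h.card, hN])).1 (Subtype.ext e), f.2.1, fun g hg => h1.ge (mem_Cx.2 hg)⟩
  rw [← map_mul] at ha
  obtain ⟨m, hm⟩ := cm.cent (ι e2) (by rw [hz, ← map_mul, ← map_mul]; congr 1)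
  have h2 : φ (X * U * m * (X * U)⁻¹) = ι e3 := by rw [map_mul, map_mul, map_inv, hm, ha]; congr 1
  obtain rfl := f.2.2.2 m (cm.inj (by rw [map_mul, hm, ← map_mul, map_one, map_eq_one_iff _ hι.inj]; decide +kernel))
    (by rintro rfl; exact absurd (hι.inj (hm.symm.trans ((map_one φ).trans (map_one ι).symm))) (by decide +kernel))
    (cm.inj (by rw [map_mul, map_mul, map_inv, hm, hb]; congr 1))
    (cm.inj (by rw [map_mul, map_mul, map_inv, h2, ha, map_mul φ m, hm, h2, ← map_mul]; congr 1))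
  have h3 : φ S = ι (e2 * e3) := by rw [← f.2.2.1, map_mul, hm, h2, map_mul]
  obtain ⟨g, -, hg⟩ := hι.trans (e2 * e1) e2 e3 (by decide +kernel)
  have g1 : Cj φ g Z (m * Z) := by rw [Cj, map_mul, hz, hm, hg, ← map_mul]; congr 1
  have g2 : Cj φ g m m := by rw [Cj, hm, hg]; congr 1
  refine ⟨cm, hz, g, g1, g2, by rw [Cj, h3, hg]; congr 1, fun d hd => ?_⟩
  have h4 := (g2.inv.mul g1).symm
  rw [inv_mul_cancel_left] at h4
  refine (cm.cent _ ?_).imp fun _ => Eq.symm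
  rw [h4]
  calc _ = g * φ (d * (m⁻¹ * Z)) * g⁻¹ := by rw [map_mul φ d]; group
    _ = g * φ (m⁻¹ * Z * d) * g⁻¹ := by rw [← mul_assoc d, (show Commute d m from hd).inv_right, mul_assoc m⁻¹, f.2.1 d, mul_assoc m⁻¹]
    _ = _ := by rw [map_mul φ _ d]; group

end

def evH (x y u v t : G) (i : ℕ) : G := [x, x⁻¹, y, y⁻¹, u, u⁻¹, v, v⁻¹, t, t⁻¹].getD i 1

theorem Gen.rels {z x y u v t : G} (h : Gen z x y u v t) : ∀ r ∈ g3mrels.take 15, evw (evH x y u v t) r = 1 := by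
  have b : ∀ {x y : G}, x * y * x = y * x * y → x * (y * (x * (y⁻¹ * (x⁻¹ * y⁻¹)))) = 1 := fun {x y} e => by
    calc _ = x * y * x * (y * x * y)⁻¹ := by group
      _ = 1 := by rw [e, mul_inv_cancel]
  have c : ∀ {x y : G}, x * y = y * x → x⁻¹ * (y⁻¹ * (x * y)) = 1 := fun e => by rw [e]; group
  have d : ∀ {x : G}, t * x * t⁻¹ = x⁻¹ → t * (x * (t⁻¹ * x)) = 1 := fun e => by
    rw [← mul_assoc, ← mul_assoc, e, inv_mul_cancel]
  simp only [g3mrels, List.take, List.forall_mem_cons, evw_cons, evw_nil, evH, List.getD_cons_succ, List.getD_cons_zero,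
    mul_one, ← pow_three]
  refine ⟨h.x3, h.y3, h.u3, h.v3, b h.xy, b h.uv, c h.xu, c h.xv, c h.yu, c h.yv, ?_, d h.tx, d h.ty, d h.tu, d h.tv,
    by simp⟩
  rw [← h.z2]; nth_rw 1 [← h.zx]; rw [← h.zu]; simp only [sq, mul_assoc]

theorem Gen.tt' [Finite G] {ι : E8 →* G} {M : Subgroup G} (hι : EM ι M) {x y u v t : G} (h : Gen (ι e1) x y u v t)
    (ha : Ac ι (x * u) e1 e3 (e2 * e3)) (hb : Ac ι t e1 e2 (e2 * e3)) : t * t = 1 := by
  refine h.tt.resolve_right fun e => ?_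
  obtain ⟨φ, -, hφ⟩ := TE.exists_hom g3m_g (evH x y u v t) (fun i hi => by
    have : i < 10 := hi
    interval_cases i <;> simp [evH, g3mil]) fun r hr => by
      rw [← List.take_append_drop 15 g3mrels, List.mem_append] at hr
      refine hr.elim (h.rels r) fun hr => ?_
      obtain rfl : r = [8, 8, 0, 2, 0, 0, 2, 0] := by simpa [g3mrels] using hr
      have := h.z2
      nth_rw 1 [← e] at this
      simpa [evH, ← h.zx, sq, mul_assoc] using this
  obtain rfl : φ (.mk g3m_g 1) = x := hφ 0 _ (by decide) (by decide +kernel)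
  obtain rfl : φ (.mk g3m_g 3) = y := hφ 2 _ (by decide) (by decide +kernel)
  obtain rfl : φ (.mk g3m_g 5) = u := hφ 4 _ (by decide) (by decide +kernel)
  obtain rfl : φ (.mk g3m_g 7) = v := hφ 6 _ (by decide) (by decide +kernel)
  obtain rfl : φ (.mk g3m_g 9) = t := hφ 8 _ (by decide) (by decide +kernel)
  obtain ⟨cm, -, g, g1, g2, g3, g4⟩ := exists_g0 (Z := .mk g3m_g 59 rfl) (W := .mk g3m_g 548 rfl) (S := .mk g3m_g 235 rfl)
    TE.card hι h ha hb (by decide +kernel)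
  obtain ⟨k, hk⟩ := g4 (.mk g3m_g 60) (by decide +kernel)
  have : ∀ k : TE g3m_g, k * k = .mk g3m_g 548 * .mk g3m_g 59 →
    k * .mk g3m_g 235 * k⁻¹ ≠ .mk g3m_g 235 * (.mk g3m_g 548 * .mk g3m_g 59) := by decide +kernel
  exact this k (((hk.mul hk).cast (by decide +kernel) rfl).uniq cm.inj g1)
    ((((hk.mul g3).mul hk.inv).cast (by decide +kernel) rfl).uniq cm.inj (g3.mul g1))

abbrev M := TE g3p_g
noncomputable def X : M := .mk g3p_g 1
noncomputable def Y : M := .mk g3p_g 3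
noncomputable def U : M := .mk g3p_g 5
noncomputable def V : M := .mk g3p_g 7
noncomputable def T : M := .mk g3p_g 9
noncomputable def Z : M := .mk g3p_g 188
noncomputable def W : M := .mk g3p_g 532
noncomputable def S : M := .mk g3p_g 200
noncomputable def K : M := .mk g3p_g 50
noncomputable def K1 : M := .mk g3p_g 426
noncomputable def P : M := .mk g3p_g 11
noncomputable def io (Z' T' K' : M) (n : ℕ) : M :=
  Z' ^ (n % 2) * W ^ (n / 2 % 2) * S ^ (n / 4 % 2) * T' ^ (n / 8 % 2) * K' ^ (n / 16)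
/-- The automorphism of the centralizer of `W` with given images of `T` and `K`. -/
noncomputable def al (T' K' d : M) : M := io (W * Z) T' K' (((List.range 32).find? fun n => io Z T K n = d).getD 0)

theorem cj_al {φ : M →* G} {g : G} {T' K' : M} (g1 : Cj φ g Z (W * Z)) (g2 : Cj φ g W W) (g3 : Cj φ g S S)
    (g4 : Cj φ g T T') (g5 : Cj φ g K K') (d : M) (hd : d * W = W * d) : Cj φ g d (al T' K' d) := by
  have : ∀ d, d * W = W * d → io Z T K (((List.range 32).find? fun n => io Z T K n = d).getD 0) = d := by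
    decide +kernel
  exact (((((g1.pow _).mul (g2.pow _)).mul (g3.pow _)).mul (g4.pow _)).mul (g5.pow _)).cast (this d hd) rfl

structure Act (φ : M →* G) (g : G) : Prop where
  cm : CM φ Z
  al : ∀ d, d * W = W * d → Cj φ g d (al T K1 d)

theorem cV {φ : M →* G} (h : CM φ Z) {g : G} (h1 : Cj φ g Z Z) (h2 : Cj φ g W W) (h3 : Cj φ g S S) :
    ∃ v, φ v = g ∧ v ∈ [1, Z, W, W * Z, S, S * Z, S * W, S * (W * Z)] := by
  obtain ⟨v, rfl⟩ := h.cent g (mul_inv_eq_iff_eq_mul.1 h1)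
  have : ∀ v, v * W * v⁻¹ = W → v * S * v⁻¹ = S → v ∈ [1, Z, W, W * Z, S, S * Z, S * W, S * (W * Z)] := by
    decide +kernel
  exact ⟨v, rfl, this v ((Cj.inn _ _).uniq h.inj h2) ((Cj.inn _ _).uniq h.inj h3)⟩

theorem exists_tau : ∃ τ : M →* M, (∀ m, τ (τ m) = m) ∧ τ Z = Z ∧ τ W = W ∧ τ S = S ∧ τ T = T * Z ∧ τ K = K ∧
    τ K1 = K1 * Z := by
  obtain ⟨τ, hτ, -⟩ := TE.exists_hom g3p_g (evH X Y U V (T * Z)) (by decide +kernel) (by decide +kernel)
  exact ⟨τ, by simp only [hτ]; decide +kernel⟩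

theorem exists_act {φ : M →* G} (h : CM φ Z) {g : G} (g1 : Cj φ g Z (W * Z)) (g2 : Cj φ g W W) (g3 : Cj φ g S S)
    (g4 : ∀ d, d * W = W * d → ∃ d', Cj φ g d d') : ∃ φ' g', Act φ' g' ∧ φ' Z = φ Z := by
  obtain ⟨T', ht⟩ := g4 T (by decide +kernel)
  obtain ⟨K', hk⟩ := g4 K (by decide +kernel)
  have a := cj_al g1 g2 g3 ht hk
  have b : ∀ d, d * W = W * d → Cj φ (g * φ P) d (al T' K' (P * d * P⁻¹)) := fun d hd =>
    (a _ (by revert d; decide +kernel)).comp (Cj.inn _ _)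
  have c : ∀ {d d'}, d * W = W * d → Cj φ g d d' → d' * W = W * d' := fun hd h1 =>
    ((h1.mul g2).cast hd rfl).uniq h.inj (g2.mul h1)
  have c' : ∀ d, d * W = W * d → al T' K' (P * d * P⁻¹) * W = W * al T' K' (P * d * P⁻¹) := fun d hd =>
    c (by revert d; decide +kernel) (a _ (by revert d; decide +kernel))
  have b3 : ∀ d, d * W = W * d → Cj φ (g * φ P * (g * φ P * (g * φ P))) d _ := fun d hd =>
    (b _ (c' _ (c' d hd))).comp ((b _ (c' d hd)).comp (b d hd))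
  have p1 : Cj φ (g * φ P) Z (W * Z) := g1.comp ((Cj.inn _ _).cast rfl (by decide +kernel))
  have p2 : Cj φ (g * φ P) (W * Z) W := g2.comp ((Cj.inn _ _).cast rfl (by decide +kernel))
  have p3 : Cj φ (g * φ P) W Z := ((g2.mul g1).cast rfl (by decide +kernel)).comp ((Cj.inn _ _).cast rfl rfl)
  have p4 : Cj φ (g * φ P) S S := g3.comp ((Cj.inn _ _).cast rfl (by decide +kernel))
  obtain ⟨v, hv, hv'⟩ := cV h (p3.comp (p2.comp p1)) (p2.comp (p1.comp p3)) (p4.comp (p4.comp p4))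
  obtain ⟨u, hu, hu'⟩ := cV h (((g2.mul g1).cast rfl (by decide +kernel)).comp g1) (g2.comp g2) (g3.comp g3)
  have key : ∀ T', T' * T' = 1 → T' * W = W * T' → T' * S * T'⁻¹ = S * W → ∀ K', K' * K' = W * Z → K' * W = W * K' →
      K' * S * K'⁻¹ = S * (W * Z) → (∃ u ∈ [1, Z, W, W * Z, S, S * Z, S * W, S * (W * Z)],
        al T' K' T' = u * T * u⁻¹ ∧ al T' K' K' = u * K * u⁻¹) → (∃ v ∈ [1, Z, W, W * Z, S, S * Z, S * W, S * (W * Z)],
        ∀ d ∈ [T, K], al T' K' (P * al T' K' (P * al T' K' (P * d * P⁻¹) * P⁻¹) * P⁻¹) = v * d * v⁻¹) →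
      ∃ s ∈ [1, S], al T' K' (s * T * s⁻¹) = T ∧ al T' K' (s * K * s⁻¹) = K1 ∨
        al T' K' (s * (T * Z) * s⁻¹) = T * Z ∧ al T' K' (s * K * s⁻¹) = K1 * Z := by decide +kernel
  have t1 := c (by decide +kernel) ht
  have k1 := c (by decide +kernel) hk
  obtain ⟨s, hs, h1⟩ := key T' (((ht.mul ht).cast (by decide +kernel) rfl).uniq h.inj Cj.one) t1
    ((((ht.mul g3).mul ht.inv).cast (by decide +kernel) rfl).uniq h.inj (g3.mul g2)) K'
    (((hk.mul hk).cast (by decide +kernel) rfl).uniq h.inj g1) k1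
    ((((hk.mul g3).mul hk.inv).cast (by decide +kernel) rfl).uniq h.inj (g3.mul g1))
    ⟨u, hu', ((a _ t1).comp ht).uniq h.inj (hu ▸ Cj.inn _ _), ((a _ k1).comp hk).uniq h.inj (hu ▸ Cj.inn _ _)⟩
    ⟨v, hv', fun d hd => (b3 d (by revert d; decide +kernel)).uniq h.inj (hv ▸ Cj.inn _ _)⟩
  have : ∀ s ∈ [1, S], s * Z * s⁻¹ = Z ∧ s * W * s⁻¹ = W ∧ s * S * s⁻¹ = S ∧
    ∀ d ∈ [T, K, T * Z], s * d * s⁻¹ * W = W * (s * d * s⁻¹) := by decide +kernel
  have s1 : Cj φ (g * φ s) Z (W * Z) := g1.comp ((Cj.inn _ _).cast rfl (this s hs).1)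
  have s2 : Cj φ (g * φ s) W W := g2.comp ((Cj.inn _ _).cast rfl (this s hs).2.1)
  have s3 : Cj φ (g * φ s) S S := g3.comp ((Cj.inn _ _).cast rfl (this s hs).2.2.1)
  have s4 : ∀ d ∈ [T, K, T * Z], Cj φ (g * φ s) d (al T' K' (s * d * s⁻¹)) := fun d hd =>
    (a _ ((this s hs).2.2.2 d hd)).comp (Cj.inn _ _)
  rcases h1 with ⟨h1, h2⟩ | ⟨h1, h2⟩
  · exact ⟨φ, _, ⟨h, cj_al s1 s2 s3 ((s4 T (by simp)).cast rfl h1) ((s4 K (by simp)).cast rfl h2)⟩, rfl⟩
  obtain ⟨τ, τ0, τ1, τ2, τ3, τ4, τ5, τ6⟩ := exists_tau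
  refine ⟨φ.comp τ, g * φ s, ⟨h.comp (fun m => ⟨_, τ0 m⟩) (Function.LeftInverse.injective τ0) τ1, cj_al ?_ ?_ ?_ ?_ ?_⟩,
    congrArg φ τ1⟩ <;> simp only [Cj, MonoidHom.comp_apply, map_mul τ, τ1, τ2, τ3, τ4, τ5, τ6]
  exacts [s1, s2, s3, (s4 _ (by simp)).cast rfl h1, (s4 K (by simp)).cast rfl h2]

theorem Gen.act [Finite G] {ι : E8 →* G} {M : Subgroup G} (hι : EM ι M) {x y u v t : G} (h : Gen (ι e1) x y u v t)
    (ha : Ac ι (x * u) e1 e3 (e2 * e3)) (hb : Ac ι t e1 e2 (e2 * e3)) : ∃ φ g, Act (G := G) φ g := by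
  have t2 := inv_eq_of_mul_eq_one_right (h.tt' hι ha hb)
  obtain ⟨φ, -, hφ⟩ := TE.exists_hom g3p_g (evH x y u v t) (fun i hi => by
    have : i < 9 := hi
    interval_cases i <;> simp [evH, g3pil, t2]) (by simpa [g3prels, g3mrels, evH, t2] using h.rels)
  obtain rfl : φ X = x := hφ 0 _ (by decide) (by decide +kernel)
  obtain rfl : φ Y = y := hφ 2 _ (by decide) (by decide +kernel)
  obtain rfl : φ U = u := hφ 4 _ (by decide) (by decide +kernel)
  obtain rfl : φ V = v := hφ 6 _ (by decide) (by decide +kernel)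
  obtain rfl : φ T = t := hφ 8 _ (by decide) (by decide +kernel)
  obtain ⟨cm, -, g, g1, g2, g3, g4⟩ := exists_g0 (Z := Z) (W := W) (S := S) TE.card hι h ha hb (by decide +kernel)
  obtain ⟨φ', g', h1, -⟩ := exists_act cm g1 g2 g3 g4
  exact ⟨φ', g', h1⟩

noncomputable def ev (φ : M →* G) (g : G) (i : ℕ) : G := if i = 9 then g else φ (evH X Y U V T i)

theorem ev_inv {φ : M →* G} {g : G} (h : g * g = 1) : ∀ x < 10, ev φ g (g3il.getD x 0) = (ev φ g x)⁻¹ := by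
  intro x hx
  by_cases e : x = 9
  · subst e; exact (inv_eq_of_mul_eq_one_right h).symm
  have : ∀ x < 10, x ≠ 9 → g3il.getD x 0 ≠ 9 ∧ evH X Y U V T (g3il.getD x 0) = (evH X Y U V T x)⁻¹ := by decide +kernel
  rw [ev, ev, if_neg e, if_neg (this x hx e).1, (this x hx e).2, map_inv]

theorem evw_ev (φ : M →* G) (g : G) {w : List ℕ} (h : ∀ x ∈ w, x < 9) : evw (ev φ g) w = φ (evw (evH X Y U V T) w) := by
  rw [map_evw]; exact evw_congr (fun x hx => if_neg (by omega)) h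

namespace Act
variable {φ : M →* G} {g : G} (h : Act φ g)
include h

theorem cj {a b : M} (e : a * W = W * a ∧ G3.al T K1 a = b := by decide +kernel) : Cj φ g a b := (h.al a e.1).cast rfl e.2

theorem cD {k : G} (h1 : ∀ d ∈ [Z, W, S, T, K], Cj φ k d d) : ∃ v, φ v = k ∧ v ∈ [1, Z, W, W * Z] := by
  obtain ⟨v, rfl, hv⟩ := cV h.cm (h1 Z (by simp)) (h1 W (by simp)) (h1 S (by simp))
  have : ∀ v ∈ [1, Z, W, W * Z, S, S * Z, S * W, S * (W * Z)], v * T * v⁻¹ = T → v ∈ [1, Z, W, W * Z] := by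
    decide +kernel
  exact ⟨v, rfl, this v hv ((Cj.inn _ _).uniq h.cm.inj (h1 T (by simp)))⟩

theorem exists_invol : ∃ g', Act φ g' ∧ g' * g' = 1 := by
  obtain ⟨v, hv, hv'⟩ := h.cD (k := g * g) fun d hd =>
    (h.cj (b := d) (by revert d; decide +kernel)).comp (h.al d (by revert d; decide +kernel))
  have h1 : Cj φ g v v := by rw [Cj, hv]; group
  have : ∀ v ∈ [1, Z, W, W * Z], v * W = W * v ∧ (G3.al T K1 v = v → v = 1 ∨ v = W) := by decide +kernel
  rcases (this v hv').2 ((h.al v (this v hv').1).uniq h.cm.inj h1) with rfl | rfl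
  · exact ⟨g, h, by rw [← hv, map_one]⟩
  refine ⟨g * φ Z, ⟨h.cm, fun d hd => (h.al d hd).comp ((Cj.inn _ _).cast rfl (by rw [← h.cm.zc]; group))⟩, ?_⟩
  calc _ = g * φ Z * g⁻¹ * (g * g) * φ Z := by group
    _ = 1 := by rw [h.cj (a := Z) (b := W * Z), ← hv, ← map_mul, ← map_mul, h.cm.eq_one_iff]; decide +kernel

theorem not_mem : g ∉ Cx(φ Z) := fun e => absurd (h.cm.inj ((h.cj (a := Z) (b := W * Z)).symm.trans (mem_Cx'.1 e)))
  (by decide +kernel)

theorem collapse [Finite G] (g2 : g * g = 1) {rs : List (List ℕ)} (c : GC3.{u} rs 1)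
    (hr : ∀ r ∈ g3B ++ rs, evw (ev φ g) r = 1) : False := by
  obtain ⟨w, -, hw⟩ := c (ev φ g) Cx(φ Z) (ev_inv g2) hr fun s hs => by
    rw [evw_ev φ g (by revert s; decide)]; exact h.cm.mem _
  obtain ⟨i, hi, h1⟩ := hw 1 (one_mem _)
  obtain ⟨j, hj, h2⟩ := hw g (mem_gensub (x := 9) (by norm_num))
  obtain rfl : i = j := by omega
  exact h.not_mem ((mul_mem_cancel_right (by simpa using h1)).1 h2)

theorem relB (g2 : g * g = 1) : ∀ r ∈ g3B, evw (ev φ g) r = 1 := by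
  have gi := inv_eq_of_mul_eq_one_right g2
  have key : ∀ w w' : List ℕ, (∀ x ∈ w, x < 9) ∧ (∀ x ∈ w', x < 9) ∧ evw (evH X Y U V T) w * W = W * evw (evH X Y U V T) w ∧
      G3.al T K1 (evw (evH X Y U V T) w) * evw (evH X Y U V T) w' = 1 → evw (ev φ g) (9 :: (w ++ 9 :: w')) = 1 :=
    fun w w' e => by
      have := h.al _ e.2.2.1
      rw [Cj, gi] at this
      rw [evw_cons, evw_append, evw_cons, evw_ev φ g e.1, evw_ev φ g e.2.1, ← mul_assoc, ← mul_assoc]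
      exact (congrArg (· * _) this).trans (by rw [← map_mul, e.2.2.2, map_one])
  intro r hr
  rw [← List.take_append_drop 15 g3B, List.mem_append] at hr
  rcases hr with hr | hr
  · rw [evw_ev φ g (by revert r; decide), h.cm.eq_one_iff]; revert r; decide +kernel
  simp only [g3B, List.drop, List.mem_cons, List.not_mem_nil, or_false] at hr
  rcases hr with rfl | rfl | rfl | rfl | rfl
  · exact key [8] [8] (by decide +kernel)
  · exact key [6, 5, 2, 1] [0, 3, 4, 7] (by decide +kernel)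
  · exact key [0, 2, 0] [8, 6, 5, 2, 1, 5, 7, 5] (by decide +kernel)
  · exact key [4, 6, 4] [6, 5, 8, 2, 1] (by decide +kernel)
  have b : ∀ d, d * W = W * d → Cj φ (g * φ P) d (G3.al T K1 (P * d * P⁻¹)) := fun d hd =>
    (h.al _ (by revert d; decide +kernel)).comp (Cj.inn _ _)
  obtain ⟨v, hv, hv'⟩ := h.cD (k := g * φ P * (g * φ P * (g * φ P))) fun d hd =>
    ((b _ (by revert d; decide +kernel)).comp ((b _ (by revert d; decide +kernel)).comp
      (b d (by revert d; decide +kernel)))).cast rfl (by revert d; decide +kernel)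
  have h1 : Cj φ (g * φ P) v v := by rw [Cj, hv]; group
  have : ∀ v ∈ [1, Z, W, W * Z], v * W = W * v ∧ (G3.al T K1 (P * v * P⁻¹) = v → v = 1) := by decide +kernel
  rw [(this v hv').2 ((b v (this v hv').1).uniq h.cm.inj h1), map_one, show P = X * Y⁻¹ by decide +kernel] at hv
  simpa [ev, evH, mul_assoc] using hv.symm

theorem relM [Finite G] (g2 : g * g = 1) : evw (ev φ g) g3M = 1 := by
  have b : ∀ d ∈ [1, Z, W, W * Z, S, S * Z, S * W, S * (W * Z)],
      Cj φ (g * φ (X * U)) d (G3.al T K1 (X * U * d * (X * U)⁻¹)) := fun d hd =>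
    (h.al _ (by revert d; decide +kernel)).comp (Cj.inn _ _)
  have b3 : ∀ d ∈ [Z, W, S], Cj φ (g * φ (X * U) * (g * φ (X * U) * (g * φ (X * U)))) d d := fun d hd =>
    ((b _ (by revert d; decide +kernel)).comp ((b _ (by revert d; decide +kernel)).comp
      (b d (by revert d; decide +kernel)))).cast rfl (by revert d; decide +kernel)
  obtain ⟨v, hv, hv'⟩ := cV h.cm (b3 Z (by simp)) (b3 W (by simp)) (b3 S (by simp))
  have h1 : Cj φ (g * φ (X * U)) v v := by rw [Cj, hv]; group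
  have : ∀ v ∈ [1, Z, W, W * Z, S, S * Z, S * W, S * (W * Z)], G3.al T K1 (X * U * v * (X * U)⁻¹) = v →
    v = 1 ∨ v * U⁻¹ * V * Y⁻¹ * X = 1 := by decide +kernel
  rcases this v hv' ((b v hv').uniq h.cm.inj h1) with rfl | e
  · refine (h.collapse g2 g3_m0 fun r hr => (List.mem_append.1 hr).elim (h.relB g2 r) fun hr => ?_).elim
    obtain rfl := List.mem_singleton.1 hr
    simpa [ev, evH, mul_assoc] using hv.symm
  · replace e := congrArg φ e
    simp only [map_mul, hv, map_inv, map_one] at e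
    simpa [g3M, ev, evH, mul_assoc] using e

end Act

end CfH4.G3
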