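import Cfsg.Agent.H4.G3b
import Cfsg.Agent.H4.G3E
import Cfsg.Agent.H4.TEx
import Cfsg.Agent.H6.G23P
import Cfsg.Agent.H7.Cores2

/-! Groups of type `G₂(3)`: involutions and the generic case. -/

set_option autoImplicit false
open Cfsg CfH9 CfH6 CfH7 CfL Subgroup

namespace CfH4.G3

attribute [local instance 10000] TE.decAll TE.decEx

universe u
variable {G : Type u} [Group G]

noncomputable def S2 : Subgroup M := bitSub g3p_g 0xc00c300019d0000000000000000006740000067400200000145102000000000000000000000000100145000000014500100004145210000400010000001400008004a28082020a01 (by decide +kernel)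
noncomputable instance : DecidablePred (· ∈ S2) := by unfold S2; infer_instance

theorem card_M : Nat.card M = 576 := TE.card

theorem Cj.isConj {N : Type*} [Group N] {φ : N →* G} {g : G} {a b : N} (h : Cj φ g a b) : IsConj (φ a) (φ b) :=
  isConj_iff.2 ⟨g, h⟩

theorem conj_of (φ : M →* G) {u v : M} (e : ∃ c, c * u * c⁻¹ = v := by decide +kernel) : IsConj (φ u) (φ v) :=
  φ.map_isConj (isConj_iff.2 e)

theorem sq1 (φ : M →* G) {u : M} (e : u * u = 1 := by decide +kernel) : φ u * φ u = 1 := by rw [← map_mul, e, map_one]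

namespace Act
variable [Finite G] {φ : M →* G} {g : G} (h : Act φ g)
include h

theorem ne1 {u : M} (e : u ≠ 1 := by decide +kernel) : φ u ≠ 1 := h.cm.eq_one_iff.not.2 e

theorem syl : SylIn 2 (S2.map φ) ⊤ :=
  h.cm.sylIn (sylIn_te (n := 6) (by decide +kernel) (by decide +kernel)) (by decide +kernel) (by decide +kernel)
    (by decide +kernel) (by decide +kernel)

theorem card_H : Nat.card Cx(φ Z) = 576 := h.cm.card.trans card_M

theorem odd_index : Odd (Cx(φ Z)).index := by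
  have := h.syl.not_dvd_relIndex_of_le (H := Cx(φ Z)) (h.cm.range_eq ▸ map_le_range _ _)
  rw [relIndex_top_right] at this
  exact Nat.odd_iff.2 (by omega)

theorem invol (i : G) (hi : i * i = 1) (h1 : i ≠ 1) : IsConj (φ Z) i := by
  obtain ⟨k, -, w, -, hw⟩ := h.syl.exists_conj_mem (mem_top i) (k := 1) (by simpa [sq] using hi)
  have c : IsConj (φ w) i := (isConj_iff.2 ⟨k, hw.symm⟩).symm
  have h2 : w * w = 1 := by
    rw [← h.cm.eq_one_iff, map_mul]; exact sq_of_isConj c.symm hi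
  have h3 : w ≠ 1 := by rintro rfl; exact ne_one_of_isConj c.symm h1 (map_one φ)
  have : ∀ w : M, w * w = 1 → w ≠ 1 → w = Z ∨ (∃ c, c * (W * Z) * c⁻¹ = w) ∨
    ∃ c, c * G3.al T K1 (K * S) * c⁻¹ = w := by decide +kernel
  have a : IsConj (φ Z) (φ (W * Z)) := h.cj.isConj
  rcases this w h2 h3 with rfl | e | e
  · exact c
  · exact (a.trans (conj_of φ e)).trans c
  · exact (((a.trans (conj_of φ (v := K * S))).trans (h.al _ (by decide +kernel)).isConj).trans (conj_of φ e)).trans c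

theorem p24 {i y : G} (hi : i * i = 1) (h1 : i ≠ 1) (hg : y * i = i * y) : y ^ 24 = 1 :=
  h.cm.pow_of_isConj (h.invol i hi h1) (by decide +kernel) hg

theorem dich (C : Subgroup G) (hz : φ Z ∈ C) (ht : φ T ∈ Nm(C)) (hu : ∀ m, φ m ∈ C → m * m = 1 → m ≠ 1 → m = Z) :
    C ≤ Cx(φ Z) ∨ ∃ y ∈ C, y ≠ 1 ∧ y ^ 3 = 1 ∧ φ Z * y * (φ Z)⁻¹ = y⁻¹ ∧ ∃ t ∈ [T, T * Z], y * φ t = φ t * y := by
  have z2 := sq1 φ (u := Z)
  have hO : Cx((⟨_, hz⟩ : C)) ⊔ oddCore C = ⊤ := by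
    refine Cx_sup_oddCore (orderOf_eq_prime (Subtype.ext (by simpa [sq] using z2))
      fun e => absurd (congrArg Subtype.val e) h.ne1) fun k hk => Subtype.ext ?_
    obtain ⟨m, hm⟩ := h.cm.cent _ (congrArg Subtype.val hk).symm
    have c : IsConj (φ Z) (φ m) := isConj_iff.2 ⟨k, hm.symm⟩
    refine hm.symm.trans (congrArg φ (hu m (hm ▸ Subtype.prop _) (h.cm.inj ?_) fun e => ?_))
    · rw [map_mul, map_one]; exact sq_of_isConj c z2
    · exact ne_one_of_isConj c h.ne1 (by rw [e, map_one])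
  set O := pPrimeCoreOf 2 C
  have nO : ∀ t ∈ [T, T * Z], φ t ∈ Nm(O) := fun t ht' => normalizer_le_normalizer_pPrimeCoreOf _ (by
    simp only [List.mem_cons, List.not_mem_nil, or_false] at ht'
    rcases ht' with rfl | rfl
    exacts [ht, map_mul φ T Z ▸ mul_mem ht (le_normalizer hz)])
  have tt : ∀ t ∈ [T, T * Z], t * t = 1 ∧ t ≠ 1 ∧ ∀ m, m ^ 3 = 1 → m * t = t * m → m = 1 := by decide +kernel
  by_cases hb : ∀ t ∈ [T, T * Z], O ⊓ Cx(φ t) = ⊥
  · refine Or.inl fun c hc => ?_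
    have : (Cx(φ Z)).subgroupOf C = ⊤ := eq_top_iff.2 (hO.ge.trans (sup_le (fun k hk => mem_subgroupOf.2 (mem_Cx.2
      (congrArg Subtype.val (mem_Cx.1 hk)))) fun k hk => mem_subgroupOf.2 (mem_Cx'.2 ?_)))
    · exact subgroupOf_eq_top.1 this hc
    have i : ∀ t ∈ [T, T * Z], φ t * k * (φ t)⁻¹ = (k : G)⁻¹ := fun t ht' =>
      inverts_of_fpf (sq1 φ (tt t ht').1) (nO t ht') (hb t ht') ⟨k, hk, rfl⟩
    have := (i (T * Z) (by simp)).trans (i T (by simp)).symm
    rw [map_mul, mul_inv_rev, ← mul_assoc, mul_left_inj, mul_assoc, mul_assoc, mul_right_inj, ← mul_assoc,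
      mul_inv_eq_iff_eq_mul] at this
    rw [← this, mul_inv_cancel_right]
  push Not at hb
  obtain ⟨t, ht', hb⟩ := hb
  have p3 : ∀ y ∈ O ⊓ Cx(φ t), y ^ 3 = 1 := fun y hy => orderOf_dvd_iff_pow_eq_one.1
    ((Nat.Coprime.pow_right 3 (odd_orderOf_of_coprime (coprime_card_pPrimeCoreOf C) hy.1).coprime_two_right
      ).dvd_of_dvd_mul_left (orderOf_dvd_of_pow_eq_one (h.p24 (sq1 φ (tt t ht').1) (h.ne1 (tt t ht').2.1) (mem_Cx.1 hy.2))))
  obtain ⟨⟨y, hy⟩, y1⟩ := ne_bot_iff_exists_ne_one.1 hb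
  refine Or.inr ⟨y, pPrimeCoreOf_le _ hy.1, fun e => y1 (Subtype.ext e), p3 y hy, inverts_of_fpf z2 (mem_Nm_inf
    (normalizer_le_normalizer_pPrimeCoreOf _ (le_normalizer hz)) (le_normalizer (mem_Cx.2 (mem_Cx.1 (h.cm.mem t)).symm)))
    (eq_bot_iff.2 fun v hv => ?_) hy, t, ht', mem_Cx.1 hy.2⟩
  obtain ⟨m, rfl⟩ := h.cm.cent v (mem_Cx.1 hv.2)
  rw [(tt t ht').2.2 m (h.cm.inj (by simpa using p3 _ hv.1)) (h.cm.inj (by simpa using mem_Cx.1 hv.1.2)), map_one]
  exact one_mem _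

omit [Finite G] in
theorem cjw {a b u v : M} (e : v * a * v⁻¹ * W = W * (v * a * v⁻¹) ∧ u * G3.al T K1 (v * a * v⁻¹) * u⁻¹ * W =
    W * (u * G3.al T K1 (v * a * v⁻¹) * u⁻¹) ∧ G3.al T K1 (u * G3.al T K1 (v * a * v⁻¹) * u⁻¹) = b := by decide +kernel) :
    Cj φ (g * φ u * (g * φ v)) a b :=
  ((h.cj e.2).comp (Cj.inn _ _)).comp ((h.al _ e.1).comp (Cj.inn _ _))

theorem rel3 (g2 : g * g = 1) {y : G} (y1 : y ≠ 1) (y3 : y ^ 3 = 1) (hx : y * φ X = φ X * y) (hu : y * φ U = φ U * y)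
    (hz : φ Z * y * (φ Z)⁻¹ = y⁻¹) {t : M} (ht : y * φ t = φ t * y) {r : List ℕ} (hr : ∀ x ∈ r, x < 10)
    (r1 : Cj φ (evw (ev φ g) r) t Z) (r2 : Cj φ (evw (ev φ g) r) Z (K * T)) :
    ∃ w ∈ g3I, ∀ r' ∈ g3B ++ g3R r w, evw (ev φ g) r' = 1 := by
  set R := evw (ev φ g) r with hR
  obtain ⟨m, hm⟩ := h.cm.cent (R * y * R⁻¹) (by rw [← r1, conj_mul, conj_mul, ht])
  have : ∀ m : M, m ^ 3 = 1 → m ≠ 1 → K * T * m * (K * T)⁻¹ = m⁻¹ → ∃ w ∈ g3I, (∀ x ∈ w, x < 9) ∧
    (evw (evH X Y U V T) w = m ∨ evw (evH X Y U V T) w = m⁻¹) := by decide +kernel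
  obtain ⟨w, hw, w9, e⟩ := this m (h.cm.inj (by rw [map_pow, hm, conj_pow, y3]; simp))
    (by rintro rfl; exact y1 (by simpa using hm.symm))
    (h.cm.inj (by rw [map_mul, map_mul φ _ m, map_inv, map_inv, hm, ← r2, conj_mul, conj_inv, conj_mul, hz, conj_inv]))
  have key : ∀ a < 10, y * ev φ g a = ev φ g a * y → evw (ev φ g) (g3C a r w) = 1 := fun a ha e' => by
    have c : Commute (ev φ g a) (R⁻¹ * evw (ev φ g) w * R) := by
      rw [evw_ev φ g w9]
      rcases e with e | e <;> simp only [e, map_inv, hm]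
      · convert (show Commute _ y from e'.symm) using 1; group
      · convert (show Commute _ y from e'.symm).inv_right using 1; group
    simp only [g3C, evw_append, evw_cons, evw_nil, ev_inv g2 a ha, evw_invw _ g3il 10 (ev_inv g2) r hr,
      evw_invw _ g3il 10 (ev_inv g2) w fun x hx => (w9 x hx).trans (by norm_num), ← hR]
    calc _ = (ev φ g a)⁻¹ * (R⁻¹ * evw (ev φ g) w * R)⁻¹ * (ev φ g a * (R⁻¹ * evw (ev φ g) w * R)) := by group
      _ = _ := by rw [c.eq]; group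
  refine ⟨w, hw, fun r' hr' => (List.mem_append.1 hr').elim (h.relB g2 r') fun hr' => ?_⟩
  simp only [g3R, List.mem_cons, List.not_mem_nil, or_false] at hr'
  rcases hr' with rfl | rfl | rfl
  exacts [h.relM g2, key 0 (by norm_num) hx, key 4 (by norm_num) hu]

omit h in
theorem relP (g2 : g * g = 1) (hr : ∀ r ∈ g3B ++ g3R g3r2 [0, 3, 1], evw (ev φ g) r = 1) :
    ∀ r ∈ G23P.rels, evw (ev φ g) r = 1 := by
  have := G23P.fin
  let e : ℕ → G23P.P × G := fun x => (G23P.el x, ev φ g x)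
  have i : ∀ x < 10, e (g3il.getD x 0) = (e x)⁻¹ := fun x hx => Prod.ext (G23P.hinv x hx) (ev_inv g2 x hx)
  have hr' : ∀ r' ∈ g3B ++ g3R g3r2 [0, 3, 1], evw e r' = 1 := fun r' h => Prod.ext
    ((map_evw (MonoidHom.fst _ G) e r').trans ((List.mem_append.1 (show r' ∈ G23P.rels ++ G23P.rels2 by
      revert r'; decide +kernel)).elim (G23P.hrel r') (G23P.rel2 r'))) ((map_evw (MonoidHom.snd _ G) e r').trans (hr r' h))
  obtain ⟨ψ, -, hψ⟩ := TE.exists_hom g3p_g e (fun x hx => by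
    have : ∀ x < g3p.nc, x < 10 ∧ g3pil.getD x 0 = g3il.getD x 0 := by decide +kernel
    rw [(this x hx).2, i x (this x hx).1]) fun r' h => by
      refine (show r' ∈ g3B ++ g3R g3r2 [0, 3, 1] ∨ r' = [8, 8] by revert r'; decide +kernel).elim (hr' r') ?_
      rintro rfl
      simpa using mul_eq_one_iff_eq_inv.2 (show e 8 = _ from i 8 (by norm_num))
  have h3 := (g3_big e ψ.range i hr' (by
    simp only [List.mem_cons, List.not_mem_nil, or_false, forall_eq_or_imp, forall_eq, evw_cons, evw_nil, mul_one]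
    exact ⟨⟨X, hψ 0 _ (by decide) (by decide +kernel)⟩, ⟨Y, hψ 2 _ (by decide) (by decide +kernel)⟩,
      ⟨U, hψ 4 _ (by decide) (by decide +kernel)⟩, ⟨V, hψ 6 _ (by decide) (by decide +kernel)⟩,
      ⟨T, hψ 8 _ (by decide) (by decide +kernel)⟩⟩)).card_le (m := 576) ⟨inferInstance, by
        rw [← card_M]; exact Nat.le_of_dvd Nat.card_pos (card_range_dvd _)⟩
  have s : Function.Surjective ((MonoidHom.fst _ G).comp (gensub e 10).subtype) := by
    rw [← MonoidHom.range_eq_top, MonoidHom.range_comp, range_subtype, ← G23P.htop, gensub, MonoidHom.map_closure,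
      Set.image_image]; rfl
  have b := (s.bijective_of_nat_card_le (by rw [G23P.card]; exact h3.2)).1
  intro r hr
  have := b (a₁ := ⟨evw e r, evw_mem (fun x hx => mem_gensub hx) (by revert r; decide +kernel)⟩) (a₂ := 1)
    ((map_evw (MonoidHom.fst _ G) e r).trans (G23P.hrel r hr))
  exact (map_evw (MonoidHom.snd _ G) e r).symm.trans (congrArg (fun p => p.1.2) this)

omit h in
theorem nT (_ : Act φ g) {a : M} (ha : T * a * T⁻¹ = a⁻¹) : φ T ∈ Nm(Cx(φ a)) := by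
  rw [← Cz_zpowers]
  refine mem_Nm_Cz (mem_normalizer_of_conj_mem ?_)
  rintro _ ⟨n, rfl⟩
  simp only
  rw [← conj_zpow, ← map_inv, ← map_mul, ← map_mul, ha, map_inv]
  exact zpow_mem (inv_mem (mem_zpowers _)) n

theorem hom (g2 : g * g = 1) : Cx(φ X) ⊓ Cx(φ U) ≤ Cx(φ Z) ∨
    ∃ ρ : G23P.P →* G, ∀ x < 10, ρ (G23P.el x) = ev φ g x := by
  refine (h.dich (Cx(φ X) ⊓ Cx(φ U)) ⟨mem_Cx.2 (mem_Cx.1 (h.cm.mem _)).symm, mem_Cx.2 (mem_Cx.1 (h.cm.mem _)).symm⟩ ?_ fun m hm => ?_).imp_right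
    fun ⟨y, hy, y1, y3, hz, t, ht, e⟩ => G23P.hhom _ (ev_inv g2) ?_
  · exact mem_Nm_inf (h.nT (by decide +kernel)) (h.nT (by decide +kernel))
  · have h1 : m * X = X * m := h.cm.inj (by simpa using mem_Cx.1 hm.1)
    have h2 : m * U = U * m := h.cm.inj (by simpa using mem_Cx.1 hm.2)
    clear hm; revert m; decide +kernel
  have k := @h.rel3 _ _ _ _ _ g2 _ y1 y3 (mem_Cx.1 hy.1) (mem_Cx.1 hy.2) hz _ e
  simp only [List.mem_cons, List.not_mem_nil, or_false] at ht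
  rcases ht with rfl | rfl
  · have r : evw (ev φ g) g3r1 = g * φ (X⁻¹ * V) * (g * φ (X⁻¹ * Y)) := by simp [g3r1, ev, evH, mul_assoc]
    obtain ⟨w, hw, hr⟩ := k (r := g3r1) (by decide) (r ▸ h.cjw) (r ▸ h.cjw)
    obtain c | rfl := g3_k1 w hw
    · exact (h.collapse g2 c hr).elim
    · exact fun r' h' => hr r' (by revert r'; decide +kernel)
  · have r : evw (ev φ g) g3r2 = g * φ (X⁻¹ * V) * (g * φ (X * Y⁻¹)) := by simp [g3r2, ev, evH, mul_assoc]
    obtain ⟨w, hw, hr⟩ := k (r := g3r2) (by decide) (r ▸ h.cjw) (r ▸ h.cjw)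
    obtain c | rfl := g3_k2 w hw
    · exact (h.collapse g2 c hr).elim
    · exact relP g2 hr

end Act

end CfH4.G3
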