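import Cfsg.Agent.H4.G3g
import Cfsg.Agent.L.SE

/-! Groups of type `G₂(3)`: identification. -/

set_option autoImplicit false
open Cfsg CfH4 CfH9 CfH6 CfL Subgroup

namespace CfH4.G3

attribute [local instance 10000] TE.decAll TE.decEx

theorem odd_nrm {P : Type*} [Group P] [Finite P] {p : ℕ} [hp : Fact p.Prime] {g : P} (hg : orderOf g = p)
    (hs : ¬ p ^ 2 ∣ Nat.card P) {B : ℕ} (h : ∀ D ≤ Nm(zpowers g), Odd (Nat.card D) → Nat.card D ≤ B)
    (D : Subgroup P) (hD : Odd (Nat.card D)) (hpD : p ∣ Nat.card D) :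
    ∃ n k, n ≤ B ∧ p ∣ n ∧ n * k = Nat.card D ∧ k ≡ 1 [MOD p] := by
  obtain ⟨S, hS⟩ := exists_sylIn p D
  have h1 : SylIn p (zpowers g) ⊤ := sylIn_top_iff.2 ⟨IsPGroup.of_card (n := 1) (by rw [Nat.card_zpowers, hg, pow_one]),
    fun e => hs (by rw [← (zpowers g).card_mul_index, Nat.card_zpowers, hg, pow_two]; exact mul_dvd_mul_left _ e)⟩
  have h2 : p ∣ Nat.card S := by
    rw [hS.card_eq_multiplicity]
    exact dvd_pow_self _ (hp.out.factorization_pos_of_dvd Nat.card_pos.ne' hpD).ne'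
  obtain ⟨k, -, hk⟩ := (h1.of_card_le hS.pgrp le_top (by
    rw [Nat.card_zpowers, hg]; exact Nat.le_of_dvd Nat.card_pos h2)).conj h1
  have h3 := CfH4.index_Nm_modEq hS.subgroupOf_top
  have h4 := (Nm(S.subgroupOf D)).card_mul_index
  have h5 : Nm(S.subgroupOf D) = (Nm(S)).subgroupOf D := (subgroupOf_normalizer_eq hS.le).symm
  have h6 : Nat.card Nm(S.subgroupOf D) = Nat.card (cj k (D ⊓ Nm(S))) := by
    rw [card_cj, h5, ← card_subgroupOf (inf_le_left (a := D) (b := Nm(S))), inf_subgroupOf_left]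
  refine ⟨_, _, ?_, ?_, h4, h3⟩
  · rw [h6]
    refine h _ (by rw [← hk, ← cj_normalizer]; exact cj_mono _ inf_le_right) ?_
    rw [card_cj]; exact hD.of_dvd_nat (card_dvd_of_le inf_le_left)
  · rw [h6, card_cj]; exact h2.trans (card_dvd_of_le (le_inf hS.le le_normalizer))

universe u
variable {G : Type u} [Group G] [Finite G] {φ : M →* G} {g : G}

theorem Act.equiv (h : Act φ g) (h7 : 7 ∣ Nat.card G) : Nonempty (G ≃* G23P.P) := by
  obtain ⟨g, h, g2⟩ := h.exists_invol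
  obtain ⟨ρ, hρ⟩ := (h.hom g2).resolve_left fun hb => h.not_b hb h7
  have := G23P.fin
  have := G23P.simple
  have inj : Function.Injective ρ := inj_of_simple ρ (g := G23P.el 0) (by rw [hρ 0 (by norm_num)]; exact h.ne1 (u := X))
  have hm : ∀ m, φ m ∈ ρ.range := fun m => by
    have : ∀ m : M, m = evw (evH X Y U V T) (g3p.wl m.1) ∧ ∀ x ∈ g3p.wl m.1, x < 9 := by decide +kernel
    rw [(this m).1, ← evw_ev φ g (this m).2]
    exact evw_mem (K := ρ.range) (k := 9) (fun x hx => ⟨_, hρ x (by omega)⟩) (this m).2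
  have hg : g ∈ ρ.range := ⟨_, hρ 9 (by norm_num)⟩
  have h' : Act (φ.codRestrict _ hm) ⟨g, hg⟩ := ⟨h.cm.restrict _ hm, fun d hd => Subtype.ext (h.al d hd)⟩
  have hC : ∀ a, a * φ Z * a⁻¹ ∈ ρ.range → a ∈ ρ.range := fun a ha => by
    have c : IsConj (φ Z) (a * φ Z * a⁻¹) := isConj_iff.2 ⟨a, rfl⟩
    obtain ⟨k, hk⟩ := isConj_iff.1 (h'.invol ⟨_, ha⟩ (Subtype.ext (sq_of_isConj c (sq1 φ)))
      fun e => ne_one_of_isConj c h.ne1 (congrArg Subtype.val e))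
    obtain ⟨m, e⟩ := h.cm.cent ((k : G)⁻¹ * a) (by
      have : k * φ Z * (k : G)⁻¹ = a * φ Z * a⁻¹ := congrArg Subtype.val hk
      calc _ = (k : G)⁻¹ * (a * φ Z * a⁻¹) * a := by group
        _ = _ := by rw [← this]; group)
    exact (mul_mem_cancel_left (inv_mem k.2)).1 (e ▸ hm m)
  refine ⟨(MulEquiv.ofBijective ρ ⟨inj, fun a => by_contra fun ha => ?_⟩).symm⟩
  obtain ⟨D, hD, ho, e⟩ := se_odd ρ.range (hm Z) (sq1 φ) hC (fun s _ => h.invol s) (isConj_iff.2 ⟨a, rfl⟩)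
    fun e => ha (hC a e)
  have c1 : Nat.card (D.comap ρ) = Nat.card D := by
    rw [← card_map_of_injective inj, map_comap_eq_self hD]
  have c2 := card_dvd_of_le (inf_le_right : D ⊓ Cx(φ Z) ≤ _)
  have c3 := ho.of_dvd_nat (card_dvd_of_le (inf_le_left : D ⊓ Cx(φ Z) ≤ _))
  rw [h.card_H, ← Nat.card_congr (MonoidHom.ofInjective inj).toEquiv, G23P.card] at e
  rw [h.card_H] at c2
  have c4 : Nat.card (D ⊓ Cx(φ Z) : Subgroup G) ∣ 9 :=
    (c3.coprime_two_right.pow_right 6).dvd_of_dvd_mul_left c2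
  obtain ⟨y, hy, hy'⟩ := G23P.syl13
  obtain ⟨n, k, n1, ⟨m, rfl⟩, n3, n4⟩ := @odd_nrm _ _ _ 13 ⟨by norm_num⟩ y hy (by rw [G23P.card]; norm_num) _ hy' (D.comap ρ)
    (c1 ▸ ho) (by omega)
  rw [c1] at n3
  unfold Nat.ModEq at n4
  generalize Nat.card (D ⊓ Cx(φ Z) : Subgroup G) = d at *
  have := Nat.le_of_dvd (by norm_num) c4
  have : m ≤ 3 := by omega
  interval_cases d <;> interval_cases m <;> omega

theorem main (H H₁ H₂ M : Subgroup G) (h1 : H₁ ≤ H) (h2 : H₂ ≤ H) (hn1 : (H₁.subgroupOf H).Normal)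
    (hn2 : (H₂.subgroupOf H).Normal) (i1 : H₁ ≃* Matrix.SpecialLinearGroup (Fin 2) (ZMod 3))
    (i2 : H₂ ≃* Matrix.SpecialLinearGroup (Fin 2) (ZMod 3)) (hidx : (H₁ ⊔ H₂).relIndex H = 2)
    (hint1 : H₁ ⊓ H₂ = H₁ ⊓ Cz(H₁)) (hint2 : H₁ ⊓ H₂ = H₂ ⊓ Cz(H₂)) (hHC : H = Cz(H₁ ⊓ H₂))
    (O : Subgroup M) [O.Normal] (e : M ⧸ O ≃* SL32) (hO : IsElementaryAbelian 2 O) (h3 : Nat.card O = 8)
    (hz : H₁ ⊓ H₂ ≤ O.map M.subtype) : Nonempty (G ≃* Lie.chevG2.group (ZMod 3)) := by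
  obtain ⟨ι, x, y, u, v, t, hι, h, ha, hb⟩ := exists_gen H H₁ H₂ M h1 h2 hn1 hn2 i1 i2 hidx hint1 hint2 hHC O e hO h3 hz
  obtain ⟨φ, g, h⟩ := h.act hι ha hb
  refine ⟨(h.equiv (.trans (.trans ?_ O.index_dvd_card) (card_subgroup_dvd_card M))).some.trans G23P.iso.some⟩
  rw [index, Nat.card_congr e.toEquiv, card_SL32]; norm_num

end CfH4.G3
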