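import Cfsg.Agent.H4.D8b
import Cfsg.Agent.H4.L32T
import Cfsg.Agent.H4.TEx
import Cfsg.Agent.OD.Helper4xca5e3a8534
import Cfsg.Agent.OD.Leadxe21bb7ea1a

/-! `L₃(2)` is simple; an extension of `2³` by `L₃(2)` is transitive on bases. -/

set_option autoImplicit false
open Cfsg CfH9 CfH6 CfL Subgroup

namespace CfH4

attribute [local instance 10000] TE.decAll TE.decEx

theorem te_mem {T : Tab} {il : List ℕ} {rels : List (List ℕ)} {g : T.Good il rels} {e : ℕ → TE g}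
    (h : ∀ m : TE g, evw e (T.wl m.1) = m) {K : Subgroup (TE g)} (hK : ∀ x < T.nc, e x ∈ K) (m : TE g) : m ∈ K :=
  h m ▸ evw_mem hK (g.w_spec m.2).1

noncomputable def l32e (i : ℕ) : TE l32_g := [.mk l32_g 1, .mk l32_g 2, .mk l32_g 3, .mk l32_g 4].getD i 1

theorem simple_l32 : IsSimpleGroup (TE l32_g) := by
  have : Nontrivial (TE l32_g) := ⟨⟨l32e 0, 1, by decide +kernel⟩⟩
  refine ⟨fun N hN => or_iff_not_imp_left.2 fun h => eq_top_iff.2 fun m _ => ?_⟩
  obtain ⟨⟨k, hk⟩, h1⟩ := ne_bot_iff_exists_ne_one.1 h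
  have f1 : ∀ k : TE l32_g, k = 1 ∨ ∃ g, ∃ n : Fin 3, (g * k * g⁻¹ * k⁻¹) ^ n.1 ≠ 1 ∧
      (g * k * g⁻¹ * k⁻¹) ^ n.1 * (g * k * g⁻¹ * k⁻¹) ^ n.1 = 1 := by decide +kernel
  have f2 : ∀ y : TE l32_g, y ≠ 1 ∧ y * y = 1 → ∀ x < l32.nc, ∃ c, c * y * c⁻¹ = l32e x := by decide +kernel
  obtain ⟨g, n, hc⟩ := (f1 k).resolve_left fun e => h1 (Subtype.ext e)
  refine te_mem (e := l32e) (by decide +kernel) (fun x hx => ?_) m
  obtain ⟨c, hc⟩ := f2 _ hc x hx
  rw [← hc]
  exact hN.conj_mem _ (pow_mem (mul_mem (hN.conj_mem _ hk g) (inv_mem hk)) _) c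

theorem simple_SL32 : IsSimpleGroup SL32 := by
  obtain ⟨ψ, hψ, -⟩ := TE.exists_hom l32_g (ev4 sl32a sl32b sl32c sl32d) (by decide +kernel) (by decide +kernel)
  have := simple_l32
  exact (MulEquiv.ofBijective ψ (Function.Injective.bijective_of_nat_card_le (by
    rw [injective_iff_map_eq_one]; simp only [hψ]; decide +kernel) (by rw [card_SL32, TE.card]; rfl))).symm.isSimpleGroup

abbrev E8 := TE e8_g

/-- `a, b, c` are independent involutions. -/
def Ind {G : Type*} [Group G] (a b c : G) : Prop := a ≠ 1 ∧ b ≠ 1 ∧ b ≠ a ∧ c ≠ 1 ∧ c ≠ a ∧ c ≠ b ∧ c ≠ a * b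

noncomputable instance (a b c : E8) : Decidable (Ind a b c) := by unfold Ind; infer_instance

theorem Ind.map {G G' : Type*} [Group G] [Group G'] {f : G →* G'} (hf : Function.Injective f) {a b c : G} :
    Ind (f a) (f b) (f c) ↔ Ind a b c := by
  simp only [Ind, ← map_mul, ne_eq, hf.eq_iff, map_eq_one_iff f hf]

theorem exists_e8 {O : Type*} [Group O] [Finite O] (h1 : ∀ a b : O, a * b = b * a) (h2 : ∀ a : O, a * a = 1)
    (h3 : Nat.card O = 8) {a b c : O} (h : Ind a b c) : ∃ e : E8 ≃* O, e (.mk e8_g 1) = a ∧ e (.mk e8_g 2) = b ∧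
      e (.mk e8_g 3) = c := by
  have hi : ∀ a : O, a⁻¹ = a := fun a => inv_eq_of_mul_eq_one_right (h2 a)
  obtain ⟨ψ, -, hψ⟩ := TE.exists_hom e8_g (ev4 a b c 1) (fun x hx => by
    have : x < 3 := hx
    rw [hi]; interval_cases x <;> rfl) (by
      simp only [e8rels, List.forall_mem_cons, evw_cons, evw_nil, mul_one, ← mul_assoc _ _ (_ * _), h2]; simp)
  have e1 : _ = a := hψ 0 (.mk e8_g 1) (by decide) (by decide +kernel)
  have e2 : _ = b := hψ 1 (.mk e8_g 2) (by decide) (by decide +kernel)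
  have e3 : _ = c := hψ 2 (.mk e8_g 3) (by decide) (by decide +kernel)
  refine ⟨MulEquiv.ofBijective ψ (Function.Injective.bijective_of_nat_card_le ?_ (by rw [h3, TE.card]; rfl)), e1, e2, e3⟩
  rw [injective_iff_map_eq_one]
  intro m hm
  have : ∀ m : E8, m ∈ [1, .mk e8_g 1, .mk e8_g 2, .mk e8_g 3, .mk e8_g 2 * .mk e8_g 1, .mk e8_g 3 * .mk e8_g 1,
    .mk e8_g 3 * .mk e8_g 2, .mk e8_g 3 * (.mk e8_g 1 * .mk e8_g 2)] := by decide +kernel
  have := this m
  simp only [List.mem_cons, List.not_mem_nil, or_false] at this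
  obtain ⟨a1, a2, a3, a4, a5, a6, a7⟩ := h
  rcases this with rfl | rfl | rfl | rfl | rfl | rfl | rfl | rfl
  · rfl
  all_goals simp only [map_mul, e1, e2, e3, mul_eq_one_iff_eq_inv, hi] at hm; contradiction

theorem exists_ind {O : Type*} [Group O] [Finite O] (h3 : Nat.card O = 8) {a : O} (ha : a ≠ 1) : ∃ b c, Ind a b c := by
  classical
  have key : ∀ s : Finset O, s.card < 8 → ∃ b, b ∉ s := fun s hs => by
    by_contra h
    have := Fintype.ofFinite O
    rw [Finset.eq_univ_iff_forall.2 (by simpa using h : ∀ b, b ∈ s), Finset.card_univ, ← Nat.card_eq_fintype_card] at hs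
    omega
  obtain ⟨b, hb⟩ := key {1, a} (Finset.card_le_two.trans_lt (by norm_num))
  obtain ⟨c, hc⟩ := key {1, a, b, a * b} (Finset.card_le_four.trans_lt (by norm_num))
  exact ⟨b, c, by simp_all [Ind]⟩

theorem trans_bases {M : Type*} [Group M] [Finite M] (O : Subgroup M) [O.Normal] (e : M ⧸ O ≃* SL32)
    (h1 : ∀ a b : O, a * b = b * a) (h2 : ∀ a : O, a * a = 1) (h3 : Nat.card O = 8) (hO : ¬ ⊤ ≤ Cz(O)) :
    Cz(O) ≤ O ∧ ∀ a b c a' b' c' : O, Ind a b c → Ind a' b' c' →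
      ∃ m : M, m * a * m⁻¹ = a' ∧ m * b * m⁻¹ = b' ∧ m * c * m⁻¹ = c' := by
  have := simple_SL32
  have := e.isSimpleGroup
  have hle : O ≤ Cz(O) := fun a ha b hb => congrArg Subtype.val (h1 ⟨b, hb⟩ ⟨a, ha⟩)
  have hC : Cz(O) ≤ O := by
    rcases (Normal.map inferInstance (QuotientGroup.mk' O) (QuotientGroup.mk'_surjective O) (H := Cz(O))).eq_bot_or_eq_top
      with h | h
    · rwa [Subgroup.map_eq_bot_iff, QuotientGroup.ker_mk'] at h
    · have := congrArg (comap (QuotientGroup.mk' O)) h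
      rw [comap_map_eq, QuotientGroup.ker_mk', sup_eq_left.2 hle] at this
      exact absurd this.ge hO
  refine ⟨hC, fun a b c a' b' c' h h' => ?_⟩
  obtain ⟨f, f1, f2, f3⟩ := exists_e8 h1 h2 h3 h
  let ρ : M →* MulAut O := MulAut.conjNormal
  have k : ρ.ker = O := by
    refine le_antisymm (fun m hm => hC fun x hx => ?_) fun m hm => MulEquiv.ext fun x => Subtype.ext ?_
    · exact (mul_inv_eq_iff_eq_mul.1 (congrArg Subtype.val (DFunLike.congr_fun hm ⟨x, hx⟩))).symm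
    · exact mul_inv_eq_iff_eq_mul.2 (hle hm x x.2).symm
  let F : ρ.range → {t : E8 × E8 × E8 // Ind t.1 t.2.1 t.2.2} := fun σ =>
    ⟨(f.symm (σ.1 a), f.symm (σ.1 b), f.symm (σ.1 c)), (Ind.map (f := (σ.1.trans f.symm).toMonoidHom)
      (MulEquiv.injective _)).2 h⟩
  have hF : Function.Injective F := fun σ τ e => by
    replace e := congrArg Subtype.val e
    simp only [F, Prod.mk.injEq, EmbeddingLike.apply_eq_iff_eq] at e
    refine Subtype.ext (MulEquiv.ext fun x => ?_)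
    obtain ⟨x, rfl⟩ := f.surjective x
    have : ∀ m : E8, ∃ i j k : Fin 2, m = .mk e8_g 1 ^ i.1 * .mk e8_g 2 ^ j.1 * .mk e8_g 3 ^ k.1 := by decide +kernel
    obtain ⟨i, j, k, rfl⟩ := this x
    simp only [map_mul, map_pow, f1, f2, f3, e.1, e.2.1, e.2.2]
  have c1 : Nat.card ρ.range = 168 := by
    rw [← index_ker, k, index, Nat.card_congr e.toEquiv, card_SL32]
  have c2 : Nat.card {t : E8 × E8 × E8 // Ind t.1 t.2.1 t.2.2} = 168 := by
    letI : Fintype E8 := Fintype.ofEquiv _ (Fin.equivSubtype (n := e8.N))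
    rw [Nat.card_eq_fintype_card]; decide +kernel
  obtain ⟨⟨_, m, rfl⟩, hm⟩ := (hF.bijective_of_nat_card_le (by omega)).2 ⟨(f.symm a', f.symm b', f.symm c'),
    (Ind.map (f := f.symm.toMonoidHom) f.symm.injective).2 h'⟩
  replace hm := congrArg Subtype.val hm
  simp only [F, Prod.mk.injEq, EmbeddingLike.apply_eq_iff_eq] at hm
  exact ⟨m, congrArg Subtype.val hm.1, congrArg Subtype.val hm.2.1, congrArg Subtype.val hm.2.2⟩

end CfH4
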