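import Cfsg.Agent.H4.GlAut
import Cfsg.Agent.H4.Zsig
import Cfsg.Agent.H1.PGrp
import Cfsg.Agent.H1.Primitive
import Cfsg.Agent.H5.Burnside
import Cfsg.Agent.H9.RankOne

/-! Linear groups over the field of two elements: transitive groups and anisotropic quadratic
maps. -/

set_option autoImplicit false
open Cfsg CfH4 CfH5 CfH9 CfH7 Subgroup Module
open scoped commutatorElement

namespace CfH4

universe u

theorem dvd_ncard_of_orbits {G X : Type*} [Group G] [MulAction G X] [Finite X] (K : Subgroup G)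
    (s : Set X) (hs : ∀ k ∈ K, ∀ x ∈ s, k • x ∈ s) (d : ℕ)
    (h : ∀ x ∈ s, d ∣ (MulAction.stabilizer G x).relIndex K) : d ∣ s.ncard := by
  let Y : SubMulAction K X := ⟨s, fun k x hx => hs k k.2 x hx⟩
  have := Fintype.ofFinite (MulAction.orbitRel.Quotient K Y)
  rw [← Nat.card_coe_set_eq]
  change d ∣ Nat.card Y
  rw [Nat.card_congr (MulAction.selfEquivSigmaOrbits K Y), Nat.card_sigma]
  refine Finset.dvd_sum fun w _ => ?_
  rw [Nat.card_coe_set_eq, ← MulAction.index_stabilizer]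
  have : MulAction.stabilizer K w.out = (MulAction.stabilizer G (w.out : X)).subgroupOf K := by
    ext k
    simp only [MulAction.mem_stabilizer_iff, mem_subgroupOf]
    exact Subtype.ext_iff
  rw [this]
  exact h _ w.out.2

theorem aniso_aux {F V : Type*} [Field F] [Finite F] [Algebra (ZMod 2) F] [AddCommGroup V]
    [Module F V] (q : V → ZMod 2) (B : V → V → ZMod 2)
    (hq : ∀ u v, q (u + v) = q u + q v + B u v) (hB : ∀ u w v, B (u - w) v = B u v - B w v)
    (hadj : ∀ (c : F) u v, B (c • u) v = B u (c • v)) (halt : ∀ (c : F) u, B (c • u) u = 0)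
    (han : ∀ v, v ≠ 0 → ∃ c : F, q (c • v) ≠ 0) {v : V} (hv : v ≠ 0) (s : Set (V →ₗ[F] V))
    (h1 : ∀ a ∈ s, a v = v) (h2 : ∀ a ∈ s, ∀ u, q (a u) = q u) {a b : V →ₗ[F] V} (ha : a ∈ s)
    (hb : b ∈ s) (ha1 : a ≠ 1) (hb1 : b ≠ 1) : a = b := by
  haveI : CharP F 2 := charP_of_injective_algebraMap (algebraMap (ZMod 2) F).injective 2
  have hneg : ∀ u : V, u + u = 0 := fun u => by
    rw [← two_smul F u, CharTwo.two_eq_zero, zero_smul]
  have hsq : ∀ z : F, ∃ y : F, y * y = z := fun z => by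
    obtain ⟨y, hy⟩ := (frobeniusEquiv F 2).surjective z
    exact ⟨y, by rw [← hy, frobeniusEquiv_def, pow_two]⟩
  have hB0 : ∀ w, B 0 w = 0 := fun w => by simpa using hB 0 0 w
  have hq0 : q 0 = 0 := by simpa [hB0] using hq 0 0
  let Φ : V → Dual (ZMod 2) F := fun u => AddMonoidHom.toZModLinearMap 2
    { toFun := fun x => q (x • u)
      map_zero' := by simp [hq0]
      map_add' := fun x y => by rw [add_smul, hq, ← hadj, smul_smul, halt, add_zero] }
  have hΦ : ∀ u x, Φ u x = q (x • u) := fun _ _ => rfl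
  have key : ∀ v u, v ≠ 0 → (∀ x : F, B (x • u) v = 0) → ∃ d : F, u = d • v := by
    intro v u hv hu
    let Ψ : F →ₗ[ZMod 2] Dual (ZMod 2) F := AddMonoidHom.toZModLinearMap 2
      { toFun := fun d => Φ (d • v)
        map_zero' := LinearMap.ext fun x => by simp [hΦ, hq0]
        map_add' := fun d e => LinearMap.ext fun x => by
          rw [LinearMap.add_apply, hΦ, hΦ, hΦ, smul_smul, smul_smul, smul_smul, ← hΦ, ← hΦ, ← hΦ,
            mul_add, map_add] }
    have hi : Function.Injective Ψ := (injective_iff_map_eq_zero Ψ).2 fun d hd => by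
      by_contra h
      obtain ⟨c, hc⟩ := han _ (smul_ne_zero h hv)
      exact hc (LinearMap.congr_fun hd c)
    obtain ⟨d, hd⟩ := (LinearMap.injective_iff_surjective_of_finrank_eq_finrank
      Subspace.dual_finrank_eq.symm).1 hi (Φ u)
    refine ⟨d, ?_⟩
    by_contra h
    obtain ⟨c, hc⟩ := han (u + d • v) fun e => h (by
      rw [← add_zero u, ← hneg (d • v), ← add_assoc, e, zero_add])
    refine hc ?_
    have h3 : q (c • d • v) = q (c • u) := LinearMap.congr_fun hd c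
    rw [smul_add, hq, h3, smul_smul, ← hadj, smul_smul, hu, CharTwo.add_self_eq_zero, add_zero]
  have hinv : ∀ a ∈ s, ∀ u w, B (a u) (a w) = B u w := fun a ha u w => by
    have h3 := hq (a u) (a w)
    rw [← map_add, h2 a ha, h2 a ha, h2 a ha, hq] at h3
    exact (add_left_cancel h3).symm
  have hperp : ∀ a ∈ s, ∀ v, v ≠ 0 → a v = v → ∀ u, ∃ f : F, a u = u + f • v := by
    intro a ha v hv h u
    obtain ⟨f, hf⟩ := key v (a u - u) hv fun x => by
      rw [smul_sub, hB, ← map_smul, sub_eq_zero]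
      conv_lhs => rw [← h]
      exact hinv a ha _ _
    exact ⟨f, by rw [← hf, add_sub_cancel]⟩
  ext u
  by_cases hu : ∃ d : F, u = d • v
  · obtain ⟨d, rfl⟩ := hu
    rw [map_smul, map_smul, h1 a ha, h1 b hb]
  have hu0 : u ≠ 0 := fun e => hu ⟨0, by rw [e, zero_smul]⟩
  have h3 : ∀ a ∈ s, a ≠ 1 → ∃ f : F, f ≠ 0 ∧ a u = u + f • v ∧
      ∀ y : F, q (y • v) = B ((y * y * f⁻¹) • u) v := by
    intro a ha ha1
    obtain ⟨f, hf⟩ := hperp a ha v hv (h1 a ha) u
    have hf0 : f ≠ 0 := by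
      rintro rfl
      rw [zero_smul, add_zero] at hf
      refine ha1 (LinearMap.ext fun w => ?_)
      obtain ⟨f, h4⟩ := hperp a ha v hv (h1 a ha) w
      obtain ⟨g, h5⟩ := hperp a ha u hu0 hf w
      by_cases hg : g = 0
      · rw [h5, hg, zero_smul, add_zero]; rfl
      · refine absurd ⟨g⁻¹ * f, ?_⟩ hu
        rw [mul_smul, add_left_cancel (h4.symm.trans h5), smul_smul, inv_mul_cancel₀ hg, one_smul]
    refine ⟨f, hf0, hf, fun y => ?_⟩
    have h4 := h2 a ha ((y * f⁻¹) • u)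
    rw [map_smul, hf, smul_add, hq, smul_smul, inv_mul_cancel_right₀ hf0, add_assoc,
      add_eq_left, ← hadj, smul_smul, ← mul_assoc, add_eq_zero_iff_eq_neg, CharTwo.neg_eq] at h4
    exact h4
  obtain ⟨f, hf0, hf, hf'⟩ := h3 a ha ha1
  obtain ⟨g, hg0, hg, hg'⟩ := h3 b hb hb1
  obtain ⟨d, hd⟩ := key v ((f⁻¹ - g⁻¹) • u) hv fun z => by
    obtain ⟨y, rfl⟩ := hsq z
    rw [smul_smul, mul_sub, sub_smul, hB, ← hf', ← hg', sub_self]
  by_cases h4 : f⁻¹ - g⁻¹ = 0
  · rw [hf, hg, inv_injective (sub_eq_zero.1 h4)]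
  · refine absurd ⟨(f⁻¹ - g⁻¹)⁻¹ * d, ?_⟩ hu
    rw [mul_smul, ← hd, smul_smul, inv_mul_cancel₀ h4, one_smul]

variable {V : Type u} [AddCommGroup V] [Module (ZMod 2) V] [Finite V]

/-- the general linear group -/
abbrev GL2 (V : Type u) [AddCommGroup V] [Module (ZMod 2) V] : Type u := (End (ZMod 2) V)ˣ

instance : Finite (End (ZMod 2) V) := DFunLike.finite _

/-- irreducible linear groups -/
def Irr2 (X : Subgroup (GL2 V)) : Prop :=
  ∀ U : Submodule (ZMod 2) V, (∀ x ∈ X, ∀ v ∈ U, x • v ∈ U) → U = ⊥ ∨ U = ⊤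

theorem card_eq_two_pow (W : Type u) [AddCommGroup W] [Module (ZMod 2) W] [Finite W] :
    Nat.card W = 2 ^ finrank (ZMod 2) W := by
  haveI : Module.Finite (ZMod 2) W := Module.Finite.of_finite
  rw [Module.natCard_eq_pow_finrank (K := ZMod 2), Nat.card_zmod]

theorem irr2_of_dvd {X : Subgroup (GL2 V)} {d : ℕ}
    (h : ∀ v : V, v ≠ 0 → d ∣ (MulAction.stabilizer (GL2 V) v).relIndex X)
    (hd : ∀ k, 0 < k → k < finrank (ZMod 2) V → ¬ d ∣ 2 ^ k - 1) : Irr2 X := by
  intro U hU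
  haveI : Module.Finite (ZMod 2) V := Module.Finite.of_finite
  have h1 := dvd_ncard_of_orbits X ((U : Set V) \ {0})
    (fun k hk x hx => ⟨hU k hk x hx.1, fun e => hx.2 ((smul_eq_zero_iff_eq k).1 e)⟩) d
    fun x hx => h x hx.2
  rw [Set.ncard_sdiff_singleton_of_mem U.zero_mem, ← Nat.card_coe_set_eq] at h1
  change d ∣ Nat.card U - 1 at h1
  rw [card_eq_two_pow] at h1
  rcases Nat.eq_zero_or_pos (finrank (ZMod 2) U) with h2 | h2
  · exact Or.inl (Submodule.finrank_eq_zero.1 h2)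
  · exact Or.inr (Submodule.eq_top_of_finrank_eq (le_antisymm U.finrank_le
      (not_lt.1 fun h3 => hd _ h2 h3 h1)))

/-- the endomorphisms commuting with `X` -/
def endC (X : Subgroup (GL2 V)) : Subring (End (ZMod 2) V) :=
  Subring.centralizer (Units.val '' (X : Set (GL2 V)))

omit [Finite V] in
theorem mem_endC {X : Subgroup (GL2 V)} {c : End (ZMod 2) V} :
    c ∈ endC X ↔ ∀ x ∈ X, ∀ v, c (x • v) = x • c v :=
  ⟨fun h x hx v => (LinearMap.congr_fun (h _ ⟨x, hx, rfl⟩) v).symm, fun h => by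
    rintro _ ⟨x, hx, rfl⟩
    exact LinearMap.ext fun v => (h x hx v).symm⟩

omit [Finite V] in
theorem Irr2.eq_zero {X : Subgroup (GL2 V)} (h : Irr2 X) {c : End (ZMod 2) V} (hc : c ∈ endC X)
    {v : V} (hv : v ≠ 0) (h1 : c v = 0) : c = 0 := by
  rcases h (LinearMap.ker c) (fun x hx w hw => by
    rw [LinearMap.mem_ker] at hw ⊢
    rw [mem_endC.1 hc x hx, hw, smul_zero]) with h2 | h2
  · exact absurd (h2.le h1) hv
  · exact LinearMap.ker_eq_top.1 h2

theorem Irr2.isField [Nontrivial V] {X : Subgroup (GL2 V)} (h : Irr2 X) : IsField (endC X) := by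
  have : NoZeroDivisors (endC X) := ⟨fun {c d} e => by
    by_cases hd : d = 0
    · exact Or.inr hd
    · obtain ⟨v, hv⟩ : ∃ v, d.1 v ≠ 0 := by
        by_contra h1
        push Not at h1
        exact hd (Subtype.ext (LinearMap.ext h1))
      exact Or.inl (Subtype.ext (h.eq_zero c.2 hv (LinearMap.congr_fun (congrArg Subtype.val e) v)))⟩
  have : IsDomain (endC X) := NoZeroDivisors.to_isDomain _
  exact Finite.isDomain_to_isField _

omit [Finite V] in
theorem val_mem_endC {X : Subgroup (GL2 V)} {c : GL2 V} (hc : c ∈ Cz(X)) : c.1 ∈ endC X := by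
  rintro _ ⟨x, hx, rfl⟩
  exact congrArg Units.val (mem_centralizer_iff.1 hc x hx)

theorem Irr2.isCyclic [Nontrivial V] {X : Subgroup (GL2 V)} (h : Irr2 X) : IsCyclic Cz(X) := by
  letI := h.isField.toField
  exact isCyclic_of_injective_ringHom (R := endC X)
    { toFun := fun c => ⟨c.1.1, val_mem_endC c.2⟩, map_one' := rfl, map_mul' := fun _ _ => rfl }
    fun a b e => Subtype.ext (Units.ext (congrArg Subtype.val e))

theorem card_GL2 : Nat.card (GL2 V) =
    ∏ i ∈ Finset.range (finrank (ZMod 2) V), (2 ^ finrank (ZMod 2) V - 2 ^ i) := by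
  haveI : Module.Finite (ZMod 2) V := Module.Finite.of_finite
  have hc := Matrix.card_GL_field (𝔽 := ZMod 2) (finrank (ZMod 2) V)
  rw [ZMod.card, Fin.prod_univ_eq_prod_range (fun i => 2 ^ finrank (ZMod 2) V - 2 ^ i)] at hc
  rw [← hc]
  exact Nat.card_congr (Units.mapEquiv
    (LinearMap.toMatrixAlgEquiv (Module.finBasis (ZMod 2) V)).toMulEquiv).toEquiv

theorem exists_prime_pow (n : ℕ) (hn : 1 < n) : ∃ q e : ℕ, q.Prime ∧ q ^ e ∣ 2 ^ n - 1 ∧
    (∀ k, 0 < k → k < n → ¬ q ^ e ∣ 2 ^ k - 1) ∧ (e = 1 ∨ n = 6 ∧ q = 3) := by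
  by_cases h : n = 6
  · refine ⟨3, 2, Nat.prime_three, by rw [h]; norm_num, fun k h1 h2 => ?_, Or.inr ⟨h, rfl⟩⟩
    rw [h] at h2
    interval_cases k <;> norm_num
  · obtain ⟨r, h1, h2, h3⟩ := zsigmondy 2 n one_lt_two hn (fun e => h e.2) (by
      rintro ⟨-, m, hm⟩
      rcases m with _ | m
      · simp at hm
      · rw [pow_succ] at hm; omega)
    exact ⟨r, 1, h1, by rwa [pow_one], by simpa using h3, Or.inl rfl⟩

/-- the normalizer of a transitive linear group is solvable modulo that group -/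
theorem exists_solvable_of_trans (M : Subgroup (GL2 V))
    (hM : ∀ u v : V, u ≠ 0 → v ≠ 0 → ∃ m ∈ M, m • u = v) :
    ∃ Y : Subgroup (GL2 V), Group.IsSolvable Y ∧
      ∀ g ∈ Nm(M), ∃ m ∈ M, ∃ y ∈ Y, g = m * y := by
  by_cases hn : finrank (ZMod 2) V ≤ 1
  · refine ⟨⊤, CfH1.isSolvable_top_iff.2 (burnside_of_prime_dvd (p := 2) (q := 2) fun r hr h => ?_),
      fun g _ => ⟨1, one_mem _, g, trivial, (one_mul g).symm⟩⟩
    rw [card_GL2] at h
    interval_cases finrank (ZMod 2) V <;> simp [hr.ne_one] at h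
  push Not at hn
  haveI : Module.Finite (ZMod 2) V := Module.Finite.of_finite
  haveI : Nontrivial V := Module.nontrivial_of_finrank_pos (R := ZMod 2) (by omega)
  obtain ⟨q, e, hq, h1, h2, h3⟩ := exists_prime_pow _ hn
  haveI := Fact.mk hq
  obtain ⟨Q, hQ⟩ := exists_sylIn q M
  refine ⟨Nm(Q), isSolvable_of_forall_perfect _ fun P hPQ hP => ?_, fun g hg => hQ.frattini hg⟩
  have horb : ∀ v : V, v ≠ 0 → q ^ e ∣ (MulAction.stabilizer (GL2 V) v).relIndex Q := by
    intro v hv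
    have h4 : (MulAction.stabilizer (GL2 V) v).relIndex M = 2 ^ finrank (ZMod 2) V - 1 := by
      have h5 : MulAction.orbit M v = Set.univ \ {0} := by
        ext u
        refine ⟨?_, fun hu => ?_⟩
        · rintro ⟨m, rfl⟩
          exact ⟨trivial, fun e => hv ((smul_eq_zero_iff_eq m).1 e)⟩
        · obtain ⟨m, hm, e⟩ := hM v u hv hu.2
          exact ⟨⟨m, hm⟩, e⟩
      rw [← card_eq_two_pow, ← Set.ncard_univ, ← Set.ncard_sdiff_singleton_of_mem
        (Set.mem_univ (0 : V)), ← h5, ← MulAction.index_stabilizer]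
      rfl
    rw [← h4] at h1
    have h5 := h1.trans (relIndex_dvd_of_le_left M
      (inf_le_left (a := MulAction.stabilizer (GL2 V) v) (b := Q)))
    rw [← relIndex_mul_relIndex _ Q M inf_le_right hQ.le, inf_relIndex_right] at h5
    exact (Nat.Coprime.pow_left e ((Nat.Prime.coprime_iff_not_dvd hq).2
      hQ.not_dvd_relIndex)).dvd_of_dvd_mul_right h5
  have hirr := irr2_of_dvd horb h2
  have hcyc := hirr.isCyclic
  suffices h : P ≤ Cz(Q) from eq_bot_of_perfect_of_isSolvable hP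
    (CfH1.isSolvable_of_le h (CfH8.isSolvable_of_comm inferInstance))
  have hQ0 : Q ≠ ⊥ := by
    rintro rfl
    obtain ⟨v, hv⟩ := exists_ne (0 : V)
    have h4 := horb v hv
    rw [relIndex_bot_right] at h4
    exact h2 1 one_pos hn h4
  obtain ⟨x, hxQ, hx, hxC⟩ := exists_central_orderOf_prime hQ.pgrp hQ.pgrp le_normalizer hQ0
  rcases h3 with rfl | ⟨h6, rfl⟩
  · have h4 : Irr2 (zpowers x) := irr2_of_dvd (d := q ^ 1) (fun v hv => by
      have h5 : MulAction.stabilizer (GL2 V) v ⊓ zpowers x = ⊥ := eq_bot_iff.2 fun y hy => by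
        have h6 := hirr.eq_zero (sub_mem (val_mem_endC (zpowers_le.2 hxC hy.2)) (one_mem _)) hv
          (sub_eq_zero.2 hy.1)
        exact Units.ext (sub_eq_zero.1 h6)
      rw [← inf_relIndex_right, h5, relIndex_bot_left, Nat.card_zpowers, hx, pow_one]) h2
    have h5 := h4.isCyclic
    have h6 : Q ≤ Cz(zpowers x) := by rw [Cz_zpowers]; exact le_Cx_iff.2 hxC
    exact hP.ge.trans (CfH1.commutator_le_Cz_of_isCyclic (isCyclic_of_le h6) hPQ)
  · have h4 : P ≤ Cz((Q ⊓ Cz(Q) : Subgroup (GL2 V))) := hP.ge.trans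
      (CfH1.commutator_le_Cz_of_isCyclic (isCyclic_of_le inf_le_right) fun g hg =>
        mem_Nm_inf (hPQ hg) (mem_Nm_Cz (hPQ hg)))
    have hc : Nat.card (GL2 V) = 2 ^ 15 * 3 ^ 4 * 5 * 7 ^ 2 * 31 := by
      rw [card_GL2, h6]; decide
    have hPn : P ≤ Nm(Cz(Q)) := hPQ.trans (Nm_le_Nm_Cz Q)
    rw [← CfH8.qb_eq_bot_iff hPn]
    refine eq_bot_of_perfect_of_isSolvable (by rw [← CfH8.qb_commutator hPn hPn, hP])
      (burnside_of_prime_dvd (p := 2) (q := 3) fun r hr h5 => ?_)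
    by_contra h7
    haveI := Fact.mk hr
    rw [CfH8.card_qb hPn] at h5
    obtain ⟨R, hR⟩ := exists_sylIn r P
    have h8 : ¬ R ≤ Cz(Q) := fun h8 => hR.not_dvd_relIndex_of_le h8 h5
    have h9 := CfH1.card_modEq_card_inf_centralizer hR.pgrp (hR.le.trans hPQ)
    obtain ⟨a, ha⟩ := hQ.pgrp.exists_card_eq
    obtain ⟨b, hb⟩ := (hQ.pgrp.to_inf_left (K := Cz(R))).exists_card_eq
    have h10 : Nat.card (Q ⊓ Cz(R) : Subgroup (GL2 V)) < Nat.card Q :=
      card_lt_of_lt (lt_of_le_of_ne inf_le_left fun e => h8 (le_centralizer_iff.1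
        (inf_eq_left.1 e)))
    have h11 : 3 ∣ Nat.card (Q ⊓ Cz(R) : Subgroup (GL2 V)) := hx ▸ orderOf_dvd_natCard _
      (mi hxQ (le_centralizer_iff.1 (hR.le.trans h4) (mi hxQ hxC)))
    have h12 : 3 ^ a ∣ Nat.card (GL2 V) := ha ▸ card_subgroup_dvd_card Q
    have h13 : r ∣ Nat.card (GL2 V) :=
      (h5.trans (relIndex_dvd_card _ _)).trans (card_subgroup_dvd_card P)
    rw [hc] at h12 h13
    rw [ha, hb] at h9 h10
    rw [hb] at h11
    have h14 : a ≤ 4 := by
      by_contra h14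
      exact absurd ((pow_dvd_pow 3 (show 5 ≤ a by omega)).trans h12) (by norm_num)
    have h15 : b < a := (Nat.pow_lt_pow_iff_right (by norm_num)).1 h10
    have h16 : 0 < b := Nat.pos_of_ne_zero fun e => by simp [e] at h11
    have h17 : r = 5 ∨ r = 7 ∨ r = 31 := by
      simp only [hr.dvd_mul, not_or] at h13 h7
      rcases h13 with (((h | h) | h) | h) | h
      · exact absurd ((Nat.prime_dvd_prime_iff_eq hr Nat.prime_two).1 (hr.dvd_of_dvd_pow h)) h7.1
      · exact absurd ((Nat.prime_dvd_prime_iff_eq hr Nat.prime_three).1 (hr.dvd_of_dvd_pow h)) h7.2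
      · exact Or.inl ((Nat.prime_dvd_prime_iff_eq hr (by norm_num)).1 h)
      · exact Or.inr (Or.inl ((Nat.prime_dvd_prime_iff_eq hr (by norm_num)).1
          (hr.dvd_of_dvd_pow h)))
      · exact Or.inr (Or.inr ((Nat.prime_dvd_prime_iff_eq hr (by norm_num)).1 h))
    clear h10 h11 h12 h13 ha hb h5 h7
    rcases h17 with rfl | rfl | rfl <;> interval_cases a <;> interval_cases b <;>
      exact absurd h9 (by decide)

/-- a perfect irreducible group has no invariant anisotropic quadratic map -/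
theorem eq_bot_of_aniso (hFT : CfFT.FeitThompson.{u}) {X : Subgroup (GL2 V)} (hX : ⁅X, X⁆ = X)
    (irr : Irr2 X) (Q : Set (V → ZMod 2))
    (quad : ∀ q ∈ Q, ∃ B : V →ₗ[ZMod 2] V →ₗ[ZMod 2] ZMod 2, ∀ u v, q (u + v) = q u + q v + B u v)
    (inv : ∀ q ∈ Q, ∀ x ∈ X, ∀ v, q (x • v) = q v) (an : ∀ v, v ≠ 0 → ∃ q ∈ Q, q v ≠ 0) :
    X = ⊥ := by
  by_contra hne
  haveI : Module.Finite (ZMod 2) V := Module.Finite.of_finite
  haveI : Nontrivial V := by
    by_contra h
    rw [not_nontrivial_iff_subsingleton] at h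
    exact hne (Subsingleton.elim _ _)
  have hneg : ∀ u : V, u + u = 0 := fun u => by
    rw [← two_smul (ZMod 2) u, show (2 : ZMod 2) = 0 from rfl, zero_smul]
  have z : ∀ f : V → ZMod 2, (∀ u v, f (u + v) = f u + f v) → (∀ x ∈ X, ∀ v, f (x • v) = f v) →
      ∀ v, f v = 0 := by
    intro f h1 h2 v
    let g := AddMonoidHom.toZModLinearMap 2 (AddMonoidHom.mk' f h1)
    rcases irr (LinearMap.ker g) (fun x hx v hv => (h2 x hx v).trans hv) with h3 | h3
    · refine absurd (eq_bot_iff.2 fun x hx => Units.ext (LinearMap.ext fun v => ?_)) hne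
      exact LinearMap.ker_eq_bot.1 h3 (h2 x hx v)
    · exact h3.ge (Submodule.mem_top (x := v))
  have pol : ∀ q ∈ Q, ∀ B : V →ₗ[ZMod 2] V →ₗ[ZMod 2] ZMod 2,
      (∀ u v, q (u + v) = q u + q v + B u v) →
      (∀ u v, B u v = B v u) ∧ ∀ x ∈ X, ∀ u v, B (x • u) (x • v) = B u v := by
    intro q hq B hB
    refine ⟨fun u v => ?_, fun x hx u v => ?_⟩
    · have := hB u v
      rw [add_comm u, hB, add_comm (q v)] at this
      exact (add_left_cancel this).symm
    · have := hB (x • u) (x • v)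
      rw [← smul_add, inv q hq x hx, inv q hq x hx, inv q hq x hx, hB] at this
      exact (add_left_cancel this).symm
  obtain ⟨v0, hv0⟩ := exists_ne (0 : V)
  obtain ⟨q1, hq1, hq10⟩ := an v0 hv0
  obtain ⟨B1, hB1⟩ := quad q1 hq1
  obtain ⟨hs1, hi1⟩ := pol q1 hq1 B1 hB1
  have hinj : Function.Injective B1 := by
    rcases irr (LinearMap.ker B1) (fun x hx v hv => LinearMap.ext fun w => by
      rw [← smul_inv_smul x w, hi1 x hx, show B1 v = 0 from hv]; rfl) with h | h
    · exact LinearMap.ker_eq_bot.1 h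
    · refine absurd (z q1 (fun u v => ?_) (inv q1 hq1) v0) hq10
      rw [hB1, LinearMap.ker_eq_top.1 h]; simp
  have hsurj := (LinearMap.injective_iff_surjective_of_finrank_eq_finrank
    Subspace.dual_finrank_eq.symm).1 hinj
  have hK := irr.isField
  let F : Subalgebra (ZMod 2) (End (ZMod 2) V) :=
    { carrier := {c | c ∈ endC X ∧ ∀ u v, B1 (c u) v = B1 u (c v)}
      mul_mem' := fun {c d} hc hd => ⟨mul_mem hc.1 hd.1, fun u v => by
        have := congrArg Subtype.val (hK.mul_comm ⟨c, hc.1⟩ ⟨d, hd.1⟩)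
        rw [End.mul_apply, hc.2, hd.2, ← End.mul_apply, show c * d = d * c from this]⟩
      add_mem' := fun {c d} hc hd => ⟨add_mem hc.1 hd.1, fun u v => by
        simp [hc.2, hd.2]⟩
      algebraMap_mem' := fun r => ⟨mem_endC.2 fun x _ v => by
        simp [Units.smul_def], fun u v => by simp⟩ }
  have : NoZeroDivisors F := ⟨fun {c d} e => by
    letI := hK.toField
    have h1 : c.1 * d.1 = 0 := congrArg Subtype.val e
    have : (⟨c.1, c.2.1⟩ * ⟨d.1, d.2.1⟩ : endC X) = 0 := Subtype.ext h1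
    rcases mul_eq_zero.1 this with h | h
    · exact Or.inl (Subtype.ext (congrArg (fun x : endC X => x.1) h))
    · exact Or.inr (Subtype.ext (congrArg (fun x : endC X => x.1) h))⟩
  have : IsDomain F := NoZeroDivisors.to_isDomain _
  letI := (Finite.isDomain_to_isField F).toField
  have halt : ∀ (c : F) u, B1 (c • u) u = 0 := fun c => z _ (fun u v => by
      have : B1 (c • v) u = B1 (c • u) v := (c.2.2 v u).trans (hs1 _ _)
      simp only [smul_add, map_add, LinearMap.add_apply, this]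
      rw [add_assoc, ← add_assoc (B1 (c • u) v), CharTwo.add_self_eq_zero, zero_add])
    fun x hx v => by
      rw [show c • x • v = x • c • v from mem_endC.1 c.2.1 x hx v, hi1 x hx]
  have han : ∀ v, v ≠ 0 → ∃ c : F, q1 (c • v) ≠ 0 := by
    intro v hv
    obtain ⟨q, hq, hqv⟩ := an v hv
    obtain ⟨B, hB⟩ := quad q hq
    obtain ⟨hs, hi⟩ := pol q hq B hB
    let e := LinearEquiv.ofBijective B1 ⟨hinj, hsurj⟩
    let c : End (ZMod 2) V := e.symm.toLinearMap ∘ₗ B
    have hc : ∀ u, B1 (c u) = B u := fun u => e.apply_symm_apply (B u)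
    have hcF : c ∈ F := ⟨mem_endC.2 fun x hx u => hinj (LinearMap.ext fun w => by
      rw [hc, ← smul_inv_smul x w, hi x hx, hi1 x hx, hc]), fun u w => by
      rw [hc, hs, ← hc, hs1]⟩
    haveI : CharP F 2 := charP_of_injective_algebraMap (algebraMap (ZMod 2) F).injective 2
    obtain ⟨d, hd⟩ := (frobeniusEquiv F 2).surjective ⟨c, hcF⟩
    rw [frobeniusEquiv_def, pow_two] at hd
    refine ⟨d, fun h => hqv ?_⟩
    have := z (fun u => q u + q1 (d • u)) (fun u w => by
      have h1 : B1 (d • u) (d • w) = B u w := by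
        rw [← hc, show c u = (d * d) • u by rw [hd]; rfl, mul_smul]
        exact (d.2.2 _ _).symm
      simp only [smul_add, hB, hB1, h1]
      linear_combination (B u w) * (CharTwo.two_eq_zero (R := ZMod 2)))
      (fun x hx u => by
        rw [inv q hq x hx, show d • x • u = x • d • u from mem_endC.1 d.2.1 x hx u,
          inv q1 hq1 x hx]) v
    simpa [h] using this
  obtain ⟨S, hS⟩ := exists_sylIn 2 X
  obtain ⟨v, hv, hv0⟩ := hS.pgrp.exists_fixed_point_of_prime_dvd_card_of_fixed_point V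
    (by rw [card_eq_two_pow]; exact dvd_pow_self 2 Module.finrank_pos.ne')
    (a := 0) (fun g => smul_zero g)
  let ρ : X → V →ₗ[F] V := fun x =>
    { toFun := fun v => x.1 • v
      map_add' := smul_add _
      map_smul' := fun c v => (mem_endC.1 c.2.1 x x.2 v).symm }
  have hρ : ∀ x y : X, ρ x = ρ y → x = y := fun x y e =>
    Subtype.ext (Units.ext (LinearMap.ext fun v => LinearMap.congr_fun e v))
  have key : ∀ a ∈ S, ∀ b ∈ S, a ≠ 1 → b ≠ 1 → a = b := fun a ha b hb ha1 hb1 =>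
    congrArg Subtype.val (hρ ⟨a, hS.le ha⟩ ⟨b, hS.le hb⟩ (aniso_aux q1 (fun u v => B1 u v) hB1
      (fun u w v => by simp) (fun c u v => c.2.2 u v) halt han hv0.symm
      (ρ '' {x | x.1 ∈ S}) (by rintro _ ⟨x, hx, rfl⟩; exact hv ⟨x, hx⟩)
      (by rintro _ ⟨x, -, rfl⟩ u; exact inv q1 hq1 x x.2 u) ⟨_, ha, rfl⟩ ⟨_, hb, rfl⟩
      (fun e => ha1 (congrArg Subtype.val (hρ _ 1 e)))
      fun e => hb1 (congrArg Subtype.val (hρ _ 1 e))))
  by_cases h2 : 2 ∣ Nat.card X
  · refine not_pNil_of_perfect hX h2 (pNil_two_of_isCyclic hS ?_)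
    obtain ⟨a, ha, ha1⟩ := exists_ne_one_of_ne_bot (hS.ne_bot_iff.2 h2)
    refine ⟨⟨a, ha⟩, fun b => ?_⟩
    by_cases hb : (b : GL2 V) = 1
    · rw [show b = 1 from Subtype.ext hb]; exact ⟨0, zpow_zero _⟩
    · rw [show b = ⟨a, ha⟩ from Subtype.ext (key _ b.2 _ ha hb ha1)]; exact ⟨1, zpow_one _⟩
  · exact hne (eq_bot_of_perfect_of_isSolvable hX (hFT.subgroup X
      (Nat.not_even_iff_odd.1 fun h => h2 h.two_dvd)))

end CfH4
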