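import Cfsg.Agent.H4.Ly1

/-! Double covers of `A₁₁`: standard generators. -/

set_option autoImplicit false
open Cfsg CfH9 CfH6 CfL Subgroup Equiv Equiv.Perm

namespace CfH4.Ly
open An (cp ev Cov W W_append evw_ev rp W_rp c3_cube cm_perm)

universe u
variable {G : Type u} [Group G]

theorem W_inv (a : ℕ → G) {w : List ℕ} (h : allLt 19 w = true := by decide) : W a (invw il9 w) = (W a w)⁻¹ :=
  evw_invw _ _ 19 (ev_inv a (mul_one 1)) w (allLt_sound h)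

noncomputable def eqw (u w : List ℕ) : Bool := allLt 19 w && triv (u ++ invw il9 w)

theorem Carm.eq {z : G} {a : ℕ → G} (h : Carm z a) {u w : List ℕ} (e : eqw u w = true := by decide +kernel) :
    W a u = W a w := by
  rw [eqw, Bool.and_eq_true] at e
  have := h.triv_ok 1 e.2
  rw [evw_append, ← W, ← W, W_inv a e.1] at this
  exact mul_inv_eq_one.1 this

theorem Carm.cj {z : G} {a : ℕ → G} (h : Carm z a) {k u w : List ℕ}
    (e : (allLt 19 k && eqw (k ++ u ++ invw il9 k) w) = true := by decide +kernel) :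
    W a k * W a u * (W a k)⁻¹ = W a w := by
  rw [Bool.and_eq_true] at e
  rw [← h.eq e.2, W_append, W_append, W_inv a e.1]

def pt (i : ℕ) : Fin 11 := Fin.ofNat 11 (if i < 6 then i else i + 2)

def gp : List (List ℕ) := [idl, [6, 1, 2, 3, 4, 5, 7, 0, 8, 9, 10], [7, 1, 2, 3, 4, 5, 0, 6, 8, 9, 10],
  [0, 6, 2, 3, 4, 5, 7, 1, 8, 9, 10], [0, 7, 2, 3, 4, 5, 1, 6, 8, 9, 10], [0, 1, 6, 3, 4, 5, 7, 2, 8, 9, 10],
  [0, 1, 7, 3, 4, 5, 2, 6, 8, 9, 10], [0, 1, 2, 6, 4, 5, 7, 3, 8, 9, 10], [0, 1, 2, 7, 4, 5, 3, 6, 8, 9, 10],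
  [0, 1, 2, 3, 6, 5, 7, 4, 8, 9, 10], [0, 1, 2, 3, 7, 5, 4, 6, 8, 9, 10], [0, 1, 2, 3, 4, 6, 7, 5, 8, 9, 10],
  [0, 1, 2, 3, 4, 7, 5, 6, 8, 9, 10], [0, 1, 2, 3, 4, 5, 7, 8, 6, 9, 10], [0, 1, 2, 3, 4, 5, 8, 6, 7, 9, 10],
  [0, 1, 2, 3, 4, 5, 7, 9, 8, 6, 10], [0, 1, 2, 3, 4, 5, 9, 6, 8, 7, 10], [0, 1, 2, 3, 4, 5, 7, 10, 8, 9, 6],
  [0, 1, 2, 3, 4, 5, 10, 6, 8, 9, 7]]
def pw : List ℕ → List ℕ | [] => idl | x :: w => cp (gp.getD x []) (pw w)
def LL (L : G → Perm (Fin 11) → Prop) (g : G) (l : List ℕ) : Prop := ∃ σ, L g σ ∧ pl σ = l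
noncomputable def sr (ws : List (List ℕ)) (Q : List ℕ → Bool) : Bool := ws.all (allLt 19) && srch (ws.map pw) Q 11 0 []

structure H11 (z : G) (L : G → Perm (Fin 11) → Prop) (a : ℕ → G) : Prop where
  cov : Cov z L
  la : ∀ i < 9, L (a i) (swap 6 (pt i) * swap 6 7) ∧ a i ^ 3 = 1

theorem exists_H11 {z : G} {L : G → Perm (Fin 11) → Prop} (h : Cov z L) (hs : ∀ σ, sign σ = 1 → ∃ g, L g σ) :
    ∃ a, H11 z L a := by
  have : ∀ i, ∃ x, i < 9 → L x (swap 6 (pt i) * swap 6 7) ∧ x ^ 3 = 1 := fun i => by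
    by_cases hi : i < 9
    · have : ∀ i < 9, 6 ≠ pt i ∧ pt i ≠ 7 := by decide
      exact (h.ex3 hs (this i hi).1 (by decide) (this i hi).2).imp fun _ k _ => k
    · exact ⟨1, fun k => (hi k).elim⟩
  choose a ha using this
  exact ⟨a, h, ha⟩

def wT : List ℕ := [1, 3, 5, 9, 11, 3, 5, 8, 1]
def wx : List ℕ := [13, 15, 17, 16, 14]
def wr : List ℕ := [7, 1, 4, 1, 9, 15, 18, 8, 16]
def wt : List ℕ := [3, 1, 14, 1, 15, 5, 18, 4, 6]

theorem inv_type {τ : Perm (Fin 11)} (h : τ * τ = 1) (h1 : τ ≠ 1) :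
    ∃ n, τ.cycleType = Multiset.replicate (n + 1) 2 ∧ τ.support.card = (n + 1) * 2 ∧ sign τ = (-1) ^ (n + 1) := by
  have o : orderOf τ = 2 := orderOf_eq_prime (by rwa [sq]) h1
  obtain ⟨n, hn⟩ := cycleType_prime_order (σ := τ) (o ▸ Nat.prime_two)
  rw [o] at hn
  refine ⟨n, hn, by rw [← sum_cycleType, hn]; simp; ring, ?_⟩
  rw [sign_of_cycleType, hn]
  simp [pow_add, pow_mul']

namespace H11
variable {z : G} {L : G → Perm (Fin 11) → Prop} {a : ℕ → G} (h : H11 z L a)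
include h

theorem car : Carm z a := by
  have : ∀ i < 9, ∀ j < 9, i ≠ j → [6, pt i, 7, pt j].Nodup ∧ pt j ≠ 6 ∧ pt j ≠ 7 := by decide +kernel
  exact ⟨h.cov.zz, fun i hi => h.cov.cz (h.la i hi).1, fun i hi => (h.la i hi).2, fun i hi j hj e => h.cov.dt
    (this i hi j hj e).1 (cm_perm (this i hi j hj e).2.1 (this i hi j hj e).2.2 ▸ h.cov.mul (h.la i hi).1 (h.la j hj).1)⟩

theorem car7 : An.Carm z a := ⟨h.car.zz, fun i hi => h.car.cz i (by omega), fun i hi => h.car.c3 i (by omega),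
  fun i hi j hj => h.car.c2 i (by omega) j (by omega)⟩

theorem ll_mul {g k : G} {l m : List ℕ} (h1 : LL L g l) (h2 : LL L k m) : LL L (g * k) (cp l m) := by
  obtain ⟨σ, h1, rfl⟩ := h1
  obtain ⟨τ, h2, rfl⟩ := h2
  exact ⟨_, h.cov.mul h1 h2, pl_mul _ _⟩

theorem ll_fn {g : G} {l m : List ℕ} (h1 : LL L g l) (h2 : LL L g m) : l = m := by
  obtain ⟨σ, h1, rfl⟩ := h1
  obtain ⟨τ, h2, rfl⟩ := h2
  rw [h.cov.fn h1 h2]

theorem ll_eq {g k : G} {l : List ℕ} (h1 : LL L g l) (h2 : LL L k l) : k = g ∨ k = g * z := by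
  obtain ⟨σ, h1, rfl⟩ := h1
  obtain ⟨τ, h2, e⟩ := h2
  exact h.cov.eq_or h1 (pl_inj e ▸ h2)

theorem ll_eq3 {g k : G} {l : List ℕ} (h1 : LL L g l) (h2 : LL L k l) (g3 : g ^ 3 = 1) (k3 : k ^ 3 = 1) : k = g := by
  obtain ⟨σ, h1, rfl⟩ := h1
  obtain ⟨τ, h2, e⟩ := h2
  exact h.cov.eq3 h1 (pl_inj e ▸ h2) g3 k3

theorem ll_one : LL L 1 idl := ⟨1, h.cov.one, by decide⟩

theorem llw {w : List ℕ} (hw : allLt 19 w = true := by decide +kernel) : LL L (W a w) (pw w) := by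
  replace hw := allLt_sound hw
  induction w with
  | nil => exact h.ll_one
  | cons x w ih =>
    rw [W, evw_cons]
    refine h.ll_mul ?_ (ih fun y hy => hw y (List.mem_cons_of_mem _ hy))
    have hx := hw x List.mem_cons_self
    have : ∀ x < 19, x ≠ 0 → gp.getD x [] = pl (if x % 2 = 1 then swap 6 (pt ((x - 1) / 2)) * swap 6 7 else
      (swap 6 (pt ((x - 1) / 2)) * swap 6 7)⁻¹) := by decide +kernel
    by_cases e : x = 0
    · subst e; exact h.ll_one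
    have h1 := (h.la ((x - 1) / 2) (by omega)).1
    rw [this x hx e, ev, if_neg e]
    split_ifs
    exacts [⟨_, h1, rfl⟩, ⟨_, h.cov.inv h1, rfl⟩]

theorem find {g : G} (hg : g * z = z * g) (ws : List (List ℕ)) (h1 : ∀ w ∈ ws, g * W a w = W a w * g) {Q : List ℕ → Bool}
    (c : sr ws Q = true) : ∃ l, LL L g l ∧ Q l = true := by
  rw [sr, Bool.and_eq_true] at c
  obtain ⟨σ, hσ⟩ := h.cov.ex g hg
  refine ⟨_, ⟨σ, hσ, rfl⟩, srch_sound c.2 σ fun p hp => ?_⟩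
  obtain ⟨w, hw, rfl⟩ := List.mem_map.1 hp
  obtain ⟨τ, hτ, e⟩ := h.llw (List.all_eq_true.1 c.1 w hw)
  exact ⟨τ, e, h.cov.hom_comm hσ hτ (h1 w hw)⟩

theorem cw {u w : List ℕ} (e : eqw (u ++ w) (w ++ u) = true := by decide +kernel) : Commute (W a u) (W a w) :=
  (W_append _ _ _).symm.trans ((h.car.eq e).trans (W_append _ _ _))

theorem cube {u : List ℕ} (e : eqw (rp u 3) [] = true := by decide +kernel) : W a u ^ 3 = 1 :=
  (W_rp _ _ _).symm.trans (h.car.eq e)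

theorem cz {u : List ℕ} (e : allLt 19 u = true := by decide) : Commute (W a u) z := (h.llw e).elim fun _ k => h.cov.cz k.1

theorem ne {u w : List ℕ} (e : (allLt 19 u && allLt 19 w && decide (pw u ≠ pw w)) = true := by decide +kernel) :
    W a u ≠ W a w := fun k => by
  simp only [Bool.and_eq_true, decide_eq_true_eq] at e
  exact e.2 (h.ll_fn (h.llw e.1.1) (k ▸ h.llw e.1.2))

theorem zw : W a [1, 3, 1, 3] = z := by
  rw [← h.car.c2 0 (by decide) 1 (by decide) (by decide)]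
  simp [W, ev, mul_assoc]

theorem lift {K : Subgroup G} (hK : ∀ i < 9, a i ∈ K) (σ : Perm (Fin 11)) (hσ : sign σ = 1) : ∃ g ∈ K, L g σ := by
  let S : Subgroup (Perm (Fin 11)) :=
    { carrier := {σ | ∃ g ∈ K, L g σ}
      one_mem' := ⟨1, one_mem _, h.cov.one⟩
      mul_mem' := fun ⟨_, h1, h2⟩ ⟨_, h3, h4⟩ => ⟨_, mul_mem h1 h3, h.cov.mul h2 h4⟩
      inv_mem' := fun ⟨_, h1, h2⟩ => ⟨_, inv_mem h1, h.cov.inv h2⟩ }
  refine CfH5.alternatingGroup_le_of_forall (L := S) (a := 6) (b := 7) (by decide)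
    (fun σ ⟨_, _, k⟩ => mem_alternatingGroup.2 (h.cov.sgn k)) (fun i h1 h2 => ?_) (mem_alternatingGroup.2 hσ)
  obtain ⟨j, hj, rfl⟩ : ∃ j < 9, pt j = i := by revert i; decide
  exact ⟨_, hK j hj, (h.la j hj).1⟩

theorem hs (σ : Perm (Fin 11)) (hσ : sign σ = 1) : ∃ g, L g σ :=
  (h.lift (K := ⊤) (fun _ _ => trivial) σ hσ).imp fun _ k => k.2

theorem gen {K : Subgroup G} (hK : ∀ i < 9, a i ∈ K) : Cx(z) ≤ K := fun g hg => by
  obtain ⟨σ, hσ⟩ := h.cov.ex g (mem_Cx.1 hg)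
  obtain ⟨k, hk, e⟩ := h.lift hK σ (h.cov.sgn hσ)
  have hz : z ∈ K := h.car.c2 0 (by decide) 1 (by decide) (by decide) ▸
    mul_mem (mul_mem (hK 0 (by decide)) (hK 1 (by decide))) (mul_mem (hK 0 (by decide)) (hK 1 (by decide)))
  rcases h.cov.eq_or e hσ with rfl | rfl
  exacts [hk, mul_mem hk hz]

theorem inv_conj {t : G} (tc : t * z = z * t) (t2 : t * t = 1) (t1 : t ≠ 1) (tz : t ≠ z) :
    ∃ k, k * z = z * k ∧ k * W a wT * k⁻¹ = t := by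
  obtain ⟨τ, ht⟩ := h.cov.ex t tc
  have h2 : τ * τ = 1 := h.cov.fn (h.cov.mul ht ht) (t2 ▸ h.cov.one)
  obtain ⟨n, e1, e2, e3⟩ := inv_type h2 (by rintro rfl; exact (h.cov.ker ht).elim t1 tz)
  have k : ∀ {β : Perm (Fin 11)}, β * β = 1 → β.support.card = (n + 1) * 2 → ∃ ρ, ρ * β * ρ⁻¹ = τ := fun {β} b2 bs => by
    obtain ⟨m, f1, f2, -⟩ := inv_type b2 (by rintro rfl; simp at bs)
    obtain rfl : m = n := by omega
    exact isConj_iff.1 (isConj_iff_cycleType_eq.2 (f1.trans e1.symm))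
  have := Finset.card_le_univ τ.support
  rw [Fintype.card_fin] at this
  rw [h.cov.sgn ht] at e3
  have hn : n = 1 ∨ n = 3 := by
    have : n ≤ 4 := by omega
    interval_cases n <;> simp at e3 ⊢ <;> exact absurd e3 (by decide)
  rcases hn with rfl | rfl
  · obtain ⟨ρ, rfl⟩ := k (β := swap 0 1 * swap 2 3) (by decide) (by decide)
    rw [← conj_mul, ← swap_apply_apply, ← swap_apply_apply] at ht
    exact absurd (t2.symm.trans (h.cov.dt ((by decide : ([0, 1, 2, 3] : List (Fin 11)).Nodup).map ρ.injective) ht)) h.cov.z1.symm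
  obtain ⟨β, hβ, e⟩ := h.llw (w := wT)
  obtain rfl : β = swap 0 3 * swap 2 5 * (swap 1 4 * swap 6 7) := pl_inj (e.trans (by decide +kernel))
  obtain ⟨ρ, hρ, rfl⟩ : ∃ ρ, sign ρ = 1 ∧ ρ * (swap 0 3 * swap 2 5 * (swap 1 4 * swap 6 7)) * ρ⁻¹ = τ := by
    obtain ⟨ρ, e⟩ := k (β := swap 0 3 * swap 2 5 * (swap 1 4 * swap 6 7)) (by decide) (by decide)
    rcases Int.units_eq_one_or (sign ρ) with s | s
    · exact ⟨ρ, s, e⟩
    refine ⟨ρ * swap 8 9, by rw [map_mul, s, sign_swap (by decide)]; simp, ?_⟩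
    rw [← e, mul_inv_rev, mul_assoc ρ, mul_assoc ρ, ← mul_assoc _ _ ρ⁻¹, mul_assoc ρ]
    congr 2
    decide
  obtain ⟨r, hr⟩ := h.hs ρ hρ
  rcases h.cov.eq_or (h.cov.conj hr hβ) ht with e | e
  · exact ⟨r, h.cov.cz hr, e.symm⟩
  refine ⟨r * W a [7, 1], ((show Commute r z from h.cov.cz hr).mul_left h.cz).eq, ?_⟩
  rw [e, mul_inv_rev, mul_assoc r, mul_assoc r, ← mul_assoc _ _ r⁻¹, h.car.cj (w := wT ++ [1, 3, 1, 3]), W_append, h.zw,
    mul_assoc (W a wT), (show Commute r z from h.cov.cz hr).inv_left.eq.symm]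
  group

theorem fused [Finite G] [IsSimpleGroup G] : ∃ σ, σ * z * σ⁻¹ = z * W a wT ∧ σ * W a wT * σ⁻¹ = W a wT := by
  obtain ⟨g, hg, hne⟩ := h.cov.exists_fused h.hs (by simp)
  obtain ⟨σ, s1, s2⟩ := h.cov.fused h.hs hg hne
  obtain ⟨k, k1, k2⟩ := h.inv_conj hg (by rw [conj_mul, h.cov.zz]; group) (fun e => h.cov.z1 (by simpa using e)) hne
  rw [← k2] at s1 s2
  refine ⟨k⁻¹ * σ * k, ?_, ?_⟩
  · calc _ = k⁻¹ * (σ * (k * z * k⁻¹) * σ⁻¹) * k := by group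
      _ = k⁻¹ * z * k * W a wT := by rw [k1, mul_inv_cancel_right, s1]; group
      _ = _ := by rw [mul_assoc k⁻¹, ← k1, inv_mul_cancel_left]
  · calc _ = k⁻¹ * (σ * (k * W a wT * k⁻¹) * σ⁻¹) * k := by group
      _ = _ := by rw [s2]; group

end H11
end CfH4.Ly
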