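import Cfsg.Agent.H4.An7

/-! The amalgam of McLaughlin type over a double cover of `A₈`. -/

set_option autoImplicit false
open Cfsg CfH9 CfH6 CfL Subgroup Equiv Equiv.Perm

namespace CfH4.An
attribute [local instance 10000] TE.decAll TE.decEx

universe u
variable {G : Type u} [Group G]

noncomputable def e6 (u w : List ℕ) : Bool := allLt 13 u && allLt 13 w && eqw u w
noncomputable def c6 (k u w : List ℕ) : Bool := allLt 15 k && allLt 13 k && e6 (k ++ u ++ invw anil k) w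

structure S6 (z : G) (L : G → Perm (Fin 10) → Prop) (a : ℕ → G) (φ : M →* G) : Prop where
  cov : Cov z L
  la : ∀ i < 6, L (a i) (swap 6 (pt 8 i) * swap 6 7)
  eq' : ∀ {u w}, e6 u w = true → W a u = W a w
  zw : W a [1, 3, 1, 3] = z
  hφ : ∀ m, φ m = W a (wm m)

namespace S6
variable {z : G} {L : G → Perm (Fin 10) → Prop} {a : ℕ → G} {φ : M →* G} (h : S6 z L a φ)
include h

theorem eq {u w : List ℕ} (e : e6 u w = true := by decide +kernel) : W a u = W a w := h.eq' e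

theorem cj {k u w : List ℕ} (e : c6 k u w = true := by decide +kernel) : W a k * W a u * (W a k)⁻¹ = W a w := by
  simp only [c6, Bool.and_eq_true] at e
  rw [← h.eq e.2, W_append, W_append, W_inv a e.1.1]

theorem llw {w : List ℕ} (hw : allLt 13 w = true := by decide +kernel) : LL L (W a w) (pw w) := by
  replace hw := allLt_sound hw
  induction w with
  | nil => exact h.cov.ll_one
  | cons x w ih =>
    rw [W, evw_cons]
    refine h.cov.ll_mul ?_ (ih fun y hy => hw y (List.mem_cons_of_mem _ hy))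
    have hx := hw x List.mem_cons_self
    have : ∀ x < 15, x ≠ 0 → gp.getD x [] = pl (if x % 2 = 1 then swap 6 (pt 8 ((x - 1) / 2)) * swap 6 7 else
      (swap 6 (pt 8 ((x - 1) / 2)) * swap 6 7)⁻¹) := by decide +kernel
    by_cases e : x = 0
    · subst e; exact h.cov.ll_one
    have h1 := h.la ((x - 1) / 2) (by omega)
    rw [this x (by omega) e, ev, if_neg e]
    split_ifs
    exacts [⟨_, h1, rfl⟩, ⟨_, h.cov.inv h1, rfl⟩]

theorem llm (m : M) : LL L (φ m) (pw (wm m)) := h.hφ m ▸ h.llw (by revert m; decide +kernel)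

theorem hz : φ Z = z := by rw [h.hφ, h.eq (w := [1, 3, 1, 3]), h.zw]

theorem inj : Function.Injective φ := (injective_iff_map_eq_one φ).2 fun m e => by
  have : ∀ m, pw (wm m) = idl → m = 1 ∨ m = Z := by decide +kernel
  exact (this m (h.cov.ll_fn (h.llm m) (e ▸ h.cov.ll_one))).resolve_right fun k => h.cov.z1 (by rw [← h.hz, ← k, e])

theorem ofl {g : G} {m : M} (h1 : LL L g (pw (wm m))) : φ m = g ∨ φ (m * Z) = g :=
  (h.cov.ll_eq (h.llm m) h1).imp Eq.symm fun e => by rw [map_mul, h.hz, e]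

theorem find {g : G} (hg : g * z = z * g) (ws : List (List ℕ)) (h1 : ∀ w ∈ ws, g * W a w = W a w * g) {Q : List ℕ → Bool}
    (c : sr ws Q = true) (c' : ws.all (allLt 13) = true := by decide +kernel) : ∃ l, LL L g l ∧ Q l = true := by
  rw [sr, Bool.and_eq_true] at c
  obtain ⟨σ, hσ⟩ := h.cov.ex g hg
  refine ⟨_, ⟨σ, hσ, rfl⟩, srch_sound c.2 σ fun p hp => ?_⟩
  obtain ⟨w, hw, rfl⟩ := List.mem_map.1 hp
  obtain ⟨τ, hτ, e⟩ := h.llw (List.all_eq_true.1 c' w hw)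
  exact ⟨τ, e, h.cov.hom_comm hσ hτ (h1 w hw)⟩

theorem cjw {k : List ℕ} {m m' : M} (e : c6 k (wm m) (wm m') = true := by decide +kernel) :
    Cj φ (W a k) m m' := by rw [Cj, h.hφ, h.hφ, h.cj e]

theorem o3 {g : G} (h1 : g * φ Z = φ Z * g) (h2 : g * φ T = φ T * g) (h3 : g ^ 3 = 1) : ∃ m, φ m = g := by
  obtain ⟨l, hl, q⟩ := h.find (h.hz ▸ h1) _ (fun w hw => by rw [List.mem_singleton.1 hw, ← h.hφ, h2]) q3_ok
  have := h.cov.ll_mul hl (h.cov.ll_mul hl hl)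
  rw [← pow_three, h3] at this
  obtain ⟨k, -, rfl⟩ := List.mem_map.1 (of_decide_eq_true q (h.cov.ll_fn this h.cov.ll_one))
  exact (h.ofl hl).elim (⟨_, ·⟩) (⟨_, ·⟩)

theorem cE {E : List ℕ} (hE : E = E1 ∨ E = E2) {g : G} (h1 : ∀ n < 16, Cj φ g (ee E n) (ee E n)) :
    ∃ n < 16, φ (ee E n) = g := by
  obtain ⟨l, hl, q⟩ := h.find (g := g) (by
      rw [← h.hz, ← show ee E 1 = Z by rcases hE with rfl | rfl <;> rfl]; exact mul_inv_eq_iff_eq_mul.1 (h1 1 (by decide)))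
    _ (fun w hw => by
      obtain ⟨n, hn, rfl⟩ := List.mem_map.1 hw
      rw [← h.hφ]; exact mul_inv_eq_iff_eq_mul.1 (h1 n (List.mem_range.1 hn))) (qE_ok hE) (by rcases hE with rfl | rfl <;> decide +kernel)
  obtain ⟨n, hn, e | e⟩ := of_decide_eq_true q <;> rw [List.mem_range] at hn
  · have : ∀ n < 16, ∃ k < 16, ee E n * Z = ee E k := by rcases hE with rfl | rfl <;> decide +kernel
    obtain ⟨k, hk, e'⟩ := this n hn
    exact (h.ofl (e ▸ hl)).elim (⟨n, hn, ·⟩) (⟨k, hk, e' ▸ ·⟩)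
  · obtain ⟨σ, h2, rfl⟩ := hl
    obtain ⟨τ, h3, e'⟩ := h.llm (ee E n)
    have := congrArg sign (pl_inj ((pl_mul _ (swap 8 9)).trans (e.trans e'.symm)))
    rw [map_mul, h.cov.sgn h2, h.cov.sgn h3, sign_swap (by decide)] at this
    exact absurd this (by decide)

theorem cj3 {g : G} (g1 : Cj φ g Z T) (g2 : Cj φ g T (Z * T)) {m : M} (hm : m ^ 3 = 1) : ∃ m', Cj φ g m m' ∧ m' ^ 3 = 1 := by
  have c : ∀ {v w : M}, Cj φ g v w → m * v = v * m → g * φ m * g⁻¹ * φ w = φ w * (g * φ m * g⁻¹) := fun e e' => by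
    rw [← e, conj_mul, conj_mul, ← map_mul, e', map_mul]
  have : ∀ m : M, m * (Z * T) = Z * T * m ∧ m * Z = Z * m := by decide +kernel
  obtain ⟨m', e⟩ := h.o3 (c ((g1.mul g2).cast rfl (by decide +kernel)) (this m).1) (c g1 (this m).2) (by rw [conj_pow, ← map_pow, hm]; simp)
  exact ⟨m', e.symm, ((Cj.pow e.symm 3).cast hm rfl).uniq h.inj Cj.one⟩

theorem exists_act {g : G} (g1 : Cj φ g Z T) (g2 : Cj φ g T (Z * T)) : ∃ s, Act φ s := by
  have c : ∀ {g} k, Cj φ g Z T → Cj φ g T (Z * T) → Cj φ (φ k * g) Z T ∧ Cj φ (φ k * g) T (Z * T) := fun k g1 g2 =>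
    ⟨((Cj.inn _ k).comp g1).cast rfl (by revert k; decide +kernel),
      ((Cj.inn _ k).comp g2).cast rfl (by revert k; decide +kernel)⟩
  obtain ⟨g, g1, g2, g3⟩ : ∃ g, Cj φ g Z T ∧ Cj φ g T (Z * T) ∧ Cj φ g P P := by
    obtain ⟨p, hp, p3⟩ := h.cj3 g1 g2 (m := P) (by decide +kernel)
    have : ∀ p : M, p ^ 3 = 1 → p ≠ 1 → ∃ k, k * p * k⁻¹ = P ∨ k * p * k⁻¹ = P⁻¹ := by decide +kernel
    obtain ⟨k, e⟩ := this p p3 (by
      rintro rfl
      exact absurd (h.inj (by simpa [Cj] using hp : φ P = φ 1)) (by decide +kernel))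
    obtain ⟨k1, k2⟩ := c k g1 g2
    have k3 := (Cj.inn _ k).comp hp
    rcases e with e | e <;> rw [e] at k3
    · exact ⟨_, k1, k2, k3⟩
    have k4 := (k1.mul k2).cast rfl (show _ = Z by decide +kernel)
    have k5 := k3.inv.cast rfl (inv_inv _)
    exact ⟨_, k1.comp (k4.comp (k2.comp k1)), k2.comp (k1.comp (k4.comp k2)), k5.comp (k3.comp (k5.comp k3))⟩
  obtain ⟨q, hq, q3⟩ := h.cj3 g1 g2 (m := Q) (by decide +kernel)
  obtain ⟨r, hr, r3⟩ := h.cj3 g1 g2 (m := R) (by decide +kernel)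
  obtain ⟨k, hk, e1, e2⟩ := key_al q q3 r r3 (fun w hw => ((cj_w g3 hq hr w).cast (by revert w; decide +kernel) rfl).uniq
    h.inj Cj.one) ((cj_al g3 hq hr Z).uniq h.inj g1) ((cj_al g3 hq hr T).uniq h.inj g2)
  have u := cj_al (((Cj.inn _ k).comp g3).cast rfl (show _ = P by clear e1 e2; revert k; decide +kernel))
    (e1 ▸ (Cj.inn _ k).comp hq) (e2 ▸ (Cj.inn _ k).comp hr)
  have v : ∀ d, Cj φ (φ k * g * W a [7, 1]) d (A d) := cj_al (((u (mm 28)).comp h.cjw).cast rfl (by decide +kernel))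
    (((u (mm 89)).comp h.cjw).cast rfl (by decide +kernel)) (((u (mm 124)).comp h.cjw).cast rfl (by decide +kernel))
  generalize φ k * g * W a [7, 1] = s at v
  have v2 : ∀ d, Cj φ (s * s) d d := fun d => ((v _).comp (v d)).cast rfl (by revert d; decide +kernel)
  obtain ⟨n, hn, e⟩ := h.cE (Or.inl rfl) fun n _ => v2 _
  have : ∀ n < 16, (∀ d ∈ [P, Q], ee E1 n * d * (ee E1 n)⁻¹ = d) → A (ee E1 n) = ee E1 n → ee E1 n = 1 ∨ ee E1 n = T * Z := by
    decide +kernel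
  rcases this n hn (fun d _ => (Cj.inn _ _).uniq h.inj (e ▸ v2 d)) ((v _).uniq h.inj (by rw [Cj, e]; group)) with e' | e' <;>
    rw [e'] at e
  · exact ⟨s, by rw [← e, map_one], v⟩
  refine ⟨s * φ Z, ?_, fun d => (v d).comp ((Cj.inn _ _).cast rfl (by revert d; decide +kernel))⟩
  calc _ = s * φ Z * s⁻¹ * (s * s) * φ Z := by group
    _ = 1 := by rw [v Z, ← e, ← map_mul, ← map_mul, map_eq_one_iff _ h.inj]; decide +kernel

variable {s : G} (hs : Act φ s)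
include hs

theorem ns : s ∉ Cx(z) := fun e => absurd (h.inj ((hs.cj Z).symm.trans (by
  rw [h.hz, mem_Cx.1 e, mul_inv_cancel_right]))) (by decide +kernel)

theorem powE {E : List ℕ} (hE : E = E1 ∨ E = E2) (w ν π : List ℕ) (k : ℕ)
    (c : ∀ n < 16, c6 w (wm (ee E n)) (wm (ee E (ν.getD n 0))) = true ∧
      A (ee E (ν.getD n 0)) = ee E (π.getD n 0) ∧ π.getD n 0 < 16 ∧ (π.getD · 0)^[k] n = n) :
    ∃ n < 16, φ (ee E n) = (s * W a w) ^ k ∧ ee E (π.getD n 0) = ee E n := by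
  have h1 : ∀ n < 16, Cj φ (s * W a w) (ee E n) (ee E (π.getD n 0)) := fun n hn =>
    ((hs.cj _).comp (h.cjw (c n hn).1)).cast rfl (c n hn).2.1
  have h2 : ∀ j, ∀ n < 16, Cj φ ((s * W a w) ^ j) (ee E n) (ee E ((π.getD · 0)^[j] n)) := fun j => by
    induction j with
    | zero => intro n _; simp [Cj]
    | succ j ih => intro n hn; rw [pow_succ]; exact (ih _ (c n hn).2.2.1).comp (h1 n hn)
  obtain ⟨n, hn, e⟩ := h.cE hE fun n hn => (h2 k n hn).cast rfl (by rw [(c n hn).2.2.2])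
  exact ⟨n, hn, e, (h1 n hn).uniq h.inj (by rw [Cj, e, ← conj_pow, mul_inv_cancel_right])⟩

theorem pow1 {E : List ℕ} (hE : E = E1 ∨ E = E2) (w ν π : List ℕ) (k : ℕ)
    (c : (∀ n < 16, c6 w (wm (ee E n)) (wm (ee E (ν.getD n 0))) = true ∧
      A (ee E (ν.getD n 0)) = ee E (π.getD n 0) ∧ π.getD n 0 < 16 ∧ (π.getD · 0)^[k] n = n) ∧ (∀ x ∈ w, x ≠ 0) ∧
      ∀ n < 16, ee E (π.getD n 0) = ee E n → ee E n = 1 := by decide +kernel) : evw (ev s a) (anPw w k) = 1 := by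
  obtain ⟨n, hn, e1, e2⟩ := h.powE hs hE w ν π k c.1
  rw [evw_pw s a c.2.1, ← e1, c.2.2 n hn e2, map_one]

theorem relB : ∀ r ∈ anB, evw (ev s a) r = 1 := by
  intro r hr
  simp only [anB, List.mem_append, List.mem_map, List.mem_singleton] at hr
  rcases hr with hr | ⟨p, hp, rfl⟩ | rfl
  · exact (evw_ev s a (by revert r; decide)).trans (h.eq (w := []) (by revert r; decide +kernel))
  · have : ∀ p ∈ anD, (∀ x ∈ p.1, x ≠ 0) ∧ (∀ x ∈ p.2, x ≠ 0) ∧ ∃ k ∈ [3, 5, 155, 30, 89, 61, 43, 51, 76, 86, 72, 47, 35, 4,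
      54, 56, 6, 34, 144], pw (wm (mm k)) = pw p.1 ∧ e6 (wm (mm k)) p.1 = true ∧ e6 (wm (A (mm k)) ++ p.2) [] = true := by
      decide +kernel
    obtain ⟨h1, h2, k, -, -, h3, h4⟩ := this p hp
    have := hs.cj (mm k)
    rw [Cj, inv_eq_of_mul_eq_one_right hs.s2, h.hφ, h.hφ, h.eq h3] at this
    rw [evw_cons, evw_append, evw_cons, evw_ev s a h1, evw_ev s a h2, ← mul_assoc, ← mul_assoc]
    exact (congrArg (· * _) this).trans ((W_append _ _ _).symm.trans (h.eq h4))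
  · exact h.pow1 hs (Or.inl rfl) _ [0, 1, 2, 10, 13, 6, 5, 7, 9, 8, 3, 12, 11, 4, 15, 14]
      [0, 14, 8, 10, 5, 11, 13, 3, 9, 2, 7, 4, 6, 12, 15, 1] 3

theorem collapse {rs : List (List ℕ)} (k : AC.{u} 13 rs) (hr : ∀ r ∈ anB ++ rs, evw (ev s a) r = 1) : False := by
  obtain ⟨w, -, hw⟩ := k (ev s a) Cx(z) (fun x hx => ev_inv a hs.s2 x (by omega)) hr fun r hr => by
    obtain ⟨i, hi, rfl⟩ := List.mem_map.1 hr
    rw [List.mem_range] at hi
    simpa [ev, mem_Cx] using h.cov.cz (h.la i hi)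
  obtain ⟨i, hi, h1⟩ := hw 1 (one_mem _)
  obtain ⟨j, hj, h2⟩ := hw s (mem_gensub (x := 0) (by decide))
  obtain rfl : i = j := by omega
  exact h.ns hs ((mul_mem_cancel_right (by simpa using h1)).1 h2)

theorem tri {E : List ℕ} (hE : E = E1 ∨ E = E2) (w ν π : List ℕ) {o : List ℕ} (ho : evw (ev s a) (anPw o 5) = 1)
    {w1 w2 w3 : List ℕ} (c1 : AC.{u} 13 [anPw w1 3, anPw o 5]) (c2 : AC.{u} 13 [anPw w2 3, anPw o 5])
    (c3 : AC.{u} 13 [anPw w3 3, anPw o 5])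
    (c : (∀ n < 16, c6 w (wm (ee E n)) (wm (ee E (ν.getD n 0))) = true ∧
      A (ee E (ν.getD n 0)) = ee E (π.getD n 0) ∧ π.getD n 0 < 16 ∧ (π.getD · 0)^[3] n = n) ∧
      ∀ n < 16, ee E (π.getD n 0) = ee E n → ee E n ^ 4 = 1 ∧ ∃ v ∈ [w, w1, w2, w3], (∀ x ∈ v, x ≠ 0) ∧
        e6 (w ++ wm (ee E n)) v = true := by decide +kernel) : evw (ev s a) (anPw w 3) = 1 := by
  obtain ⟨n, hn, e1, e2⟩ := h.powE hs hE w ν π 3 c.1
  obtain ⟨e3, v, hv, h1, h2⟩ := c.2 n hn e2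
  have : evw (ev s a) (anPw v 3) = 1 := by
    rw [evw_pw s a h1, ← h.eq h2, W_append, ← h.hφ, ← mul_assoc, Commute.mul_pow (by rw [e1]; exact (Commute.refl _).pow_right 3),
      ← e1, ← pow_succ', ← map_pow, e3, map_one]
  have k : ∀ {v}, AC.{u} 13 [anPw v 3, anPw o 5] → evw (ev s a) (anPw v 3) ≠ 1 := fun c e =>
    h.collapse hs c fun r hr => (List.mem_append.1 hr).elim (h.relB hs r) fun hr => by
      simp only [List.mem_cons, List.not_mem_nil, or_false] at hr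
      rcases hr with rfl | rfl <;> assumption
  simp only [List.mem_cons, List.not_mem_nil, or_false] at hv
  rcases hv with rfl | rfl | rfl | rfl
  exacts [this, absurd this (k c1), absurd this (k c2), absurd this (k c3)]

theorem relM : ∀ r ∈ anB ++ [anPw [1, 5, 8, 4] 3, anPw [5, 1, 12, 10] 3], evw (ev s a) r = 1 := by
  refine fun r hr => (List.mem_append.1 hr).elim (h.relB hs r) fun hr => ?_
  simp only [List.mem_cons, List.not_mem_nil, or_false] at hr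
  rcases hr with rfl | rfl
  · exact h.tri hs (Or.inl rfl) _ [0, 1, 5, 6, 14, 10, 7, 3, 13, 9, 2, 11, 4, 15, 12, 8]
      [0, 14, 13, 11, 1, 10, 3, 7, 5, 9, 8, 6, 12, 15, 4, 2] (h.pow1 hs (Or.inl rfl) _
      [0, 1, 14, 5, 4, 3, 12, 15, 10, 11, 8, 9, 6, 13, 2, 7] [0, 14, 1, 13, 12, 7, 4, 15, 10, 6, 2, 9, 11, 5, 8, 3] 5)
      anw00_ac anw01_ac anw02_ac
  · exact h.tri hs (Or.inr rfl) _ [0, 1, 3, 15, 4, 12, 14, 13, 7, 5, 10, 6, 9, 8, 11, 2]
      [0, 14, 13, 15, 4, 10, 1, 3, 2, 9, 12, 11, 5, 8, 6, 7] (h.pow1 hs (Or.inr rfl) _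
      [0, 1, 10, 15, 11, 13, 14, 7, 12, 9, 2, 4, 8, 5, 6, 3] [0, 14, 12, 15, 6, 3, 1, 2, 10, 5, 7, 4, 8, 9, 11, 13] 5)
      anw10_ac anw11_ac anw12_ac

end S6
end CfH4.An
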