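import Cfsg.Agent.H4.Ly2
import Cfsg.Agent.H4.Ly3
import Cfsg.Agent.OD.Helper4x564b94dcee

/-! Double covers of `A₁₁`: the centralizer of a `3`-cycle. -/

set_option autoImplicit false
open Cfsg CfH9 CfH6 CfL Subgroup Equiv Equiv.Perm

namespace CfH4.Ly
open An (cp ev Cov W W_append evw_ev rp W_rp M P Q R Z T A wm mm Cj S6 Act e6 evw_pw via_swap)
attribute [local instance 10000] TE.decAll TE.decEx

universe u
variable {G : Type u} [Group G]

theorem map_ev {H : Type*} [Group H] (f : G →* H) (s : G) (a : ℕ → G) (w : List ℕ) :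
    f (evw (ev s a) w) = evw (ev (f s) (f ∘ a)) w := by
  induction w with
  | nil => simp
  | cons x w ih => rw [evw_cons, evw_cons, map_mul, ih]; unfold ev; split_ifs <;> simp

theorem ev_congr {a b : ℕ → G} (s : G) (h : ∀ i < 6, a i = b i) {w : List ℕ} (hw : allLt 13 w = true) :
    evw (ev s a) w = evw (ev s b) w := evw_congr (k := 13) (fun x hx => by
  simp only [ev, h ((x - 1) / 2) (by omega)]) (allLt_sound hw)

theorem z3 {x y : G} (x3 : x ^ 3 = 1) (h : y ∈ zpowers x) : y = 1 ∨ y = x ∨ y = x⁻¹ := by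
  obtain ⟨n, rfl⟩ := h
  have e : x ^ (3 : ℤ) = 1 := by exact_mod_cast x3
  have : x ^ n = x ^ (n % 3) := by conv_lhs => rw [← Int.emod_add_mul_ediv n 3, zpow_add, zpow_mul, e, one_zpow, mul_one]
  have k : x ^ (2 : ℤ) = x⁻¹ := by rw [eq_inv_iff_mul_eq_one, ← zpow_add_one]; exact e
  have : n % 3 = 0 ∨ n % 3 = 1 ∨ n % 3 = 2 := by omega
  rcases this with h | h | h <;> simp [*]

theorem z3c {x y : G} (x3 : x ^ 3 = 1) (h : y ∈ zpowers x) : y ^ 3 = 1 := by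
  rcases z3 x3 h with rfl | rfl | rfl <;> simp [x3]

theorem sq3 {y : G} (h : y * y = 1) (h3 : y ^ 3 = 1) : y = 1 := by rwa [pow_three, h, mul_one] at h3

theorem cj_fix {g z y : G} (zz : z * z = 1) (c : Commute z y) (y3 : y ^ 3 = 1) (e : g * z * g⁻¹ = z * y) : y = 1 := by
  refine sq3 ?_ y3
  have : z * y * (z * y) = 1 := by rw [← e, conj_mul, zz]; group
  rwa [c.symm.mul_mul_mul_comm, zz, one_mul] at this

noncomputable abbrev ex10 : Perm (Fin 10) →* Perm (Fin 11) := viaEmbeddingHom Fin.castSuccEmb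

theorem ex10_last (σ : Perm (Fin 10)) : ex10 σ 10 = 10 := viaEmbedding_apply_of_notMem _ _ _ (by decide)

theorem ex10_surj {σ : Perm (Fin 11)} (h : σ 10 = 10) : ∃ τ, ex10 τ = σ := by
  have k : ∀ i : Fin 10, σ i.castSucc ≠ Fin.last 10 := fun i e =>
    (Fin.castSucc_lt_last i).ne (σ.injective (e.trans h.symm))
  refine ⟨Equiv.ofBijective (fun i => (σ i.castSucc).castPred (k i)) (Finite.injective_iff_bijective.1 fun i j e =>
    Fin.castSucc_injective _ (σ.injective (by simpa using congrArg Fin.castSucc e))), Equiv.ext fun y => ?_⟩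
  induction y using Fin.lastCases with
  | last => exact (ex10_last _).trans h.symm
  | cast i => exact viaEmbedding_apply _ Fin.castSuccEmb i

def xb : Perm (Fin 11) := swap 8 10 * swap 8 9

theorem quot_cov {z x : G} {L : G → Perm (Fin 11) → Prop} (h : Cov z L) (hx : L x xb) (x3 : x ^ 3 = 1) {N : Type*} [Group N]
    (π : Cx(x) →* N) (hs : Function.Surjective π) (hk : ∀ g, π g = 1 ↔ (g : G) ∈ zpowers x) (hz : z ∈ Cx(x)) :
    Cov (π ⟨z, hz⟩) fun g σ => ∃ k, π k = g ∧ L k (ex10 σ) := by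
  have hk' : ∀ {g k}, π g = π k → ∃ y ∈ zpowers x, (g : G) = k * y := fun {g k} e =>
    ⟨_, (hk (k⁻¹ * g)).1 (by rw [map_mul, map_inv, e, inv_mul_cancel]), by simp⟩
  have lx : ∀ y ∈ zpowers x, ∃ β, L y β ∧ (β 10 = 10 → β = 1) := fun y hy => by
    rcases z3 x3 hy with rfl | rfl | rfl
    exacts [⟨1, h.one, fun _ => rfl⟩, ⟨_, hx, by decide⟩, ⟨_, h.inv hx, by decide⟩]
  refine ⟨fun e => h.z1 (sq3 h.zz (z3c x3 ((hk _).1 e))), by rw [← map_mul]; exact (hk _).2 (h.zz.symm ▸ one_mem _ : z * z ∈ _),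
    ⟨_, rfl, by simpa using h.zL⟩, ?_, ?_, ?_, ?_, ?_, ?_, ?_, ?_⟩
  · rintro _ _ σ τ ⟨g, rfl, h1⟩ ⟨k, rfl, h2⟩; exact ⟨g * k, map_mul _ _ _, map_mul ex10 σ τ ▸ h.mul h1 h2⟩
  · rintro _ σ ⟨g, rfl, h1⟩; exact ⟨g⁻¹, map_inv _ _, map_inv ex10 σ ▸ h.inv h1⟩
  · rintro _ ⟨g, rfl, h1⟩
    exact (h.ker (map_one ex10 ▸ h1)).imp (fun e : (g : G) = 1 => (hk _).2 (e ▸ one_mem _)) fun e => congrArg π (Subtype.ext e)
  · rintro _ σ τ ⟨g, rfl, h1⟩ ⟨k, e, h2⟩
    obtain ⟨y, hy, e⟩ := hk' e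
    obtain ⟨β, h3, h4⟩ := lx y hy
    have := h.fn h2 (e ▸ h.mul h1 h3)
    rw [h4 ((ex10 σ).injective (by rw [← mul_apply, ← this, ex10_last, ex10_last])), mul_one] at this
    exact (viaEmbeddingHom_injective _ this).symm
  · rintro _ σ ⟨g, rfl, h1⟩; rw [← map_mul, ← map_mul]; exact congrArg π (Subtype.ext (h.cz h1))
  · classical
    rintro _ σ ⟨g, rfl, h1⟩; rw [← h.sgn h1]
    exact (@sign_extendDomain _ _ _ _ _ _ σ _ (fun _ => Classical.propDecidable _) (ofInjective _ Fin.castSuccEmb.2)).symm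
  · intro g hg
    obtain ⟨g, rfl⟩ := hs g
    obtain ⟨y, hy, e⟩ := hk' (g := g * ⟨z, hz⟩ * g⁻¹) (k := ⟨z, hz⟩) (by rw [map_mul, map_mul, hg, map_inv, mul_inv_cancel_right])
    obtain rfl := cj_fix h.zz (by obtain ⟨n, rfl⟩ := hy; exact (show Commute z x from mem_Cx.1 hz).zpow_right n) (z3c x3 hy) e
    obtain ⟨σ, h1⟩ := h.ex g (mul_inv_eq_iff_eq_mul.1 (e.trans (mul_one _)))
    have h2 := congrArg (fun σ : Perm (Fin 11) => σ 10) (h.hom_comm h1 hx (mem_Cx.1 g.2))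
    have h3 : xb (σ 10) ≠ σ 10 := fun e => absurd (σ.injective (h2.trans e)) (by decide)
    have : ∀ i, xb i ≠ i → ∃ n < 3, (xb ^ n) i = 10 := by decide
    obtain ⟨n, -, h4⟩ := this _ h3
    obtain ⟨τ, e⟩ := ex10_surj (σ := xb ^ n * σ) h4
    exact ⟨τ, ⟨x, mem_Cx.2 rfl⟩ ^ n * g, by rw [map_mul, (hk _).2 (pow_mem (mem_zpowers x) n), one_mul], e ▸ h.mul (h.pow hx n) h1⟩
  · rintro _ a b c d hn ⟨g, rfl, h1⟩
    rw [map_mul, via_swap, via_swap] at h1
    rw [← map_mul]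
    exact congrArg π (Subtype.ext (h.dt (hn.map Fin.castSuccEmb.injective) h1))

def tb : Perm (Fin 11) := swap 0 3 * swap 2 5 * (swap 1 4 * swap 6 7)

theorem sq_xb {δ : Perm (Fin 11)} (h : δ * tb = tb * δ) : Commute (δ * δ) xb := by
  have f : ∀ i, tb (δ i) = δ i ↔ tb i = i := fun i => by rw [← mul_apply, ← h, mul_apply, δ.injective.eq_iff]
  have g : ∀ i, tb i = i ↔ i = 8 ∨ i = 9 ∨ i = 10 := by decide
  have g' : ∀ i, tb i ≠ i → xb i = i := by decide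
  refine Equiv.ext fun y => ?_
  by_cases e : tb y = y
  · have k : δ 8 ≠ δ 9 ∧ δ 8 ≠ δ 10 ∧ δ 9 ≠ δ 10 := by simp [δ.injective.ne_iff]
    have x : xb 8 = 9 ∧ xb 9 = 10 ∧ xb 10 = 8 := by decide
    rcases (g _).1 ((f 8).2 rfl) with h1 | h1 | h1 <;> rcases (g _).1 ((f 9).2 rfl) with h2 | h2 | h2 <;>
      rcases (g _).1 ((f 10).2 rfl) with h3 | h3 | h3 <;> simp only [h1, h2, h3, ne_eq, not_true, false_and, and_false] at k <;>
      rcases (g y).1 e with rfl | rfl | rfl <;> simp only [mul_apply, h1, h2, h3, x]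
  · rw [mul_apply, g' y e, mul_apply, mul_apply, mul_apply, g' _ (mt (f _).1 (mt (f _).1 e))]

noncomputable def qx2 (l : List ℕ) : Bool := decide (cp l (cp l l) = idl → l ∈ [idl, pw wx, pw (invw il9 wx)])
theorem qx2_ok : sr [wm P, wm Q, wm R] qx2 = true := by decide +kernel

structure Ac (z : G) (L : G → Perm (Fin 11) → Prop) (a : ℕ → G) (φ : M →* G) (s : G) : Prop where
  h : H11 z L a
  hφ : ∀ m, φ m = W a (wm m)
  s2 : s * s = 1
  sx : Commute s (W a wx)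
  cj : ∀ d, ∃ y ∈ zpowers (W a wx), s * φ d * s⁻¹ = φ (A d) * y
  r3 : ∀ w ∈ [[3, 9], [1, 5, 8, 4], [5, 1, 12, 10]], (s * W a w) ^ 3 ∈ zpowers (W a wx)

namespace H11
variable {z : G} {L : G → Perm (Fin 11) → Prop} {a : ℕ → G} (h : H11 z L a)
include h

theorem lx : L (W a wx) xb := by
  obtain ⟨β, hβ, e⟩ := h.llw (w := wx)
  exact pl_inj (τ := xb) (e.trans (by decide +kernel)) ▸ hβ

theorem lt : L (W a wT) tb := by
  obtain ⟨β, hβ, e⟩ := h.llw (w := wT)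
  exact pl_inj (τ := tb) (e.trans (by decide +kernel)) ▸ hβ

theorem cx {w : List ℕ} (hw : allLt 13 w = true) : Commute (W a w) (W a wx) :=
  mem_Cx.1 (evw_mem (K := Cx(W a wx)) (k := 13) (fun x hx => by
    have : ∀ x < 13, x ≠ 0 → eqw ([x] ++ wx) (wx ++ [x]) = true := by decide +kernel
    by_cases e : x = 0
    · simp [e, ev]
    · simpa [W] using mem_Cx.2 (h.cw (this x hx e)).eq) (allLt_sound hw))

theorem exists_c [Finite G] [IsSimpleGroup G] : ∃ σ, Commute σ (W a wx) ∧ σ * z * σ⁻¹ = z * W a wT ∧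
    σ * W a wT * σ⁻¹ = W a wT := by
  obtain ⟨σ, s1, s2⟩ := h.fused
  have t2 : W a wT * W a wT = 1 := (W_append _ _ _).symm.trans (h.car.eq (w := []))
  have s3 : σ * (z * W a wT) * σ⁻¹ = z := by rw [← conj_mul, s1, s2, mul_assoc, t2, mul_one]
  have cc : ∀ {x y : G}, Commute x y → Commute (σ * x * σ⁻¹) (σ * y * σ⁻¹) := fun e => by
    rw [Commute, SemiconjBy, conj_mul, conj_mul, e.eq]
  have cc' : ∀ {x y : G}, Commute (σ * x * σ⁻¹) (σ * y * σ⁻¹) → Commute x y := fun e => by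
    rwa [Commute, SemiconjBy, conj_mul, conj_mul, mul_left_inj, mul_right_inj] at e
  have k : ∀ w, allLt 19 w = true → Commute (W a w) (W a wT) → W a w ^ 3 = 1 → Commute (σ * W a wx * σ⁻¹) (W a w) :=
    fun w hw c w3 => by
    obtain ⟨d, e⟩ : ∃ d, σ * d * σ⁻¹ = W a w := ⟨σ⁻¹ * W a w * σ, by group⟩
    obtain ⟨δ, h1⟩ := h.cov.ex d (cc' (by rw [e, s1]; exact (h.cz hw).mul_right c))
    have := cc (h.cov.comm3 h.lx h.cube (h.cov.mul h1 h1) (sq_xb (h.cov.hom_comm h1 h.lt (cc' (by rwa [e, s2])))))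
    rw [← conj_mul, e] at this
    have := this.symm.pow_right 2
    rwa [← sq, ← pow_mul, pow_succ, w3, one_mul] at this
  obtain ⟨l, hl, q⟩ := h.find (g := σ * W a wx * σ⁻¹) (s3 ▸ cc (h.cz.mul_right h.cw)) _ (fun w hw => by
    have : ∀ w ∈ [wm P, wm Q, wm R], allLt 19 w = true ∧ eqw (w ++ wT) (wT ++ w) = true ∧ eqw (rp w 3) [] = true := by
      decide +kernel
    exact k w (this w hw).1 (h.cw (this w hw).2.1) (h.cube (this w hw).2.2)) qx2_ok
  have x3 : (σ * W a wx * σ⁻¹) ^ 3 = 1 := by rw [conj_pow, h.cube]; group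
  have := h.ll_mul hl (h.ll_mul hl hl)
  rw [← pow_three, x3] at this
  have q := of_decide_eq_true q (h.ll_fn this h.ll_one)
  simp only [List.mem_cons, List.not_mem_nil, or_false] at q
  rcases q with rfl | rfl | rfl
  · exact absurd (show W a wx = 1 by simpa using h.ll_eq3 h.ll_one hl (one_pow _) x3) (h.ne (u := wx) (w := []))
  · exact ⟨σ, mul_inv_eq_iff_eq_mul.1 (h.ll_eq3 h.llw hl h.cube x3), s1, s2⟩
  have e : ∀ y, σ * W a wr * y * (σ * W a wr)⁻¹ = σ * (W a wr * y * (W a wr)⁻¹) * σ⁻¹ := fun y => by group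
  refine ⟨σ * W a wr, mul_inv_eq_iff_eq_mul.1 ?_, by rw [e, h.cz.eq, mul_inv_cancel_right, s1],
    by rw [e, h.car.cj (w := wT), s2]⟩
  rw [e, h.car.cj (w := invw il9 wx), W_inv a, ← conj_inv, h.ll_eq3 h.llw hl h.cube x3, W_inv a, inv_inv]

theorem exists_ac [Finite G] [IsSimpleGroup G] : ∃ φ s, Ac z L a φ s := by
  have c := h.car7
  obtain ⟨φ, hφ, -⟩ := TE.exists_hom an0_g (byW (ev 1 a) An.sg) (fun x hx => by
    have : ∀ x < an0.nc, (allLt 15 (An.sg.getD x []) && An.eqw (An.sg.getD (an0il.getD x 0) [])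
      (invw anil (An.sg.getD x []))) = true := by decide +kernel
    have := this x hx
    rw [Bool.and_eq_true] at this
    exact (c.eq this.2).trans (An.W_inv a this.1)) fun r hr => by
      rw [← evw_subst]; exact c.triv_ok 1 (by revert r; decide +kernel)
  replace hφ : ∀ m, φ m = W a (wm m) := fun m => (hφ m).trans (evw_subst _ _ _).symm
  have x3 : W a wx ^ 3 = 1 := h.cube
  have m13 : ∀ m, allLt 13 (wm m) = true := by decide +kernel
  let x' : Cx(W a wx) := ⟨_, mem_Cx.2 rfl⟩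
  haveI : (zpowers x').Normal := ⟨by
    rintro _ ⟨n, rfl⟩ g
    have : Commute g x' := Subtype.ext (mem_Cx.1 g.2)
    exact ⟨n, by rw [(this.zpow_right n).eq, mul_inv_cancel_right]⟩⟩
  let π := QuotientGroup.mk' (zpowers x')
  have hk : ∀ g, π g = 1 ↔ (g : G) ∈ zpowers (W a wx) := fun g => (QuotientGroup.eq_one_iff g).trans
    ⟨fun ⟨n, e⟩ => ⟨n, congrArg Subtype.val e⟩, fun ⟨n, e⟩ => ⟨n, Subtype.ext e⟩⟩
  let a' : ℕ → Cx(W a wx) := fun i => if hi : i < 6 then ⟨a i, by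
    simpa [W, ev] using mem_Cx.2 (h.cx (w := [2 * i + 1]) (by revert i; decide)).eq⟩ else 1
  have e1 : ∀ (s : Cx(W a wx)) {w}, allLt 13 w = true → ((evw (ev s a') w : Cx(W a wx)) : G) = evw (ev (s : G) a) w := fun s w hw =>
    (map_ev (Subgroup.subtype _) s a' w).trans (ev_congr _ (fun i hi => by simp [a', hi]) hw)
  have e2 : ∀ w, W (π ∘ a') w = π (W a' w) := fun w => ((map_ev π 1 a' w).trans (by rw [map_one]; rfl)).symm
  have hz : z ∈ Cx(W a wx) := mem_Cx.2 h.cz.symm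
  let φ' : M →* Cx(W a wx) := φ.codRestrict _ fun m => hφ m ▸ mem_Cx.2 (h.cx (m13 m))
  have S : S6 (π ⟨z, hz⟩) _ (π ∘ a') (π.comp φ') := ⟨quot_cov h.cov h.lx x3 π (QuotientGroup.mk'_surjective _) hk hz,
    fun i hi => ⟨a' i, rfl, by
      rw [map_mul, via_swap, via_swap]
      convert (h.la i (by omega)).1 using 1
      · simp [a', hi]
      · revert i; decide⟩,
    fun {u w} e => by
      simp only [e6, Bool.and_eq_true] at e
      rw [e2, e2]
      exact congrArg π (Subtype.ext ((e1 1 e.1.1).trans ((c.eq e.2).trans (e1 1 e.1.2).symm))),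
    by rw [e2]; exact congrArg π (Subtype.ext ((e1 1 (by decide)).trans h.zw)),
    fun m => by rw [e2]; exact congrArg π (Subtype.ext ((hφ m).trans (e1 1 (m13 m)).symm))⟩
  obtain ⟨σ, c0, s1, s2⟩ := h.exists_c
  rw [h.car.eq (w := wm T), ← hφ] at s1 s2
  rw [← h.zw, h.car.eq (w := wm Z), ← hφ, ← map_mul] at s1
  have up : ∀ {u v}, σ * φ u * σ⁻¹ = φ v → Cj (π.comp φ') (π ⟨σ, mem_Cx.2 c0⟩) u v := fun e => by
    rw [Cj, MonoidHom.comp_apply, MonoidHom.comp_apply, ← map_inv, ← map_mul, ← map_mul]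
    exact congrArg π (Subtype.ext e)
  have d1 : Cj (π.comp φ') (W (π ∘ a') [7, 1]) Z Z := S.cjw
  have d2 : Cj (π.comp φ') (W (π ∘ a') [7, 1]) T (T * Z) := S.cjw
  have c1 := (up s1).comp d1
  have c2 : Cj _ _ T Z := (((up s2).mul (up s1)).comp d2).cast rfl (by decide +kernel)
  obtain ⟨s, hs⟩ := S.exists_act (((c1.mul c2).comp c1).cast rfl (by decide +kernel)) (c1.comp c2)
  obtain ⟨s, hs', rfl⟩ : ∃ s', s' * s' = 1 ∧ π s' = s := by
    obtain ⟨s, rfl⟩ := QuotientGroup.mk'_surjective _ s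
    refine ⟨s ^ 3, Subtype.ext ?_, by rw [map_pow, pow_three, hs.s2, mul_one]⟩
    have := z3c x3 ((hk (s * s)).1 ((map_mul _ _ _).trans hs.s2))
    rw [← (Commute.refl s).mul_pow]
    exact this
  refine ⟨φ, s, h, hφ, congrArg Subtype.val hs', mem_Cx.1 s.2, fun d => ⟨_, (hk ((φ' (A d))⁻¹ * (s * φ' d * s⁻¹))).1 (by
    rw [map_mul, map_inv, map_mul, map_mul, map_inv, inv_mul_eq_one]; exact (hs.cj d).symm), by simp [φ']⟩, fun w hw => ?_⟩
  have : ∀ w ∈ [[3, 9], [1, 5, 8, 4], [5, 1, 12, 10]], (∀ x ∈ w, x ≠ 0) ∧ allLt 13 (anPw w 3) = true ∧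
    anPw w 3 ∈ anB ++ [anPw [1, 5, 8, 4] 3, anPw [5, 1, 12, 10] 3] := by decide +kernel
  obtain ⟨w1, w2, w3⟩ := this w hw
  rw [← evw_pw _ a w1, ← e1 s w2, ← hk, map_ev]
  exact S.relM hs _ w3

end H11
end CfH4.Ly
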