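import Cfsg.Agent.H4.Ly4
import Cfsg.Agent.OD.Helper3x2a47a6fbf7

/-! Double covers of `A₁₁`: relations of the triple cover of the McLaughlin group. -/

set_option autoImplicit false
open Cfsg CfH9 CfH6 CfL Subgroup Equiv Equiv.Perm

namespace CfH4.Ly
open An (cp ev Cov W W_append evw_ev rp W_rp M P Q R Z T A wm mm Cj evw_pw U evw_U)
attribute [local instance 10000] TE.decAll TE.decEx

universe u
variable {G : Type u} [Group G]

def ek (e : ℕ) : List ℕ := [[], [14], [13]].getD e []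
def exD : List ℕ := [1, 2, 1, 1, 2, 1, 1, 2, 2, 1, 2, 2, 2, 2, 1, 1, 1, 2, 0]
def relN : List (List ℕ) := anP6 ++ ([[13, 13, 13], [0, 13, 0, 14]] ++ ((List.range 6).map (fun i => [2 * i + 1, 13, 2 * i + 2, 14]) ++
  ((anD.zip exD).map (fun p => 0 :: (p.1.1 ++ 0 :: (p.1.2 ++ ek p.2))) ++
    [[3, 9], [1, 5, 8, 4], [5, 1, 12, 10]].map (anPw · 3))))
noncomputable def kap (φ : M →* G) (s : G) : G := (φ (A P))⁻¹ * (s * φ P * s⁻¹)
def en (s k : G) (a : ℕ → G) : ℕ → G := ev s (Function.update a 6 k)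

theorem en_lt (s k : G) (a : ℕ → G) {w : List ℕ} (hw : allLt 13 w = true := by decide) : evw (en s k a) w = evw (ev s a) w :=
  ev_congr s (fun i hi => Function.update_of_ne (by omega) _ _) hw

theorem en_W (s k : G) (a : ℕ → G) {w : List ℕ} (hw : allLt 13 w = true ∧ ∀ x ∈ w, x ≠ 0 := by decide) :
    evw (en s k a) w = W a w := (en_lt s k a hw.1).trans (evw_ev s a hw.2)

theorem en13 (s k : G) (a : ℕ → G) : en s k a 13 = k := by simp [en, ev]
theorem en14 (s k : G) (a : ℕ → G) : en s k a 14 = k⁻¹ := by simp [en, ev]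
theorem en0 (s k : G) (a : ℕ → G) : en s k a 0 = s := rfl

namespace Ac
variable {z : G} {L : G → Perm (Fin 11) → Prop} {a : ℕ → G} {φ : M →* G} {s : G} (h : Ac z L a φ s)
include h

theorem x3 {y : G} (hy : y ∈ zpowers (W a wx)) : y ^ 3 = 1 := z3c h.h.cube hy

theorem yw {y : G} (hy : y ∈ zpowers (W a wx)) {w : List ℕ} (hw : allLt 13 w = true := by decide) : Commute (W a w) y := by
  obtain ⟨n, rfl⟩ := hy; exact (h.h.cx hw).zpow_right n

theorem yφ {y : G} (hy : y ∈ zpowers (W a wx)) (d : M) : Commute (φ d) y :=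
  h.hφ d ▸ h.yw hy (by revert d; decide +kernel)

theorem ys {y : G} (hy : y ∈ zpowers (W a wx)) : Commute s y := by obtain ⟨n, rfl⟩ := hy; exact h.sx.zpow_right n

theorem si : s⁻¹ = s := inv_eq_of_mul_eq_one_right h.s2

theorem kap_mem : kap φ s ∈ zpowers (W a wx) := by
  obtain ⟨y, hy, e⟩ := h.cj P
  rwa [kap, e, inv_mul_cancel_left]

theorem tw (d : M) (e : ℕ) (c : (d * P ^ (2 * e)) ^ 4 = 1 ∧ (A d * A P ^ (2 * e)) ^ 4 = 1 := by decide +kernel) :
    s * φ d * s⁻¹ = φ (A d) * kap φ s ^ e := by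
  obtain ⟨y, hy, e1⟩ := h.cj d
  have hk := h.kap_mem
  have e2 : s * φ P * s⁻¹ = φ (A P) * kap φ s := by rw [kap, mul_inv_cancel_left]
  generalize kap φ s = k at hk e2
  have hy2 := mul_mem hy (pow_mem hk (2 * e))
  have e3 : s * φ (d * P ^ (2 * e)) * s⁻¹ = φ (A d * A P ^ (2 * e)) * (y * k ^ (2 * e)) := by
    rw [map_mul, map_pow, ← conj_mul, ← conj_pow, e1, e2, (h.yφ hk _).mul_pow, ← map_pow,
      (h.yφ hy _).symm.mul_mul_mul_comm, ← map_mul]
  have e4 := congrArg (· ^ 4) e3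
  simp only [conj_pow, (h.yφ hy2 _).mul_pow, ← map_pow, c.1, c.2, map_one, mul_one, mul_inv_cancel, one_mul] at e4
  rw [pow_succ, h.x3 hy2, one_mul] at e4
  rw [e1, eq_inv_of_mul_eq_one_left e4.symm, inv_eq_of_mul_eq_one_right (b := k ^ e)]
  rw [← pow_add, show 2 * e + e = 3 * e by ring, pow_mul, h.x3 hk, one_pow]

theorem cjw {k : List ℕ} {m m' : M} (e : (allLt 19 k && eqw (k ++ wm m ++ invw il9 k) (wm m')) = true := by decide +kernel) :
    W a k * φ m * (W a k)⁻¹ = φ m' := by rw [h.hφ, h.hφ, h.h.car.cj e]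

theorem cub {w : List ℕ} (hw : w ∈ [[3, 9], [1, 5, 8, 4], [5, 1, 12, 10]]) (d : M)
    (c : (allLt 13 w && allLt 19 w && eqw (w ++ (w ++ wm d)) (w ++ wm (A d) ++ invw il9 w)) = true := by decide +kernel) :
    (s * W a w) ^ 3 = 1 := by
  simp only [Bool.and_eq_true] at c
  obtain ⟨y, hy, e1⟩ := h.cj d
  have hc := h.r3 w hw
  have e2 := h.h.car.eq c.2
  rw [W_append, W_append, W_append, W_append, ← h.hφ, ← h.hφ, W_inv a c.1.2, mul_assoc, mul_right_inj] at e2
  have e3 : (φ d)⁻¹ * (s * W a w) * (φ d)⁻¹⁻¹ = y⁻¹ * (s * (s * W a w)⁻¹ * s⁻¹) := by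
    calc _ = (s * s)⁻¹ * s * (s * φ d * s⁻¹)⁻¹ * (s * s) * (W a w * φ d) := by group
      _ = s * y⁻¹ * (W a w)⁻¹ := by rw [e2, e1, h.s2]; group
      _ = y⁻¹ * (s * (W a w)⁻¹ * (s * s)⁻¹) := by rw [(h.ys hy).inv_right.eq, h.s2]; group
      _ = _ := by group
  have e4 := congrArg (· ^ 3) e3
  have c1 : Commute y⁻¹ (s * W a w) := ((h.ys hy).mul_left (h.yw hy c.1.1)).symm.inv_left
  simp only [conj_pow, (((h.ys hy).symm.inv_left.mul_right c1.inv_right).mul_right (h.ys hy).symm.inv_inv).mul_pow,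
    inv_pow, h.x3 hy, inv_one, one_mul] at e4
  rw [(h.yφ hc d).inv_left.eq, mul_inv_cancel_right, (h.ys hc).inv_right.eq, mul_inv_cancel_right] at e4
  exact sq3 (eq_inv_iff_mul_eq_one.1 e4) (h.x3 hc)

theorem relN_ok : ∀ r ∈ relN, evw (en s (kap φ s) a) r = 1 := by
  intro r hr
  have hk := h.kap_mem
  simp only [relN, List.mem_append, List.mem_map] at hr
  rcases hr with hr | hr | ⟨i, hi, rfl⟩ | ⟨p, hp, rfl⟩ | ⟨w, hw, rfl⟩
  · exact (en_W _ _ a (by revert r; decide)).trans (h.h.car.eq (w := []) (by revert r; decide +kernel))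
  · simp only [List.mem_cons, List.not_mem_nil, or_false] at hr
    rcases hr with rfl | rfl <;> simp only [evw_cons, evw_nil, en13, en14, en0, mul_one]
    · rw [← pow_three, h.x3 hk]
    · rw [← mul_assoc, ← mul_assoc, (h.ys hk).eq, mul_assoc _ s s, h.s2, mul_one, mul_inv_cancel]
  · rw [List.mem_range] at hi
    have := (h.yw hk (w := [2 * i + 1]) (by revert i; decide)).eq
    have e : ∀ j < 13, en s (kap φ s) a j = ev s a j := fun j hj => by simpa using en_lt s _ a (w := [j]) (by simpa [allLt])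
    simp only [evw_cons, evw_nil, en13, en14, mul_one, e _ (show 2 * i + 1 < 13 by omega), e _ (show 2 * i + 2 < 13 by omega)]
    simp [W, ev] at this
    simp [ev, ← mul_assoc, this, show (2 * i + 1) / 2 = i by omega]
  · have : ∀ p ∈ anD.zip exD, (allLt 13 p.1.1 = true ∧ ∀ x ∈ p.1.1, x ≠ 0) ∧ (allLt 13 p.1.2 = true ∧ ∀ x ∈ p.1.2, x ≠ 0) ∧
      p.2 < 3 ∧ ∃ k ∈ [3, 5, 155, 30, 89, 61, 43, 51, 76, 86, 72, 47, 35, 4, 54, 56, 6, 34, 144],
        pw (wm (mm k)) = pw p.1.1 ∧ eqw (wm (mm k)) p.1.1 = true ∧ eqw (wm (A (mm k)) ++ p.1.2) [] = true ∧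
        (mm k * P ^ (2 * p.2)) ^ 4 = 1 ∧ (A (mm k) * A P ^ (2 * p.2)) ^ 4 = 1 := by decide +kernel
    obtain ⟨h1, h2, h0, k, -, -, h3, h4, h5⟩ := this p hp
    have := h.tw (mm k) p.2 h5
    rw [h.si, h.hφ, h.hφ, h.h.car.eq h3] at this
    have e : kap φ s ^ p.2 * evw (en s (kap φ s) a) (ek p.2) = 1 := by
      generalize p.2 = e at h0
      interval_cases e <;> simp [ek, en13, en14, ← pow_succ, h.x3 hk]
    rw [evw_cons, evw_append, evw_cons, evw_append, en_W _ _ a h1, en_W _ _ a h2, en0, ← mul_assoc, ← mul_assoc, this,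
      ← mul_assoc, mul_assoc _ _ (W a p.1.2), ((h.yw hk h2.1).pow_right _).symm.eq, ← mul_assoc, ← W_append,
      h.h.car.eq h4, mul_assoc, e]
    simp [W]
  · rw [en_lt _ _ a (by revert w; decide), evw_pw s a (by revert w; decide)]
    have hw' := hw
    simp only [List.mem_cons, List.not_mem_nil, or_false] at hw'
    rcases hw' with rfl | rfl | rfl
    exacts [h.cub hw (mm 105), h.cub hw (mm 34), h.cub hw (mm 24)]

theorem hz : φ Z = z := by rw [h.hφ, h.h.car.eq (w := [1, 3, 1, 3]), h.h.zw]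

theorem uZ : U s a * z * (U s a)⁻¹ = φ T := by
  have := h.tw Z 0
  rw [h.hz, pow_zero, mul_one, show A Z = T by decide +kernel] at this
  rw [← this, U, mul_inv_rev, mul_assoc s, h.h.cz.eq]; group

theorem uT : U s a * φ (Z * T) * (U s a)⁻¹ = z := by
  have := h.tw T 0
  rw [pow_zero, mul_one, show A T = Z by decide +kernel, h.hz] at this
  rw [← this, ← h.cjw (k := [2, 8]) (m := Z * T) (m' := T), U]; group

theorem uP : ∃ y ∈ zpowers (W a wx), U s a * φ P * (U s a)⁻¹ = φ P * y := by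
  obtain ⟨y, hy, e⟩ := h.cj (mm 28)
  rw [show A (mm 28) = P by decide +kernel] at e
  exact ⟨y, hy, by rw [← e, ← h.cjw (k := [2, 8]) (m := P) (m' := mm 28), U]; group⟩

end Ac
end CfH4.Ly
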