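import Cfsg.Agent.H4.Ly5

/-! Double covers of `A₁₁`: the elementary abelian group of order `3⁵`. -/

set_option autoImplicit false
open Cfsg CfH9 CfH6 CfH7 CfL Subgroup Equiv Equiv.Perm

namespace CfH4.Ly
open An (cp ev Cov W W_append evw_ev rp W_rp M P Q R Z T A wm mm Cj evw_pw U evw_U T3 four_gen)
attribute [local instance 10000] TE.decAll TE.decEx

universe u
variable {G : Type u} [Group G]

def T2 (J : Subgroup G) (a b : G) (ha : ∀ j ∈ J, Commute j a) (hb : ∀ j ∈ J, Commute j b) (ab : Commute a b)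
    (a3 : a ^ 3 = 1) (b3 : b ^ 3 = 1) : Subgroup G where
  carrier := {x | ∃ j ∈ J, ∃ i k : ℕ, x = j * (a ^ i * b ^ k)}
  one_mem' := ⟨1, one_mem _, 0, 0, by simp⟩
  mul_mem' := by
    rintro _ _ ⟨j, hj, i, k, rfl⟩ ⟨j', hj', i', k', rfl⟩
    refine ⟨j * j', mul_mem hj hj', i + i', k + k', ?_⟩
    rw [pow_add, pow_add, (ab.pow_pow i' k).mul_mul_mul_comm,
      (((ha j' hj').pow_right i).mul_right ((hb j' hj').pow_right k)).mul_mul_mul_comm]
  inv_mem' := by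
    rintro _ ⟨j, hj, i, k, rfl⟩
    have : ∀ (x : G) (n : ℕ), x ^ 3 = 1 → (x ^ n)⁻¹ = x ^ (2 * n) := fun x n h => by
      rw [inv_eq_iff_mul_eq_one, ← pow_add, show n + 2 * n = 3 * n by ring, pow_mul, h, one_pow]
    exact ⟨j⁻¹, inv_mem hj, 2 * i, 2 * k, by rw [(((ha j hj).pow_right i).mul_right ((hb j hj).pow_right k)).eq, mul_inv_rev,
      (ab.pow_pow i k).eq, mul_inv_rev, this a i a3, this b k b3]⟩

def wq : List ℕ := [1, 7, 3, 9, 1, 7]
def V1 : List ℕ := anU anYP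
def V2 : List ℕ := wq ++ V1 ++ invw anil wq
def wu (i j : ℕ) : List ℕ := rp V1 i ++ rp V2 j
def tab : List (ℕ × ℕ × ℕ × ℕ) := [(0, 0, 0, 0), (0, 1, 2, 1), (0, 2, 2, 1), (1, 0, 2, 2), (1, 1, 1, 1), (1, 2, 1, 2),
  (2, 0, 2, 2), (2, 1, 1, 2), (2, 2, 1, 1)]
def facts : List (List ℕ) := [anCm V1 anX1, anCm V1 anX2, anCm V1 V2, anCm V1 (7 :: (V1 ++ [8])) ++ (invw anil anX1 ++ [14])] ++
  tab.map fun p => anCm (wu p.1 p.2.1) (8 :: (wu p.1 p.2.1 ++ [7])) ++ (rp (invw anil anX1) p.2.2.2 ++ rp [14] p.2.2.1)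
def NF (G : Type u) [Group G] : Prop := ∀ e : ℕ → G, (∀ x < 15, e (anil.getD x 0) = (e x)⁻¹) → (∀ r ∈ relN, evw e r = 1) →
  ∀ w ∈ facts, evw e w = 1
def v1 (s : G) (a : ℕ → G) : G := U s a * W a anYP * (U s a)⁻¹
def v2 (s : G) (a : ℕ → G) : G := W a wq * v1 s a * (W a wq)⁻¹
def cm (x y : G) : G := x⁻¹ * (y⁻¹ * (x * y))
noncomputable def wJ (i j k : ℕ) : List ℕ := rp (wm P) i ++ (rp anYP j ++ rp wx k)
noncomputable def q6 (l : List ℕ) : Bool := decide (cp (cp l (cp l l)) (cp l (cp l l)) = idl ∧ (cp l (cp l l) = idl →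
  ∃ i ∈ List.range 3, ∃ j ∈ List.range 3, ∃ k ∈ List.range 3, l = pw (wJ i j k)))
theorem q6_ok : sr [wm P, wx] q6 = true := by decide +kernel
noncomputable def q7 (l : List ℕ) : Bool := decide (cp l l = idl → l = idl ∨ l = [0, 1, 2, 3, 4, 5, 7, 6, 8, 9, 10])
theorem q7_ok : sr [anX1, anX2, wx] q7 = true := by decide +kernel

theorem evw_rp (e : ℕ → G) (w : List ℕ) (n : ℕ) : evw e (rp w n) = evw e w ^ n := by
  induction n with
  | zero => simp [rp]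
  | succ n ih => rw [rp, evw_append, ih, pow_succ']

theorem evw_anCm {e : ℕ → G} (he : ∀ x < 15, e (anil.getD x 0) = (e x)⁻¹) {x y : List ℕ} (hx : allLt 15 x = true)
    (hy : allLt 15 y = true) : evw e (anCm x y) = cm (evw e x) (evw e y) := by
  rw [anCm, evw_append, evw_append, evw_append, evw_invw _ _ 15 he x (allLt_sound hx), evw_invw _ _ 15 he y (allLt_sound hy), cm]

theorem cm_one {x y : G} (h : cm x y = 1) : Commute x y := by
  rwa [cm, inv_mul_eq_one, eq_inv_mul_iff_mul_eq, eq_comm] at h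

theorem cm_cj (g x y : G) : g * cm x y * g⁻¹ = cm (g * x * g⁻¹) (g * y * g⁻¹) := by simp only [cm]; group

theorem cc {x y : G} (g : G) (e : Commute x y) : Commute (g * x * g⁻¹) (g * y * g⁻¹) := by
  rw [Commute, SemiconjBy, conj_mul, conj_mul, e.eq]

namespace Ac
variable {z : G} {L : G → Perm (Fin 11) → Prop} {a : ℕ → G} {φ : M →* G} {s : G} (h : Ac z L a φ s)
include h

theorem einv (k : G) : ∀ x < 15, en s k a (anil.getD x 0) = (en s k a x)⁻¹ := An.ev_inv _ h.s2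

theorem eV1 (k : G) : evw (en s k a) V1 = v1 s a := (en_lt s k a).trans (evw_U a h.s2)

theorem eV2 (k : G) : evw (en s k a) V2 = v2 s a := by
  rw [V2, evw_append, evw_append, evw_invw _ _ 15 (h.einv k) _ (by decide), h.eV1, en_W s k a (w := wq), v2]

theorem ewu (k : G) (i j : ℕ) : evw (en s k a) (wu i j) = v1 s a ^ i * v2 s a ^ j := by
  rw [wu, evw_append, evw_rp, evw_rp, h.eV1, h.eV2]

theorem hP : φ P = W a anX1 * W a anX2 := by rw [h.hφ, ← W_append, h.h.car.eq (w := anX1 ++ anX2)]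

theorem ux : Commute (U s a) (W a wx) := h.sx.mul_left (h.h.cx (by decide))

theorem v13 : v1 s a ^ 3 = 1 := by rw [v1, conj_pow, h.h.cube]; group
theorem v23 : v2 s a ^ 3 = 1 := by rw [v2, conj_pow, h.v13]; group

theorem v11 : v1 s a ≠ 1 := fun e => absurd (show W a anYP = 1 by simpa [v1] using e) (h.h.ne (w := []))

theorem zv1 : z * v1 s a * z⁻¹ = (v1 s a)⁻¹ := by
  rw [v1, ← h.uT, conj_inv, conj_mul, conj_mul, conj_inv, h.hφ, h.h.car.cj (w := invw il9 anYP), W_inv a]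

theorem zv2 : z * v2 s a * z⁻¹ = (v2 s a)⁻¹ := by
  rw [v2, conj_inv, ← h.zv1, ← conj_mul, ← conj_mul, ← conj_inv, ← (h.h.cz (u := wq)).eq, mul_inv_cancel_right]

theorem tv1 : Commute (φ T) (v1 s a) := h.uZ ▸ cc _ h.h.cz.symm

theorem xv1 : Commute (W a wx) (v1 s a) := (h.ux.symm.mul_right h.h.cw).mul_right h.ux.symm.inv_right

theorem odd3 {g : G} (o : Odd (orderOf g)) (h1 : Commute g z) (h2 : Commute g (φ P)) (h3 : Commute g (W a wx)) :
    ∃ i j k, g = φ P ^ i * (W a anYP ^ j * W a wx ^ k) := by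
  obtain ⟨l, hl, q⟩ := h.h.find h1 _ (fun w hw => by
    simp only [List.mem_cons, List.not_mem_nil, or_false] at hw
    rcases hw with rfl | rfl
    exacts [h.hφ P ▸ h2, h3]) q6_ok
  obtain ⟨q1, q2⟩ := of_decide_eq_true q
  have l3 := h.h.ll_mul hl (h.h.ll_mul hl hl)
  rw [← pow_three] at l3
  have g3 : g ^ 3 = 1 := by
    have : (g ^ 3) ^ 4 = 1 := by
      rw [show (g ^ 3) ^ 4 = g ^ 3 * g ^ 3 * (g ^ 3 * g ^ 3) by group]
      rcases h.h.ll_eq h.h.ll_one (q1 ▸ h.h.ll_mul l3 l3) with e | e <;> simp [e, h.h.cov.zz]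
    exact orderOf_eq_one_iff.1 (((o.of_dvd_nat (orderOf_pow_dvd 3)).coprime_two_right.pow_right 2).eq_one_of_dvd
      (orderOf_dvd_of_pow_eq_one this))
  obtain ⟨i, hi, j, hj, k, hk, rfl⟩ := q2 (h.h.ll_fn l3 (g3 ▸ h.h.ll_one))
  have : ∀ i ∈ List.range 3, ∀ j ∈ List.range 3, ∀ k ∈ List.range 3, allLt 19 (wJ i j k) = true ∧
    eqw (rp (wJ i j k) 3) [] = true := by decide +kernel
  refine ⟨i, j, k, (h.h.ll_eq3 (h.h.llw (this i hi j hj k hk).1) hl (h.h.cube (this i hi j hj k hk).2) g3).trans ?_⟩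
  simp only [wJ, W_append, W_rp, h.hφ]

theorem oddT {g : G} (o : Odd (orderOf g)) (h1 : Commute g (φ T)) (h2 : Commute g (φ P)) (h3 : Commute g (W a wx))
    {K : Subgroup G} (k1 : φ P ∈ K) (k2 : W a wx ∈ K) (k3 : v1 s a ∈ K) : g ∈ K := by
  obtain ⟨m, rfl⟩ : ∃ m, U s a * m * (U s a)⁻¹ = g := ⟨(U s a)⁻¹ * g * U s a, by group⟩
  have ci : ∀ {x y : G}, Commute (U s a * x * (U s a)⁻¹) (U s a * y * (U s a)⁻¹) → Commute x y := fun e => by
    simpa [mul_assoc] using cc (U s a)⁻¹ e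
  have e0 := mul_inv_eq_iff_eq_mul.2 h.ux.eq
  obtain ⟨y, hy, e⟩ := h.uP
  obtain ⟨i, j, k, rfl⟩ := h.odd3 (g := m) (by rwa [← MulAut.conj_apply, MulEquiv.orderOf_eq] at o) (ci (h.uZ ▸ h1))
    (ci (by rw [e]; obtain ⟨n, rfl⟩ := hy; exact h2.mul_right (h3.zpow_right n))) (ci (e0.symm ▸ h3))
  rw [← conj_mul, ← conj_mul, ← conj_pow, ← conj_pow, ← conj_pow, e, e0]
  exact mul_mem (pow_mem (mul_mem k1 (zpowers_le.2 k2 hy)) _) (mul_mem (pow_mem k3 _) (pow_mem k2 _))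

variable (hF : ∀ w ∈ facts, evw (en s (kap φ s) a) w = 1)
include hF

theorem f012 : Commute (v1 s a) (W a anX1) ∧ Commute (v1 s a) (W a anX2) ∧ Commute (v1 s a) (v2 s a) := by
  have e := fun {x y} hx hy hw => cm_one ((evw_anCm (h.einv _) (x := x) (y := y) hx hy).symm.trans (hF _ hw))
  have h1 := e (x := V1) (y := anX1) (by decide) (by decide) (by decide)
  have h2 := e (x := V1) (y := anX2) (by decide) (by decide) (by decide)
  have h3 := e (x := V1) (y := V2) (by decide) (by decide) (by decide)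
  rw [h.eV1, en_W _ _ a] at h1 h2
  rw [h.eV1, h.eV2] at h3
  exact ⟨h1, h2, h3⟩

theorem inv_mem5 [Finite G] {u : G} (u3 : u ^ 3 = 1) (uz : z * u * z⁻¹ = u⁻¹) (c1 : Commute u (W a anX1))
    (c2 : Commute u (W a anX2)) (c3 : Commute u (W a wx)) : ∃ i < 3, ∃ j < 3, u = v1 s a ^ i * v2 s a ^ j := by
  obtain ⟨d1, d2, d3⟩ := h.f012 hF
  set K := Cx(W a anX1) ⊓ (Cx(W a anX2) ⊓ Cx(W a wx))
  have hz : z ∈ K := ⟨mem_Cx.2 h.h.cz.symm, mem_Cx.2 h.h.cz.symm, mem_Cx.2 h.h.cz.symm⟩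
  have hO : Cx((⟨z, hz⟩ : K)) ⊔ oddCore K = ⊤ :=
    Cx_sup_oddCore (orderOf_eq_prime (Subtype.ext (by simpa [sq] using h.h.cov.zz))
      fun e => h.h.cov.z1 (congrArg Subtype.val e)) fun k hk => Subtype.ext (by
        have k2 : (k : G) * z * (k : G)⁻¹ * (k * z * (k : G)⁻¹) = 1 := by rw [conj_mul, h.h.cov.zz]; group
        obtain ⟨l, hl, q⟩ := h.h.find (g := k * z * (k : G)⁻¹) (congrArg Subtype.val hk.symm) _ (fun w hw => by
          simp only [List.mem_cons, List.not_mem_nil, or_false] at hw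
          obtain ⟨h1, h2, h3⟩ := (k * ⟨z, hz⟩ * k⁻¹).2
          rcases hw with rfl | rfl | rfl
          exacts [mem_Cx.1 h1, mem_Cx.1 h2, mem_Cx.1 h3]) q7_ok
        rcases of_decide_eq_true q (h.h.ll_fn (h.h.ll_mul hl hl) (k2 ▸ h.h.ll_one)) with rfl | rfl
        · exact ((h.h.ll_eq h.h.ll_one hl).resolve_left fun e => h.h.cov.z1 (by simpa using e)).trans (one_mul _)
        obtain ⟨σ, h1, e⟩ := hl
        exact absurd (pl_inj (τ := swap 6 7) (e.trans (by decide)) ▸ h.h.cov.sgn h1) (by decide))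
  have hu : u ∈ pPrimeCoreOf 2 K := by
    let π := QuotientGroup.mk' (oddCore K)
    let u' : K := ⟨u, mem_Cx.2 c1, mem_Cx.2 c2, mem_Cx.2 c3⟩
    have : (⊤ : Subgroup K) ≤ (Cx(π ⟨z, hz⟩)).comap π := hO.ge.trans (sup_le (fun k hk => mem_comap.2 (mem_Cx.2 (by
      rw [← map_mul, mem_Cx.1 hk, map_mul]))) fun k hk => mem_comap.2 (mem_Cx.2 (by simp [π, (QuotientGroup.eq_one_iff k).2 hk])))
    replace this := mem_comap.1 (this (mem_top u'))
    refine ⟨u', (QuotientGroup.eq_one_iff u').1 (sq3 (y := π u') ?_ (by rw [← map_pow]; exact congrArg π (Subtype.ext u3))), rfl⟩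
    rw [← eq_inv_iff_mul_eq_one, ← map_inv, show u'⁻¹ = ⟨z, hz⟩ * u' * (⟨z, hz⟩ : K)⁻¹ from Subtype.ext uz.symm, map_mul,
      map_mul, ← mem_Cx.1 this, map_inv, mul_inv_cancel_right]
  have cP : ∀ {g}, Commute g (W a anX1) → Commute g (W a anX2) → Commute g (φ P) := fun e1 e2 => h.hP ▸ e1.mul_right e2
  have cY : ∀ {g}, Commute g (W a anX1) → Commute g (W a anX2) → Commute g (W a anYP) := fun e1 e2 => by
    rw [h.h.car.eq (w := anX1 ++ invw il9 anX2), W_append, W_inv a]; exact e1.mul_right e2.inv_right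
  have pY : Commute (φ P) (W a anYP) := h.hφ P ▸ h.h.cw
  have pX : Commute (φ P) (W a wx) := h.hφ P ▸ h.h.cw
  have p3 : φ P ^ 3 = 1 := h.hφ P ▸ h.h.cube
  let J := T3 (φ P) (W a anYP) (W a wx) pY pX h.h.cw p3 h.h.cube h.h.cube
  have Jc : ∀ {g}, Commute g (W a anX1) → Commute g (W a anX2) → Commute g (W a wx) → ∀ x ∈ J, Commute x g := by
    rintro g h1 h2 h3 _ ⟨i, j, k, rfl⟩
    exact (((cP h1 h2).pow_right i).mul_right (((cY h1 h2).pow_right j).mul_right (h3.pow_right k))).symm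
  have q1 : ∀ {g w}, W a wq * W a w * (W a wq)⁻¹ = W a (invw il9 w) → allLt 19 w = true → Commute g (W a w) →
      Commute (W a wq * g * (W a wq)⁻¹) (W a w) := fun e hw c => by
    have := cc (W a wq) c
    rw [e, W_inv a hw] at this
    exact Commute.inv_right_iff.1 this
  have q2 : ∀ {g}, Commute g (W a wx) → Commute (W a wq * g * (W a wq)⁻¹) (W a wx) := fun c => by
    have := cc (W a wq) c
    rwa [h.h.car.cj (w := wx)] at this
  let S := T2 J (v1 s a) (v2 s a) (Jc d1 d2 h.xv1.symm) (Jc (q1 h.h.car.cj (by decide) d1) (q1 h.h.car.cj (by decide) d2)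
    (q2 h.xv1.symm)) d3 h.v13 h.v23
  have JS : J ≤ S := fun j hj => ⟨j, hj, 0, 0, by simp⟩
  have sP : φ P ∈ S := JS ⟨1, 0, 0, by simp⟩
  have sX : W a wx ∈ S := JS ⟨0, 0, 1, by simp⟩
  have tw : φ T = W a wT := by rw [h.hφ, h.h.car.eq (w := wT)]
  have ht : φ T ∈ Nm(K) := mem_normalizer_of_conj_mem fun v hv => by
    rw [tw]
    have c : ∀ {u w}, W a wT * W a u * (W a wT)⁻¹ = W a w → v ∈ Cx(W a u) → W a wT * v * (W a wT)⁻¹ ∈ Cx(W a w) :=
      fun e k => by rw [← e]; exact mem_Cx.2 (cc _ (mem_Cx.1 k))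
    exact ⟨c h.h.car.cj hv.2.1, c h.h.car.cj hv.1, c h.h.car.cj hv.2.2⟩
  have od := fun g (hg : g ∈ pPrimeCoreOf 2 K) => odd_orderOf_of_coprime (coprime_card_pPrimeCoreOf K) hg
  have hO2 : pPrimeCoreOf 2 K ≤ S := four_gen h.h.cov.zz (b := φ T)
    (by rw [← map_mul, show T * T = 1 by decide +kernel, map_one]) (tw ▸ h.h.cz.eq) h.h.cov.z1
    (tw ▸ h.h.ne (w := [])) (by rw [tw, ← h.h.zw]; exact h.h.ne) (coprime_card_pPrimeCoreOf K)
    (normalizer_le_normalizer_pPrimeCoreOf K (le_normalizer hz)) (normalizer_le_normalizer_pPrimeCoreOf _ ht)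
    (fun g ⟨h1, h2⟩ => have k := pPrimeCoreOf_le _ h1
      JS (h.odd3 (od g h1) (mem_Cx.1 h2) (cP (mem_Cx.1 k.1) (mem_Cx.1 k.2.1)) (mem_Cx.1 k.2.2)))
    (fun g ⟨h1, h2⟩ => have k := pPrimeCoreOf_le _ h1
      h.oddT (od g h1) (mem_Cx.1 h2) (cP (mem_Cx.1 k.1) (mem_Cx.1 k.2.1)) (mem_Cx.1 k.2.2) sP sX ⟨1, one_mem _, 1, 0, by simp⟩)
    fun g ⟨h1, h2⟩ => by
      have k := pPrimeCoreOf_le _ h1
      obtain ⟨m, rfl⟩ : ∃ m, W a wq * m * (W a wq)⁻¹ = g := ⟨(W a wq)⁻¹ * g * W a wq, by group⟩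
      have ci : ∀ {x y : G}, Commute (W a wq * x * (W a wq)⁻¹) (W a wq * y * (W a wq)⁻¹) → Commute x y := fun e => by
        simpa [mul_assoc] using cc (W a wq)⁻¹ e
      have e1 : W a wq * φ P * (W a wq)⁻¹ = φ P⁻¹ := h.cjw
      have e2 : W a wq * W a wx * (W a wq)⁻¹ = W a wx := h.h.car.cj
      have e3 : W a wq * φ T * (W a wq)⁻¹ = φ (Z * T) := h.cjw
      exact h.oddT (K := S.comap (MulAut.conj (W a wq)).toMonoidHom) (g := m)
        (by have := od _ h1; rwa [← MulAut.conj_apply, MulEquiv.orderOf_eq] at this)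
        (ci (by rw [e3, map_mul, h.hz]; exact mem_Cx.1 h2))
        (ci (by rw [e1, map_inv]; exact (cP (mem_Cx.1 k.1) (mem_Cx.1 k.2.1)).inv_right)) (ci (e2.symm ▸ mem_Cx.1 k.2.2))
        (show _ * _ * _ ∈ S by rw [e1, map_inv]; exact inv_mem sP) (show _ * _ * _ ∈ S by rwa [e2])
        ⟨1, one_mem _, 0, 1, by simp [v2]⟩
  obtain ⟨j, hj, i, k, rfl⟩ := hO2 hu
  have jc : Commute j (v1 s a ^ i * v2 s a ^ k) := ((Jc d1 d2 h.xv1.symm j hj).pow_right i).mul_right ((Jc (q1 h.h.car.cj (by decide) d1)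
    (q1 h.h.car.cj (by decide) d2) (q2 h.xv1.symm) j hj).pow_right k)
  have j3 : j ^ 3 = 1 := by
    rwa [jc.mul_pow, (d3.pow_pow i k).mul_pow, ← pow_mul, ← pow_mul, pow_mul', pow_mul', h.v13, h.v23, one_pow, one_pow,
      mul_one, mul_one] at u3
  rw [← conj_mul, ← conj_mul, ← conj_pow, ← conj_pow, h.zv1, h.zv2, ← (Jc h.h.cz.symm h.h.cz.symm h.h.cz.symm j hj).eq,
    mul_inv_cancel_right, inv_pow, inv_pow, ← mul_inv_rev, ← (d3.pow_pow i k).eq, jc.eq, mul_inv_rev (_ * _), mul_left_inj] at uz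
  rw [sq3 (eq_inv_iff_mul_eq_one.1 uz) j3, one_mul, pow_eq_pow_mod i h.v13, pow_eq_pow_mod k h.v23]
  exact ⟨_, Nat.mod_lt _ (by decide), _, Nat.mod_lt _ (by decide), rfl⟩

end Ac
end CfH4.Ly
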