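import Cfsg.Agent.H4.Ly6
import Cfsg.Agent.L.SE
import Cfsg.Agent.BS.Final
import Cfsg.Agent.OD.Helper4x30f2290c4f

/-! Double covers of `A₁₁`: the remaining relation and generation. -/

set_option autoImplicit false
open Cfsg CfH9 CfH6 CfH7 CfL Subgroup Equiv Equiv.Perm

namespace CfH4.Ly
open An (cp ev Cov W W_append evw_ev rp W_rp M P Q R Z T A wm mm Cj evw_pw U evw_U via_swap)
attribute [local instance 10000] TE.decAll TE.decEx

universe u
variable {G : Type u} [Group G]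

def sw (a : ℕ → G) (i : ℕ) : G := if i = 7 then a 8 else if i = 8 then a 7 else a i
def sH : List (List ℕ) := [[0], [1], [2], [3], [4], [5], [6], [7], [8], [9], [10], [11], [12], wx, invw il9 wx, wt]
def ilG : List ℕ := [0, 2, 1, 4, 3, 6, 5, 8, 7, 10, 9, 12, 11, 14, 13, 15]
def rv : List ℕ := 15 :: (V1 ++ 15 :: (invw anil V2 ++ invw anil V1))
def eg (s : G) (a : ℕ → G) : ℕ → G := byW (ev s a) sH

namespace Ac
variable {z : G} {L : G → Perm (Fin 11) → Prop} {a : ℕ → G} {φ : M →* G} {s : G} (h : Ac z L a φ s)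
include h

theorem swap_ac : ∃ L', Ac z L' (sw a) φ s ∧ W (sw a) wx = (W a wx)⁻¹ := by
  have e0 : W (sw a) wx = (W a wx)⁻¹ := by
    rw [← W_inv a, ← h.h.car.eq (u := [13, 17, 15, 18, 14])]; simp [W, ev, sw, wx]
  have e1 : ∀ {w}, allLt 13 w = true → W (sw a) w = W a w := ev_congr 1 fun i hi => by rw [sw, if_neg (by omega), if_neg (by omega)]
  refine ⟨_, ⟨⟨h.h.cov.map (swap 9 10).toEmbedding, fun i hi => ?_⟩, fun m => (h.hφ m).trans (e1 (by revert m; decide +kernel)).symm,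
    h.s2, e0 ▸ h.sx.inv_right, by simpa only [e0, zpowers_inv] using h.cj, fun w hw => ?_⟩, e0⟩
  · obtain ⟨j, hj, e, e'⟩ : ∃ j < 9, sw a i = a j ∧ swap (9 : Fin 11) 10 (pt j) = pt i := by
      interval_cases i
      exacts [⟨0, by decide, rfl, rfl⟩, ⟨1, by decide, rfl, rfl⟩, ⟨2, by decide, rfl, rfl⟩, ⟨3, by decide, rfl, rfl⟩,
        ⟨4, by decide, rfl, rfl⟩, ⟨5, by decide, rfl, rfl⟩, ⟨6, by decide, rfl, rfl⟩, ⟨8, by decide, rfl, rfl⟩,
        ⟨7, by decide, rfl, rfl⟩]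
    exact e ▸ ⟨⟨_, (h.h.la j hj).1, by rw [map_mul, via_swap, via_swap, ← e']; rfl⟩, (h.h.la j hj).2⟩
  · rw [e0, zpowers_inv, e1 (by revert w; decide)]; exact h.r3 w hw

theorem hT : φ T = W a wT := by rw [h.hφ, h.h.car.eq (w := wT)]

theorem lemA [Finite G] (hN : NF G) : kap φ s = W a wx ∧ W a wt * v1 s a * (W a wt)⁻¹ = v1 s a * v2 s a ∨
    kap φ s = (W a wx)⁻¹ := by
  have hF := hN _ (h.einv _) h.relN_ok
  obtain ⟨d1, d2, d3⟩ := h.f012 hF
  have t1 : W a wt * W a anX1 * (W a wt)⁻¹ = W a wx := h.h.car.cj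
  have t2 : W a wt * W a wx * (W a wt)⁻¹ = W a anX1 := h.h.car.cj
  have t3 : W a wt * W a anX2 * (W a wt)⁻¹ = W a anX2 := h.h.car.cj
  obtain ⟨i, hi, j, hj, e⟩ := h.inv_mem5 hF (u := W a wt * v1 s a * (W a wt)⁻¹) (by rw [conj_pow, h.v13]; group)
    (by rw [conj_inv, ← h.zv1, ← conj_mul, ← conj_mul, ← conj_inv, ← (h.h.cz (u := wt)).eq, mul_inv_cancel_right])
    (t2 ▸ cc _ h.xv1.symm) (t3 ▸ cc _ d2) (t1 ▸ cc _ d1)
  obtain ⟨k, hk, ek⟩ : ∃ k < 3, kap φ s = W a wx ^ k := by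
    rcases z3 h.h.cube h.kap_mem with e | e | e
    exacts [⟨0, by decide, e.trans (pow_zero _).symm⟩, ⟨1, by decide, e.trans (pow_one _).symm⟩,
      ⟨2, by decide, e.trans (inv_eq_of_mul_eq_one_left ((pow_succ _ _).symm.trans h.h.cube))⟩]
  have e7 : en s (kap φ s) a 7 = W a [7] := by simpa using en_W s (kap φ s) a (w := [7])
  have e8 : en s (kap φ s) a 8 = (W a [7])⁻¹ := e7 ▸ h.einv _ 7 (by decide)
  have eX : evw (en s (kap φ s) a) (invw anil anX1) = (W a anX1)⁻¹ := by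
    rw [evw_invw _ _ 15 (h.einv _) _ (by decide), en_W _ _ a]
  have f3 := hF (anCm V1 (7 :: (V1 ++ [8])) ++ (invw anil anX1 ++ [14])) (by decide)
  rw [evw_append, evw_append, evw_anCm (h.einv _) (by decide) (by decide), evw_cons, evw_append, h.eV1, eX, evw_cons,
    evw_cons, evw_nil, mul_one, mul_one, e7, e8, en14, ← mul_inv_rev, mul_inv_eq_one, ← mul_assoc] at f3
  have f4 := congrArg (fun y => W a wt * y * (W a wt)⁻¹) f3
  simp only [cm_cj] at f4
  rw [← conj_mul (b := W a wt), ← conj_mul (b := W a wt), ← conj_mul (b := W a wt), ← conj_inv, h.h.car.cj (w := invw il9 [7]),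
    W_inv a, inv_inv, ek, ← conj_pow, t1, t2, e] at f4
  obtain ⟨p, hp, rfl, rfl⟩ : ∃ p ∈ tab, p.1 = i ∧ p.2.1 = j := by clear e f4; revert i j; decide
  have f5 := hF _ (List.mem_append_right _ (List.mem_map_of_mem hp))
  have lt : ∀ p ∈ tab, allLt 15 (wu p.1 p.2.1) = true ∧ allLt 15 (8 :: (wu p.1 p.2.1 ++ [7])) = true := by decide
  rw [evw_append, evw_append, evw_anCm (h.einv _) (lt p hp).1 (lt p hp).2, evw_cons, evw_append, h.ewu, evw_rp, evw_rp, eX,
    evw_cons, evw_cons, evw_nil, mul_one, mul_one, e7, e8, en14, inv_pow, inv_pow, ← mul_inv_rev, mul_inv_eq_one, ← mul_assoc,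
    f4, ek, ← W_rp, ← W_rp, ← W_rp, ← W_rp, ← W_append, ← W_append] at f5
  have : ∀ k < 3, ∀ p ∈ tab, k = 1 ∧ p.1 = 1 ∧ p.2.1 = 1 ∨ k = 1 ∧ p.1 = 2 ∧ p.2.1 = 2 ∨ k = 2 ∨
    (allLt 19 (rp anX1 k ++ wx) && allLt 19 (rp (rp wx k) p.2.2.1 ++ rp anX1 p.2.2.2) &&
      decide (pw (rp anX1 k ++ wx) ≠ pw (rp (rp wx k) p.2.2.1 ++ rp anX1 p.2.2.2))) = true := by decide +kernel
  rcases this k hk p hp with ⟨rfl, e1, e2⟩ | ⟨rfl, e1, e2⟩ | rfl | e1
  · exact Or.inl ⟨ek.trans (pow_one _), by simpa [e1, e2] using e⟩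
  · exfalso
    rw [e1, e2] at e
    have tt : W a wt * W a wt = 1 := (W_append _ _ _).symm.trans (h.h.car.eq (w := []))
    have c1 : φ T * v1 s a * (φ T)⁻¹ = v1 s a := mul_inv_eq_iff_eq_mul.2 h.tv1
    have c2 : φ T * v2 s a * (φ T)⁻¹ = (v2 s a)⁻¹ := by
      have := cc (W a wq) h.tv1
      rw [show W a wq * φ T * (W a wq)⁻¹ = φ (Z * T) from h.cjw, map_mul, h.hz, ← v2] at this
      calc _ = z * (z * φ T * v2 s a * (z * φ T)⁻¹) * z⁻¹ := by
            rw [mul_inv_rev, inv_eq_of_mul_eq_one_right h.h.cov.zz]; simp [← mul_assoc, h.h.cov.zz]; simp [mul_assoc, h.h.cov.zz]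
        _ = _ := by rw [this.eq, mul_inv_cancel_right, h.zv2]
    have g3 : (W a wt * φ T) ^ 3 = 1 := by rw [h.hT, ← W_append]; exact h.h.cube
    have x3 := h.v13
    have y3 := h.v23
    have x1 := h.v11
    generalize v1 s a = x, v2 s a = y, W a wt = t, φ T = r at e c1 c2 g3 x3 y3 x1 d3 tt
    have w3 : (t * y * t⁻¹) ^ 3 = 1 := by rw [conj_pow, y3]; group
    have c3 : (t * y * t⁻¹) ^ 2 = y ^ 2 := by
      have : (x ^ 2 * y ^ 2) ^ 2 * (t * y * t⁻¹) ^ 2 = x := by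
        rw [← e, conj_pow, conj_pow, conj_mul, ← e]
        calc _ = t * (x ^ 2 * y ^ 2) * t⁻¹ := by rw [← e]
          _ = t * t * x * (t * t)⁻¹ := by rw [← e]; group
          _ = _ := by rw [tt]; group
      rw [(d3.pow_pow 2 2).mul_pow, ← pow_mul, ← pow_mul, pow_succ' x, pow_succ y, x3, y3, mul_one, one_mul, mul_assoc,
        mul_eq_left] at this
      rw [eq_inv_of_mul_eq_one_right this, inv_eq_of_mul_eq_one_right ((pow_succ' y 2).symm.trans y3)]
    have c4 : t * y * t⁻¹ = y := by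
      have := congrArg (· ^ 2) c3
      simpa only [← pow_mul, pow_succ _ 3, w3, y3, one_mul] using this
    have f : ∀ i j : ℕ, t * r * (x ^ i * y ^ j) * (t * r)⁻¹ = x ^ (2 * i) * y ^ (2 * i + 2 * j) := fun i j => by
      have k : ∀ v, t * r * v * (t * r)⁻¹ = t * (r * v * r⁻¹) * t⁻¹ := fun v => by group
      rw [← conj_mul, ← conj_pow, ← conj_pow, k, k, c1, c2, e, ← conj_inv, c4, (d3.pow_pow 2 2).mul_pow,
        inv_eq_of_mul_eq_one_right ((pow_succ' y 2).symm.trans y3), ← pow_mul, ← pow_mul, ← pow_mul, pow_add, mul_assoc]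
    have : x ^ 1 * y ^ 0 = x ^ 8 * y ^ 24 := by
      calc _ = (t * r) ^ 3 * (x ^ 1 * y ^ 0) * ((t * r) ^ 3)⁻¹ := by rw [g3]; group
        _ = t * r * (t * r * (t * r * (x ^ 1 * y ^ 0) * (t * r)⁻¹) * (t * r)⁻¹) * (t * r)⁻¹ := by rw [pow_three]; group
        _ = _ := by rw [f, f, f]
    rw [pow_eq_pow_mod 8 x3, pow_eq_pow_mod 24 y3] at this
    exact x1 (by simpa [sq] using this)
  · exact Or.inr (ek.trans (eq_inv_of_mul_eq_one_left ((pow_succ _ _).symm.trans h.h.cube)))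
  · exact absurd f5 (h.h.ne e1)

theorem eg_lt {x : ℕ} (hx : x < 15) : eg s a x = en s (W a wx) a x := by
  by_cases h1 : x < 13
  · have : ∀ x < 13, sH.getD x [] = [x] ∧ allLt 13 [x] = true := by decide
    rw [eg, byW, (this x h1).1, ← en_lt s (W a wx) a (this x h1).2, evw_cons, evw_nil, mul_one]
  · obtain rfl | rfl : x = 13 ∨ x = 14 := by omega
    · exact (evw_ev s a (by decide)).trans (en13 _ _ _).symm
    · exact ((evw_ev s a (by decide)).trans (W_inv a)).trans (en14 _ _ _).symm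

theorem eg15 : eg s a 15 = W a wt := evw_ev s a (by decide)

theorem eg_inv : ∀ x < 16, eg s a (ilG.getD x 0) = (eg s a x)⁻¹ := fun x hx => by
  by_cases h1 : x < 15
  · have : ∀ x < 15, ilG.getD x 0 = anil.getD x 0 ∧ anil.getD x 0 < 15 := by decide
    rw [(this x h1).1, h.eg_lt (this x h1).2, h.eg_lt h1, h.einv _ x h1]
  · obtain rfl : x = 15 := by omega
    exact eq_inv_of_mul_eq_one_left (by
      rw [show ilG.getD 15 0 = 15 from rfl, h.eg15]; exact (W_append _ _ _).symm.trans (h.h.car.eq (w := [])))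

theorem eg_rel (k1 : kap φ s = W a wx) (k2 : W a wt * v1 s a * (W a wt)⁻¹ = v1 s a * v2 s a) {r : List ℕ}
    (hr : r ∈ relN ∨ triv (subst sH r) = true ∨ r = rv) : evw (eg s a) r = 1 := by
  have e : ∀ {w}, allLt 15 w = true → evw (eg s a) w = evw (en s (W a wx) a) w := fun hw =>
    evw_congr (k := 15) (fun _ => h.eg_lt) (allLt_sound hw)
  rcases hr with hr | hr | rfl
  · rw [e (by revert r; decide), ← k1, h.relN_ok r hr]
  · exact (evw_subst _ _ _).symm.trans (h.h.car.triv_ok s hr)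
  have := h.eg_inv 15 (by decide)
  rw [show ilG.getD 15 0 = 15 from rfl, h.eg15] at this
  rw [rv, evw_cons, evw_append, evw_cons, evw_append, e (by decide), e (by decide), e (by decide),
    evw_invw _ _ 15 (h.einv _) _ (by decide), evw_invw _ _ 15 (h.einv _) _ (by decide), h.eV1, h.eV2, h.eg15, ← mul_assoc,
    ← mul_assoc, ← mul_inv_rev, mul_inv_eq_one, ← k2, ← this]

theorem top [Finite G] {H : Subgroup G} (hH : ∀ x < 16, eg s a x ∈ H) (ns : ¬ Group.IsSolvable H) : H = ⊤ := by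
  by_contra hne
  haveI : Fact (Nat.Prime 2) := ⟨Nat.prime_two⟩
  have zz := h.h.cov.zz
  have hC : Cx(z) ≤ H := h.h.gen fun i hi => by
    have : ∀ i < 9, ∃ w ∈ [[2 * i + 1], [15, 2 * i - 10, 15]], allLt 16 w = true ∧ (∀ x ∈ subst sH w, x ≠ 0) ∧
      eqw (subst sH w) [2 * i + 1] = true := by decide +kernel
    obtain ⟨w, -, h1, h2, h3⟩ := this i hi
    have := evw_mem hH (allLt_sound h1)
    rw [eg, ← evw_subst, evw_ev s a h2, h.h.car.eq h3] at this
    simpa [W, ev] using this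
  have hU : U s a ∈ H := mul_mem (by simpa [eg, byW, sH, ev] using hH 0 (by decide)) (hC (mem_Cx.2 h.h.cz))
  have k1 : ∀ u, u * z = z * u → u * u = 1 → u ≠ 1 → ∃ k ∈ H, k * z * k⁻¹ = u := fun u c u2 u1 => by
    by_cases e : u = z
    · exact ⟨1, one_mem _, by simp [e]⟩
    obtain ⟨k, c', rfl⟩ := h.h.inv_conj c u2 u1 e
    exact ⟨k * U s a, mul_mem (hC (mem_Cx.2 c')) hU, by rw [← h.hT, ← h.uZ]; group⟩
  have hz := hC (mem_Cx.2 rfl)
  have k2 : ∀ u ∈ H, u * u = 1 → u ≠ 1 → ∃ k ∈ H, k * z * k⁻¹ = u := fun u hu u2 u1 => by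
    rcases Nat.even_or_odd (orderOf (u * z)) with o | ⟨n, hn⟩
    · obtain ⟨w, hw, w2, w1⟩ := exists_invol_of_even o
      obtain ⟨c1, c2⟩ := comm_of_mem_zpowers u2 zz hw w2
      obtain ⟨k, hk, rfl⟩ := k1 w c2.symm w2 w1
      obtain ⟨k', hk', e⟩ := k1 (k⁻¹ * u * k) (by
        calc _ = k⁻¹ * (u * (k * z * k⁻¹)) * k := by group
          _ = _ := by rw [c1]; group) (by
        calc _ = k⁻¹ * (u * u) * k := by group
          _ = _ := by rw [u2]; group) fun e => u1 (by simpa [mul_assoc, inv_mul_eq_one] using e)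
      exact ⟨k * k', mul_mem hk hk', by rw [mul_inv_rev, mul_assoc k, mul_assoc k, ← mul_assoc _ _ k⁻¹, e]; group⟩
    · have e := (inv_conj_mul u2 zz (pow_mem (mem_zpowers (u * z)) (n + 1))).2
      refine ⟨(u * z) ^ (n + 1), pow_mem (mul_mem hu hz) _, ?_⟩
      have e2 : (u * z) ^ (n + 1) * (u * z) ^ (n + 1) = u * z := by
        rw [← pow_add, show n + 1 + (n + 1) = 2 * n + 1 + 1 by ring, pow_succ, ← hn, pow_orderOf_eq_one, one_mul]
      rw [← e, ← mul_assoc, ← mul_assoc, mul_assoc _ z z, zz, mul_one, e2, mul_inv_cancel_right]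
  have spe : SPE 2 H ⊤ := spe_of_not_dvd_inf le_top hne (by
    rw [← orderOf_eq_prime (p := 2) ((sq z).trans zz) h.h.cov.z1]; exact orderOf_dvd_natCard H hz) fun g _ hg hd => by
    obtain ⟨u, hu⟩ := exists_prime_orderOf_dvd_card' 2 hd
    rw [← Subgroup.orderOf_coe] at hu
    have u2 : (u : G) * u = 1 := by rw [← sq, ← hu, pow_orderOf_eq_one]
    have u1 : (u : G) ≠ 1 := fun e => by rw [e, orderOf_one] at hu; omega
    obtain ⟨k, hk, e1⟩ := k2 u u.2.1 u2 u1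
    obtain ⟨k', hk', e2⟩ := k2 (g⁻¹ * u * g) (mem_cj.1 u.2.2) (by
      calc _ = g⁻¹ * (u * u) * g := by group
        _ = _ := by rw [u2]; group) fun e => u1 (by simpa [mul_assoc, inv_mul_eq_one] using e)
    have : k⁻¹ * g * k' ∈ H := hC (mem_Cx'.2 (by
      calc _ = k⁻¹ * g * (k' * z * k'⁻¹) * g⁻¹ * k := by group
        _ = _ := by rw [e2, ← e1]; group))
    exact hg ((mul_mem_cancel_left (inv_mem hk)).1 ((mul_mem_cancel_right hk').1 this))
  obtain ⟨S, hS⟩ := exists_sylIn 2 H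
  exact ns (CfH5.BS.benderSuzuki G H S spe hS (by_contra fun n => h.h.ne (u := wT) (w := [1, 3, 1, 3]) rfl
    ((CfH5.BS.eq_of_rank_one n ⟨zz, h.h.cov.z1⟩ ⟨(W_append _ _ _).symm.trans (h.h.car.eq (w := [])), h.h.ne (w := [])⟩
      h.h.cz).trans h.h.zw.symm))).sol

end Ac

theorem exists_good [Finite G] [IsSimpleGroup G] (hN : NF G) {z : G} (hz : orderOf z = 2)
    (hc : IsNonsplitDoubleCover Cx(z) (alternatingGroup (Fin 11))) : ∃ L a φ s, Ac z L a φ s ∧ kap φ s = W a wx ∧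
      W a wt * v1 s a * (W a wt)⁻¹ = v1 s a * v2 s a := by
  obtain ⟨L, h1, hs⟩ := An.exists_cov hz hc
  obtain ⟨a, h⟩ := exists_H11 h1 hs
  obtain ⟨φ, s, h⟩ := h.exists_ac
  rcases h.lemA hN with k | k
  · exact ⟨L, a, φ, s, h, k⟩
  obtain ⟨L', h', e⟩ := h.swap_ac
  refine ⟨L', _, φ, s, h', (h'.lemA hN).resolve_right fun k' => ?_⟩
  rw [k, e, inv_inj, ← W_inv a] at k'
  exact h.h.ne rfl k'

end CfH4.Ly
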