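import Cfsg.Agent.H4.Ly7
import Cfsg.Agent.H6.Mc3B
import Cfsg.Agent.H6.Ly3B
import Cfsg.Agent.H6.LyG

/-! Double covers of `A₁₁`: the identification. -/

set_option autoImplicit false
open Cfsg CfH9 CfH6 CfH7 CfL Subgroup Equiv Equiv.Perm

namespace CfH4.Ly
open An (W W_append)

universe u
variable {G : Type u} [Group G]

theorem nf_of (hF : ∀ w ∈ facts, evw Mc3B.el w = 1) : NF G := fun e h1 h2 w hw => by
  obtain ⟨ρ, hρ⟩ := Mc3B.hhom e h1 fun r hr => h2 r (by revert r; decide +kernel)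
  rw [← hom_evw hρ w (allLt_sound (by revert w; decide +kernel)), hF w hw, map_one]

theorem iso_of [Finite G] [IsSimpleGroup G] (hF : ∀ w ∈ facts, evw Mc3B.el w = 1) (hI : Nonempty (Ly3B.G ≃* LyB.G)) {z : G}
    (hz : orderOf z = 2) (hc : IsNonsplitDoubleCover (centralizer ({z} : Set G)) (alternatingGroup (Fin 11))) :
    Nonempty (LyB.G ≃* G) := by
  obtain ⟨L, a, φ, s, h, k1, k2⟩ := exists_good (nf_of hF) hz hc
  obtain ⟨ρ, hρ⟩ := Ly3B.hhom _ h.eg_inv fun r hr => h.eg_rel k1 k2 (by revert r; decide +kernel)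
  obtain ⟨ι⟩ := hI
  have := LyG.simple
  have := ι.isSimpleGroup
  have e : ∀ {w}, (allLt 13 w = true ∧ ∀ x ∈ w, x ≠ 0) → ρ (evw Ly3B.el w) = W a w := fun {w} hw => by
    have := allLt_sound hw.1
    rw [hom_evw hρ w fun x hx => by have := this x hx; omega, evw_congr (k := 15) (fun _ => h.eg_lt) fun x hx => by
      have := this x hx; omega, en_W _ _ _ hw]
  have nc : ¬ ∀ x y : Ly3B.G, x * y = y * x := fun c => h.h.ne (u := [1] ++ [3]) (w := [3] ++ [1]) rfl (by
    rw [← e (by decide), ← e (by decide), evw_append, evw_append, c])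
  have inj : Function.Injective ρ := by
    rcases ρ.normal_ker.eq_bot_or_eq_top with k | k
    · exact (MonoidHom.ker_eq_bot_iff _).mp k
    · exact absurd ((e (by decide)).symm.trans (MonoidHom.mem_ker.mp (k ▸ mem_top _))) (h.h.ne (u := [1]) (w := []))
  have top : ρ.range = ⊤ := h.top (fun x hx => ⟨_, hρ x hx⟩) fun hs =>
    nc (IsSimpleGroup.comm_iff_isSolvable.mpr (Group.isSolvable_of_isSolvable_injective (f := (MonoidHom.ofInjective inj).toMonoidHom)
      (MonoidHom.ofInjective inj).injective))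
  exact ⟨ι.symm.trans (MulEquiv.ofBijective ρ ⟨inj, MonoidHom.range_eq_top.mp top⟩)⟩

end CfH4.Ly
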