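import Cfsg.Agent.H4.Ly8
import Cfsg.Agent.H6.Mc3F
import Cfsg.Agent.H6.Ly3G
import Cfsg.Agent.H6.G25M

/-! Double covers of `A₁₁`: the conclusion. -/

set_option autoImplicit false
open Cfsg CfH6 Subgroup

namespace CfH4.Ly

theorem iso {G : Type*} [Group G] [Finite G] [IsSimpleGroup G] {z : G} (hz : orderOf z = 2)
    (hc : IsNonsplitDoubleCover (centralizer ({z} : Set G)) (alternatingGroup (Fin 11))) : Nonempty (LyB.G ≃* G) :=
  iso_of (fun w hw => Mc3F.facts_one w (by revert w; decide +kernel)) Ly3G.iso hz hc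

end CfH4.Ly
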