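import Cfsg.Agent.H2.Qk3
import Cfsg.Agent.H4.Ru11

/-! Rank witnesses for the Rudvalis group. -/

set_option autoImplicit false
open Cfsg Subgroup CfH3.QK CfH2 CfH2.Qc

namespace CfH4.QRu

theorem t_ru {K : Type*} [Group K] [Finite K] (h : Spor.IsoRu K) : T K := by
  have r : ∀ {p : ℕ}, PRankAtLeast p 2 Lie.TitsGroup → PRankAtLeast p 2 K := fun t =>
    rank_map (CfH4.Ru.isoA.some.trans h.some.symm).toMonoidHom (MulEquiv.injective _)
      (rank_map _ (inclusion_injective (fun _ hg => (CfH4.Ru.X_le hg).1 : CfH4.Ru.X ≤ CfH4.Ru.A))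
        (rank_map CfH4.Ru.isoF.some.toMonoidHom CfH4.Ru.isoF.some.injective
          (rank_map (Subgroup.subtype _) (subtype_injective _) t)))
  exact T.of_c (r Ce.r_tits.1) (NS.of_five (.inr (r Ce.r_tits.2)))

end CfH4.QRu

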