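import Cfsg.Agent.L.TC2
/-! Partial coset enumerations: a word lies in the subgroup. -/
set_option autoImplicit false
open CfH6
namespace CfL.C2
variable (C : C2)

theorem sound_mem (il : List ℕ) (rels subs σ : List (List ℕ)) (n nc : ℕ) (hs : C.side il rels subs σ n = true)
    (hD : C.chkD = true) (hO : C.Ok C.R C.M) (hnc : Nat.beq C.nc nc = true) (w : List ℕ) (k s : ℕ)
    (hw : (allLt nc w && C.walk C.M 0 k s 0 w) = true)
    {G : Type*} [Group G] (ev0 : ℕ → G) (H : Subgroup G)
    (hinv : ∀ x < nc, ev0 (il.getD x 0) = (ev0 x)⁻¹) (hr : ∀ r ∈ rels, evw ev0 r = 1)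
    (hsub : ∀ s ∈ subs, evw ev0 s ∈ H) : evw ev0 w ∈ H := by
  have hnc := Nat.eq_of_beq_eq_true hnc
  subst hnc
  simp only [side, Bool.and_eq_true] at hs
  obtain ⟨⟨⟨⟨⟨⟨s1, s2⟩, s3⟩, s7⟩, s4⟩, s5⟩, s6⟩ := hs
  have s3 := Nat.eq_of_beq_eq_true s3
  have s7 := Nat.le_of_ble_eq_true s7
  have hil : ∀ x < C.nc, il.getD x 0 < C.nc := fun x hx =>
    allLt_sound s5 _ (List.mem_map.mpr ⟨x, List.mem_range.mpr hx, rfl⟩)
  let ev := byW ev0 σ
  have hE' : ∀ x, C.E ≤ x → ev x = 1 := fun x hx => by
    simp only [ev, byW]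
    rw [List.getD_eq_default _ _ (by omega)]; rfl
  have hinv' : ∀ x < C.E + 1, ev (C.il x) = (ev x)⁻¹ := fun x hx => by
    have := follows_sound ev0 hinv hr s2 _ (List.mem_map.mpr ⟨x, List.mem_range.mpr hx, rfl⟩)
    rw [evw_subst, evw_cons, evw_cons, evw_nil, mul_one] at this
    exact eq_inv_of_mul_eq_one_right this
  have hrot := byW_rels ev0 hinv hr s1
  have hs' : ∀ x, C.nc ≤ x → ev x ∈ H := fun x hx => by
    by_cases hxE : x < C.E
    · have := List.all_eq_true.1 s6 x (List.mem_range.2 hxE)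
      have e : Nat.blt x C.nc = false := by
        cases h : Nat.blt x C.nc
        · rfl
        · have := blt1 h; omega
      rw [e] at this
      obtain ⟨s, h1, h2⟩ := List.any_eq_true.1 this
      simp only [ev, byW]
      rw [leqb_sound _ _ h2]
      simp only [fullSubs, List.mem_append, List.mem_map] at h1
      rcases h1 with h | ⟨r', h, rfl⟩
      · exact hsub s h
      · rw [evw_invw ev0 il C.nc hinv r' (allLt_all s4 r' h)]
        exact H.inv_mem (hsub r' h)
    · rw [hE' x (by omega)]; exact one_mem _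
  have hv : ∀ k, k < C.M → C.Val ev H k := by
    intro k
    induction k using Nat.strong_induction_on with
    | _ k ih =>
      intro hk
      by_cases hR : k < C.R
      · have := (allN_iff _ _).1 hD k hR
        simp only [frc_eq, Bool.and_eq_true] at this
        unfold Val Rl
        rw [Nat.eq_of_beq_eq_true this.1.1]
        nth_rewrite 2 [wd]
        rw [dif_pos ⟨Nat.succ_pos _, Nat.lt_succ_of_le (Nat.le_of_ble_eq_true this.1.2), blt1 this.2⟩]
        simp
      · obtain ⟨s, hs⟩ := hO k (by omega) hk hk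
        exact chkE_sound hinv' (hE' _ le_rfl) hrot hs' (fun j hj => ih j hj (by omega)) hs
  have hev : ∀ x < C.nc, ev x = ev0 x := fun x hx => by
    have := List.all_eq_true.1 s6 x (List.mem_range.2 (by omega))
    rw [blt2 hx] at this
    simp only [ev, byW]
    rw [leqb_sound _ _ this, evw_cons, evw_nil, mul_one]
  rw [Bool.and_eq_true] at hw
  have := walk_sound hinv' (hE' _ le_rfl) hv _ _ _ _ hw.2
  rw [wd_zero, evw_congr hev (allLt_sound hw.1)] at this
  simpa using this

end CfL.C2
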